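import Mathlib
import Cfsg.Agent.Helper9.SecondMax

/-!
# The affine group `V ⋊ GL(V)` and a maximal subgroup of `GL(V)` that is not second maximal

Helper for S5895.
-/

namespace Cfsg.Agent.Helper9

open scoped LinearAlgebra.Projectivization

noncomputable section

variable (p d : ℕ) [Fact p.Prime]

/-- The vector space `𝔽_p^d`. -/
abbrev AffV := Fin d → ZMod p

/-- The general linear group of `𝔽_p^d`, as linear equivalences. -/
abbrev AffGL := AffV p d ≃ₗ[ZMod p] AffV p d

/-- The action of the linear group on the additive group written multiplicatively. -/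
def affPhi : AffGL p d →* MulAut (Multiplicative (AffV p d)) where
  toFun g := AddEquiv.toMultiplicative g.toAddEquiv
  map_one' := by ext x; rfl
  map_mul' g h := by ext x; rfl

theorem affPhi_apply (g : AffGL p d) (v : AffV p d) :
    affPhi p d g (Multiplicative.ofAdd v) = Multiplicative.ofAdd (g v) := rfl

/-- The affine group. -/
abbrev AffG := Multiplicative (AffV p d) ⋊[affPhi p d] AffGL p d

instance affGL_finite : Finite (AffGL p d) :=
  Finite.of_injective (fun e : AffGL p d => (e : AffV p d → AffV p d)) DFunLike.coe_injective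

instance affG_finite : Finite (AffG p d) :=
  Finite.of_equiv _ SemidirectProduct.equivProd.symm

/-- The linear group is transitive on nonzero vectors. -/
theorem affGL_trans (v w : AffV p d) (hv : v ≠ 0) (hw : w ≠ 0) : ∃ g : AffGL p d, g v = w := by
  haveI : MulAction.IsPretransitive (AffGL p d) (ℙ (ZMod p) (AffV p d)) :=
    MulAction.isPretransitive_of_is_two_pretransitive
  obtain ⟨g, hg⟩ := MulAction.exists_smul_eq (AffGL p d)
    (Projectivization.mk (ZMod p) v hv) (Projectivization.mk (ZMod p) w hw)
  rw [Projectivization.smul_mk, Projectivization.mk_eq_mk_iff'] at hg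
  obtain ⟨a, ha⟩ := hg
  have hgv : g v = a • w := ha.symm
  have ha0 : a ≠ 0 := by
    rintro rfl
    rw [zero_smul] at hgv
    exact hv (by simpa using hgv)
  refine ⟨g.trans (LinearEquiv.smulOfNeZero (ZMod p) (AffV p d) a⁻¹ (inv_ne_zero ha0)), ?_⟩
  show a⁻¹ • g v = w
  rw [hgv, smul_smul, inv_mul_cancel₀ ha0, one_smul]

/-- S5895: the affine group `AGL_d(p)`, `d ≥ 2`, has a maximal subgroup of index `p^d` with a
maximal subgroup that is not maximal in some maximal subgroup containing it. -/
theorem affine_not_second_max (hd : 2 ≤ d) :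
    ∃ (G : Type) (_ : Group G) (_ : Finite G) (M H K : Subgroup G), IsCoatom M ∧
      M.index = p ^ d ∧ H ≤ M ∧ IsCoatom (H.subgroupOf M) ∧ IsCoatom K ∧ H ≤ K ∧
      ¬ IsCoatom (H.subgroupOf K) := by
  classical
  -- two basis vectors
  set i0 : Fin d := ⟨0, by omega⟩ with hi0
  set i1 : Fin d := ⟨1, by omega⟩ with hi1
  have hi01 : i0 ≠ i1 := by
    rw [hi0, hi1]; intro h; simp [Fin.ext_iff] at h
  set e0 : AffV p d := Pi.single i0 1 with he0
  set e1 : AffV p d := Pi.single i1 1 with he1
  have he0ne : e0 ≠ 0 := by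
    intro h
    have := congrFun h i0
    simp [he0] at this
  have he1ne : e1 ≠ 0 := by
    intro h
    have := congrFun h i1
    simp [he1] at this
  have he1span : ∀ c : ZMod p, e1 ≠ c • e0 := by
    intro c h
    have := congrFun h i1
    simp [he1, he0, Pi.single_apply, hi01.symm] at this
  -- the line through `e0`
  set ℓ : ℙ (ZMod p) (AffV p d) := Projectivization.mk (ZMod p) e0 he0ne with hℓ
  haveI : Nontrivial (ℙ (ZMod p) (AffV p d)) := by
    refine ⟨⟨ℓ, Projectivization.mk (ZMod p) e1 he1ne, ?_⟩⟩
    rw [hℓ, Ne, Projectivization.mk_eq_mk_iff']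
    rintro ⟨a, ha⟩
    have := congrFun ha i0
    simp [he1, he0, Pi.single_apply, hi01] at this
  haveI : MulAction.IsPreprimitive (AffGL p d) (ℙ (ZMod p) (AffV p d)) :=
    MulAction.isPreprimitive_of_is_two_pretransitive inferInstance
  set P : Subgroup (AffGL p d) := MulAction.stabilizer (AffGL p d) ℓ with hP
  have hPco : IsCoatom P :=
    MulAction.IsPreprimitive.isCoatom_stabilizer_of_isPreprimitive (AffGL p d) ℓ
  have hPv : ∀ g ∈ P, ∃ a : ZMod p, g e0 = a • e0 := by
    intro g hg
    rw [hP, MulAction.mem_stabilizer_iff, hℓ, Projectivization.smul_mk,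
      Projectivization.mk_eq_mk_iff'] at hg
    obtain ⟨a, ha⟩ := hg
    exact ⟨a, ha.symm⟩
  set M : Subgroup (AffG p d) := (SemidirectProduct.inr : AffGL p d →* AffG p d).range with hMdef
  set H : Subgroup (AffG p d) := P.map (SemidirectProduct.inr : AffGL p d →* AffG p d) with hHdef
  set K : Subgroup (AffG p d) :=
    P.comap (SemidirectProduct.rightHom : AffG p d →* AffGL p d) with hKdef
  have hMmem : ∀ x : AffG p d, x ∈ M ↔ x.left = 1 := by
    intro x
    constructor
    · rintro ⟨g, rfl⟩
      rfl
    · intro hx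
      refine ⟨x.right, ?_⟩
      ext
      · rw [SemidirectProduct.left_inr, hx]
      · rfl
  have hHmem : ∀ x : AffG p d, x ∈ H ↔ x.left = 1 ∧ x.right ∈ P := by
    intro x
    constructor
    · rintro ⟨g, hg, rfl⟩
      exact ⟨rfl, hg⟩
    · rintro ⟨hx, hx'⟩
      refine ⟨x.right, hx', ?_⟩
      ext
      · rw [SemidirectProduct.left_inr, hx]
      · rfl
  have hKmem : ∀ x : AffG p d, x ∈ K ↔ x.right ∈ P := fun x => Iff.rfl
  have hHM : H ≤ M := fun x hx => (hMmem x).mpr ((hHmem x).mp hx).1
  have hHK : H ≤ K := fun x hx => (hKmem x).mpr ((hHmem x).mp hx).2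
  -- `M` is maximal
  have hMco : IsCoatom M := by
    constructor
    · intro htop
      have h1 : (SemidirectProduct.inl (Multiplicative.ofAdd e0) : AffG p d) ∈ M := by
        rw [htop]; trivial
      rw [hMmem, SemidirectProduct.left_inl] at h1
      exact he0ne (Multiplicative.ofAdd.injective h1)
    · intro X hX
      obtain ⟨x, hxX, hxM⟩ := SetLike.exists_of_lt hX
      rw [hMmem] at hxM
      have h1 : (SemidirectProduct.inl x.left : AffG p d) ∈ X := by
        have h2 : (SemidirectProduct.inl x.left : AffG p d)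
            = x * (SemidirectProduct.inr x.right)⁻¹ := by
          rw [eq_mul_inv_iff_mul_eq, SemidirectProduct.inl_left_mul_inr_right]
        rw [h2]
        exact X.mul_mem hxX (X.inv_mem (hX.le ⟨x.right, rfl⟩))
      set v : AffV p d := Multiplicative.toAdd x.left with hv
      have hvne : v ≠ 0 := by
        intro h
        apply hxM
        rw [← ofAdd_toAdd x.left, ← hv, h]
        rfl
      have h3 : ∀ n : Multiplicative (AffV p d), (SemidirectProduct.inl n : AffG p d) ∈ X := by
        intro n
        by_cases hn : Multiplicative.toAdd n = 0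
        · have : n = 1 := by
            rw [← ofAdd_toAdd n, hn]; rfl
          rw [this, map_one]
          exact X.one_mem
        · obtain ⟨g, hg⟩ := affGL_trans p d v (Multiplicative.toAdd n) hvne hn
          have h4 : n = affPhi p d g x.left := by
            rw [← ofAdd_toAdd x.left, affPhi_apply, ← hv, hg, ofAdd_toAdd]
          rw [h4, SemidirectProduct.inl_aut]
          exact X.mul_mem (X.mul_mem (hX.le ⟨g, rfl⟩) h1) (hX.le ⟨g⁻¹, rfl⟩)
      rw [eq_top_iff]
      intro z _
      rw [← SemidirectProduct.inl_left_mul_inr_right z]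
      exact X.mul_mem (h3 _) (hX.le ⟨z.right, rfl⟩)
  -- index of `M`
  have hMidx : M.index = p ^ d := by
    have h1 := Subgroup.card_mul_index M
    have h2 : Nat.card M = Nat.card (AffGL p d) :=
      (Nat.card_congr (MonoidHom.ofInjective
        (f := (SemidirectProduct.inr : AffGL p d →* AffG p d))
        SemidirectProduct.inr_injective).toEquiv).symm
    have h3 : Nat.card (AffG p d) = p ^ d * Nat.card (AffGL p d) := by
      rw [SemidirectProduct.card]
      congr 1
      rw [Nat.card_eq_fintype_card]
      simp [ZMod.card]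
    rw [h2, h3, mul_comm] at h1
    have hpos : 0 < Nat.card (AffGL p d) := Nat.card_pos
    exact Nat.eq_of_mul_eq_mul_right hpos h1
  -- `H` is maximal in `M`
  have hHMco : IsCoatom (H.subgroupOf M) := by
    refine coatom_subgroupOf_of9 hHM ?_ ?_
    · intro hHMeq
      obtain ⟨g, -, hgP⟩ := SetLike.exists_of_lt (lt_top_iff_ne_top.mpr hPco.1)
      have h1 : (SemidirectProduct.inr g : AffG p d) ∈ H := by
        rw [hHMeq]; exact ⟨g, rfl⟩
      exact hgP ((hHmem _).mp h1).2
    · intro L hHL hLM hLH
      have h1 : P ≤ L.comap (SemidirectProduct.inr : AffGL p d →* AffG p d) := by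
        intro g hg
        exact hHL ⟨g, hg, rfl⟩
      have h2 : L.comap (SemidirectProduct.inr : AffGL p d →* AffG p d) ≠ P := by
        intro heq
        apply hLH
        apply le_antisymm
        · intro x hx
          have hxM := (hMmem x).mp (hLM hx)
          rw [hHmem]
          refine ⟨hxM, ?_⟩
          rw [← heq]
          show SemidirectProduct.inr x.right ∈ L
          have : (SemidirectProduct.inr x.right : AffG p d) = x := by
            ext
            · rw [SemidirectProduct.left_inr, hxM]
            · rfl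
          rw [this]; exact hx
        · exact hHL
      have h3 := hPco.2 _ (lt_of_le_of_ne h1 (Ne.symm h2))
      apply le_antisymm hLM
      rintro _ ⟨g, rfl⟩
      have : g ∈ L.comap (SemidirectProduct.inr : AffGL p d →* AffG p d) := by
        rw [h3]; trivial
      exact this
  -- `K` is maximal
  have hKco : IsCoatom K :=
    Subgroup.isCoatom_comap_of_surjective SemidirectProduct.rightHom_surjective hPco
  -- the intermediate subgroup
  let L : Subgroup (AffG p d) :=
    { carrier := {x | x.right ∈ P ∧ ∃ c : ZMod p, x.left = Multiplicative.ofAdd (c • e0)}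
      one_mem' := ⟨P.one_mem, 0, by rw [zero_smul]; rfl⟩
      mul_mem' := by
        rintro x y ⟨hx, c₁, hc₁⟩ ⟨hy, c₂, hc₂⟩
        refine ⟨P.mul_mem hx hy, ?_⟩
        obtain ⟨a, ha⟩ := hPv _ hx
        refine ⟨c₁ + c₂ * a, ?_⟩
        rw [SemidirectProduct.mul_left, hc₁, hc₂, affPhi_apply, LinearEquiv.map_smul, ha,
          ← ofAdd_add, smul_smul, add_smul]
      inv_mem' := by
        rintro x ⟨hx, c, hc⟩
        refine ⟨P.inv_mem hx, ?_⟩
        obtain ⟨a, ha⟩ := hPv _ (P.inv_mem hx)
        refine ⟨-(c * a), ?_⟩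
        rw [SemidirectProduct.inv_left, hc, ← ofAdd_neg, affPhi_apply, ← neg_smul,
          LinearEquiv.map_smul, ha, smul_smul, neg_mul] }
  have hLmem : ∀ x : AffG p d, x ∈ L ↔
      x.right ∈ P ∧ ∃ c : ZMod p, x.left = Multiplicative.ofAdd (c • e0) := fun x => Iff.rfl
  refine ⟨AffG p d, inferInstance, inferInstance, M, H, K, hMco, hMidx, hHM, hHMco, hKco, hHK, ?_⟩
  intro hco
  have hHL : H ≤ L := by
    intro x hx
    rw [hHmem] at hx
    rw [hLmem]
    exact ⟨hx.2, 0, by rw [zero_smul, hx.1]; rfl⟩
  have hLK : L ≤ K := fun x hx => ((hLmem x).mp hx).1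
  have hLH : ¬ L ≤ H := by
    intro hle
    have h1 : (SemidirectProduct.inl (Multiplicative.ofAdd e0) : AffG p d) ∈ L := by
      rw [hLmem]
      exact ⟨P.one_mem, 1, by rw [one_smul]; rfl⟩
    have h2 := ((hHmem _).mp (hle h1)).1
    rw [SemidirectProduct.left_inl] at h2
    exact he0ne (Multiplicative.ofAdd.injective h2)
  have hLKeq := coatom_subgroupOf_elim9 hco hHL hLK hLH
  have h1 : (SemidirectProduct.inl (Multiplicative.ofAdd e1) : AffG p d) ∈ K := by
    rw [hKmem]
    exact P.one_mem
  rw [← hLKeq, hLmem] at h1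
  obtain ⟨c, hc⟩ := h1.2
  rw [SemidirectProduct.left_inl] at hc
  exact he1span c (Multiplicative.ofAdd.injective hc)

end

end Cfsg.Agent.Helper9
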