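import Mathlib

set_option autoImplicit false

namespace Cfsg.Agent.Helper9

/-- A characteristic subgroup of a power of a simple group is trivial or everything. -/
theorem char_simple_pi9 {S : Type*} [Group S] [IsSimpleGroup S] {n : ℕ}
    (H : Subgroup (Fin n → S)) (hH : H.Characteristic) : H = ⊥ ∨ H = ⊤ := by
  classical
  by_cases hbot : H = ⊥
  · exact Or.inl hbot
  right
  have hN : H.Normal := Subgroup.normal_of_characteristic H
  obtain ⟨x, hxH, hx1⟩ : ∃ x ∈ H, x ≠ 1 := by
    by_contra hcon
    push_neg at hcon
    exact hbot ((Subgroup.eq_bot_iff_forall H).mpr hcon)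
  obtain ⟨i, hi⟩ : ∃ i, x i ≠ 1 := by
    by_contra hcon
    push_neg at hcon
    exact hx1 (funext hcon)
  have step1 : ∃ (j : Fin n) (t : S), t ≠ 1 ∧ Pi.mulSingle j t ∈ H := by
    by_cases hcomm : ∀ a b : S, a * b = b * a
    · by_cases hj : ∃ j, j ≠ i
      · obtain ⟨j, hji⟩ := hj
        let τ : (Fin n → S) ≃* (Fin n → S) :=
          { toFun := fun f => f * Pi.mulSingle j (f i)
            invFun := fun f => f * Pi.mulSingle j (f i)⁻¹
            left_inv := by
              intro f
              funext l
              by_cases hl : l = j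
              · subst hl
                simp [Pi.mulSingle_eq_of_ne (Ne.symm hji)]
              · simp [Pi.mulSingle_eq_of_ne hl]
            right_inv := by
              intro f
              funext l
              by_cases hl : l = j
              · subst hl
                simp [Pi.mulSingle_eq_of_ne (Ne.symm hji)]
              · simp [Pi.mulSingle_eq_of_ne hl]
            map_mul' := by
              intro f g
              funext l
              by_cases hl : l = j
              · subst hl
                simp only [Pi.mul_apply, Pi.mulSingle_eq_same]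
                rw [mul_assoc, mul_assoc, ← mul_assoc (g l), hcomm (g l) (f i), mul_assoc]
              · simp [Pi.mulSingle_eq_of_ne hl] }
        have hτ : τ x ∈ H := by
          have hx' : x ∈ H.comap τ.toMonoidHom := by
            rw [hH.fixed τ]
            exact hxH
          exact hx'
        refine ⟨j, x i, hi, ?_⟩
        have h1 : Pi.mulSingle j (x i) = x⁻¹ * τ x := by
          show _ = x⁻¹ * (x * Pi.mulSingle j (x i))
          group
        rw [h1]
        exact H.mul_mem (H.inv_mem hxH) hτ
      · push_neg at hj
        refine ⟨i, x i, hi, ?_⟩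
        have h1 : Pi.mulSingle i (x i) = x := by
          funext l
          rw [hj l]
          simp
        rw [h1]
        exact hxH
    · rcases (inferInstance : (Subgroup.center S).Normal).eq_bot_or_eq_top with hc | hc
      · have hxi : x i ∉ Subgroup.center S := by
          rw [hc, Subgroup.mem_bot]
          exact hi
        rw [Subgroup.mem_center_iff] at hxi
        push_neg at hxi
        obtain ⟨s, hs⟩ := hxi
        refine ⟨i, x i * s * (x i)⁻¹ * s⁻¹, ?_, ?_⟩
        · intro h1
          apply hs
          have h2 : x i * s = s * x i := by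
            have := congrArg (fun z => z * s * x i) h1
            simpa [mul_assoc] using this
          exact h2.symm
        · have h1 : Pi.mulSingle i (x i * s * (x i)⁻¹ * s⁻¹) =
              x * (Pi.mulSingle i s * x⁻¹ * (Pi.mulSingle i s)⁻¹) := by
            funext l
            by_cases hl : l = i
            · subst hl
              simp [mul_assoc]
            · simp [Pi.mulSingle_eq_of_ne hl]
          rw [h1]
          exact H.mul_mem hxH (hN.conj_mem _ (H.inv_mem hxH) _)
      · exfalso
        apply hcomm
        intro a b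
        have ha : a ∈ Subgroup.center S := by
          rw [hc]
          trivial
        exact (Subgroup.mem_center_iff.mp ha b).symm
  obtain ⟨j, t, ht, htH⟩ := step1
  have step2 : ∀ s : S, Pi.mulSingle j s ∈ H := by
    have hK : (H.comap (MonoidHom.mulSingle (fun _ : Fin n => S) j)).Normal := hN.comap _
    rcases hK.eq_bot_or_eq_top with hb | ht'
    · exfalso
      have h1 : t ∈ H.comap (MonoidHom.mulSingle (fun _ : Fin n => S) j) := htH
      rw [hb, Subgroup.mem_bot] at h1
      exact ht h1
    · intro s
      have h1 : s ∈ H.comap (MonoidHom.mulSingle (fun _ : Fin n => S) j) := by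
        rw [ht']
        trivial
      exact h1
  have step3 : ∀ (l : Fin n) (s : S), Pi.mulSingle l s ∈ H := by
    intro l s
    let σ : (Fin n → S) ≃* (Fin n → S) := MulEquiv.arrowCongr (Equiv.swap j l) (MulEquiv.refl S)
    have h1 : σ (Pi.mulSingle j s) = Pi.mulSingle l s := by
      funext m
      show (Pi.mulSingle j s : Fin n → S) ((Equiv.swap j l).symm m) =
        (Pi.mulSingle l s : Fin n → S) m
      rw [Equiv.symm_swap]
      by_cases hm : m = l
      · subst hm
        simp
      · rw [Pi.mulSingle_eq_of_ne hm, Pi.mulSingle_eq_of_ne]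
        intro h
        apply hm
        have h' := congrArg (Equiv.swap j l) h
        rw [Equiv.swap_apply_self, Equiv.swap_apply_left] at h'
        exact h'
    have h2 : Pi.mulSingle j s ∈ H.comap σ.toMonoidHom := by
      rw [hH.fixed σ]
      exact step2 s
    rw [← h1]
    exact h2
  have hpi : Subgroup.pi Set.univ (fun _ : Fin n => (⊤ : Subgroup S)) ≤ H := by
    rw [Subgroup.pi_le_iff]
    intro l
    rintro _ ⟨s, -, rfl⟩
    exact step3 l s
  rw [Subgroup.pi_top] at hpi
  exact top_le_iff.mp hpi

/-- Appending a coordinate, as a multiplicative equivalence. -/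
def finConsMulEquiv9 (k : ℕ) (N : Type*) [Mul N] : ((Fin k → N) × N) ≃* (Fin (k + 1) → N) where
  toFun p := Fin.cons p.2 p.1
  invFun f := (fun i => f i.succ, f 0)
  left_inv p := by simp
  right_inv f := by
    funext i
    refine Fin.cases ?_ (fun j => ?_) i <;> simp
  map_mul' p q := by
    funext i
    refine Fin.cases ?_ (fun j => ?_) i <;> simp

/-- A carrier type in universe zero with no algebraic instances. -/
def Carrier9 (m : ℕ) : Type := Fin m

/-- A finite non-trivial characteristically simple group is a power of a simple group. -/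
theorem char_simple_exists_pi9 {G : Type*} [Group G] [Finite G] [Nontrivial G]
    (hchar : ∀ H : Subgroup G, H.Characteristic → H = ⊥ ∨ H = ⊤) :
    ∃ (S : Type) (_ : Group S) (_ : IsSimpleGroup S) (n : ℕ),
      1 ≤ n ∧ Nonempty (G ≃* (Fin n → S)) := by
  classical
  obtain ⟨N, ⟨hNn, hNbot⟩, hNmin⟩ : ∃ N : Subgroup G, (N.Normal ∧ N ≠ ⊥) ∧
      ∀ K : Subgroup G, K.Normal → K ≠ ⊥ → Nat.card N ≤ Nat.card K := by
    obtain ⟨N, hN⟩ := exists_minimalFor_of_wellFoundedLT
      (fun N : Subgroup G => N.Normal ∧ N ≠ ⊥) (fun N => Nat.card N)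
      ⟨⊤, inferInstance, top_ne_bot⟩
    refine ⟨N, hN.1, fun K hK hKb => ?_⟩
    rcases le_total (Nat.card N) (Nat.card K) with h | h
    · exact h
    · exact hN.2 ⟨hK, hKb⟩ h
  let Q : Subgroup G → Prop := fun M => M.Normal ∧ ∃ k : ℕ, Nonempty (M ≃* (Fin k → N))
  have hQN : Q N := ⟨hNn, 1, ⟨(MulEquiv.funUnique (Fin 1) N).symm⟩⟩
  haveI : Nonempty {M : Subgroup G // Q M} := ⟨⟨N, hQN⟩⟩
  obtain ⟨⟨M, hMQ⟩, hMmax⟩ := Finite.exists_max (α := {M : Subgroup G // Q M})
    (fun M => Nat.card M.1)
  obtain ⟨hMn, k, ⟨eM⟩⟩ := hMQ
  have claim : ∀ α : G ≃* G, N.map α.toMonoidHom ≤ M := by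
    intro α
    by_contra hnot
    have hAn : (N.map α.toMonoidHom).Normal := hNn.map α.toMonoidHom α.surjective
    have hAbot : N.map α.toMonoidHom ≠ ⊥ := by
      rw [Ne, Subgroup.map_eq_bot_iff_of_injective N α.injective]
      exact hNbot
    have hAcard : Nat.card (N.map α.toMonoidHom) = Nat.card N :=
      Subgroup.card_map_of_injective α.injective
    have hdisj : N.map α.toMonoidHom ⊓ M = ⊥ := by
      by_contra hne
      have hinfn : (N.map α.toMonoidHom ⊓ M).Normal := Subgroup.normal_inf_normal _ _
      have h1 : Nat.card N ≤ Nat.card (N.map α.toMonoidHom ⊓ M : Subgroup G) :=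
        hNmin _ hinfn hne
      have h2 : N.map α.toMonoidHom ⊓ M = N.map α.toMonoidHom :=
        Subgroup.eq_of_le_of_card_ge inf_le_left (by rw [hAcard]; exact h1)
      apply hnot
      rw [← h2]
      exact inf_le_right
    have hdisj' : Disjoint M (N.map α.toMonoidHom) := by
      rw [disjoint_iff, inf_comm]
      exact hdisj
    have hcomm : ∀ (m : M) (a : N.map α.toMonoidHom),
        Commute (M.subtype m) ((N.map α.toMonoidHom).subtype a) := fun m a =>
      Subgroup.commute_of_normal_of_disjoint M _ hMn hAn hdisj' m a m.2 a.2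
    let f : M × (N.map α.toMonoidHom) →* G :=
      MonoidHom.noncommCoprod M.subtype (N.map α.toMonoidHom).subtype hcomm
    have hfinj : Function.Injective f := by
      rw [MonoidHom.noncommCoprod_injective]
      refine ⟨M.subtype_injective, Subgroup.subtype_injective _, ?_⟩
      rw [Subgroup.range_subtype, Subgroup.range_subtype]
      exact hdisj'
    have hfrange : f.range = M ⊔ N.map α.toMonoidHom := by
      rw [MonoidHom.noncommCoprod_range, Subgroup.range_subtype, Subgroup.range_subtype]
    have e1 : (M × (N.map α.toMonoidHom)) ≃* f.range := MonoidHom.ofInjective hfinj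
    have eA : (N.map α.toMonoidHom) ≃* N :=
      (N.equivMapOfInjective α.toMonoidHom α.injective).symm
    have e2 : (M × (N.map α.toMonoidHom)) ≃* ((Fin k → N) × N) := MulEquiv.prodCongr eM eA
    have hQ' : Q (M ⊔ N.map α.toMonoidHom) := by
      refine ⟨Subgroup.sup_normal M _, k + 1, ⟨?_⟩⟩
      exact (MulEquiv.subgroupCongr hfrange).symm.trans
        (e1.symm.trans (e2.trans (finConsMulEquiv9 k N)))
    have hlt : Nat.card M < Nat.card (M ⊔ N.map α.toMonoidHom : Subgroup G) := by
      by_contra h
      push_neg at h
      have h3 := Subgroup.eq_of_le_of_card_ge (le_sup_left : M ≤ M ⊔ N.map α.toMonoidHom) h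
      apply hnot
      rw [h3]
      exact le_sup_right
    have h4 := hMmax ⟨M ⊔ N.map α.toMonoidHom, hQ'⟩
    exact absurd h4 (not_le.mpr hlt)
  have hM : M = ⊤ := by
    have hCchar : (⨆ α : G ≃* G, N.map α.toMonoidHom).Characteristic := by
      rw [Subgroup.characteristic_iff_map_le]
      intro β
      rw [Subgroup.map_iSup]
      refine iSup_le fun α => ?_
      rw [Subgroup.map_map]
      have h1 : β.toMonoidHom.comp α.toMonoidHom = (α.trans β).toMonoidHom := rfl
      rw [h1]
      exact le_iSup (fun α : G ≃* G => N.map α.toMonoidHom) (α.trans β)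
    have hCbot : (⨆ α : G ≃* G, N.map α.toMonoidHom) ≠ ⊥ := by
      intro hC
      apply hNbot
      have h1 : N ≤ ⨆ α : G ≃* G, N.map α.toMonoidHom := by
        have h := le_iSup (fun α : G ≃* G => N.map α.toMonoidHom) (MulEquiv.refl G)
        have h' : N.map (MulEquiv.refl G).toMonoidHom = N := by
          ext x
          simp
        rwa [h'] at h
      rw [hC] at h1
      exact le_bot_iff.mp h1
    have hCtop := (hchar _ hCchar).resolve_left hCbot
    rw [eq_top_iff, ← hCtop]
    exact iSup_le claim
  subst hM
  have e : G ≃* (Fin k → N) := Subgroup.topEquiv.symm.trans eM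
  have hk : 1 ≤ k := by
    rcases Nat.eq_zero_or_pos k with h0 | h
    · exfalso
      subst h0
      have : Subsingleton G := e.toEquiv.subsingleton
      exact not_subsingleton G this
    · exact h
  haveI hNnt : Nontrivial N := (Subgroup.nontrivial_iff_ne_bot N).mpr hNbot
  have hNsimple : IsSimpleGroup N := by
    refine ⟨fun K hK => ?_⟩
    by_contra hcon
    push_neg at hcon
    obtain ⟨hKb, hKt⟩ := hcon
    let i₀ : Fin k := ⟨0, hk⟩
    have hK₁n : (K.map (MonoidHom.mulSingle (fun _ : Fin k => N) i₀)).Normal := by
      constructor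
      rintro _ ⟨x, hx, rfl⟩ g
      refine ⟨g i₀ * x * (g i₀)⁻¹, hK.conj_mem x hx _, ?_⟩
      funext l
      by_cases hl : l = i₀
      · subst hl
        simp
      · simp [Pi.mulSingle_eq_of_ne hl]
    have hinj : Function.Injective (MonoidHom.mulSingle (fun _ : Fin k => N) i₀) := by
      intro a b hab
      have h1 := congrFun hab i₀
      simpa using h1
    have hcard1 : Nat.card (K.map (MonoidHom.mulSingle (fun _ : Fin k => N) i₀)) = Nat.card K :=
      Subgroup.card_map_of_injective hinj
    have hK₂n : ((K.map (MonoidHom.mulSingle (fun _ : Fin k => N) i₀)).map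
        e.symm.toMonoidHom).Normal := hK₁n.map _ e.symm.surjective
    have hcard2 : Nat.card ((K.map (MonoidHom.mulSingle (fun _ : Fin k => N) i₀)).map
        e.symm.toMonoidHom) = Nat.card K := by
      rw [Subgroup.card_map_of_injective e.symm.injective, hcard1]
    have hK₂b : (K.map (MonoidHom.mulSingle (fun _ : Fin k => N) i₀)).map
        e.symm.toMonoidHom ≠ ⊥ := by
      intro hb
      apply hKb
      have h1 : Nat.card K = 1 := by
        rw [← hcard2, hb]
        exact Subgroup.card_bot
      exact Subgroup.eq_bot_of_card_eq K h1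
    have h3 := hNmin _ hK₂n hK₂b
    rw [hcard2] at h3
    exact hKt (Subgroup.eq_top_of_le_card K h3)
  let eq : Carrier9 (Nat.card N) ≃ N := (Finite.equivFin N).symm
  letI : Group (Carrier9 (Nat.card N)) := eq.group
  let eqm : Carrier9 (Nat.card N) ≃* N := eq.mulEquiv
  haveI : Nontrivial (Carrier9 (Nat.card N)) := eq.nontrivial
  haveI : IsSimpleGroup (Carrier9 (Nat.card N)) :=
    IsSimpleGroup.isSimpleGroup_of_surjective eqm.symm.toMonoidHom eqm.symm.surjective
  exact ⟨Carrier9 (Nat.card N), inferInstance, inferInstance, k, hk,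
    ⟨e.trans (MulEquiv.piCongrRight (fun _ => eqm.symm))⟩⟩

end Cfsg.Agent.Helper9
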