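import Mathlib

set_option autoImplicit false

namespace Cfsg.Agent.Helper9

theorem inv_of_sq {G : Type*} [Group G] {a : G} (ha : a * a = 1) : a⁻¹ = a :=
  inv_eq_of_mul_eq_one_left ha

theorem sq_of_orderOf_two {G : Type*} [Group G] {a : G} (ha : orderOf a = 2) : a * a = 1 := by
  have := pow_orderOf_eq_one a
  rwa [ha, pow_two] at this

theorem dih_conj_a {G : Type*} [Group G] {a b : G} (ha : a * a = 1) (hb : b * b = 1) (k : ℕ) :
    a * (a * b) ^ k * a = ((a * b) ^ k)⁻¹ := by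
  have hainv := inv_of_sq ha
  have hbinv := inv_of_sq hb
  have h1 : MulAut.conj a (a * b) = (a * b)⁻¹ := by
    rw [MulAut.conj_apply, hainv, mul_inv_rev, hainv, hbinv, ← mul_assoc, ha, one_mul]
  have h2 := map_pow (MulAut.conj a) (a * b) k
  rw [h1, MulAut.conj_apply, hainv, inv_pow] at h2
  exact h2

theorem dih_conj_b {G : Type*} [Group G] {a b : G} (ha : a * a = 1) (hb : b * b = 1) (k : ℕ) :
    b * (a * b) ^ k * b = ((a * b) ^ k)⁻¹ := by
  have hainv := inv_of_sq ha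
  have hbinv := inv_of_sq hb
  have h1 : MulAut.conj b (a * b) = (a * b)⁻¹ := by
    rw [MulAut.conj_apply, hbinv, mul_inv_rev, hainv, hbinv, mul_assoc, mul_assoc, hb, mul_one]
  have h2 := map_pow (MulAut.conj b) (a * b) k
  rw [h1, MulAut.conj_apply, hbinv, inv_pow] at h2
  exact h2

theorem dih_mul_pow_conj {G : Type*} [Group G] {a b : G} (ha : a * a = 1) (hb : b * b = 1) (m : ℕ) :
    (∃ c : G, c * a * c⁻¹ = a * (a * b) ^ m) ∨ (∃ c : G, c * b * c⁻¹ = a * (a * b) ^ m) := by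
  rcases Nat.even_or_odd' m with ⟨j, rfl | rfl⟩
  · left
    refine ⟨((a * b) ^ j)⁻¹, ?_⟩
    rw [inv_inv, ← dih_conj_a ha hb j]
    calc a * (a * b) ^ j * a * a * (a * b) ^ j = a * (a * b) ^ j * (a * a) * (a * b) ^ j := by
          simp only [mul_assoc]
      _ = a * (a * b) ^ (2 * j) := by rw [ha, mul_one, mul_assoc, ← pow_add, two_mul]
  · right
    refine ⟨((a * b) ^ j)⁻¹, ?_⟩
    rw [inv_inv, ← dih_conj_a ha hb j]
    calc a * (a * b) ^ j * a * b * (a * b) ^ j = a * ((a * b) ^ j * (a * b) * (a * b) ^ j) := by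
          simp only [mul_assoc]
      _ = a * (a * b) ^ (2 * j + 1) := by rw [← pow_succ, ← pow_add]; congr 2; omega

theorem dih_pow_comm_a {G : Type*} [Group G] {a b : G} (ha : a * a = 1) (hb : b * b = 1) (m : ℕ)
    (hm : (a * b) ^ (2 * m) = 1) : a * (a * b) ^ m = (a * b) ^ m * a := by
  have h1 := dih_conj_a ha hb m
  have h2 : ((a * b) ^ m)⁻¹ = (a * b) ^ m := by
    apply inv_of_sq
    rw [← pow_add, ← two_mul, hm]
  rw [h2] at h1
  calc a * (a * b) ^ m = a * (a * b) ^ m * (a * a) := by rw [ha, mul_one]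
    _ = a * (a * b) ^ m * a * a := by simp only [mul_assoc]
    _ = (a * b) ^ m * a := by rw [h1]

theorem dih_pow_comm_b {G : Type*} [Group G] {a b : G} (ha : a * a = 1) (hb : b * b = 1) (m : ℕ)
    (hm : (a * b) ^ (2 * m) = 1) : b * (a * b) ^ m = (a * b) ^ m * b := by
  have h1 := dih_conj_b ha hb m
  have h2 : ((a * b) ^ m)⁻¹ = (a * b) ^ m := by
    apply inv_of_sq
    rw [← pow_add, ← two_mul, hm]
  rw [h2] at h1
  calc b * (a * b) ^ m = b * (a * b) ^ m * (b * b) := by rw [hb, mul_one]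
    _ = b * (a * b) ^ m * b * b := by simp only [mul_assoc]
    _ = (a * b) ^ m * b := by rw [h1]

theorem dih_conj_of_odd {G : Type*} [Group G] {a b : G} (ha : a * a = 1) (hb : b * b = 1) (j : ℕ)
    (hj : (a * b) ^ (2 * j + 1) = 1) : ∃ c : G, c * a * c⁻¹ = b := by
  refine ⟨(a * b) ^ j, ?_⟩
  rw [← dih_conj_a ha hb j]
  have h1 : (a * b) ^ (2 * j) = b * a := by
    have h2 : (a * b) ^ (2 * j) * (a * b) = 1 := by rw [← pow_succ]; exact hj
    have h3 : (a * b) ^ (2 * j) = (a * b)⁻¹ := eq_inv_of_mul_eq_one_left h2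
    rw [h3, mul_inv_rev, inv_of_sq ha, inv_of_sq hb]
  calc (a * b) ^ j * a * (a * (a * b) ^ j * a) = (a * b) ^ j * (a * a) * (a * b) ^ j * a := by
        simp only [mul_assoc]
    _ = (a * b) ^ (2 * j) * a := by rw [ha, mul_one, ← pow_add, ← two_mul]
    _ = b := by rw [h1, mul_assoc, ha, mul_one]

end Cfsg.Agent.Helper9
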