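import Mathlib

set_option autoImplicit false

namespace Cfsg.Agent.Helper9

/-- If half of the exponent kills `y` then `y` is even. -/
theorem zmod_parity_of_half_smul {A : ℕ} (hA : 1 ≤ A) (h2 : 2 ∣ 2 ^ A) (y : ZMod (2 ^ A))
    (h : (2 ^ (A - 1) : ℕ) • y = 0) : ZMod.castHom h2 (ZMod 2) y = 0 := by
  have hy : ((y.val : ℕ) : ZMod (2 ^ A)) = y := ZMod.natCast_zmod_val y
  rw [← hy] at h ⊢
  rw [map_natCast]
  rw [nsmul_eq_mul, ← Nat.cast_mul, ZMod.natCast_eq_zero_iff] at h
  rw [ZMod.natCast_eq_zero_iff]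
  obtain ⟨c, hc⟩ := h
  have e : ∀ B : ℕ, 1 ≤ B → 2 ^ B = 2 ^ (B - 1) * 2 := by
    intro B hB
    rw [← pow_succ]
    congr 1
    omega
  have hc' : 2 ^ (A - 1) * y.val = 2 ^ (A - 1) * (2 * c) :=
    hc.trans (by rw [e A hA, mul_assoc])
  have := Nat.eq_of_mul_eq_mul_left (by positivity) hc'
  exact ⟨c, this⟩

/-- An element of even parity is a double. -/
theorem zmod_even_of_parity {A : ℕ} (h2 : 2 ∣ 2 ^ A) (y : ZMod (2 ^ A))
    (h : ZMod.castHom h2 (ZMod 2) y = 0) : ∃ w : ZMod (2 ^ A), y = (2 : ℕ) • w := by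
  have hy : ((y.val : ℕ) : ZMod (2 ^ A)) = y := ZMod.natCast_zmod_val y
  rw [← hy, map_natCast, ZMod.natCast_eq_zero_iff] at h
  obtain ⟨c, hc⟩ := h
  refine ⟨(c : ZMod (2 ^ A)), ?_⟩
  rw [← hy, hc, nsmul_eq_mul]
  push_cast
  ring

/-- The parity of the `j`-th coordinate. -/
noncomputable def parityHom {n : ℕ} (a : Fin n → ℕ) (ha1 : ∀ i, 1 ≤ a i) (j : Fin n) :
    ((i : Fin n) → ZMod (2 ^ a i)) →+ ZMod 2 :=
  (ZMod.castHom (dvd_pow_self 2 (by have := ha1 j; omega)) (ZMod 2)).toAddMonoidHom.comp
    (Pi.evalAddMonoidHom (fun i => ZMod (2 ^ a i)) j)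

theorem parity_char {n : ℕ} (a : Fin n → ℕ) (ha : StrictMono a) (ha1 : ∀ i, 1 ≤ a i) (i : Fin n)
    (x : (i : Fin n) → ZMod (2 ^ a i)) :
    (∀ j, i ≤ j → parityHom a ha1 j x = 0) ↔
      ∃ z : (i : Fin n) → ZMod (2 ^ a i), (2 ^ (a i - 1) : ℕ) • x = (2 ^ a i : ℕ) • z := by
  constructor
  · intro h
    have hw : ∀ j, i ≤ j → ∃ w : ZMod (2 ^ a j), x j = (2 : ℕ) • w := fun j hj =>
      zmod_even_of_parity (dvd_pow_self 2 (by have := ha1 j; omega)) (x j) (h j hj)
    classical
    refine ⟨fun j => if hj : i ≤ j then (hw j hj).choose else 0, ?_⟩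
    funext j
    simp only [Pi.smul_apply]
    by_cases hj : i ≤ j
    · rw [dif_pos hj]
      conv_lhs => rw [(hw j hj).choose_spec]
      rw [smul_smul]
      congr 1
      rw [← pow_succ]
      congr 1
      have := ha1 i
      omega
    · rw [dif_neg hj, smul_zero]
      have hlt : a j < a i := ha (not_le.mp hj)
      rw [nsmul_eq_mul]
      have : ((2 ^ (a i - 1) : ℕ) : ZMod (2 ^ a j)) = 0 := by
        rw [ZMod.natCast_eq_zero_iff]
        exact pow_dvd_pow 2 (by omega)
      rw [this, zero_mul]
  · rintro ⟨z, hz⟩ j hj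
    have hle : a i ≤ a j := ha.monotone hj
    have h1 := congrFun hz j
    simp only [Pi.smul_apply] at h1
    show ZMod.castHom (dvd_pow_self 2 (by have := ha1 j; omega)) (ZMod 2) (x j) = 0
    apply zmod_parity_of_half_smul (ha1 j)
    have e1 : (2 ^ (a j - 1) : ℕ) = 2 ^ (a j - a i) * 2 ^ (a i - 1) := by
      rw [← pow_add]
      congr 1
      have := ha1 i
      omega
    rw [e1, mul_smul, h1, ← mul_smul, ← pow_add]
    have e2 : a j - a i + a i = a j := by omega
    rw [e2, nsmul_eq_mul, ZMod.natCast_self, zero_mul]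

/-- An odd-order automorphism preserving a flag of "parity" subgroups fixes each parity. -/
theorem parity_fixed_of_odd {V : Type*} [AddCommGroup V] {n : ℕ} (π : Fin n → V →+ ZMod 2)
    (s : AddMonoid.End V) (m : ℕ) (hm : Odd m) (hs : s ^ m = 1)
    (hinv : ∀ (t : AddMonoid.End V) (k : ℕ) (x : V),
      (∀ j : Fin n, k ≤ j.val → π j x = 0) → ∀ j : Fin n, k ≤ j.val → π j (t x) = 0) :
    ∀ (i : Fin n) (x : V), π i (s x) = π i x := by
  have key : ∀ (r : ℕ) (i : Fin n), n - i.val ≤ r → ∀ x : V, π i (s x) = π i x := by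
    intro r
    induction r with
    | zero =>
      intro i hi
      have := i.2
      omega
    | succ r ih =>
      intro i hi x
      have hIH : ∀ j : Fin n, i.val + 1 ≤ j.val → ∀ y : V, π j (s y) = π j y := fun j hj y =>
        ih j (by omega) y
      have hK' : ∀ y : V, (∀ j : Fin n, i.val + 1 ≤ j.val → π j y = 0) →
          π i (s y) = π i y := by
        intro y hy
        have hsy : ∀ j : Fin n, i.val + 1 ≤ j.val → π j (s y) = 0 := hinv s _ y hy
        by_cases h0 : π i y = 0
        · have hy0 : ∀ j : Fin n, i.val ≤ j.val → π j y = 0 := by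
            intro j hj
            rcases Nat.eq_or_lt_of_le hj with h | h
            · have : i = j := Fin.ext h
              subst this
              exact h0
            · exact hy j h
          rw [h0]
          exact hinv s _ y hy0 i le_rfl
        · by_cases h1 : π i (s y) = 0
          · exfalso
            apply h0
            have hsy0 : ∀ j : Fin n, i.val ≤ j.val → π j (s y) = 0 := by
              intro j hj
              rcases Nat.eq_or_lt_of_le hj with h | h
              · have : i = j := Fin.ext h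
                subst this
                exact h1
              · exact hsy j h
            obtain ⟨l, hl⟩ := hm
            have h3 := hinv (s ^ (2 * l)) _ (s y) hsy0 i le_rfl
            have e : (s ^ (2 * l)) (s y) = y := by
              have : (s ^ (2 * l) * s) y = y := by
                rw [← pow_succ, ← hl, hs]
                rfl
              exact this
            rw [e] at h3
            exact h3
          · have h2 : ∀ c : ZMod 2, c ≠ 0 → c = 1 := by decide
            rw [h2 _ h0, h2 _ h1]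
      have hd : ∀ j : Fin n, i.val + 1 ≤ j.val → π j (s x - x) = 0 := by
        intro j hj
        rw [map_sub, hIH j hj x, sub_self]
      have hpow : ∀ l : ℕ, (∀ j : Fin n, i.val + 1 ≤ j.val → π j ((s ^ l) (s x - x)) = 0) ∧
          π i ((s ^ l) (s x - x)) = π i (s x - x) := by
        intro l
        induction l with
        | zero => exact ⟨hd, rfl⟩
        | succ l ihl =>
          have e : (s ^ (l + 1)) (s x - x) = s ((s ^ l) (s x - x)) := by
            rw [pow_succ']
            rfl
          rw [e]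
          exact ⟨hinv s _ _ ihl.1, (hK' _ ihl.1).trans ihl.2⟩
      have hsum : ∀ l : ℕ, π i ((s ^ l) x) = π i x + l • π i (s x - x) := by
        intro l
        induction l with
        | zero =>
          rw [zero_smul, add_zero]
          rfl
        | succ l ihl =>
          have e : (s ^ (l + 1)) x = (s ^ l) x + (s ^ l) (s x - x) := by
            rw [pow_succ]
            show (s ^ l) (s x) = _
            rw [← map_add]
            congr 1
            abel
          rw [e, map_add, ihl, (hpow l).2, succ_nsmul, add_assoc]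
      have h1 := hsum m
      rw [hs] at h1
      have h2 : m • π i (s x - x) = 0 := by
        have h4 : π i ((1 : AddMonoid.End V) x) = π i x := rfl
        rw [h4] at h1
        exact left_eq_add.mp h1
      have h3 : π i (s x - x) = 0 := by
        obtain ⟨l, hl⟩ := hm
        rw [hl] at h2
        have h5 : ∀ c : ZMod 2, (2 * l + 1) • c = c := by
          intro c
          rw [add_smul, mul_smul, one_smul]
          have h6 : (2 : ℕ) • (l • c) = 0 := by
            rw [nsmul_eq_mul]
            have h7 : ((2 : ℕ) : ZMod 2) = 0 := by decide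
            rw [h7, zero_mul]
          rw [h6, zero_add]
        rw [h5] at h2
        exact h2
      rw [map_sub, sub_eq_zero] at h3
      exact h3
  intro i x
  exact key (n - i.val) i le_rfl x

/-- An endomorphism congruent to the identity mod 2 on a group of exponent `2^K` has
`2`-power order. -/
theorem end_pow_eq_one_of_even_diff {V : Type*} [AddCommGroup V] (s : AddMonoid.End V)
    (h : ∀ x : V, ∃ w : V, s x - x = (2 : ℕ) • w) (K : ℕ) (hK : ∀ v : V, (2 ^ K : ℕ) • v = 0) :
    s ^ (2 ^ K) = 1 := by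
  have key : ∀ j : ℕ, ∀ x : V, ∃ w : V, (s ^ (2 ^ j)) x - x = (2 ^ (j + 1) : ℕ) • w := by
    intro j
    induction j with
    | zero =>
      intro x
      simpa using h x
    | succ j ih =>
      intro x
      obtain ⟨w, hw⟩ := ih x
      obtain ⟨w', hw'⟩ := ih w
      refine ⟨w + (2 ^ j : ℕ) • w', ?_⟩
      have e : (s ^ (2 ^ (j + 1))) x = (s ^ (2 ^ j)) ((s ^ (2 ^ j)) x) := by
        rw [pow_succ, pow_mul, sq]
        rfl
      have hx : (s ^ (2 ^ j)) x = x + (2 ^ (j + 1) : ℕ) • w := by
        rw [← hw]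
        abel
      have hw2 : (s ^ (2 ^ j)) w = w + (2 ^ (j + 1) : ℕ) • w' := by
        rw [← hw']
        abel
      rw [e, hx, map_add, map_nsmul, hx, hw2]
      rw [smul_add, smul_add, smul_smul, smul_smul]
      have e1 : 2 ^ (j + 1 + 1) = 2 ^ (j + 1) + 2 ^ (j + 1) := by ring
      have e2 : 2 ^ (j + 1) * 2 ^ (j + 1) = 2 ^ (j + 1 + 1) * 2 ^ j := by ring
      rw [e2, e1, add_smul]
      abel
  apply AddMonoidHom.ext
  intro x
  obtain ⟨w, hw⟩ := key K x
  have e : (2 ^ (K + 1) : ℕ) • w = 0 := by
    rw [pow_succ, mul_comm, mul_smul, hK, smul_zero]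
  rw [e, sub_eq_zero] at hw
  show (s ^ 2 ^ K) x = x
  exact hw

theorem monoid_eq_one_of_coprime_pows {M : Type*} [Monoid M] (s : M) (m k : ℕ)
    (hmk : Nat.Coprime m k) (h1 : s ^ m = 1) (h2 : s ^ k = 1) : s = 1 := by
  have := pow_gcd_eq_one.mpr ⟨h1, h2⟩
  rwa [Nat.Coprime.gcd_eq_one hmk, pow_one] at this

/-- An odd-order additive automorphism of `∏ ZMod (2 ^ a i)` with pairwise distinct `a i ≥ 1`
is trivial. -/
theorem distinct_invariants_end_eq_one {n : ℕ} (a : Fin n → ℕ) (ha : StrictMono a)
    (ha1 : ∀ i, 1 ≤ a i) (s : AddMonoid.End ((i : Fin n) → ZMod (2 ^ a i))) (m : ℕ)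
    (hm : Odd m) (hs : s ^ m = 1) : s = 1 := by
  have hinv : ∀ (t : AddMonoid.End ((i : Fin n) → ZMod (2 ^ a i))) (k : ℕ)
      (x : (i : Fin n) → ZMod (2 ^ a i)),
      (∀ j : Fin n, k ≤ j.val → parityHom a ha1 j x = 0) →
        ∀ j : Fin n, k ≤ j.val → parityHom a ha1 j (t x) = 0 := by
    intro t k x hx j hj
    have hk : k < n := lt_of_le_of_lt hj j.2
    have h1 : ∀ j' : Fin n, (⟨k, hk⟩ : Fin n) ≤ j' → parityHom a ha1 j' x = 0 :=
      fun j' hj' => hx j' hj'
    obtain ⟨z, hz⟩ := (parity_char a ha ha1 ⟨k, hk⟩ x).mp h1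
    have h2 : ∃ z', (2 ^ (a ⟨k, hk⟩ - 1) : ℕ) • t x = (2 ^ a ⟨k, hk⟩ : ℕ) • z' :=
      ⟨t z, by rw [← map_nsmul, hz, map_nsmul]⟩
    exact (parity_char a ha ha1 ⟨k, hk⟩ (t x)).mpr h2 j hj
  have hfix := parity_fixed_of_odd (parityHom a ha1) s m hm hs hinv
  have heven : ∀ x, ∃ w, s x - x = (2 : ℕ) • w := by
    intro x
    have hw : ∀ j, ∃ w : ZMod (2 ^ a j), (s x - x) j = (2 : ℕ) • w := by
      intro j
      apply zmod_even_of_parity (dvd_pow_self 2 (by have := ha1 j; omega))
      have := hfix j x
      show parityHom a ha1 j (s x - x) = 0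
      rw [map_sub, this, sub_self]
    exact ⟨fun j => (hw j).choose, funext fun j => (hw j).choose_spec⟩
  have hK : ∀ v : (i : Fin n) → ZMod (2 ^ a i), (2 ^ (∑ i, a i) : ℕ) • v = 0 := by
    intro v
    funext j
    simp only [Pi.smul_apply, Pi.zero_apply]
    rw [nsmul_eq_mul]
    have : ((2 ^ (∑ i, a i) : ℕ) : ZMod (2 ^ a j)) = 0 := by
      rw [ZMod.natCast_eq_zero_iff]
      exact pow_dvd_pow 2 (Finset.single_le_sum (fun _ _ => Nat.zero_le _) (Finset.mem_univ j))
    rw [this, zero_mul]
  have h2 := end_pow_eq_one_of_even_diff s heven _ hK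
  exact monoid_eq_one_of_coprime_pows s m _ (Nat.Coprime.pow_right _ hm.coprime_two_right) hs h2

/-- Transport an automorphism of `S` to an additive endomorphism of `V` along `e`. -/
def transportEnd {S V : Type*} [Group S] [AddCommGroup V] (e : S ≃* Multiplicative V)
    (β : MulAut S) : AddMonoid.End V :=
  AddMonoidHom.toMultiplicative.symm (e.toMonoidHom.comp (β.toMonoidHom.comp e.symm.toMonoidHom))

theorem transportEnd_apply {S V : Type*} [Group S] [AddCommGroup V] (e : S ≃* Multiplicative V)
    (β : MulAut S) (v : V) :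
    transportEnd e β v = Multiplicative.toAdd (e (β (e.symm (Multiplicative.ofAdd v)))) := rfl

theorem transportEnd_one {S V : Type*} [Group S] [AddCommGroup V] (e : S ≃* Multiplicative V) :
    transportEnd e 1 = 1 := by
  apply AddMonoidHom.ext
  intro v
  show Multiplicative.toAdd (e ((1 : MulAut S) (e.symm (Multiplicative.ofAdd v)))) = v
  simp

theorem transportEnd_mul {S V : Type*} [Group S] [AddCommGroup V] (e : S ≃* Multiplicative V)
    (β γ : MulAut S) : transportEnd e (β * γ) = transportEnd e β * transportEnd e γ := by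
  apply AddMonoidHom.ext
  intro v
  show Multiplicative.toAdd (e ((β * γ) (e.symm (Multiplicative.ofAdd v)))) =
    Multiplicative.toAdd (e (β (e.symm (Multiplicative.ofAdd
      (Multiplicative.toAdd (e (γ (e.symm (Multiplicative.ofAdd v)))))))))
  rw [MulAut.mul_apply]
  simp

theorem transportEnd_pow {S V : Type*} [Group S] [AddCommGroup V] (e : S ≃* Multiplicative V)
    (β : MulAut S) (k : ℕ) : transportEnd e (β ^ k) = transportEnd e β ^ k := by
  induction k with
  | zero => rw [pow_zero, pow_zero, transportEnd_one]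
  | succ k ih => rw [pow_succ, pow_succ, transportEnd_mul, ih]

theorem eq_one_of_transportEnd_eq_one {S V : Type*} [Group S] [AddCommGroup V]
    (e : S ≃* Multiplicative V) (β : MulAut S) (h : transportEnd e β = 1) : β = 1 := by
  ext x
  have h1 := congrArg (fun t : AddMonoid.End V => t (Multiplicative.toAdd (e x))) h
  simp only [transportEnd_apply] at h1
  have h2 : e (β x) = e x := by simpa using h1
  rw [MulAut.one_apply]
  exact e.injective h2

end Cfsg.Agent.Helper9
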