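import Mathlib

set_option autoImplicit false

namespace Cfsg.Agent.Helper9

open scoped BigOperators

/-- Relative trace argument: for a finite group `G` acting on a finite abelian `p`-group `V` and
a subgroup `T` of index prime to `p`, the `G`-fixed points are a direct factor of the `T`-fixed
points. -/
theorem fixed_direct_factor {V : Type*} [CommGroup V] [Finite V] {G : Type*} [Group G] [Finite G]
    (ρ : G →* MulAut V) (T : Subgroup G) (p : ℕ) [Fact p.Prime] (hV : IsPGroup p V)
    (hT : (T.index).Coprime p) :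
    ∃ K : Subgroup V, (∀ v ∈ K, ∀ t ∈ T, ρ t v = v) ∧ (∀ v ∈ K, (∀ g, ρ g v = v) → v = 1) ∧
      ∀ v, (∀ t ∈ T, ρ t v = v) → ∃ u k, (∀ g, ρ g u = u) ∧ k ∈ K ∧ v = u * k := by
  classical
  letI : Fintype (G ⧸ T) := Fintype.ofFinite _
  obtain ⟨tr, htr⟩ : ∃ tr : V →* V, ∀ v, tr v = ∏ c : G ⧸ T, ρ (Quotient.out c) v := by
    refine ⟨∏ c : G ⧸ T, (ρ (Quotient.out c)).toMonoidHom, fun v => ?_⟩
    rw [MonoidHom.finsetProd_apply]
    rfl
  have h1 : ∀ v, (∀ t ∈ T, ρ t v = v) → ∀ g, ρ g (tr v) = tr v := by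
    intro v hv g
    rw [htr, map_prod]
    have hstep : ∀ c : G ⧸ T, ρ g (ρ (Quotient.out c) v) = ρ (Quotient.out (g • c)) v := by
      intro c
      have hmem : (Quotient.out (g • c))⁻¹ * (g * Quotient.out c) ∈ T := by
        rw [← QuotientGroup.eq, QuotientGroup.out_eq']
        conv_lhs => rw [← QuotientGroup.out_eq' c]
        rfl
      have h2 := hv _ hmem
      have h3 : ρ (g * Quotient.out c) v = ρ (Quotient.out (g • c))
          (ρ ((Quotient.out (g • c))⁻¹ * (g * Quotient.out c)) v) := by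
        rw [← MulAut.mul_apply, ← map_mul, mul_inv_cancel_left]
      rw [h2] at h3
      rw [← h3, map_mul, MulAut.mul_apply]
    rw [Finset.prod_congr rfl (fun c _ => hstep c)]
    exact Equiv.prod_comp (MulAction.toPerm g : Equiv.Perm (G ⧸ T)) (fun c => ρ (Quotient.out c) v)
  have h2 : ∀ v, (∀ g, ρ g v = v) → tr v = v ^ T.index := by
    intro v hv
    rw [htr, Finset.prod_congr rfl (fun c _ => hv _), Finset.prod_const, Finset.card_univ,
      Subgroup.index_eq_card, Nat.card_eq_fintype_card]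
  refine ⟨{ carrier := {v | (∀ t ∈ T, ρ t v = v) ∧ tr v = 1}
            mul_mem' := fun {a b} ha hb => ⟨fun t ht => by rw [map_mul, ha.1 t ht, hb.1 t ht],
              by rw [map_mul, ha.2, hb.2, mul_one]⟩
            one_mem' := ⟨fun t _ => map_one _, map_one _⟩
            inv_mem' := fun {a} ha => ⟨fun t ht => by rw [map_inv, ha.1 t ht],
              by rw [map_inv, ha.2, inv_one]⟩ }, ?_, ?_, ?_⟩
  · intro v hv
    exact hv.1
  · intro v hv hvG
    have h3 : v ^ T.index = 1 := by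
      rw [← h2 v hvG]
      exact hv.2
    obtain ⟨k, hk⟩ := hV v
    have h4 : v ^ Nat.gcd T.index (p ^ k) = 1 := pow_gcd_eq_one.mpr ⟨h3, hk⟩
    have hg : Nat.gcd T.index (p ^ k) = 1 := Nat.Coprime.pow_right k hT
    rw [hg, pow_one] at h4
    exact h4
  · intro v hv
    have hw := h1 v hv
    have hcop : (T.index).Coprime (orderOf (tr v)) := by
      obtain ⟨k, hk⟩ := hV (tr v)
      obtain ⟨j, -, hj⟩ := (Nat.dvd_prime_pow Fact.out).mp (orderOf_dvd_of_pow_eq_one hk)
      rw [hj]
      exact Nat.Coprime.pow_right j hT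
    obtain ⟨m', hm'⟩ := exists_pow_eq_self_of_coprime hcop
    have hu : ∀ g, ρ g ((tr v) ^ m') = (tr v) ^ m' := by
      intro g
      rw [map_pow, hw g]
    have htru : tr ((tr v) ^ m') = tr v := by
      rw [h2 _ hu, ← pow_mul, mul_comm, pow_mul]
      exact hm'
    refine ⟨(tr v) ^ m', ((tr v) ^ m')⁻¹ * v, hu, ⟨fun t ht => ?_, ?_⟩, ?_⟩
    · rw [map_mul, map_inv, hu t, hv t ht]
    · rw [map_mul, map_inv, htru, inv_mul_cancel]
    · rw [mul_inv_cancel_left]

end Cfsg.Agent.Helper9
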