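import Mathlib
import Cfsg.Agent.Helper8.FusionChain

set_option autoImplicit false

namespace Cfsg.Agent.Helper9

open Cfsg

variable {Ω : Type*} [Group Ω]

theorem inner_autGroup_eq {T : Subgroup Ω} {P : Subgroup Ω} (hP : P ≤ T) :
    (innerFusionSystem T).autGroup P = autInducedBy T P := by
  unfold FusionSystem.autGroup autInducedBy
  congr 1
  ext α
  constructor
  · rintro ⟨-, g, hg, h⟩
    exact ⟨g, hg, fun x => h x⟩
  · rintro ⟨g, hg, h⟩
    exact ⟨hP, g, hg, fun x => h x⟩

/-- The inner fusion system of a finite `p`-group is saturated. -/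
theorem inner_saturated {T : Subgroup Ω} [Finite T] (p : ℕ) [Fact p.Prime] (hT : IsPGroup p T) :
    (innerFusionSystem T).IsSaturated p := by
  intro P hP
  have : Finite P := Helper8.finite_of_le_finite hP
  have : Finite (MulAut P) := MulEquiv.finite_left
  refine ⟨P, ⟨P.subtype, Helper8.subtype_mem _ hP, P.range_subtype⟩, ⟨hP, ?_⟩, ⟨hP, ?_⟩⟩
  · have heq := inner_autGroup_eq hP
    have hpg : IsPGroup p ((innerFusionSystem T).autGroup P) := by
      rw [heq]; exact Helper8.isPGroup_autInducedBy hT P
    have htop : (autInducedBy T P).subgroupOf ((innerFusionSystem T).autGroup P) = ⊤ := by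
      rw [heq]; exact Subgroup.subgroupOf_self _
    rw [htop]
    obtain ⟨R⟩ : Nonempty (Sylow p ↥((innerFusionSystem T).autGroup P)) := inferInstance
    exact ⟨R, (R.is_maximal' (hpg.to_subgroup ⊤) le_top).symm⟩
  · intro P' φ hφ hr
    obtain ⟨hP', g, hg, h⟩ := hφ
    refine ⟨conjHom (FusionSystem.extender T P' φ) g,
      (innerFusionSystem T).conj_mem
        ((Helper8.extender_le_normalizerIn T P' φ).trans inf_le_left) hg, ?_⟩
    intro x hxP hxN
    exact (h ⟨x, hxP⟩).symm

end Cfsg.Agent.Helper9
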