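import Mathlib

set_option autoImplicit false

namespace Cfsg.Agent.Helper9

/-- `f` is an irredundant base for the action of `G`. -/
def IB9 (G : Type*) {Ω : Type*} [Group G] [MulAction G Ω] {t : ℕ} (f : Fin t → Ω) : Prop :=
  (∀ g : G, (∀ i : Fin t, g • f i = f i) → g = 1) ∧
    ∀ i : Fin t, ∃ g : G, (∀ j : Fin t, j < i → g • f j = f j) ∧ g • f i ≠ f i

variable {G Ω : Type*} [Group G] [MulAction G Ω]

/-- Removing a redundant point of a base leaves a base. -/
theorem base_remove9 {s : ℕ} (f : Fin (s + 1) → Ω)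
    (hB : ∀ g : G, (∀ i, g • f i = f i) → g = 1) (i : Fin (s + 1))
    (hi : ∀ g : G, (∀ j, j < i → g • f j = f j) → g • f i = f i) :
    ∀ g : G, (∀ k : Fin s, g • (f ∘ i.succAbove) k = (f ∘ i.succAbove) k) → g = 1 := by
  intro g hg
  apply hB g
  have hne : ∀ k, k ≠ i → g • f k = f k := by
    intro k hk
    obtain ⟨z, rfl⟩ := Fin.exists_succAbove_eq hk
    exact hg z
  intro k
  by_cases hk : k = i
  · rw [hk]
    exact hi g (fun j hj => hne j (ne_of_lt hj))
  · exact hne k hk

/-- Every base can be thinned to an irredundant base. -/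
theorem thin9 : ∀ (t : ℕ) (f : Fin t → Ω), (∀ g : G, (∀ i, g • f i = f i) → g = 1) →
    ∃ t' ≤ t, ∃ f' : Fin t' → Ω, IB9 G f' := by
  intro t
  induction t with
  | zero =>
    intro f hB
    exact ⟨0, le_rfl, f, hB, fun i => i.elim0⟩
  | succ s ih =>
    intro f hB
    by_cases hI : ∀ i : Fin (s + 1), ∃ g : G, (∀ j, j < i → g • f j = f j) ∧ g • f i ≠ f i
    · exact ⟨s + 1, le_rfl, f, hB, hI⟩
    · push_neg at hI
      obtain ⟨i, hi⟩ := hI
      obtain ⟨t', ht', f', hf'⟩ := ih (f ∘ i.succAbove) (base_remove9 f hB i hi)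
      exact ⟨t', Nat.le_succ_of_le ht', f', hf'⟩

/-- Replacing the last point of an irredundant base by a point moved by the stabiliser of the
others gives an irredundant base, if irredundant bases may be reordered. -/
theorem update_last9
    (hb : ∀ (t : ℕ) (f : Fin t → Ω) (σ : Equiv.Perm (Fin t)), IB9 G f → IB9 G (f ∘ σ))
    {s : ℕ} {f : Fin (s + 1) → Ω} (hf : IB9 G f) (g : G)
    (hg : ∀ j, j < Fin.last s → g • f j = f j) (b : Ω) (hgb : g • b ≠ b) :
    IB9 G (Function.update f (Fin.last s) b) := by
  classical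
  have hE_ne : ∀ j, j ≠ Fin.last s → Function.update f (Fin.last s) b j = f j :=
    fun j hj => Function.update_of_ne hj _ _
  have hE_last : Function.update f (Fin.last s) b (Fin.last s) = b := Function.update_self _ _ _
  have hIrr : ∀ i : Fin (s + 1), ∃ k : G,
      (∀ j, j < i → k • Function.update f (Fin.last s) b j = Function.update f (Fin.last s) b j) ∧
        k • Function.update f (Fin.last s) b i ≠ Function.update f (Fin.last s) b i := by
    intro i
    by_cases hi : i = Fin.last s
    · rw [hi]
      refine ⟨g, fun j hj => ?_, ?_⟩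
      · rw [hE_ne j (ne_of_lt hj)]
        exact hg j hj
      · rw [hE_last]
        exact hgb
    · obtain ⟨k, hk1, hk2⟩ := hf.2 i
      refine ⟨k, fun j hj => ?_, ?_⟩
      · rw [hE_ne j (ne_of_lt (lt_of_lt_of_le hj (Fin.le_last i)))]
        exact hk1 j hj
      · rw [hE_ne i hi]
        exact hk2
  refine ⟨?_, hIrr⟩
  intro h hh
  by_contra h1
  have hP : ∀ j, j ≠ Fin.last s → h • f j = f j := by
    intro j hj
    have := hh j
    rwa [hE_ne j hj] at this
  have ha : h • f (Fin.last s) ≠ f (Fin.last s) := by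
    intro e
    apply h1
    apply hf.1 h
    intro i
    by_cases hi : i = Fin.last s
    · rw [hi]
      exact e
    · exact hP i hi
  have hE'cs : ∀ j : Fin (s + 1),
      (Fin.snoc (Function.update f (Fin.last s) b) (f (Fin.last s)) : Fin (s + 2) → Ω) j.castSucc =
        Function.update f (Fin.last s) b j := fun j => Fin.snoc_castSucc _ _ _
  have hE'last : (Fin.snoc (Function.update f (Fin.last s) b) (f (Fin.last s)) : Fin (s + 2) → Ω)
      (Fin.last (s + 1)) = f (Fin.last s) := Fin.snoc_last _ _
  have hIB' : IB9 G (Fin.snoc (Function.update f (Fin.last s) b) (f (Fin.last s)) :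
      Fin (s + 2) → Ω) := by
    constructor
    · intro k hk
      apply hf.1 k
      intro i
      by_cases hi : i = Fin.last s
      · rw [hi]
        have := hk (Fin.last (s + 1))
        rwa [hE'last] at this
      · have := hk i.castSucc
        rwa [hE'cs, hE_ne i hi] at this
    · intro i
      refine Fin.lastCases ?_ (fun i' => ?_) i
      · refine ⟨h, fun j hj => ?_, ?_⟩
        · obtain ⟨j', rfl⟩ : ∃ j', j = Fin.castSucc j' :=
            ⟨j.castPred (ne_of_lt hj), by simp⟩
          rw [hE'cs]
          exact hh j'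
        · rw [hE'last]
          exact ha
      · obtain ⟨k, hk1, hk2⟩ := hIrr i'
        refine ⟨k, fun j hj => ?_, ?_⟩
        · obtain ⟨j', rfl⟩ : ∃ j', j = Fin.castSucc j' :=
            ⟨j.castPred (ne_of_lt (lt_of_lt_of_le hj (Fin.le_last _))), by simp⟩
          rw [hE'cs]
          exact hk1 j' (Fin.castSucc_lt_castSucc_iff.mp hj)
        · rw [hE'cs]
          exact hk2
  have hIBτ := hb _ _ (Equiv.swap (Fin.last (s + 1)) (Fin.castSucc (Fin.last s))) hIB'
  obtain ⟨g', hg'1, hg'2⟩ := hIBτ.2 (Fin.last (s + 1))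
  have hg'one : g' = 1 := by
    apply hf.1 g'
    intro i
    by_cases hi : i = Fin.last s
    · have := hg'1 (Fin.castSucc (Fin.last s)) (Fin.castSucc_lt_last _)
      simp only [Function.comp_apply, Equiv.swap_apply_right] at this
      rw [hE'last] at this
      rw [hi]
      exact this
    · have := hg'1 i.castSucc (Fin.castSucc_lt_last _)
      have hτ : Equiv.swap (Fin.last (s + 1)) (Fin.castSucc (Fin.last s)) i.castSucc =
          i.castSucc :=
        Equiv.swap_apply_of_ne_of_ne (ne_of_lt (Fin.castSucc_lt_last _))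
          (fun e => hi (Fin.castSucc_injective _ e))
      simp only [Function.comp_apply, hτ] at this
      rw [hE'cs, hE_ne i hi] at this
      exact this
  apply hg'2
  rw [hg'one, one_smul]

/-- The exchange step. -/
theorem exchange9
    (hb : ∀ (t : ℕ) (f : Fin t → Ω) (σ : Equiv.Perm (Fin t)), IB9 G f → IB9 G (f ∘ σ))
    {r : ℕ} {C : Fin r → Ω} (hC : IB9 G C) {s : ℕ} {B : Fin s → Ω}
    (hB : ∀ g : G, (∀ i, g • B i = B i) → g = 1) (i₀ : Fin r) :
    ∃ b ∈ Set.range B, IB9 G (Function.update C i₀ b) := by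
  classical
  obtain ⟨s', rfl⟩ : ∃ s', r = s' + 1 := ⟨r - 1, by have := i₀.pos; omega⟩
  have h1 : IB9 G (C ∘ Equiv.swap i₀ (Fin.last s')) := hb _ C _ hC
  obtain ⟨g, hg1, hg2⟩ := h1.2 (Fin.last s')
  have hg : ∃ j, g • B j ≠ B j := by
    by_contra hcon
    push_neg at hcon
    have := hB g hcon
    rw [this, one_smul] at hg2
    exact hg2 rfl
  obtain ⟨j, hj⟩ := hg
  refine ⟨B j, ⟨j, rfl⟩, ?_⟩
  have h2 := update_last9 hb h1 g hg1 (B j) hj
  have h3 := hb _ _ (Equiv.swap i₀ (Fin.last s')).symm h2
  have h4 : Function.update (C ∘ Equiv.swap i₀ (Fin.last s')) (Fin.last s') (B j) ∘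
      (Equiv.swap i₀ (Fin.last s')).symm = Function.update C i₀ (B j) := by
    rw [Function.update_comp_equiv]
    congr 1
    · funext k
      simp
    · simp
  rw [h4] at h3
  exact h3

/-- Irredundant sequences have distinct entries. -/
theorem IB9.injective {t : ℕ} {f : Fin t → Ω} (hf : IB9 G f) : Function.Injective f := by
  intro i j hij
  by_contra hne
  rcases lt_or_gt_of_ne hne with h | h
  · obtain ⟨g, hg1, hg2⟩ := hf.2 j
    apply hg2
    rw [← hij]
    exact hg1 i h
  · obtain ⟨g, hg1, hg2⟩ := hf.2 i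
    apply hg2
    rw [hij]
    exact hg1 j h

/-- Under reorderability, all irredundant bases have the same length. -/
theorem le_of_reorder9
    (hb : ∀ (t : ℕ) (f : Fin t → Ω) (σ : Equiv.Perm (Fin t)), IB9 G f → IB9 G (f ∘ σ))
    {r s : ℕ} {A : Fin r → Ω} {B : Fin s → Ω} (hA : IB9 G A) (hB : IB9 G B) : r ≤ s := by
  classical
  have step1 : ∀ n, ∀ C : Fin r → Ω, IB9 G C →
      (Finset.univ.filter (fun i => C i ∉ Set.range B)).card = n →
      ∃ C' : Fin r → Ω, IB9 G C' ∧ ∀ i, C' i ∈ Set.range B := by
    intro n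
    induction n using Nat.strong_induction_on with
    | _ n ih =>
      intro C hC hn
      by_cases hall : ∀ i, C i ∈ Set.range B
      · exact ⟨C, hC, hall⟩
      · push_neg at hall
        obtain ⟨i₀, hi₀⟩ := hall
        obtain ⟨b, hbr, hIB⟩ := exchange9 hb hC hB.1 i₀
        refine ih _ ?_ (Function.update C i₀ b) hIB rfl
        rw [← hn]
        apply Finset.card_lt_card
        constructor
        · intro i hi
          rw [Finset.mem_filter] at hi ⊢
          refine ⟨Finset.mem_univ _, ?_⟩
          have hne : i ≠ i₀ := by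
            intro e
            apply hi.2
            rw [e, Function.update_self]
            exact hbr
          rw [Function.update_of_ne hne] at hi
          exact hi.2
        · intro hsub
          have h1 : i₀ ∈ Finset.univ.filter (fun i => C i ∉ Set.range B) :=
            Finset.mem_filter.mpr ⟨Finset.mem_univ _, hi₀⟩
          have h2 := hsub h1
          rw [Finset.mem_filter, Function.update_self] at h2
          exact h2.2 hbr
  obtain ⟨C, hC, hCB⟩ := step1 _ A hA rfl
  choose φ hφ using hCB
  have hinj : Function.Injective φ := by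
    intro i j hij
    apply hC.injective
    rw [← hφ i, ← hφ j, hij]
  simpa using Fintype.card_le_of_injective φ hinj

end Cfsg.Agent.Helper9
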