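import Mathlib
import Cfsg.Prelude.Def_Solvable
import Cfsg.Prelude.Def_Transfer

set_option autoImplicit false

namespace Cfsg.Agent.Helper9

open Cfsg
open scoped commutatorElement

/-- The `p`-core is carried into the `p`-core by an isomorphism. -/
theorem pcore_map9 {H H' : Type*} [Group H] [Group H'] (p : ℕ) (e : H ≃* H') (y : H)
    (hy : y ∈ Cfsg.pCore p H) : e y ∈ Cfsg.pCore p H' := by
  have h1 : Cfsg.pCore p H ≤ (Cfsg.pCore p H').comap e.toMonoidHom := by
    apply sSup_le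
    rintro N ⟨hN, hNp⟩
    rw [← Subgroup.map_le_iff_le_comap]
    apply le_sSup
    exact ⟨hN.map e.toMonoidHom e.surjective, hNp.map e.toMonoidHom⟩
  exact h1 hy

/-- Conjugation equivariance of `x ↦ O_2(C(x))`. -/
theorem les_conj9 {G : Type*} [Group G] (Q : G → Subgroup G)
    (hQ : ∀ x : G, Q x = (Cfsg.pCore 2 ↥(Subgroup.centralizer ({x} : Set G))).map
      (Subgroup.centralizer ({x} : Set G)).subtype) (g x y : G) (hy : y ∈ Q x) :
    g * y * g⁻¹ ∈ Q (g * x * g⁻¹) := by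
  have hmem : ∀ (g x c : G), c ∈ Subgroup.centralizer ({x} : Set G) →
      g * c * g⁻¹ ∈ Subgroup.centralizer ({g * x * g⁻¹} : Set G) := by
    intro g x c hc
    rw [Subgroup.mem_centralizer_iff] at hc ⊢
    intro h hh
    rw [Set.mem_singleton_iff] at hh
    subst hh
    have h1 := hc x (Set.mem_singleton x)
    calc g * x * g⁻¹ * (g * c * g⁻¹) = g * (x * c) * g⁻¹ := by group
      _ = g * (c * x) * g⁻¹ := by rw [h1]
      _ = g * c * g⁻¹ * (g * x * g⁻¹) := by group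
  rw [hQ] at hy ⊢
  obtain ⟨c, hc, rfl⟩ := hy
  let e : ↥(Subgroup.centralizer ({x} : Set G)) ≃*
      ↥(Subgroup.centralizer ({g * x * g⁻¹} : Set G)) :=
    { toFun := fun c => ⟨g * c * g⁻¹, hmem g x c c.2⟩
      invFun := fun c => ⟨g⁻¹ * c * g, by
        have h := hmem g⁻¹ (g * x * g⁻¹) c c.2
        rw [show g⁻¹ * (g * x * g⁻¹) * g⁻¹⁻¹ = x by group, inv_inv] at h
        exact h⟩
      left_inv := fun c => Subtype.ext (by
        show g⁻¹ * (g * (c : G) * g⁻¹) * g = c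
        group)
      right_inv := fun c => Subtype.ext (by
        show g * (g⁻¹ * (c : G) * g) * g⁻¹ = c
        group)
      map_mul' := fun a b => Subtype.ext (by
        show g * ((a : G) * (b : G)) * g⁻¹ = g * a * g⁻¹ * (g * b * g⁻¹)
        group) }
  exact ⟨e c, pcore_map9 2 e c hc, rfl⟩

/-- An involution lies in the `2`-core of its centralizer. -/
theorem les_self9 {G : Type*} [Group G] (Q : G → Subgroup G)
    (hQ : ∀ x : G, Q x = (Cfsg.pCore 2 ↥(Subgroup.centralizer ({x} : Set G))).map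
      (Subgroup.centralizer ({x} : Set G)).subtype) (z : G) (hz : orderOf z = 2) :
    z ∈ Q z := by
  rw [hQ]
  have hzC : z ∈ Subgroup.centralizer ({z} : Set G) := by
    rw [Subgroup.mem_centralizer_iff]
    intro h hh
    rw [Set.mem_singleton_iff] at hh
    rw [hh]
  refine ⟨⟨z, hzC⟩, ?_, rfl⟩
  have hN : (Subgroup.zpowers (⟨z, hzC⟩ : ↥(Subgroup.centralizer ({z} : Set G)))).Normal := by
    refine ⟨fun n hn h => ?_⟩
    obtain ⟨k, rfl⟩ := Subgroup.mem_zpowers_iff.mp hn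
    have hc : Commute h (⟨z, hzC⟩ : ↥(Subgroup.centralizer ({z} : Set G))) := by
      apply Subtype.ext
      have h1 := Subgroup.mem_centralizer_iff.mp h.2 z (Set.mem_singleton z)
      exact h1.symm
    have h2 := (hc.zpow_right k).eq
    rw [h2, mul_inv_cancel_right]
    exact hn
  have hp : IsPGroup 2 ↥(Subgroup.zpowers (⟨z, hzC⟩ : ↥(Subgroup.centralizer ({z} : Set G)))) := by
    apply IsPGroup.of_card (n := 1)
    rw [Nat.card_zpowers, pow_one, ← hz]
    exact (Subgroup.orderOf_coe (⟨z, hzC⟩ : ↥(Subgroup.centralizer ({z} : Set G)))).symm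
  exact (le_sSup (show Subgroup.zpowers (⟨z, hzC⟩ : ↥(Subgroup.centralizer ({z} : Set G))) ∈
    {N : Subgroup ↥(Subgroup.centralizer ({z} : Set G)) | N.Normal ∧ IsPGroup 2 N} from ⟨hN, hp⟩))
    (Subgroup.mem_zpowers _)

/-- The intersection property for singular subgroups of a large extraspecial setting. -/
theorem les_inf9 {G : Type*} [Group G] (Q : G → Subgroup G)
    (hQ : ∀ x : G, Q x = (Cfsg.pCore 2 ↥(Subgroup.centralizer ({x} : Set G))).map
      (Subgroup.centralizer ({x} : Set G)).subtype)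
    (z : G) (hz : orderOf z = 2) (hE : Cfsg.IsExtraspecial 2 ↥(Q z))
    (U : Subgroup G) (hU2 : ∀ u ∈ U, u * u = 1)
    (hS : ∀ u ∈ U, u ≠ 1 → ∃ g : G, g * z * g⁻¹ = u)
    (hO : ∀ u ∈ U, ∀ v ∈ U, u ≠ 1 → v ≠ 1 → v ∈ Q u)
    (u : G) (hu : u ∈ U) (v : G) (hv : v ∈ U) (hu1 : u ≠ 1) (hv1 : v ≠ 1) (huv : u ≠ v) :
    Q u ⊓ Q v ≤ Q (u * v) := by
  classical
  have hEq := les_conj9 Q hQ
  have hzQ : z ∈ Q z := les_self9 Q hQ z hz
  have hz1 : z ≠ 1 := by
    intro h
    rw [h, orderOf_one] at hz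
    exact absurd hz (by norm_num)
  have hQzc : ∀ y ∈ Q z, z * y = y * z := by
    intro y hy
    rw [hQ] at hy
    obtain ⟨c, -, rfl⟩ := hy
    exact Subgroup.mem_centralizer_iff.mp c.2 z (Set.mem_singleton z)
  have hz'c : (⟨z, hzQ⟩ : ↥(Q z)) ∈ Subgroup.center ↥(Q z) := by
    rw [Subgroup.mem_center_iff]
    intro h
    apply Subtype.ext
    exact (hQzc h h.2).symm
  have hz'1 : (1 : ↥(Q z)) ≠ ⟨z, hzQ⟩ := fun h => hz1 (congrArg Subtype.val h).symm
  have hcen : ∀ c : ↥(Q z), c ∈ Subgroup.center ↥(Q z) → c = 1 ∨ c = ⟨z, hzQ⟩ := by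
    intro c hc
    obtain ⟨a, b, hab, huniv⟩ := Nat.card_eq_two_iff.mp hE.2
    have key : ∀ e : ↥(Subgroup.center ↥(Q z)), e = a ∨ e = b := by
      intro e
      have h := Set.mem_univ e
      rw [← huniv] at h
      simpa using h
    rcases key ⟨1, Subgroup.one_mem _⟩ with h1 | h1 <;> rcases key ⟨_, hz'c⟩ with h2 | h2 <;>
      rcases key ⟨c, hc⟩ with h3 | h3
    · exact absurd (congrArg Subtype.val (h1.trans h2.symm)) hz'1
    · exact absurd (congrArg Subtype.val (h1.trans h2.symm)) hz'1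
    · exact Or.inl (congrArg Subtype.val (h3.trans h1.symm))
    · exact Or.inr (congrArg Subtype.val (h3.trans h2.symm))
    · exact Or.inr (congrArg Subtype.val (h3.trans h2.symm))
    · exact Or.inl (congrArg Subtype.val (h3.trans h1.symm))
    · exact absurd (congrArg Subtype.val (h1.trans h2.symm)) hz'1
    · exact absurd (congrArg Subtype.val (h1.trans h2.symm)) hz'1
  have hcomm : ∀ a b : ↥(Q z), ⁅a, b⁆ = 1 ∨ ⁅a, b⁆ = ⟨z, hzQ⟩ := by
    intro a b
    apply hcen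
    rw [← hE.1.2.2]
    exact Subgroup.commutator_mem_commutator (Subgroup.mem_top a) (Subgroup.mem_top b)
  have hK : ∀ v ∈ Q z, v ≠ 1 → v ≠ z → ∃ q ∈ Q z, q * v * q⁻¹ = v * z ∧
      ∀ y ∈ Q z, q⁻¹ * y * q = y ∨ q⁻¹ * y * q = z * y := by
    intro v hv hv1 hvz
    have hvc : (⟨v, hv⟩ : ↥(Q z)) ∉ Subgroup.center ↥(Q z) := by
      intro hcon
      rcases hcen _ hcon with h | h
      · exact hv1 (congrArg Subtype.val h)
      · exact hvz (congrArg Subtype.val h)
    rw [Subgroup.mem_center_iff] at hvc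
    push_neg at hvc
    obtain ⟨q, hq⟩ := hvc
    refine ⟨(q : G), q.2, ?_, ?_⟩
    · rcases hcomm q ⟨v, hv⟩ with h | h
      · exfalso
        apply hq
        rw [commutatorElement_def] at h
        exact mul_inv_eq_iff_eq_mul.mp (mul_inv_eq_one.mp h)
      · rw [commutatorElement_def] at h
        have h1 := mul_inv_eq_iff_eq_mul.mp h
        exact (congrArg Subtype.val h1).trans (hQzc v hv)
    · intro y hy
      rcases hcomm q⁻¹ ⟨y, hy⟩ with h | h
      · left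
        rw [commutatorElement_def, inv_inv] at h
        exact congrArg Subtype.val (mul_inv_eq_one.mp h)
      · right
        rw [commutatorElement_def, inv_inv] at h
        exact congrArg Subtype.val (mul_inv_eq_iff_eq_mul.mp h)
  have hStr : ∀ g : G, ∀ v ∈ Q (g * z * g⁻¹), v ≠ 1 → v ≠ g * z * g⁻¹ →
      ∃ q ∈ Q (g * z * g⁻¹), q * v * q⁻¹ = v * (g * z * g⁻¹) ∧
        ∀ y ∈ Q (g * z * g⁻¹), q⁻¹ * y * q = y ∨ q⁻¹ * y * q = (g * z * g⁻¹) * y := by
    intro g v hv hv1 hvu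
    have hback : ∀ y ∈ Q (g * z * g⁻¹), g⁻¹ * y * g ∈ Q z := by
      intro y hy
      have h := hEq g⁻¹ (g * z * g⁻¹) y hy
      rw [show g⁻¹ * (g * z * g⁻¹) * g⁻¹⁻¹ = z by group, inv_inv] at h
      exact h
    have hvv : v = g * (g⁻¹ * v * g) * g⁻¹ := by group
    obtain ⟨q₀, hq₀, h1, h2⟩ := hK (g⁻¹ * v * g) (hback v hv)
      (fun h => hv1 (by rw [hvv, h]; group)) (fun h => hvu (by rw [hvv, h]))
    refine ⟨g * q₀ * g⁻¹, hEq g z q₀ hq₀, ?_, ?_⟩
    · calc g * q₀ * g⁻¹ * v * (g * q₀ * g⁻¹)⁻¹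
          = g * (q₀ * (g⁻¹ * v * g) * q₀⁻¹) * g⁻¹ := by group
        _ = g * ((g⁻¹ * v * g) * z) * g⁻¹ := by rw [h1]
        _ = v * (g * z * g⁻¹) := by group
    · intro y hy
      rcases h2 (g⁻¹ * y * g) (hback y hy) with h | h
      · left
        calc (g * q₀ * g⁻¹)⁻¹ * y * (g * q₀ * g⁻¹)
            = g * (q₀⁻¹ * (g⁻¹ * y * g) * q₀) * g⁻¹ := by group
          _ = g * (g⁻¹ * y * g) * g⁻¹ := by rw [h]
          _ = y := by group
      · right
        calc (g * q₀ * g⁻¹)⁻¹ * y * (g * q₀ * g⁻¹)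
            = g * (q₀⁻¹ * (g⁻¹ * y * g) * q₀) * g⁻¹ := by group
          _ = g * (z * (g⁻¹ * y * g)) * g⁻¹ := by rw [h]
          _ = g * z * g⁻¹ * y := by group
  intro y hy
  obtain ⟨hyu, hyv⟩ := Subgroup.mem_inf.mp hy
  have hcm : u * v = v * u := by
    have h := hU2 (u * v) (U.mul_mem hu hv)
    calc u * v = (u * v)⁻¹ := (inv_eq_of_mul_eq_one_right h).symm
      _ = v⁻¹ * u⁻¹ := mul_inv_rev u v
      _ = v * u := by
        rw [inv_eq_of_mul_eq_one_right (hU2 v hv), inv_eq_of_mul_eq_one_right (hU2 u hu)]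
  obtain ⟨g, rfl⟩ := hS u hu hu1
  obtain ⟨q, hq, h1, h2⟩ := hStr g v (hO _ hu v hv hu1 hv1) hv1 (Ne.symm huv)
  have hy' : q⁻¹ * y * q ∈ Q v := by
    rcases h2 y hyu with h | h
    · rw [h]
      exact hyv
    · rw [h]
      exact (Q v).mul_mem (hO v hv _ hu hv1 hu1) hyv
  have h3 := hEq q v _ hy'
  rw [h1, show q * (q⁻¹ * y * q) * q⁻¹ = y by group, ← hcm] at h3
  exact h3

end Cfsg.Agent.Helper9
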