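import Mathlib
import Cfsg.Agent.Helper9.LargeES9

set_option autoImplicit false

namespace Cfsg.Agent.Helper9

open Cfsg
open scoped commutatorElement

/-- Structure of `O_2(C(u))` at a conjugate `u` of `z`. -/
theorem les_props9 {G : Type*} [Group G] (Q : G → Subgroup G)
    (hQ : ∀ x : G, Q x = (Cfsg.pCore 2 ↥(Subgroup.centralizer ({x} : Set G))).map
      (Subgroup.centralizer ({x} : Set G)).subtype)
    (z : G) (hz : orderOf z = 2) (hE : Cfsg.IsExtraspecial 2 ↥(Q z)) (g : G) :
    g * z * g⁻¹ ∈ Q (g * z * g⁻¹) ∧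
    (∀ e ∈ Q (g * z * g⁻¹), (g * z * g⁻¹) * e = e * (g * z * g⁻¹)) ∧
    (∀ a ∈ Q (g * z * g⁻¹), ∀ b ∈ Q (g * z * g⁻¹),
      a * b * a⁻¹ * b⁻¹ = 1 ∨ a * b * a⁻¹ * b⁻¹ = g * z * g⁻¹) ∧
    (∀ a ∈ Q (g * z * g⁻¹), (∀ b ∈ Q (g * z * g⁻¹), a * b = b * a) →
      a = 1 ∨ a = g * z * g⁻¹) := by
  classical
  have hEq := les_conj9 Q hQ
  have hzQ : z ∈ Q z := les_self9 Q hQ z hz
  have hz1 : z ≠ 1 := by
    intro h
    rw [h, orderOf_one] at hz
    exact absurd hz (by norm_num)
  have hQc : ∀ x : G, ∀ y ∈ Q x, x * y = y * x := by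
    intro x y hy
    rw [hQ] at hy
    obtain ⟨c, -, rfl⟩ := hy
    exact Subgroup.mem_centralizer_iff.mp c.2 x (Set.mem_singleton x)
  have hz'c : (⟨z, hzQ⟩ : ↥(Q z)) ∈ Subgroup.center ↥(Q z) := by
    rw [Subgroup.mem_center_iff]
    intro h
    apply Subtype.ext
    exact (hQc z h h.2).symm
  have hz'1 : (1 : ↥(Q z)) ≠ ⟨z, hzQ⟩ := fun h => hz1 (congrArg Subtype.val h).symm
  have hcen : ∀ c : ↥(Q z), c ∈ Subgroup.center ↥(Q z) → c = 1 ∨ c = ⟨z, hzQ⟩ := by
    intro c hc
    obtain ⟨a, b, hab, huniv⟩ := Nat.card_eq_two_iff.mp hE.2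
    have key : ∀ e : ↥(Subgroup.center ↥(Q z)), e = a ∨ e = b := by
      intro e
      have h := Set.mem_univ e
      rw [← huniv] at h
      simpa using h
    rcases key ⟨1, Subgroup.one_mem _⟩ with h1 | h1 <;> rcases key ⟨_, hz'c⟩ with h2 | h2 <;>
      rcases key ⟨c, hc⟩ with h3 | h3
    · exact absurd (congrArg Subtype.val (h1.trans h2.symm)) hz'1
    · exact absurd (congrArg Subtype.val (h1.trans h2.symm)) hz'1
    · exact Or.inl (congrArg Subtype.val (h3.trans h1.symm))
    · exact Or.inr (congrArg Subtype.val (h3.trans h2.symm))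
    · exact Or.inr (congrArg Subtype.val (h3.trans h2.symm))
    · exact Or.inl (congrArg Subtype.val (h3.trans h1.symm))
    · exact absurd (congrArg Subtype.val (h1.trans h2.symm)) hz'1
    · exact absurd (congrArg Subtype.val (h1.trans h2.symm)) hz'1
  have hcomm : ∀ a ∈ Q z, ∀ b ∈ Q z, a * b * a⁻¹ * b⁻¹ = 1 ∨ a * b * a⁻¹ * b⁻¹ = z := by
    intro a ha b hb
    have h : ⁅(⟨a, ha⟩ : ↥(Q z)), (⟨b, hb⟩ : ↥(Q z))⁆ = (1 : ↥(Q z)) ∨
        ⁅(⟨a, ha⟩ : ↥(Q z)), (⟨b, hb⟩ : ↥(Q z))⁆ = (⟨z, hzQ⟩ : ↥(Q z)) := by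
      apply hcen
      rw [← hE.1.2.2]
      exact Subgroup.commutator_mem_commutator (Subgroup.mem_top _) (Subgroup.mem_top _)
    rcases h with h | h
    · exact Or.inl (congrArg Subtype.val h)
    · exact Or.inr (congrArg Subtype.val h)
  have hback : ∀ y ∈ Q (g * z * g⁻¹), g⁻¹ * y * g ∈ Q z := by
    intro y hy
    have h := hEq g⁻¹ (g * z * g⁻¹) y hy
    rw [show g⁻¹ * (g * z * g⁻¹) * g⁻¹⁻¹ = z by group, inv_inv] at h
    exact h
  refine ⟨hEq g z z hzQ, hQc _, ?_, ?_⟩
  · intro a ha b hb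
    have e1 : a * b * a⁻¹ * b⁻¹ =
        g * ((g⁻¹ * a * g) * (g⁻¹ * b * g) * (g⁻¹ * a * g)⁻¹ * (g⁻¹ * b * g)⁻¹) * g⁻¹ := by
      group
    rcases hcomm _ (hback a ha) _ (hback b hb) with h | h
    · left
      rw [e1, h]
      group
    · right
      rw [e1, h]
  · intro a ha hab
    have hc : (⟨g⁻¹ * a * g, hback a ha⟩ : ↥(Q z)) ∈ Subgroup.center ↥(Q z) := by
      rw [Subgroup.mem_center_iff]
      intro b
      apply Subtype.ext
      have h1 := hab (g * b * g⁻¹) (hEq g z b b.2)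
      show (b : G) * (g⁻¹ * a * g) = g⁻¹ * a * g * b
      calc (b : G) * (g⁻¹ * a * g) = g⁻¹ * ((g * b * g⁻¹) * a) * g := by group
        _ = g⁻¹ * (a * (g * b * g⁻¹)) * g := by rw [h1]
        _ = g⁻¹ * a * g * b := by group
    have haa : a = g * (g⁻¹ * a * g) * g⁻¹ := by group
    rcases hcen _ hc with h | h
    · left
      have h' : g⁻¹ * a * g = 1 := congrArg Subtype.val h
      rw [haa, h']
      group
    · right
      have h' : g⁻¹ * a * g = z := congrArg Subtype.val h
      rw [haa, h']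

open Classical in
/-- A centralizer of index two, as a count. -/
theorem idx2_9 {G : Type*} [Group G] [Fintype G] (H : Subgroup G) (c y h₀ : G)
    (hc2 : c * c = 1) (hc1 : c ≠ 1) (hcH : ∀ h ∈ H, c * h = h * c)
    (hP : ∀ h ∈ H, h * y * h⁻¹ * y⁻¹ = 1 ∨ h * y * h⁻¹ * y⁻¹ = c) (hh₀ : h₀ ∈ H)
    (h₀y : h₀ * y * h₀⁻¹ * y⁻¹ = c) :
    2 * ((Finset.univ.filter (fun h : G => h ∈ H)).filter (fun h => h * y = y * h)).card =
      (Finset.univ.filter (fun h : G => h ∈ H)).card := by
  have comm_iff : ∀ h : G, h * y = y * h ↔ h * y * h⁻¹ * y⁻¹ = 1 := by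
    intro h
    constructor
    · intro e
      rw [e]
      group
    · intro e
      exact mul_inv_eq_iff_eq_mul.mp (mul_inv_eq_one.mp e)
  have key : ∀ h ∈ H, (h₀ * h * y = y * (h₀ * h) ↔ ¬ (h * y = y * h)) := by
    intro h hh
    have e1 : h₀ * h * y * (h₀ * h)⁻¹ * y⁻¹ =
        h₀ * (h * y * h⁻¹ * y⁻¹) * h₀⁻¹ * (h₀ * y * h₀⁻¹ * y⁻¹) := by group
    rw [comm_iff (h₀ * h), comm_iff h, e1, h₀y]
    rcases hP h hh with hd | hd
    · rw [hd]
      constructor
      · intro e
        exfalso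
        apply hc1
        simpa using e
      · intro e
        exact absurd rfl e
    · rw [hd]
      constructor
      · intro _ e
        exact hc1 e
      · intro _
        rw [← hcH h₀ hh₀, mul_inv_cancel_right, hc2]
  have hsplit := Finset.card_filter_add_card_filter_not
    (s := Finset.univ.filter (fun h : G => h ∈ H)) (fun h => h * y = y * h)
  have hbij : ((Finset.univ.filter (fun h : G => h ∈ H)).filter (fun h => h * y = y * h)).card =
      ((Finset.univ.filter (fun h : G => h ∈ H)).filter (fun h => ¬ (h * y = y * h))).card := by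
    apply Finset.card_bij (fun h _ => h₀ * h)
    · intro h hh
      rw [Finset.mem_filter, Finset.mem_filter] at hh ⊢
      refine ⟨⟨Finset.mem_univ _, H.mul_mem hh₀ hh.1.2⟩, fun e => ?_⟩
      exact (key h hh.1.2).mp e hh.2
    · intro a _ b _ e
      exact mul_left_cancel e
    · intro b hb
      rw [Finset.mem_filter, Finset.mem_filter] at hb
      have hmem : h₀⁻¹ * b ∈ H := H.mul_mem (H.inv_mem hh₀) hb.1.2
      refine ⟨h₀⁻¹ * b, ?_, mul_inv_cancel_left h₀ b⟩
      rw [Finset.mem_filter, Finset.mem_filter]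
      refine ⟨⟨Finset.mem_univ _, hmem⟩, ?_⟩
      by_contra hcon
      have h1 := (key _ hmem).mpr hcon
      rw [mul_inv_cancel_left] at h1
      exact hb.2 h1
  omega

open Classical in
/-- Counting commuting pairs in an extraspecial-like group. -/
theorem les_count9 {G : Type*} [Group G] [Fintype G] (E A : Subgroup G) (hAE : A ≤ E) (c : G)
    (hcA : c ∈ A) (hc1 : c ≠ 1) (hc2 : c * c = 1) (hcE : ∀ e ∈ E, c * e = e * c)
    (P1 : ∀ a ∈ E, ∀ b ∈ E, a * b * a⁻¹ * b⁻¹ = 1 ∨ a * b * a⁻¹ * b⁻¹ = c)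
    (P2 : ∀ a ∈ E, (∀ b ∈ E, a * b = b * a) → a = 1 ∨ a = c) :
    ((Finset.univ.filter (fun e : G => e ∈ E)).filter (fun e => ∀ a ∈ A, a * e = e * a)).card *
      (Finset.univ.filter (fun a : G => a ∈ A)).card =
      2 * (Finset.univ.filter (fun e : G => e ∈ E)).card := by
  obtain ⟨FE, hFE⟩ : ∃ FE : Finset G, FE = Finset.univ.filter (fun e : G => e ∈ E) := ⟨_, rfl⟩
  obtain ⟨FA, hFA⟩ : ∃ FA : Finset G, FA = Finset.univ.filter (fun a : G => a ∈ A) := ⟨_, rfl⟩
  rw [← hFE, ← hFA]
  have hmE : ∀ e, e ∈ FE ↔ e ∈ E := by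
    intro e
    rw [hFE]
    simp
  have hmA : ∀ a, a ∈ FA ↔ a ∈ A := by
    intro a
    rw [hFA]
    simp
  have comm_iff : ∀ h y : G, h * y = y * h ↔ h * y * h⁻¹ * y⁻¹ = 1 := by
    intro h y
    constructor
    · intro e
      rw [e]
      group
    · intro e
      exact mul_inv_eq_iff_eq_mul.mp (mul_inv_eq_one.mp e)
  have hsum := Finset.sum_comm (s := FA) (t := FE)
    (f := fun a e => if a * e = e * a then (1 : ℕ) else 0)
  have hL : ∀ a ∈ FA, 2 * ∑ e ∈ FE, (if a * e = e * a then (1 : ℕ) else 0) =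
      FE.card + (if a = 1 ∨ a = c then FE.card else 0) := by
    intro a ha
    have haA : a ∈ A := (hmA a).mp ha
    rw [← Finset.card_filter]
    by_cases hac : a = 1 ∨ a = c
    · rw [if_pos hac]
      have h1 : FE.filter (fun e => a * e = e * a) = FE := by
        apply Finset.filter_true_of_mem
        intro e he
        have heE : e ∈ E := (hmE e).mp he
        rcases hac with h | h
        · rw [h, one_mul, mul_one]
        · rw [h]
          exact hcE e heE
      rw [h1]
      ring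
    · rw [if_neg hac, add_zero]
      have haE := hAE haA
      have h1 : ¬ ∀ b ∈ E, a * b = b * a := fun h => hac (P2 a haE h)
      push Not at h1
      obtain ⟨b, hbE, hb⟩ := h1
      have hbc : b * a * b⁻¹ * a⁻¹ = c := by
        rcases P1 b hbE a haE with h | h
        · exact absurd ((comm_iff b a).mpr h).symm hb
        · exact h
      have h2 := idx2_9 E c a b hc2 hc1 hcE (fun h hh => P1 h hh a haE) hbE hbc
      rw [← hFE] at h2
      rw [← h2]
      congr 2
      apply Finset.filter_congr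
      intro e _
      exact eq_comm
  have hR : ∀ e ∈ FE, 2 * ∑ a ∈ FA, (if a * e = e * a then (1 : ℕ) else 0) =
      FA.card + (if (∀ a ∈ A, a * e = e * a) then FA.card else 0) := by
    intro e he
    have heE : e ∈ E := (hmE e).mp he
    rw [← Finset.card_filter]
    by_cases hac : ∀ a ∈ A, a * e = e * a
    · rw [if_pos hac]
      have h1 : FA.filter (fun a => a * e = e * a) = FA := by
        apply Finset.filter_true_of_mem
        intro a ha
        exact hac a ((hmA a).mp ha)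
      rw [h1]
      ring
    · rw [if_neg hac, add_zero]
      push Not at hac
      obtain ⟨b, hbA, hb⟩ := hac
      have hbc : b * e * b⁻¹ * e⁻¹ = c := by
        rcases P1 b (hAE hbA) e heE with h | h
        · exact absurd ((comm_iff b e).mpr h) hb
        · exact h
      have h2 := idx2_9 A c e b hc2 hc1 (fun h hh => hcE h (hAE hh))
        (fun h hh => P1 h (hAE hh) e heE) hbA hbc
      rw [← hFA] at h2
      exact h2
  have hpair : (FA.filter (fun a => a = 1 ∨ a = c)).card = 2 := by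
    have h1 : FA.filter (fun a => a = 1 ∨ a = c) = {1, c} := by
      ext a
      rw [Finset.mem_filter, hmA, Finset.mem_insert, Finset.mem_singleton]
      constructor
      · exact fun h => h.2
      · intro h
        refine ⟨?_, h⟩
        rcases h with h | h
        · rw [h]
          exact A.one_mem
        · rw [h]
          exact hcA
    rw [h1, Finset.card_pair hc1.symm]
  have hLs : 2 * ∑ a ∈ FA, ∑ e ∈ FE, (if a * e = e * a then (1 : ℕ) else 0) =
      FA.card * FE.card + 2 * FE.card := by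
    rw [Finset.mul_sum, Finset.sum_congr rfl hL, Finset.sum_add_distrib, Finset.sum_const,
      Finset.sum_ite, Finset.sum_const, Finset.sum_const_zero, add_zero, smul_eq_mul, smul_eq_mul,
      hpair]
  have hRs : 2 * ∑ e ∈ FE, ∑ a ∈ FA, (if a * e = e * a then (1 : ℕ) else 0) =
      FE.card * FA.card + (FE.filter (fun e => ∀ a ∈ A, a * e = e * a)).card * FA.card := by
    rw [Finset.mul_sum, Finset.sum_congr rfl hR, Finset.sum_add_distrib, Finset.sum_const,
      Finset.sum_ite, Finset.sum_const, Finset.sum_const_zero, add_zero, smul_eq_mul, smul_eq_mul]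
  rw [hsum] at hLs
  linarith [mul_comm FA.card FE.card]

/-- Double centralizers: an element outside `A` fails to commute with something centralizing
`A`. -/
theorem les_dc9 {G : Type*} [Group G] [Finite G] (E A : Subgroup G) (hAE : A ≤ E) (c : G)
    (hcA : c ∈ A) (hc1 : c ≠ 1) (hc2 : c * c = 1) (hcE : ∀ e ∈ E, c * e = e * c)
    (P1 : ∀ a ∈ E, ∀ b ∈ E, a * b * a⁻¹ * b⁻¹ = 1 ∨ a * b * a⁻¹ * b⁻¹ = c)
    (P2 : ∀ a ∈ E, (∀ b ∈ E, a * b = b * a) → a = 1 ∨ a = c) (x : G) (hxE : x ∈ E)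
    (hxA : x ∉ A) : ∃ q ∈ E, (∀ a ∈ A, a * q = q * a) ∧ q * x * q⁻¹ * x⁻¹ = c := by
  classical
  haveI := Fintype.ofFinite G
  by_contra hno
  push Not at hno
  have hA'E : E ⊓ Subgroup.centralizer (A : Set G) ≤ E := inf_le_left
  have hcA' : c ∈ E ⊓ Subgroup.centralizer (A : Set G) := by
    refine Subgroup.mem_inf.mpr ⟨hAE hcA, ?_⟩
    rw [Subgroup.mem_centralizer_iff]
    intro a ha
    exact (hcE a (hAE ha)).symm
  have h1 := les_count9 E A hAE c hcA hc1 hc2 hcE P1 P2
  have h2 := les_count9 E (E ⊓ Subgroup.centralizer (A : Set G)) hA'E c hcA' hc1 hc2 hcE P1 P2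
  have hFA' : (Finset.univ.filter (fun a : G => a ∈ E ⊓ Subgroup.centralizer (A : Set G))) =
      (Finset.univ.filter (fun e : G => e ∈ E)).filter (fun e => ∀ a ∈ A, a * e = e * a) := by
    ext e
    simp only [Finset.mem_filter, Finset.mem_univ, true_and, Subgroup.mem_inf,
      Subgroup.mem_centralizer_iff, SetLike.mem_coe]
  rw [← hFA'] at h1
  have hpos : 0 < (Finset.univ.filter
      (fun a : G => a ∈ E ⊓ Subgroup.centralizer (A : Set G))).card := by
    apply Finset.card_pos.mpr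
    exact ⟨1, by simp⟩
  have hcard : ((Finset.univ.filter (fun e : G => e ∈ E)).filter
      (fun e => ∀ a ∈ E ⊓ Subgroup.centralizer (A : Set G), a * e = e * a)).card =
      (Finset.univ.filter (fun a : G => a ∈ A)).card := by
    apply Nat.eq_of_mul_eq_mul_right hpos
    rw [h2, ← h1, mul_comm]
  have hsub : (Finset.univ.filter (fun a : G => a ∈ A)) ⊆
      (Finset.univ.filter (fun e : G => e ∈ E)).filter
        (fun e => ∀ a ∈ E ⊓ Subgroup.centralizer (A : Set G), a * e = e * a) := by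
    intro a ha
    have haA : a ∈ A := (Finset.mem_filter.mp ha).2
    rw [Finset.mem_filter, Finset.mem_filter]
    refine ⟨⟨Finset.mem_univ _, hAE haA⟩, fun a' ha' => ?_⟩
    exact (Subgroup.mem_centralizer_iff.mp (Subgroup.mem_inf.mp ha').2 a haA).symm
  have heq := Finset.eq_of_subset_of_card_le hsub (le_of_eq hcard)
  have hx : x ∈ (Finset.univ.filter (fun e : G => e ∈ E)).filter
      (fun e => ∀ a ∈ E ⊓ Subgroup.centralizer (A : Set G), a * e = e * a) := by
    rw [Finset.mem_filter, Finset.mem_filter]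
    refine ⟨⟨Finset.mem_univ _, hxE⟩, fun a' ha' => ?_⟩
    have ha'E := (Subgroup.mem_inf.mp ha').1
    have ha'c := Subgroup.mem_centralizer_iff.mp (Subgroup.mem_inf.mp ha').2
    have h3 := hno a' ha'E ha'c
    rcases P1 a' ha'E x hxE with h | h
    · exact mul_inv_eq_iff_eq_mul.mp (mul_inv_eq_one.mp h)
    · exact absurd h h3
  rw [← heq] at hx
  exact hxA (Finset.mem_filter.mp hx).2

end Cfsg.Agent.Helper9
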