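import Mathlib
import Cfsg.Agent.Helper9.LargeES9b

set_option autoImplicit false

namespace Cfsg.Agent.Helper9

open Cfsg

/-- Adjoining an involution to a subgroup of a commutative group. -/
theorem adj9 {V : Type*} [Group V] (hcomm : ∀ a b : V, a * b = b * a) (K : Subgroup V) (y : V)
    (hy : y * y = 1) : ∃ K' : Subgroup V, ∀ v, v ∈ K' ↔ (v ∈ K ∨ v * y ∈ K) := by
  refine ⟨{ carrier := {v | v ∈ K ∨ v * y ∈ K}
            one_mem' := Or.inl K.one_mem
            mul_mem' := by
              rintro a b (ha | ha) (hb | hb)
              · exact Or.inl (K.mul_mem ha hb)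
              · right
                rw [mul_assoc]
                exact K.mul_mem ha hb
              · right
                rw [mul_assoc, hcomm b y, ← mul_assoc]
                exact K.mul_mem ha hb
              · left
                have h : a * b = (a * y) * (b * y) := by
                  rw [mul_assoc a y, ← mul_assoc y b y, hcomm y b, mul_assoc b y y, hy, mul_one]
                rw [h]
                exact K.mul_mem ha hb
            inv_mem' := by
              rintro a (ha | ha)
              · exact Or.inl (K.inv_mem ha)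
              · right
                have h : a⁻¹ * y = (a * y)⁻¹ := by
                  rw [mul_inv_rev, inv_eq_of_mul_eq_one_right hy, hcomm a⁻¹ y]
                rw [h]
                exact K.inv_mem ha }, fun v => Iff.rfl⟩

/-- A subgroup of index two avoiding a given element. -/
theorem hyp9 {V : Type*} [Group V] [Finite V] (hcomm : ∀ a b : V, a * b = b * a)
    (h2 : ∀ v : V, v * v = 1) (B : Subgroup V) (w : V) (hw : w ∉ B) :
    ∃ K : Subgroup V, B ≤ K ∧ w ∉ K ∧ ∀ y, y ∈ K ∨ y * w ∈ K := by
  obtain ⟨K, hBK, hKmax⟩ :=
    Finite.exists_le_maximal (p := fun K : Subgroup V => w ∉ K) (a := B) hw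
  refine ⟨K, hBK, hKmax.1, fun y => ?_⟩
  by_contra hcon
  push Not at hcon
  obtain ⟨hy1, hy2⟩ := hcon
  obtain ⟨K', hK'⟩ := adj9 hcomm K y (h2 y)
  have hwK' : w ∉ K' := by
    rw [hK']
    rintro (h | h)
    · exact hKmax.1 h
    · exact hy2 (by rw [hcomm]; exact h)
  have hle : K ≤ K' := fun v hv => (hK' v).mpr (Or.inl hv)
  have h3 := hKmax.2 hwK' hle
  apply hy1
  apply h3
  rw [hK']
  right
  rw [h2 y]
  exact K.one_mem

/-- Transvections generate the automorphism group of an elementary abelian `2`-group. -/
theorem gen_transv9 {V : Type*} [Group V] [Finite V] (hcomm : ∀ a b : V, a * b = b * a)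
    (h2 : ∀ v : V, v * v = 1) (I : Subgroup (MulAut V))
    (hI : ∀ (u w₀ : V) (K : Subgroup V), u ≠ 1 → u ∈ K → w₀ ∉ K →
      ∃ τ ∈ I, (∀ k ∈ K, τ k = k) ∧ τ w₀ = w₀ * u) (φ : MulAut V) : φ ∈ I := by
  have main : ∀ n : ℕ, ∀ φ : MulAut V, {v : V | φ v ≠ v}.ncard ≤ n → φ ∈ I := by
    intro n
    induction n with
    | zero =>
      intro φ hφ
      have h0 : {v : V | φ v ≠ v} = ∅ :=
        (Set.ncard_eq_zero (Set.toFinite _)).mp (Nat.le_zero.mp hφ)
      have hid : φ = 1 := by
        ext v
        show φ v = v
        by_contra hv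
        have hmem : v ∈ {v : V | φ v ≠ v} := hv
        rw [h0] at hmem
        exact hmem
      rw [hid]
      exact I.one_mem
    | succ n ih =>
      intro φ hφ
      by_cases hid : ∀ v, φ v = v
      · have h1 : φ = 1 := by
          ext v
          exact hid v
        rw [h1]
        exact I.one_mem
      push Not at hid
      obtain ⟨w, hw⟩ := hid
      have hwi : w⁻¹ = w := inv_eq_of_mul_eq_one_right (h2 w)
      have hu1 : w * φ w ≠ 1 := by
        intro h
        apply hw
        have h3 : φ w = w⁻¹ := eq_inv_of_mul_eq_one_right h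
        rw [h3, hwi]
      obtain ⟨F, hF⟩ : ∃ F : Subgroup V, ∀ v, v ∈ F ↔ φ v = v := by
        refine ⟨{ carrier := {v | φ v = v}
                  one_mem' := map_one φ
                  mul_mem' := by
                    intro a b ha hb
                    show φ (a * b) = a * b
                    rw [map_mul, ha, hb]
                  inv_mem' := by
                    intro a ha
                    show φ a⁻¹ = a⁻¹
                    rw [map_inv, ha] }, fun v => Iff.rfl⟩
      obtain ⟨B, hB⟩ := adj9 hcomm F (w * φ w) (h2 _)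
      have hφw : w * (w * φ w) = φ w := by rw [← mul_assoc, h2 w, one_mul]
      have hwB : w ∉ B := by
        rw [hB]
        rintro (h | h)
        · exact hw ((hF w).mp h)
        · rw [hφw, hF] at h
          exact hw (φ.injective h)
      obtain ⟨K, hBK, hwK, -⟩ := hyp9 hcomm h2 B w hwB
      have huK : w * φ w ∈ K :=
        hBK ((hB _).mpr (Or.inr (by rw [h2]; exact F.one_mem)))
      have hFK : ∀ v, φ v = v → v ∈ K := fun v hv => hBK ((hB v).mpr (Or.inl ((hF v).mpr hv)))
      obtain ⟨τ, hτI, hτK, hτw⟩ := hI (w * φ w) w K hu1 huK hwK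
      have hfix : (τ * φ) w = w := by
        rw [MulAut.mul_apply, ← hφw, map_mul, hτw, hτK _ huK, mul_assoc, h2, mul_one]
      have hsub : {v : V | (τ * φ) v ≠ v} ⊂ {v : V | φ v ≠ v} := by
        constructor
        · intro v hv hcon
          apply hv
          rw [MulAut.mul_apply, hcon]
          exact hτK v (hFK v hcon)
        · intro hcon
          exact (hcon hw) hfix
      have hlt := Set.ncard_lt_ncard hsub (Set.toFinite _)
      have h5 : τ * φ ∈ I := ih (τ * φ) (by omega)
      have h6 : φ = τ⁻¹ * (τ * φ) := by group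
      rw [h6]
      exact I.mul_mem (I.inv_mem hτI) h5
  exact main _ φ le_rfl

end Cfsg.Agent.Helper9
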