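import Mathlib
import Cfsg.Agent.Helper9.LargeES9b

set_option autoImplicit false

namespace Cfsg.Agent.Helper9

open Cfsg

/-- Fixed points of a `2`-subgroup acting by conjugation on a stable set. -/
theorem fp9 {G : Type*} [Group G] [Finite G] (H : Subgroup G) (hH : IsPGroup 2 ↥H) (X : Set G)
    (hX : ∀ h ∈ H, ∀ y ∈ X, h * y * h⁻¹ ∈ X) :
    X.ncard ≡ {y | y ∈ X ∧ ∀ h ∈ H, h * y * h⁻¹ = y}.ncard [MOD 2] := by
  classical
  letI : MulAction ↥H ↥X :=
    { smul := fun h y => ⟨(h : G) * (y : G) * (h : G)⁻¹, hX h h.2 y y.2⟩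
      one_smul := fun y => Subtype.ext (by
        show ((1 : ↥H) : G) * (y : G) * ((1 : ↥H) : G)⁻¹ = y
        rw [Subgroup.coe_one, one_mul, inv_one, mul_one])
      mul_smul := fun a b y => Subtype.ext (by
        show ((a * b : ↥H) : G) * (y : G) * ((a * b : ↥H) : G)⁻¹ =
          (a : G) * ((b : G) * (y : G) * (b : G)⁻¹) * (a : G)⁻¹
        rw [Subgroup.coe_mul]
        group) }
  have h1 := hH.card_modEq_card_fixedPoints ↥X
  rw [Nat.card_coe_set_eq, Nat.card_coe_set_eq] at h1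
  have h2 : (MulAction.fixedPoints ↥H ↥X).ncard =
      {y | y ∈ X ∧ ∀ h ∈ H, h * y * h⁻¹ = y}.ncard := by
    rw [← Set.ncard_image_of_injective _ Subtype.val_injective]
    congr 1
    ext y
    constructor
    · rintro ⟨y', hy', rfl⟩
      refine ⟨y'.2, fun h hh => ?_⟩
      have h3 := hy' ⟨h, hh⟩
      exact congrArg Subtype.val h3
    · rintro ⟨hy, hfix⟩
      exact ⟨⟨y, hy⟩, fun h => Subtype.ext (hfix h h.2), rfl⟩
  rw [h2] at h1
  exact h1

/-- Elements centralizing the centralizer of a non-central involution. -/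
theorem les_lm9 {G : Type*} [Group G] (E : Subgroup G) (z x : G)
    (hzc : ∀ e ∈ E, z * e = e * z)
    (P1 : ∀ a ∈ E, ∀ b ∈ E, a * b * a⁻¹ * b⁻¹ = 1 ∨ a * b * a⁻¹ * b⁻¹ = z)
    (P2 : ∀ a ∈ E, (∀ b ∈ E, a * b = b * a) → a = 1 ∨ a = z) (hx : x ∈ E)
    (hx2 : x * x = 1) (hz2 : z * z = 1) (m : G) (hm : m ∈ E)
    (hR : ∀ k ∈ E, k * x = x * k → m * k = k * m) :
    m = 1 ∨ m = z ∨ m = x ∨ m = x * z := by
  by_cases hmc : ∀ b ∈ E, m * b = b * m
  · rcases P2 m hm hmc with h | h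
    · exact Or.inl h
    · exact Or.inr (Or.inl h)
  · push Not at hmc
    obtain ⟨b, hb, hbm⟩ := hmc
    have hxi : x⁻¹ = x := inv_eq_of_mul_eq_one_right hx2
    have hbx : ¬ x * b = b * x := fun h => hbm (hR b hb h.symm)
    have hnc : ∀ a ∈ E, ∀ b ∈ E, ¬ a * b = b * a → a * b * a⁻¹ = z * b := by
      intro a ha b hb hab
      rcases P1 a ha b hb with h | h
      · exact absurd (mul_inv_eq_iff_eq_mul.mp (mul_inv_eq_one.mp h)) hab
      · exact mul_inv_eq_iff_eq_mul.mp h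
    have E2 : x * b * x⁻¹ = z * b := hnc x hx b hb hbx
    have E3 : m * b * m⁻¹ = z * b := hnc m hm b hb hbm
    have Ez : m * z * m⁻¹ = z := by
      rw [← hzc m hm, mul_inv_cancel_right]
    have hcen : ∀ v ∈ E, (m * x) * v = v * (m * x) := by
      intro v hv
      apply mul_inv_eq_iff_eq_mul.mp
      by_cases hvx : x * v = v * x
      · have h1 : x * v * x⁻¹ = v := mul_inv_eq_iff_eq_mul.mpr hvx
        have h2 : m * v * m⁻¹ = v := mul_inv_eq_iff_eq_mul.mpr (hR v hv hvx.symm)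
        calc (m * x) * v * (m * x)⁻¹ = m * (x * v * x⁻¹) * m⁻¹ := by group
          _ = m * v * m⁻¹ := by rw [h1]
          _ = v := h2
      · have E1 : x * v * x⁻¹ = z * v := hnc x hx v hv hvx
        have h3 : x * (b⁻¹ * v) * x⁻¹ = b⁻¹ * v := by
          calc x * (b⁻¹ * v) * x⁻¹ = (x * b * x⁻¹)⁻¹ * (x * v * x⁻¹) := by group
            _ = (z * b)⁻¹ * (z * v) := by rw [E2, E1]
            _ = b⁻¹ * v := by group
        have h4 : (b⁻¹ * v) * x = x * (b⁻¹ * v) := (mul_inv_eq_iff_eq_mul.mp h3).symm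
        have E5 : m * (b⁻¹ * v) * m⁻¹ = b⁻¹ * v :=
          mul_inv_eq_iff_eq_mul.mpr (hR _ (E.mul_mem (E.inv_mem hb) hv) h4)
        have E4 : m * v * m⁻¹ = z * v := by
          calc m * v * m⁻¹ = (m * b * m⁻¹) * (m * (b⁻¹ * v) * m⁻¹) := by group
            _ = (z * b) * (b⁻¹ * v) := by rw [E3, E5]
            _ = z * v := by group
        calc (m * x) * v * (m * x)⁻¹ = m * (x * v * x⁻¹) * m⁻¹ := by group
          _ = m * (z * v) * m⁻¹ := by rw [E1]
          _ = (m * z * m⁻¹) * (m * v * m⁻¹) := by group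
          _ = z * (z * v) := by rw [Ez, E4]
          _ = v := by rw [← mul_assoc, hz2, one_mul]
    rcases P2 (m * x) (E.mul_mem hm hx) hcen with h | h
    · right; right; left
      rw [eq_inv_of_mul_eq_one_left h, hxi]
    · right; right; right
      have h1 : m = z * x⁻¹ := eq_mul_inv_of_mul_eq h
      rw [h1, hxi, hzc x hx]

end Cfsg.Agent.Helper9
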