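import Mathlib
import Cfsg.Agent.Helper9.LargeES9d

set_option autoImplicit false

namespace Cfsg.Agent.Helper9

open Cfsg

/-- Orthogonality of singular involutions is symmetric. -/
theorem les_symm9 {G : Type*} [Group G] [Finite G] (Q : G → Subgroup G)
    (hQ : ∀ x : G, Q x = (Cfsg.pCore 2 ↥(Subgroup.centralizer ({x} : Set G))).map
      (Subgroup.centralizer ({x} : Set G)).subtype)
    (z : G) (hz : orderOf z = 2) (hE : Cfsg.IsExtraspecial 2 ↥(Q z))
    (hC : Subgroup.centralizer ((Q z : Subgroup G) : Set G) ≤ Q z)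
    (g : G) (hx : g * z * g⁻¹ ∈ Q z) : z ∈ Q (g * z * g⁻¹) := by
  classical
  have hEq := les_conj9 Q hQ
  obtain ⟨hzQ, hzc, P1, P2⟩ : z ∈ Q z ∧ (∀ e ∈ Q z, z * e = e * z) ∧
      (∀ a ∈ Q z, ∀ b ∈ Q z, a * b * a⁻¹ * b⁻¹ = 1 ∨ a * b * a⁻¹ * b⁻¹ = z) ∧
      (∀ a ∈ Q z, (∀ b ∈ Q z, a * b = b * a) → a = 1 ∨ a = z) := by
    have h := les_props9 Q hQ z hz hE 1
    simp only [one_mul, inv_one, mul_one] at h
    exact h
  have hz2 : z * z = 1 := by
    have h := pow_orderOf_eq_one z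
    rw [hz, pow_two] at h
    exact h
  have hz1 : z ≠ 1 := by
    intro h
    rw [h, orderOf_one] at hz
    exact absurd hz (by norm_num)
  have hzi : z⁻¹ = z := inv_eq_of_mul_eq_one_right hz2
  have cjinv : ∀ a w : G, a * w * a⁻¹ = w → a⁻¹ * w * a = w := by
    intro a w h
    calc a⁻¹ * w * a = a⁻¹ * (a * w * a⁻¹) * a := by rw [h]
      _ = w := by group
  obtain ⟨x, hxdef⟩ : ∃ x, x = g * z * g⁻¹ := ⟨_, rfl⟩
  rw [← hxdef] at hx ⊢
  have hx2 : x * x = 1 := by
    rw [hxdef]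
    calc g * z * g⁻¹ * (g * z * g⁻¹) = g * (z * z) * g⁻¹ := by group
      _ = 1 := by rw [hz2]; group
  have hxi : x⁻¹ = x := inv_eq_of_mul_eq_one_right hx2
  have hxz : x * z = z * x := (hzc x hx).symm
  by_cases hxz' : x = z
  · rw [hxz']
    exact hzQ
  have hx1 : x ≠ 1 := by
    intro h
    rw [hxdef] at h
    apply hz1
    calc z = g⁻¹ * (g * z * g⁻¹) * g := by group
      _ = 1 := by rw [h]; group
  by_contra hzE
  have hQc : ∀ a : G, ∀ y ∈ Q a, a * y = y * a := by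
    intro a y hy
    rw [hQ] at hy
    obtain ⟨c, -, rfl⟩ := hy
    exact Subgroup.mem_centralizer_iff.mp c.2 a (Set.mem_singleton a)
  have hEx : ∀ e ∈ Q x, x * e = e * x := hQc x
  have hxE : x ∈ Q x := by
    rw [hxdef]
    exact hEq g z z hzQ
  have hnorm : ∀ a h y : G, h * a = a * h → y ∈ Q a → h * y * h⁻¹ ∈ Q a := by
    intro a h y hha hy
    have h1 := hEq h a y hy
    rw [show h * a * h⁻¹ = a from by rw [hha, mul_inv_cancel_right]] at h1
    exact h1
  have hback : ∀ y ∈ Q x, g⁻¹ * y * g ∈ Q z := by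
    intro y hy
    rw [hxdef] at hy
    have h := hEq g⁻¹ (g * z * g⁻¹) y hy
    rw [show g⁻¹ * (g * z * g⁻¹) * g⁻¹⁻¹ = z by group, inv_inv] at h
    exact h
  have hCE : ∀ c : G, (∀ e ∈ Q x, c * e = e * c) → c ∈ Q x := by
    intro c hc
    have h1 : g⁻¹ * c * g ∈ Q z := by
      apply hC
      rw [Subgroup.mem_centralizer_iff]
      intro y hy
      have hy' : g * y * g⁻¹ ∈ Q x := by
        rw [hxdef]
        exact hEq g z y hy
      have h2 := hc _ hy'
      calc y * (g⁻¹ * c * g) = g⁻¹ * ((g * y * g⁻¹) * c) * g := by group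
        _ = g⁻¹ * (c * (g * y * g⁻¹)) * g := by rw [h2]
        _ = g⁻¹ * c * g * y := by group
    have h3 := hEq g z _ h1
    rw [← hxdef, show g * (g⁻¹ * c * g) * g⁻¹ = c by group] at h3
    exact h3
  have hpE : IsPGroup 2 ↥(Q x) := by
    intro e
    have h1 := hback e e.2
    obtain ⟨k, hk⟩ := hE.1.1 ⟨_, h1⟩
    refine ⟨k, Subtype.ext ?_⟩
    have hk' : (g⁻¹ * (e : G) * g) ^ 2 ^ k = 1 := congrArg Subtype.val hk
    show (e : G) ^ 2 ^ k = 1
    calc (e : G) ^ 2 ^ k = (g * (g⁻¹ * (e : G) * g) * g⁻¹) ^ 2 ^ k := by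
          congr 1
          group
      _ = g * (g⁻¹ * (e : G) * g) ^ 2 ^ k * g⁻¹ := conj_pow
      _ = 1 := by rw [hk']; group
  obtain ⟨R, hRdef⟩ : ∃ R : Subgroup G, R = Q z ⊓ Subgroup.centralizer ({x} : Set G) :=
    ⟨_, rfl⟩
  have hpR : IsPGroup 2 ↥R := by
    rw [hRdef]
    exact hE.1.1.to_le inf_le_left
  have hRmem : ∀ r, r ∈ R ↔ r ∈ Q z ∧ x * r = r * x := by
    intro r
    rw [hRdef, Subgroup.mem_inf, Subgroup.mem_centralizer_iff]
    constructor
    · rintro ⟨h1, h2⟩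
      exact ⟨h1, h2 x (Set.mem_singleton x)⟩
    · rintro ⟨h1, h2⟩
      refine ⟨h1, fun y hy => ?_⟩
      rw [Set.mem_singleton_iff] at hy
      rw [hy]
      exact h2
  obtain ⟨O, hOdef⟩ : ∃ O : Set G, O = {y | ∃ e ∈ Q x, y = e * z * e⁻¹} := ⟨_, rfl⟩
  have hOE : ∀ h ∈ Q x, ∀ y ∈ O, h * y * h⁻¹ ∈ O := by
    intro h hh y hy
    rw [hOdef] at hy ⊢
    obtain ⟨e, he, rfl⟩ := hy
    exact ⟨h * e, (Q x).mul_mem hh he, by group⟩
  have hzfixR : ∀ h ∈ R, h * z * h⁻¹ = z := by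
    intro h hh
    rw [← hzc h ((hRmem h).mp hh).1, mul_inv_cancel_right]
  have hOR : ∀ h ∈ R, ∀ y ∈ O, h * y * h⁻¹ ∈ O := by
    intro h hh y hy
    obtain ⟨hhQ, hhx⟩ := (hRmem h).mp hh
    rw [hOdef] at hy ⊢
    obtain ⟨e, he, rfl⟩ := hy
    refine ⟨h * e * h⁻¹, hnorm x h e hhx.symm he, ?_⟩
    calc h * (e * z * e⁻¹) * h⁻¹ = (h * e * h⁻¹) * (h * z * h⁻¹) * (h * e * h⁻¹)⁻¹ := by group
      _ = h * e * h⁻¹ * z * (h * e * h⁻¹)⁻¹ := by rw [hzfixR h hh]
  have hO0 : O.ncard ≡ 0 [MOD 2] := by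
    have h1 := fp9 (Q x) hpE O hOE
    have h2 : {y | y ∈ O ∧ ∀ h ∈ Q x, h * y * h⁻¹ = y} = ∅ := by
      ext y
      simp only [Set.mem_setOf_eq, Set.mem_empty_iff_false, iff_false]
      rintro ⟨hy, hfix⟩
      rw [hOdef] at hy
      obtain ⟨e, he, rfl⟩ := hy
      have h3 : e * z * e⁻¹ ∈ Q x := hCE _ (fun e' he' =>
        (mul_inv_eq_iff_eq_mul.mp (hfix e' he')).symm)
      apply hzE
      have h4 := (Q x).mul_mem ((Q x).mul_mem ((Q x).inv_mem he) h3) he
      rw [show e⁻¹ * (e * z * e⁻¹) * e = z by group] at h4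
      exact h4
    rw [h2, Set.ncard_empty] at h1
    exact h1
  have hFR := fp9 R hpR O hOR
  obtain ⟨z', hz'O, hz'fix, hz'z⟩ : ∃ z', z' ∈ O ∧ (∀ h ∈ R, h * z' * h⁻¹ = z') ∧ z' ≠ z := by
    by_contra hcon
    push Not at hcon
    have hzO : z ∈ O := by
      rw [hOdef]
      exact ⟨1, (Q x).one_mem, by group⟩
    have h2 : {y | y ∈ O ∧ ∀ h ∈ R, h * y * h⁻¹ = y} = {z} := by
      ext y
      simp only [Set.mem_setOf_eq, Set.mem_singleton_iff]
      constructor
      · rintro ⟨h1, h2⟩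
        exact hcon y h1 h2
      · intro h
        rw [h]
        exact ⟨hzO, hzfixR⟩
    rw [h2, Set.ncard_singleton] at hFR
    have h3 := hFR.symm.trans hO0
    exact absurd h3 (by decide)
  rw [hOdef] at hz'O
  obtain ⟨e, he, hz'e⟩ := hz'O
  obtain ⟨p, hpdef⟩ : ∃ p, p = e * z * e⁻¹ * z⁻¹ := ⟨_, rfl⟩
  have hz'p : z' = p * z := by
    rw [hpdef, hz'e]
    group
  have hpE' : p ∈ Q x := by
    rw [hpdef]
    have h1 : z * e⁻¹ * z⁻¹ ∈ Q x := hnorm x z e⁻¹ hxz.symm ((Q x).inv_mem he)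
    have h2 := (Q x).mul_mem he h1
    rw [show e * (z * e⁻¹ * z⁻¹) = e * z * e⁻¹ * z⁻¹ by group] at h2
    exact h2
  have hp1 : p ≠ 1 := by
    intro h
    apply hz'z
    rw [hz'p, h, one_mul]
  have hzR : z ∈ R := (hRmem z).mpr ⟨hzQ, hxz⟩
  have hpfix : ∀ r ∈ R, r * p * r⁻¹ = p := by
    intro r hr
    have h1 := hz'fix r hr
    have h2 := hzfixR r hr
    have h3 : p = z' * z⁻¹ := by
      rw [hz'p]
      group
    calc r * p * r⁻¹ = (r * z' * r⁻¹) * (r * z * r⁻¹)⁻¹ := by rw [h3]; group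
      _ = z' * z⁻¹ := by rw [h1, h2]
      _ = p := h3.symm
  have hpz : p * z = z * p := (mul_inv_eq_iff_eq_mul.mp (hpfix z hzR)).symm
  have hpfix' : ∀ r ∈ R, p * r * p⁻¹ = r := fun r hr =>
    mul_inv_eq_iff_eq_mul.mpr (mul_inv_eq_iff_eq_mul.mp (hpfix r hr)).symm
  have hpQ : ∀ v ∈ Q z, p * v * p⁻¹ ∈ Q z := fun v hv => hnorm z p v hpz hv
  have hRnorm : ∀ v ∈ Q z, ∀ k ∈ R, v * k * v⁻¹ ∈ R := by
    intro v hv k hk
    obtain ⟨hkQ, hkx⟩ := (hRmem k).mp hk
    rcases P1 v hv k hkQ with h | h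
    · have h' : v * k * v⁻¹ = k := mul_inv_eq_one.mp h
      rw [h']
      exact hk
    · have h' : v * k * v⁻¹ = z * k := mul_inv_eq_iff_eq_mul.mp h
      rw [h']
      exact R.mul_mem hzR hk
  have hsq : ∀ v ∈ Q z, ∀ b ∈ Q z, b * (v * v) * b⁻¹ = v * v := by
    intro v hv b hb
    rcases P1 b hb v hv with h | h
    · have h' : b * v * b⁻¹ = v := mul_inv_eq_one.mp h
      calc b * (v * v) * b⁻¹ = (b * v * b⁻¹) * (b * v * b⁻¹) := by group
        _ = v * v := by rw [h']
    · have h' : b * v * b⁻¹ = z * v := mul_inv_eq_iff_eq_mul.mp h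
      calc b * (v * v) * b⁻¹ = (b * v * b⁻¹) * (b * v * b⁻¹) := by group
        _ = (z * v) * (z * v) := by rw [h']
        _ = z * (v * z) * v := by group
        _ = z * (z * v) * v := by rw [← hzc v hv]
        _ = (z * z) * (v * v) := by group
        _ = v * v := by rw [hz2, one_mul]
  have hv2 : ∀ v ∈ Q z, v * v = 1 ∨ v * v = z := fun v hv =>
    P2 (v * v) ((Q z).mul_mem hv hv)
      (fun b hb => (mul_inv_eq_iff_eq_mul.mp (hsq v hv b hb)).symm)
  have hxnc : ∀ v ∈ Q z, ¬ x * v = v * x → x * v * x⁻¹ = z * v := by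
    intro v hv hc
    rcases P1 x hx v hv with h | h
    · exact absurd (mul_inv_eq_iff_eq_mul.mp (mul_inv_eq_one.mp h)) hc
    · exact mul_inv_eq_iff_eq_mul.mp h
  have hm : ∀ v ∈ Q z, p * v * p⁻¹ * v⁻¹ = 1 ∨ p * v * p⁻¹ * v⁻¹ = z := by
    intro v hv
    obtain ⟨m, hmdef⟩ : ∃ m, m = p * v * p⁻¹ * v⁻¹ := ⟨_, rfl⟩
    rw [← hmdef]
    have hmQ : m ∈ Q z := by
      rw [hmdef]
      exact (Q z).mul_mem (hpQ v hv) ((Q z).inv_mem hv)
    have hpv : p * v * p⁻¹ = m * v := by
      rw [hmdef]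
      group
    have hmR : ∀ k ∈ Q z, k * x = x * k → m * k = k * m := by
      intro k hk hkx
      have hkR : k ∈ R := (hRmem k).mpr ⟨hk, hkx.symm⟩
      have hk'R : v⁻¹ * k * v ∈ R := by
        have h := hRnorm v⁻¹ ((Q z).inv_mem hv) k hkR
        rw [inv_inv] at h
        exact h
      have h1' := cjinv p _ (hpfix' _ hk'R)
      have h2 := hpfix' k hkR
      have h3 : m * k * m⁻¹ = k := by
        calc m * k * m⁻¹ = (p * v * p⁻¹) * (v⁻¹ * k * v) * (p * v * p⁻¹)⁻¹ := by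
              rw [hpv]
              group
          _ = p * (v * (p⁻¹ * (v⁻¹ * k * v) * p) * v⁻¹) * p⁻¹ := by group
          _ = p * (v * (v⁻¹ * k * v) * v⁻¹) * p⁻¹ := by rw [h1']
          _ = p * k * p⁻¹ := by group
          _ = k := h2
      exact mul_inv_eq_iff_eq_mul.mp h3
    have hpvv : p * (v * v) * p⁻¹ = v * v := by
      rcases hv2 v hv with h | h
      · rw [h]
        group
      · rw [h, hpz, mul_inv_cancel_right]
    have hmv : m * v * (m * v) = v * v := by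
      calc m * v * (m * v) = p * (v * v) * p⁻¹ := by
            rw [← hpv]
            group
        _ = v * v := hpvv
    have hvx : m ≠ 1 → x * v * x⁻¹ = z * v := by
      intro hm1
      apply hxnc v hv
      intro hc
      apply hm1
      have hvR : v ∈ R := (hRmem v).mpr ⟨hv, hc⟩
      rw [hmdef, hpfix' v hvR, mul_inv_cancel]
    have hxvxv : m ≠ 1 → x * v * (x * v) = z * (v * v) := by
      intro hm1
      calc x * v * (x * v) = (x * v * x⁻¹) * (x * x) * v := by group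
        _ = z * v * 1 * v := by rw [hvx hm1, hx2]
        _ = z * (v * v) := by group
    have hfin : x * v * (x * v) = v * v → m ≠ 1 → False := by
      intro h1 hm1
      have h2 := hxvxv hm1
      rw [h1] at h2
      apply hz1
      have h3 : (1 : G) * (v * v) = z * (v * v) := by
        rw [one_mul]
        exact h2
      exact (mul_right_cancel h3).symm
    rcases les_lm9 (Q z) z x hzc P1 P2 hx hx2 hz2 m hmQ hmR with h | h | h | h
    · exact Or.inl h
    · exact Or.inr h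
    · exfalso
      rw [h] at hmv
      exact hfin hmv (by rw [h]; exact hx1)
    · exfalso
      have hm1 : m ≠ 1 := by
        rw [h]
        intro h'
        apply hxz'
        rw [← hzi]
        exact eq_inv_of_mul_eq_one_left h'
      rw [h] at hmv
      apply hfin _ hm1
      calc x * v * (x * v) = x * v * (x * v) * (z * z) := by rw [hz2, mul_one]
        _ = x * (v * z) * x * (v * z) := by
            rw [← hzc v hv]
            calc x * v * (x * v) * (z * z) = x * v * x * ((v * z) * z) := by group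
              _ = x * v * x * ((z * v) * z) := by rw [hzc v hv]
              _ = x * v * (x * z) * (v * z) := by group
              _ = x * v * (z * x) * (v * z) := by rw [hxz]
              _ = x * (v * z) * x * (v * z) := by group
              _ = x * (z * v) * x * (z * v) := by rw [hzc v hv]
        _ = x * z * v * (x * z * v) := by
            rw [← hzc v hv]
            group
        _ = v * v := hmv
  by_cases hall : ∀ v ∈ Q z, p * v * p⁻¹ * v⁻¹ = 1
  · have hpc : p ∈ Subgroup.centralizer ((Q z : Subgroup G) : Set G) := by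
      rw [Subgroup.mem_centralizer_iff]
      intro v hv
      exact (mul_inv_eq_iff_eq_mul.mp (mul_inv_eq_one.mp (hall v hv))).symm
    have hpQz := hC hpc
    rcases P2 p hpQz
      (fun b hb => mul_inv_eq_iff_eq_mul.mp (mul_inv_eq_one.mp (hall b hb))) with h | h
    · exact hp1 h
    · exact hzE (h ▸ hpE')
  · push Not at hall
    obtain ⟨v₀, hv₀, hv₀m⟩ := hall
    have hv₀z : p * v₀ * p⁻¹ * v₀⁻¹ = z := (hm v₀ hv₀).resolve_left hv₀m
    have hpv₀ : p * v₀ * p⁻¹ = z * v₀ := mul_inv_eq_iff_eq_mul.mp hv₀z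
    have hc₀ : ¬ x * v₀ = v₀ * x := by
      intro hc₀
      have hv₀R : v₀ ∈ R := (hRmem v₀).mpr ⟨hv₀, hc₀⟩
      apply hv₀m
      rw [hpfix' v₀ hv₀R, mul_inv_cancel]
    have hxv₀ : x * v₀ * x⁻¹ = z * v₀ := hxnc v₀ hv₀ hc₀
    have hxp : ∀ v ∈ Q z, p * v * p⁻¹ = x * v * x⁻¹ := by
      intro v hv
      by_cases hc : x * v = v * x
      · have hvR : v ∈ R := (hRmem v).mpr ⟨hv, hc⟩
        rw [hpfix' v hvR, hc, mul_inv_cancel_right]
      · have hxv : x * v * x⁻¹ = z * v := hxnc v hv hc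
        rw [hxv]
        rcases hm v hv with h | h
        · exfalso
          have hpv : p * v * p⁻¹ = v := mul_inv_eq_one.mp h
          have hwR : v₀⁻¹ * v ∈ R := by
            refine (hRmem _).mpr ⟨(Q z).mul_mem ((Q z).inv_mem hv₀) hv, ?_⟩
            have h5 : x * (v₀⁻¹ * v) * x⁻¹ = v₀⁻¹ * v := by
              calc x * (v₀⁻¹ * v) * x⁻¹ = (x * v₀ * x⁻¹)⁻¹ * (x * v * x⁻¹) := by group
                _ = (z * v₀)⁻¹ * (z * v) := by rw [hxv₀, hxv]
                _ = v₀⁻¹ * v := by group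
            exact mul_inv_eq_iff_eq_mul.mp h5
          have h6 := hpfix' _ hwR
          have h7 : p * (v₀⁻¹ * v) * p⁻¹ = (z * v₀)⁻¹ * v := by
            calc p * (v₀⁻¹ * v) * p⁻¹ = (p * v₀ * p⁻¹)⁻¹ * (p * v * p⁻¹) := by group
              _ = (z * v₀)⁻¹ * v := by rw [hpv₀, hpv]
          rw [h6] at h7
          apply hz1
          have h8 : v₀⁻¹ * v = v₀⁻¹ * (z⁻¹ * v) := by
            rw [h7]
            group
          have h9 := mul_left_cancel h8
          have h10 : (1 : G) * v = z⁻¹ * v := by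
            rw [one_mul]
            exact h9
          have h11 := mul_right_cancel h10
          rw [← hzi, ← h11]
        · exact mul_inv_eq_iff_eq_mul.mp h
    have hxpc : x⁻¹ * p ∈ Subgroup.centralizer ((Q z : Subgroup G) : Set G) := by
      rw [Subgroup.mem_centralizer_iff]
      intro v hv
      have h1 := hxp v hv
      have h2 : (x⁻¹ * p) * v * (x⁻¹ * p)⁻¹ = v := by
        calc (x⁻¹ * p) * v * (x⁻¹ * p)⁻¹ = x⁻¹ * (p * v * p⁻¹) * x := by group
          _ = x⁻¹ * (x * v * x⁻¹) * x := by rw [h1]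
          _ = v := by group
      exact (mul_inv_eq_iff_eq_mul.mp h2).symm
    have hxpQ := hC hxpc
    have hxpcen : ∀ b ∈ Q z, (x⁻¹ * p) * b = b * (x⁻¹ * p) := fun b hb =>
      (Subgroup.mem_centralizer_iff.mp hxpc b hb).symm
    rcases P2 _ hxpQ hxpcen with h | h
    · have hpx : p = x := (inv_mul_eq_one.mp h).symm
      have hezx : e * z * e⁻¹ = x * z := by
        have h1 : e * z * e⁻¹ * z⁻¹ = x := by
          rw [← hpdef]
          exact hpx
        exact mul_inv_eq_iff_eq_mul.mp h1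
      have hxnc' : ¬ ∀ b ∈ Q z, x * b = b * x := fun h => by
        rcases P2 x hx h with h' | h'
        · exact hx1 h'
        · exact hxz' h'
      push Not at hxnc'
      obtain ⟨q, hq, hqx⟩ := hxnc'
      have hqxq : q * x * q⁻¹ = z * x := by
        rcases P1 q hq x hx with h | h
        · exact absurd (mul_inv_eq_iff_eq_mul.mp (mul_inv_eq_one.mp h)).symm hqx
        · exact mul_inv_eq_iff_eq_mul.mp h
      have hqz : q * z * q⁻¹ = z := by
        rw [← hzc q hq, mul_inv_cancel_right]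
      have hex : e * x * e⁻¹ = x := by
        rw [← hEx e he, mul_inv_cancel_right]
      have hzxz : z * x * z = x := by
        rw [← hxz, mul_assoc, hz2, mul_one]
      have hqxz : q * (x * z) * q⁻¹ = x := by
        calc q * (x * z) * q⁻¹ = (q * x * q⁻¹) * (q * z * q⁻¹) := by group
          _ = z * x * z := by rw [hqxq, hqz]
          _ = x := hzxz
      have h1 : (q * e * q⁻¹) * z * (q * e * q⁻¹)⁻¹ = x := by
        calc (q * e * q⁻¹) * z * (q * e * q⁻¹)⁻¹
            = q * (e * (q⁻¹ * z * q) * e⁻¹) * q⁻¹ := by group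
          _ = q * (e * z * e⁻¹) * q⁻¹ := by rw [cjinv q z hqz]
          _ = q * (x * z) * q⁻¹ := by rw [hezx]
          _ = x := hqxz
      have hqix : q⁻¹ * x * q = x * z := by
        calc q⁻¹ * x * q = q⁻¹ * (q * (x * z) * q⁻¹) * q := by rw [hqxz]
          _ = x * z := by group
      have h2 : (q * e * q⁻¹) * x * (q * e * q⁻¹)⁻¹ = z := by
        calc (q * e * q⁻¹) * x * (q * e * q⁻¹)⁻¹
            = q * (e * (q⁻¹ * x * q) * e⁻¹) * q⁻¹ := by group
          _ = q * (e * (x * z) * e⁻¹) * q⁻¹ := by rw [hqix]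
          _ = q * ((e * x * e⁻¹) * (e * z * e⁻¹)) * q⁻¹ := by group
          _ = q * (x * (x * z)) * q⁻¹ := by rw [hex, hezx]
          _ = q * z * q⁻¹ := by rw [← mul_assoc x x z, hx2, one_mul]
          _ = z := hqz
      have h3 := hEq (q * e * q⁻¹) z x hx
      rw [h1, h2] at h3
      exact hzE h3
    · have hpxz : p = x * z := eq_mul_of_inv_mul_eq h
      apply hzE
      have h1 := (Q x).mul_mem ((Q x).inv_mem hxE) hpE'
      rw [hpxz, inv_mul_cancel_left] at h1
      exact h1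

end Cfsg.Agent.Helper9
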