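import Mathlib
import Cfsg.Prelude.Def_GeometricClasses

set_option autoImplicit false

namespace Cfsg.Agent.Helper9

open Cfsg
open scoped MatrixGroups Matrix

variable {n : ℕ} {F : Type*} [Field F]

/-- A transvection as an element of `GL` of determinant one. -/
theorem exists_transv9 (φ : Module.Dual F (Fin n → F)) (v : Fin n → F) (h : φ v = 0) :
    ∃ g : GL (Fin n) F, g ∈ Cfsg.Geo.specialLinear (Fin n) F ∧
      ∀ x : Fin n → F, (g : Matrix (Fin n) (Fin n) F) *ᵥ x = x + φ x • v := by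
  let e := LinearEquiv.transvection h
  have hAB : LinearMap.toMatrix' (e : (Fin n → F) →ₗ[F] (Fin n → F)) *
      LinearMap.toMatrix' (e.symm : (Fin n → F) →ₗ[F] (Fin n → F)) = 1 := by
    rw [← LinearMap.toMatrix'_comp]
    simp
  have hBA : LinearMap.toMatrix' (e.symm : (Fin n → F) →ₗ[F] (Fin n → F)) *
      LinearMap.toMatrix' (e : (Fin n → F) →ₗ[F] (Fin n → F)) = 1 := by
    rw [← LinearMap.toMatrix'_comp]
    simp
  refine ⟨⟨LinearMap.toMatrix' (e : (Fin n → F) →ₗ[F] (Fin n → F)),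
    LinearMap.toMatrix' (e.symm : (Fin n → F) →ₗ[F] (Fin n → F)), hAB, hBA⟩, ?_, ?_⟩
  · rw [Cfsg.Geo.specialLinear, MonoidHom.mem_ker]
    apply Units.ext
    rw [Matrix.GeneralLinearGroup.val_det_apply]
    show (LinearMap.toMatrix' (e : (Fin n → F) →ₗ[F] (Fin n → F))).det = 1
    rw [LinearMap.det_toMatrix']
    have h1 := LinearEquiv.transvection.det_eq_one h
    have h2 := congrArg Units.val h1
    rw [LinearEquiv.coe_det] at h2
    exact h2
  · intro x
    show LinearMap.toMatrix' (e : (Fin n → F) →ₗ[F] (Fin n → F)) *ᵥ x = _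
    rw [← Matrix.toLin'_apply, Matrix.toLin'_toMatrix']
    exact LinearEquiv.transvection.apply h x

theorem mem_subspaceStabilizer9 {W : Submodule F (Fin n → F)} {g : GL (Fin n) F} :
    g ∈ Cfsg.Geo.subspaceStabilizer W ↔
      ∀ x : Fin n → F, x ∈ W ↔ (g : Matrix (Fin n) (Fin n) F) *ᵥ x ∈ W := Iff.rfl

/-- A proper non-zero subspace is not stabilised by the whole special linear group. -/
theorem exists_not_stab9 (W : Submodule F (Fin n → F)) (hW0 : W ≠ ⊥) (hW1 : W ≠ ⊤) :
    ∃ g : GL (Fin n) F, g ∈ Cfsg.Geo.specialLinear (Fin n) F ∧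
      g ∉ Cfsg.Geo.subspaceStabilizer W := by
  obtain ⟨w, hwW, hw0⟩ := (Submodule.ne_bot_iff W).mp hW0
  obtain ⟨v, hv⟩ : ∃ v : Fin n → F, v ∉ W := by
    by_contra hcon
    push_neg at hcon
    exact hW1 (eq_top_iff.mpr fun x _ => hcon x)
  have hw : w ∉ Submodule.span F {v} := by
    intro hmem
    obtain ⟨c, hc⟩ := Submodule.mem_span_singleton.mp hmem
    by_cases hc0 : c = 0
    · rw [hc0, zero_smul] at hc
      exact hw0 hc.symm
    · apply hv
      have : v = c⁻¹ • w := by
        rw [← hc, smul_smul, inv_mul_cancel₀ hc0, one_smul]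
      rw [this]
      exact W.smul_mem _ hwW
  obtain ⟨φ, hφw, hφ⟩ := Submodule.exists_dual_map_eq_bot_of_notMem hw inferInstance
  have hφv : φ v = 0 := by
    have : φ v ∈ (Submodule.span F {v}).map φ :=
      Submodule.mem_map_of_mem (Submodule.mem_span_singleton_self v)
    rw [hφ] at this
    exact (Submodule.mem_bot F).mp this
  obtain ⟨g, hg1, hg2⟩ := exists_transv9 φ v hφv
  refine ⟨g, hg1, fun hstab => ?_⟩
  have h1 := (mem_subspaceStabilizer9.mp hstab w).mp hwW
  rw [hg2] at h1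
  have h2 : φ w • v ∈ W := by
    have := W.sub_mem h1 hwW
    simpa using this
  apply hv
  have : v = (φ w)⁻¹ • (φ w • v) := by
    rw [smul_smul, inv_mul_cancel₀ hφw, one_smul]
  rw [this]
  exact W.smul_mem _ h2

/-- An element of the special linear group stabilising `W` but not `U`. -/
theorem exists_stab_not_stab9 (W U : Submodule F (Fin n → F)) (u v : Fin n → F) (hu : u ∈ U)
    (huW : u ∉ W ⊔ Submodule.span F {v}) (hv : v ∉ U) :
    ∃ g : GL (Fin n) F, g ∈ Cfsg.Geo.subspaceStabilizer W ⊓ Cfsg.Geo.specialLinear (Fin n) F ∧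
      g ∉ Cfsg.Geo.subspaceStabilizer U := by
  obtain ⟨φ, hφu, hφ⟩ := Submodule.exists_dual_map_eq_bot_of_notMem huW inferInstance
  have hφ0 : ∀ x ∈ W ⊔ Submodule.span F {v}, φ x = 0 := by
    intro x hx
    have : φ x ∈ (W ⊔ Submodule.span F {v}).map φ := Submodule.mem_map_of_mem hx
    rw [hφ] at this
    exact (Submodule.mem_bot F).mp this
  have hφv : φ v = 0 :=
    hφ0 v (Submodule.mem_sup_right (Submodule.mem_span_singleton_self v))
  have hφW : ∀ x ∈ W, φ x = 0 := fun x hx => hφ0 x (Submodule.mem_sup_left hx)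
  obtain ⟨g, hg1, hg2⟩ := exists_transv9 φ v hφv
  have hgW : g ∈ Cfsg.Geo.subspaceStabilizer W := by
    rw [mem_subspaceStabilizer9]
    intro x
    rw [hg2]
    constructor
    · intro hx
      rw [hφW x hx, zero_smul, add_zero]
      exact hx
    · intro hx
      have h1 := hφW _ hx
      rw [map_add, map_smul, hφv, smul_zero, add_zero] at h1
      rw [h1, zero_smul, add_zero] at hx
      exact hx
  refine ⟨g, Subgroup.mem_inf.mpr ⟨hgW, hg1⟩, fun hstab => ?_⟩
  · have h1 := (mem_subspaceStabilizer9.mp hstab u).mp hu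
    rw [hg2] at h1
    have h2 : φ u • v ∈ U := by
      have := U.sub_mem h1 hu
      simpa using this
    apply hv
    have : v = (φ u)⁻¹ • (φ u • v) := by
      rw [smul_smul, inv_mul_cancel₀ hφu, one_smul]
    rw [this]
    exact U.smul_mem _ h2

/-- The stabiliser of `W` in the special linear group lies strictly between a smaller stabiliser
and the special linear group. -/
theorem stab_between9 (W U : Submodule F (Fin n → F)) (hW0 : W ≠ ⊥) (hW1 : W ≠ ⊤)
    (u v : Fin n → F) (hu : u ∈ U) (huW : u ∉ W ⊔ Submodule.span F {v}) (hv : v ∉ U) :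
    ∃ K : Subgroup (GL (Fin n) F),
      Cfsg.Geo.subspaceStabilizer W ⊓ Cfsg.Geo.subspaceStabilizer U ⊓
        Cfsg.Geo.specialLinear (Fin n) F < K ∧ K < Cfsg.Geo.specialLinear (Fin n) F := by
  refine ⟨Cfsg.Geo.subspaceStabilizer W ⊓ Cfsg.Geo.specialLinear (Fin n) F, ?_, ?_⟩
  · refine lt_of_le_of_ne (inf_le_inf_right _ inf_le_left) fun heq => ?_
    obtain ⟨g, hg1, hg2⟩ := exists_stab_not_stab9 W U u v hu huW hv
    rw [← heq] at hg1
    exact hg2 hg1.1.2
  · refine lt_of_le_of_ne inf_le_right fun heq => ?_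
    obtain ⟨g, hg1, hg2⟩ := exists_not_stab9 W hW0 hW1
    rw [← heq] at hg1
    exact hg2 hg1.1

end Cfsg.Agent.Helper9
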