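import Mathlib
import Cfsg.Agent.Helper9.Transv9

set_option autoImplicit false

namespace Cfsg.Agent.Helper9

open Cfsg
open scoped MatrixGroups Matrix

variable {n : ℕ} {F : Type*} [Field F]

theorem gl_mul_vec9 (g h : GL (Fin n) F) (x : Fin n → F) :
    ((g * h : GL (Fin n) F) : Matrix (Fin n) (Fin n) F) *ᵥ x =
      (g : Matrix (Fin n) (Fin n) F) *ᵥ ((h : Matrix (Fin n) (Fin n) F) *ᵥ x) := by
  rw [Units.val_mul, Matrix.mulVec_mulVec]

theorem gl_inv_mul_vec9 (g : GL (Fin n) F) (x : Fin n → F) :
    ((g⁻¹ : GL (Fin n) F) : Matrix (Fin n) (Fin n) F) *ᵥ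
      ((g : Matrix (Fin n) (Fin n) F) *ᵥ x) = x := by
  rw [Matrix.mulVec_mulVec, ← Units.val_mul, inv_mul_cancel, Units.val_one, Matrix.one_mulVec]

theorem gl_mul_inv_vec9 (g : GL (Fin n) F) (x : Fin n → F) :
    (g : Matrix (Fin n) (Fin n) F) *ᵥ
      (((g⁻¹ : GL (Fin n) F) : Matrix (Fin n) (Fin n) F) *ᵥ x) = x := by
  rw [Matrix.mulVec_mulVec, ← Units.val_mul, mul_inv_cancel, Units.val_one, Matrix.one_mulVec]

theorem gl_one_vec9 (x : Fin n → F) :
    ((1 : GL (Fin n) F) : Matrix (Fin n) (Fin n) F) *ᵥ x = x := by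
  rw [Units.val_one, Matrix.one_mulVec]

theorem exists_dual_one9 {V : Type*} [AddCommGroup V] [Module F V] (M : Submodule F V) (x : V)
    (hx : x ∉ M) : ∃ φ : Module.Dual F V, φ x = 1 ∧ ∀ y ∈ M, φ y = 0 := by
  obtain ⟨φ, hφx, hφ⟩ := Submodule.exists_dual_map_eq_bot_of_notMem hx inferInstance
  refine ⟨(φ x)⁻¹ • φ, ?_, ?_⟩
  · simp [hφx]
  · intro y hy
    have : φ y ∈ M.map φ := Submodule.mem_map_of_mem hy
    rw [hφ] at this
    have h0 := (Submodule.mem_bot F).mp this
    simp [h0]

/-- If a `GL` element maps `W` into itself then it stabilises `W`. -/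
theorem stab_of_maps9 (W : Submodule F (Fin n → F)) (a : GL (Fin n) F)
    (h : ∀ x ∈ W, (a : Matrix (Fin n) (Fin n) F) *ᵥ x ∈ W) :
    a ∈ Cfsg.Geo.subspaceStabilizer W := by
  rw [mem_subspaceStabilizer9]
  intro x
  refine ⟨h x, fun hx => ?_⟩
  let f : W →ₗ[F] W := (Matrix.toLin' (a : Matrix (Fin n) (Fin n) F)).restrict
    (fun y hy => by rw [Matrix.toLin'_apply]; exact h y hy)
  have hinj : Function.Injective f := by
    intro y z hyz
    have h1 : (a : Matrix (Fin n) (Fin n) F) *ᵥ (y : Fin n → F) =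
        (a : Matrix (Fin n) (Fin n) F) *ᵥ (z : Fin n → F) := by
      have := congrArg Subtype.val hyz
      simpa [f, LinearMap.restrict_apply] using this
    have h2 := congrArg (fun t => ((a⁻¹ : GL (Fin n) F) : Matrix (Fin n) (Fin n) F) *ᵥ t) h1
    simp only [gl_inv_mul_vec9] at h2
    exact Subtype.ext h2
  have hsurj : Function.Surjective f := LinearMap.surjective_of_injective hinj
  obtain ⟨w, hw⟩ := hsurj ⟨_, hx⟩
  have h1 : (a : Matrix (Fin n) (Fin n) F) *ᵥ (w : Fin n → F) =
      (a : Matrix (Fin n) (Fin n) F) *ᵥ x := by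
    have := congrArg Subtype.val hw
    simpa [f, LinearMap.restrict_apply] using this
  have h2 := congrArg (fun t => ((a⁻¹ : GL (Fin n) F) : Matrix (Fin n) (Fin n) F) *ᵥ t) h1
  simp only [gl_inv_mul_vec9] at h2
  rw [← h2]
  exact w.2

/-- Moving a vector outside `W` to another one, up to a scalar, inside the stabiliser. -/
theorem move_outside9 (W : Submodule F (Fin n → F)) (u v : Fin n → F) (hu : u ∉ W) (hv : v ∉ W) :
    ∃ t : GL (Fin n) F, t ∈ Cfsg.Geo.subspaceStabilizer W ⊓ Cfsg.Geo.specialLinear (Fin n) F ∧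
      ∃ c : F, (t : Matrix (Fin n) (Fin n) F) *ᵥ (c • u) = v := by
  by_cases hcase : v ∈ W ⊔ Submodule.span F {u}
  · obtain ⟨w, hw, z, hz, hwz⟩ := Submodule.mem_sup.mp hcase
    obtain ⟨c, hc⟩ := Submodule.mem_span_singleton.mp hz
    have hx : c • u ∉ Submodule.span F {w} := by
      intro hmem
      have h1 : c • u ∈ W := (Submodule.span_singleton_le_iff_mem w W).mpr hw hmem
      apply hv
      rw [← hwz, ← hc]
      exact W.add_mem hw h1
    obtain ⟨φ, hφ1, hφ0⟩ := exists_dual_one9 _ _ hx
    have hφw : φ w = 0 := hφ0 w (Submodule.mem_span_singleton_self w)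
    obtain ⟨g, hg1, hg2⟩ := exists_transv9 φ w hφw
    refine ⟨g, Subgroup.mem_inf.mpr ⟨?_, hg1⟩, c, ?_⟩
    · rw [mem_subspaceStabilizer9]
      intro x
      rw [hg2]
      constructor
      · intro hx'
        exact W.add_mem hx' (W.smul_mem _ hw)
      · intro hx'
        have := W.sub_mem hx' (W.smul_mem (φ x) hw)
        simpa using this
    · rw [hg2, hφ1, one_smul, hc, add_comm, hwz]
  · have hx : u ∉ W ⊔ Submodule.span F {v - u} := by
      intro hmem
      obtain ⟨w, hw, z, hz, hwz⟩ := Submodule.mem_sup.mp hmem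
      obtain ⟨c, hc⟩ := Submodule.mem_span_singleton.mp hz
      by_cases hc0 : c = 0
      · apply hu
        rw [← hwz, ← hc, hc0, zero_smul, add_zero]
        exact hw
      · apply hcase
        have hv' : v = c⁻¹ • ((1 + c) • u - w) := by
          have h1 : c • v = (1 + c) • u - w := by
            have h2 : u = w + c • (v - u) := by rw [hc, hwz]
            rw [smul_sub] at h2
            rw [add_smul, one_smul]
            have h3 : c • v = u - w + c • u := by
              calc c • v = (w + (c • v - c • u)) - w + c • u := by abel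
                _ = u - w + c • u := by rw [← h2]
            rw [h3]
            abel
          rw [← h1, smul_smul, inv_mul_cancel₀ hc0, one_smul]
        rw [hv']
        refine Submodule.smul_mem _ _ (Submodule.sub_mem _ ?_ (Submodule.mem_sup_left hw))
        exact Submodule.mem_sup_right (Submodule.smul_mem _ _ (Submodule.mem_span_singleton_self u))
    obtain ⟨φ, hφ1, hφ0⟩ := exists_dual_one9 _ _ hx
    have hφvu : φ (v - u) = 0 :=
      hφ0 _ (Submodule.mem_sup_right (Submodule.mem_span_singleton_self _))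
    have hφW : ∀ x ∈ W, φ x = 0 := fun x hx' => hφ0 x (Submodule.mem_sup_left hx')
    obtain ⟨g, hg1, hg2⟩ := exists_transv9 φ (v - u) hφvu
    refine ⟨g, Subgroup.mem_inf.mpr ⟨?_, hg1⟩, 1, ?_⟩
    · rw [mem_subspaceStabilizer9]
      intro x
      rw [hg2]
      constructor
      · intro hx'
        rw [hφW x hx', zero_smul, add_zero]
        exact hx'
      · intro hx'
        have h1 := hφW _ hx'
        rw [map_add, map_smul, hφvu, smul_zero, add_zero] at h1
        rw [h1, zero_smul, add_zero] at hx'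
        exact hx'
    · rw [one_smul, hg2, hφ1, one_smul]
      abel

/-- An overgroup of the stabiliser of `W` in `SL` which does not stabilise `W` contains all
transvections. -/
theorem transv_mem9 (W : Submodule F (Fin n → F)) (K : Subgroup (GL (Fin n) F))
    (hPK : Cfsg.Geo.subspaceStabilizer W ⊓ Cfsg.Geo.specialLinear (Fin n) F ≤ K)
    (hKS : K ≤ Cfsg.Geo.specialLinear (Fin n) F)
    (k : GL (Fin n) F) (hk : k ∈ K) (hkW : k ∉ Cfsg.Geo.subspaceStabilizer W)
    (φ : Module.Dual F (Fin n → F)) (v : Fin n → F) (hφv : φ v = 0) :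
    ∃ g ∈ K, ∀ x : Fin n → F, (g : Matrix (Fin n) (Fin n) F) *ᵥ x = x + φ x • v := by
  obtain ⟨g, hg1, hg2⟩ := exists_transv9 φ v hφv
  refine ⟨g, ?_, hg2⟩
  -- an element of `K` moving some vector of `W` outside
  obtain ⟨k', hk', w₀, hw₀, hkw₀⟩ : ∃ k' ∈ K, ∃ w₀ ∈ W,
      (k' : Matrix (Fin n) (Fin n) F) *ᵥ w₀ ∉ W := by
    rw [mem_subspaceStabilizer9] at hkW
    push_neg at hkW
    obtain ⟨x, hx⟩ := hkW
    rcases hx with ⟨h1, h2⟩ | ⟨h1, h2⟩
    · exact ⟨k, hk, x, h1, h2⟩
    · refine ⟨k⁻¹, K.inv_mem hk, _, h2, ?_⟩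
      rw [gl_inv_mul_vec9]
      exact h1
  by_cases hvW : v ∈ W
  · apply hPK
    refine Subgroup.mem_inf.mpr ⟨?_, hg1⟩
    rw [mem_subspaceStabilizer9]
    intro x
    rw [hg2]
    constructor
    · intro hx
      exact W.add_mem hx (W.smul_mem _ hvW)
    · intro hx
      have := W.sub_mem hx (W.smul_mem (φ x) hvW)
      simpa using this
  · obtain ⟨t, ht, c, htc⟩ := move_outside9 W _ v hkw₀ hvW
    have htK : t ∈ K := hPK ht
    set h : GL (Fin n) F := (t * k')⁻¹ with hh
    have hhK : h ∈ K := K.inv_mem (K.mul_mem htK hk')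
    have hhv : (h : Matrix (Fin n) (Fin n) F) *ᵥ v = c • w₀ := by
      have h1 : v = ((t * k' : GL (Fin n) F) : Matrix (Fin n) (Fin n) F) *ᵥ (c • w₀) := by
        rw [gl_mul_vec9, Matrix.mulVec_smul, htc]
      rw [h1, hh, gl_inv_mul_vec9]
    have hg' : h * g * h⁻¹ ∈ K := by
      apply hPK
      refine Subgroup.mem_inf.mpr ⟨?_, ?_⟩
      · rw [mem_subspaceStabilizer9]
        intro x
        have e1 : ((h * g * h⁻¹ : GL (Fin n) F) : Matrix (Fin n) (Fin n) F) *ᵥ x =
            x + φ (((h⁻¹ : GL (Fin n) F) : Matrix (Fin n) (Fin n) F) *ᵥ x) • (c • w₀) := by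
          rw [gl_mul_vec9, gl_mul_vec9, hg2, Matrix.mulVec_add, Matrix.mulVec_smul, hhv]
          have : (h : Matrix (Fin n) (Fin n) F) *ᵥ
              (((h⁻¹ : GL (Fin n) F) : Matrix (Fin n) (Fin n) F) *ᵥ x) = x := gl_mul_inv_vec9 h x
          rw [this]
        rw [e1]
        constructor
        · intro hx
          exact W.add_mem hx (W.smul_mem _ (W.smul_mem _ hw₀))
        · intro hx
          have := W.sub_mem hx (W.smul_mem
            (φ (((h⁻¹ : GL (Fin n) F) : Matrix (Fin n) (Fin n) F) *ᵥ x)) (W.smul_mem c hw₀))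
          simpa using this
      · exact Subgroup.mul_mem _ (Subgroup.mul_mem _ (hKS hhK) hg1) (Subgroup.inv_mem _ (hKS hhK))
    have : g = h⁻¹ * (h * g * h⁻¹) * h := by group
    rw [this]
    exact K.mul_mem (K.mul_mem (K.inv_mem hhK) hg') hhK

/-- A subgroup containing all transvections moves any subspace into any other of the same
dimension. -/
theorem transv_trans9 (W : Submodule F (Fin n → F)) (K : Subgroup (GL (Fin n) F))
    (hT : ∀ (φ : Module.Dual F (Fin n → F)) (v : Fin n → F), φ v = 0 →
      ∃ g ∈ K, ∀ x : Fin n → F, (g : Matrix (Fin n) (Fin n) F) *ᵥ x = x + φ x • v) :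
    ∀ (d : ℕ) (U : Submodule F (Fin n → F)), Module.finrank F U = Module.finrank F W →
      Module.finrank F W ≤ Module.finrank F ↥(U ⊓ W) + d →
      ∃ h ∈ K, ∀ x ∈ U, (h : Matrix (Fin n) (Fin n) F) *ᵥ x ∈ W := by
  intro d
  induction d with
  | zero =>
    intro U hUW hd
    refine ⟨1, K.one_mem, fun x hx => ?_⟩
    rw [gl_one_vec9]
    have h1 : U ⊓ W = U := by
      apply Submodule.eq_of_le_of_finrank_le inf_le_left
      omega
    have h2 : U ≤ W := by
      rw [← h1]
      exact inf_le_right
    exact h2 hx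
  | succ d ih =>
    intro U hUW hd
    by_cases hle : U ≤ W
    · refine ⟨1, K.one_mem, fun x hx => ?_⟩
      rw [gl_one_vec9]
      exact hle hx
    · obtain ⟨u, huU, huW⟩ := Set.not_subset.mp hle
      have hle' : ¬ W ≤ U := by
        intro hWU
        apply hle
        have := Submodule.eq_of_le_of_finrank_le hWU (le_of_eq hUW)
        rw [this]
      obtain ⟨w, hwW, hwU⟩ := Set.not_subset.mp hle'
      have hx : u ∉ (U ⊓ W) ⊔ Submodule.span F {u - w} := by
        intro hmem
        obtain ⟨a, ha, z, hz, haz⟩ := Submodule.mem_sup.mp hmem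
        obtain ⟨c, hc⟩ := Submodule.mem_span_singleton.mp hz
        by_cases hc0 : c = 0
        · apply huW
          rw [← haz, ← hc, hc0, zero_smul, add_zero]
          exact ha.2
        · apply hwU
          have hw' : w = c⁻¹ • (a + (c - 1) • u) := by
            have h1 : c • w = a + (c - 1) • u := by
              have h2 : u = a + c • (u - w) := by rw [hc, haz]
              rw [smul_sub] at h2
              rw [sub_smul, one_smul]
              have h3 : c • w = a + c • u - u := by
                calc c • w = a + c • u - (a + (c • u - c • w)) := by abel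
                  _ = a + c • u - u := by rw [← h2]
              rw [h3]
              abel
            rw [← h1, smul_smul, inv_mul_cancel₀ hc0, one_smul]
          rw [hw']
          exact U.smul_mem _ (U.add_mem ha.1 (U.smul_mem _ huU))
      obtain ⟨φ, hφ1, hφ0⟩ := exists_dual_one9 _ _ hx
      have hφwu : φ (w - u) = 0 := by
        have h1 : φ (u - w) = 0 :=
          hφ0 _ (Submodule.mem_sup_right (Submodule.mem_span_singleton_self _))
        have h2 : w - u = -(u - w) := by abel
        rw [h2, map_neg, h1, neg_zero]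
      have hφI : ∀ x ∈ U ⊓ W, φ x = 0 := fun x hx' => hφ0 x (Submodule.mem_sup_left hx')
      obtain ⟨g, hgK, hg2⟩ := hT φ (w - u) hφwu
      have hinj : Function.Injective (Matrix.toLin' (g : Matrix (Fin n) (Fin n) F)) := by
        intro y z hyz
        rw [Matrix.toLin'_apply, Matrix.toLin'_apply] at hyz
        have h2 := congrArg (fun t => ((g⁻¹ : GL (Fin n) F) : Matrix (Fin n) (Fin n) F) *ᵥ t) hyz
        simp only [gl_inv_mul_vec9] at h2
        exact h2
      set U' : Submodule F (Fin n → F) := U.map (Matrix.toLin' (g : Matrix (Fin n) (Fin n) F))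
        with hU'
      have hU'fin : Module.finrank F U' = Module.finrank F W := by
        rw [← hUW]
        exact (Submodule.equivMapOfInjective _ hinj U).finrank_eq.symm
      have hmemU' : ∀ x ∈ U, (g : Matrix (Fin n) (Fin n) F) *ᵥ x ∈ U' := by
        intro x hx'
        rw [hU']
        refine Submodule.mem_map.mpr ⟨x, hx', ?_⟩
        rw [Matrix.toLin'_apply]
      have hlt : U ⊓ W < U' ⊓ W := by
        have hle1 : U ⊓ W ≤ U' ⊓ W := by
          intro a ha
          refine ⟨?_, ha.2⟩
          have := hmemU' a ha.1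
          rw [hg2, hφI a ha, zero_smul, add_zero] at this
          exact this
        refine lt_of_le_of_ne hle1 fun heq => ?_
        have hw1 : w ∈ U' ⊓ W := by
          refine ⟨?_, hwW⟩
          have := hmemU' u huU
          rw [hg2, hφ1, one_smul] at this
          have e : u + (w - u) = w := by abel
          rw [e] at this
          exact this
        rw [← heq] at hw1
        exact hwU hw1.1
      have hfin := Submodule.finrank_lt_finrank_of_lt hlt
      obtain ⟨h', hh'K, hh'⟩ := ih U' hU'fin (by omega)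
      refine ⟨h' * g, K.mul_mem hh'K hgK, fun x hx' => ?_⟩
      rw [gl_mul_vec9]
      exact hh' _ (hmemU' x hx')

/-- The stabiliser of a proper non-zero subspace is maximal in the special linear group. -/
theorem sl_stab_maximal9 (W : Submodule F (Fin n → F)) (hW0 : W ≠ ⊥) (hW1 : W ≠ ⊤) :
    Cfsg.Geo.IsMaximalIn (Cfsg.Geo.specialLinear (Fin n) F)
      (Cfsg.Geo.subspaceStabilizer W ⊓ Cfsg.Geo.specialLinear (Fin n) F) := by
  refine ⟨lt_of_le_of_ne inf_le_right fun heq => ?_, fun M hPM hMS => ?_⟩
  · obtain ⟨g, hg1, hg2⟩ := exists_not_stab9 W hW0 hW1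
    rw [← heq] at hg1
    exact hg2 hg1.1
  · by_cases hMP : M ≤ Cfsg.Geo.subspaceStabilizer W ⊓ Cfsg.Geo.specialLinear (Fin n) F
    · exact Or.inl (le_antisymm hMP hPM)
    · right
      obtain ⟨k, hkM, hkP⟩ := Set.not_subset.mp hMP
      have hkW : k ∉ Cfsg.Geo.subspaceStabilizer W := fun h =>
        hkP (Subgroup.mem_inf.mpr ⟨h, hMS hkM⟩)
      have hT := transv_mem9 W M hPM hMS k hkM hkW
      refine le_antisymm hMS fun g hg => ?_
      have hinj : Function.Injective (Matrix.toLin' (g : Matrix (Fin n) (Fin n) F)) := by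
        intro y z hyz
        rw [Matrix.toLin'_apply, Matrix.toLin'_apply] at hyz
        have h2 := congrArg (fun t => ((g⁻¹ : GL (Fin n) F) : Matrix (Fin n) (Fin n) F) *ᵥ t) hyz
        simp only [gl_inv_mul_vec9] at h2
        exact h2
      set U : Submodule F (Fin n → F) := W.map (Matrix.toLin' (g : Matrix (Fin n) (Fin n) F))
        with hU
      have hUfin : Module.finrank F U = Module.finrank F W :=
        (Submodule.equivMapOfInjective _ hinj W).finrank_eq.symm
      obtain ⟨h, hhM, hh⟩ := transv_trans9 W M hT (Module.finrank F W) U hUfin (by omega)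
      have hstab : h * g ∈ Cfsg.Geo.subspaceStabilizer W := by
        apply stab_of_maps9
        intro x hx
        rw [gl_mul_vec9]
        apply hh
        rw [hU]
        refine Submodule.mem_map.mpr ⟨x, hx, ?_⟩
        rw [Matrix.toLin'_apply]
      have hP : h * g ∈ M := hPM (Subgroup.mem_inf.mpr
        ⟨hstab, Subgroup.mul_mem _ (hMS hhM) hg⟩)
      have : g = h⁻¹ * (h * g) := by group
      rw [this]
      exact M.mul_mem (M.inv_mem hhM) hP

end Cfsg.Agent.Helper9
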