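import Mathlib
import Cfsg.Agent.Helper9.SLMax

set_option autoImplicit false

namespace Cfsg.Agent.Helper9

open Cfsg
open scoped MatrixGroups Matrix

variable {n : ℕ} {F : Type*} [Field F]

/-- The hypothesis that a subgroup contains all transvections. -/
def HasSLTransv9 (M : Subgroup (GL (Fin n) F)) : Prop :=
  ∀ (φ : Module.Dual F (Fin n → F)) (v : Fin n → F), φ v = 0 →
    ∃ g ∈ M, g ∈ Cfsg.Geo.specialLinear (Fin n) F ∧
      ∀ x : Fin n → F, (g : Matrix (Fin n) (Fin n) F) *ᵥ x = x + φ x • v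

/-- Vectors supported on the first `j` coordinates. -/
def lowSub9 (n : ℕ) (F : Type*) [Field F] (j : ℕ) : Submodule F (Fin n → F) where
  carrier := {v | ∀ k : Fin n, j ≤ k.val → v k = 0}
  add_mem' := fun {a b} ha hb k hk => by rw [Pi.add_apply, ha k hk, hb k hk, add_zero]
  zero_mem' := fun k _ => rfl
  smul_mem' := fun c a ha k hk => by rw [Pi.smul_apply, ha k hk, smul_zero]

theorem col_of_fix9 (h : GL (Fin n) F) (k : Fin n)
    (hk : (h : Matrix (Fin n) (Fin n) F) *ᵥ Pi.single k 1 = Pi.single k 1) (i : Fin n) :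
    (h : Matrix (Fin n) (Fin n) F) i k = if i = k then 1 else 0 := by
  have := congrFun hk i
  rw [Matrix.mulVec_single_one, Pi.single_apply] at this
  exact this

theorem fix_lowSub9 (h : GL (Fin n) F) (j : ℕ)
    (hfix : ∀ i : Fin n, i.val < j →
      (h : Matrix (Fin n) (Fin n) F) *ᵥ Pi.single i 1 = Pi.single i 1)
    (v : Fin n → F) (hv : v ∈ lowSub9 n F j) :
    (h : Matrix (Fin n) (Fin n) F) *ᵥ v = v := by
  funext i
  show ∑ k, (h : Matrix (Fin n) (Fin n) F) i k * v k = v i
  rw [Finset.sum_eq_single i]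
  · by_cases hi : i.val < j
    · rw [col_of_fix9 h i (hfix i hi) i, if_pos rfl, one_mul]
    · rw [hv i (not_lt.mp hi), mul_zero]
  · intro k _ hki
    by_cases hk : k.val < j
    · rw [col_of_fix9 h k (hfix k hk) i, if_neg (Ne.symm hki), zero_mul]
    · rw [hv k (not_lt.mp hk), mul_zero]
  · intro h'
    exact absurd (Finset.mem_univ i) h'

theorem sl_move9 (M : Subgroup (GL (Fin n) F)) (hT : HasSLTransv9 M)
    (N : Submodule F (Fin n → F)) (x y : Fin n → F)
    (hx : x ∉ N ⊔ Submodule.span F {x - y}) :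
    ∃ t ∈ M, t ∈ Cfsg.Geo.specialLinear (Fin n) F ∧
      (t : Matrix (Fin n) (Fin n) F) *ᵥ x = y ∧
      ∀ v ∈ N, (t : Matrix (Fin n) (Fin n) F) *ᵥ v = v := by
  obtain ⟨φ, hφ1, hφ0⟩ := exists_dual_one9 _ _ hx
  have hφxy : φ (y - x) = 0 := by
    have h1 : φ (x - y) = 0 :=
      hφ0 _ (Submodule.mem_sup_right (Submodule.mem_span_singleton_self _))
    have h2 : y - x = -(x - y) := by abel
    rw [h2, map_neg, h1, neg_zero]
  obtain ⟨t, htM, htS, ht⟩ := hT φ (y - x) hφxy
  refine ⟨t, htM, htS, ?_, ?_⟩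
  · rw [ht, hφ1, one_smul]
    abel
  · intro v hv
    rw [ht, hφ0 v (Submodule.mem_sup_left hv), zero_smul, add_zero]

theorem sl_move_crit9 (j : ℕ) (x y : Fin n → F) (k k' : Fin n) (hk : j ≤ k.val)
    (hk' : j ≤ k'.val)
    (h : (y k = 0 ∧ x k ≠ 0 ∧ y k' ≠ 0) ∨ (x k = 0 ∧ y k ≠ 0 ∧ x k' ≠ 0)) :
    x ∉ lowSub9 n F j ⊔ Submodule.span F {x - y} := by
  intro hmem
  obtain ⟨v, hv, z, hz, hvz⟩ := Submodule.mem_sup.mp hmem
  obtain ⟨c, hc⟩ := Submodule.mem_span_singleton.mp hz
  have e1 := congrFun hvz k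
  have e2 := congrFun hvz k'
  rw [← hc] at e1 e2
  simp only [Pi.add_apply, Pi.smul_apply, Pi.sub_apply, smul_eq_mul] at e1 e2
  rw [hv k hk, zero_add] at e1
  rw [hv k' hk', zero_add] at e2
  rcases h with ⟨h1, h2, h3⟩ | ⟨h1, h2, h3⟩
  · rw [h1, sub_zero] at e1
    have hc1 : c = 1 := by
      have : (c - 1) * x k = 0 := by rw [sub_mul, e1, one_mul, sub_self]
      rcases mul_eq_zero.mp this with h' | h'
      · exact sub_eq_zero.mp h'
      · exact absurd h' h2
    rw [hc1, one_mul] at e2
    apply h3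
    have : x k' - y k' - x k' = 0 := by rw [e2, sub_self]
    have h4 : -(y k') = 0 := by
      rw [← this]
      ring
    exact neg_eq_zero.mp h4
  · rw [h1, zero_sub] at e1
    have hc0 : c = 0 := by
      rcases mul_eq_zero.mp e1 with h' | h'
      · exact h'
      · exact absurd (neg_eq_zero.mp h') h2
    rw [hc0, zero_mul] at e2
    exact h3 e2.symm

theorem sl_gen_aux9 (M : Subgroup (GL (Fin n) F)) (hT : HasSLTransv9 M) :
    ∀ j : ℕ, j + 1 ≤ n → ∀ g : GL (Fin n) F, ∃ t ∈ M,
      t ∈ Cfsg.Geo.specialLinear (Fin n) F ∧ ∀ i : Fin n, i.val < j →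
        ((t * g : GL (Fin n) F) : Matrix (Fin n) (Fin n) F) *ᵥ Pi.single i 1 =
          Pi.single i 1 := by
  intro j
  induction j with
  | zero =>
    intro _ g
    exact ⟨1, M.one_mem, Subgroup.one_mem _, fun i hi => absurd hi (Nat.not_lt_zero _)⟩
  | succ j ih =>
    intro hj g
    obtain ⟨t, htM, htS, hfix⟩ := ih (by omega) g
    obtain ⟨h, hh⟩ : ∃ h : GL (Fin n) F, h = t * g := ⟨_, rfl⟩
    rw [← hh] at hfix
    let j' : Fin n := ⟨j, by omega⟩
    let j'' : Fin n := ⟨j + 1, by omega⟩
    have hN : ∀ v ∈ lowSub9 n F j, (h : Matrix (Fin n) (Fin n) F) *ᵥ v = v :=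
      fix_lowSub9 h j hfix
    obtain ⟨x, hx⟩ : ∃ x : Fin n → F,
        x = (h : Matrix (Fin n) (Fin n) F) *ᵥ Pi.single j' 1 := ⟨_, rfl⟩
    have hejN : (Pi.single j' 1 : Fin n → F) ∉ lowSub9 n F j := by
      intro hmem
      have := hmem j' (le_refl _)
      rw [Pi.single_eq_same] at this
      exact one_ne_zero this
    have hxN : x ∉ lowSub9 n F j := by
      intro hmem
      have h1 := hN x hmem
      have h2 : x = Pi.single j' 1 := by
        have h3 := congrArg
          (fun w => ((h⁻¹ : GL (Fin n) F) : Matrix (Fin n) (Fin n) F) *ᵥ w) h1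
        simp only [gl_inv_mul_vec9] at h3
        rw [h3, hx, gl_inv_mul_vec9]
      rw [h2] at hmem
      exact hejN hmem
    have hj'j'' : (Pi.single j' 1 : Fin n → F) j'' = 0 := by
      rw [Pi.single_apply, if_neg]
      intro e
      have := congrArg Fin.val e
      simp [j', j''] at this
    obtain ⟨t₁, ht₁M, ht₁S, ht₁x, ht₁N⟩ : ∃ t₁ ∈ M,
        t₁ ∈ Cfsg.Geo.specialLinear (Fin n) F ∧
        (t₁ : Matrix (Fin n) (Fin n) F) *ᵥ x = Pi.single j' 1 ∧
        ∀ v ∈ lowSub9 n F j, (t₁ : Matrix (Fin n) (Fin n) F) *ᵥ v = v := by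
      by_cases hc : ∃ k : Fin n, j < k.val ∧ x k ≠ 0
      · obtain ⟨k, hk, hxk⟩ := hc
        apply sl_move9 M hT
        apply sl_move_crit9 j x _ k j' (le_of_lt hk) (le_refl _)
        left
        refine ⟨?_, hxk, ?_⟩
        · rw [Pi.single_apply, if_neg]
          intro e
          rw [e] at hk
          exact lt_irrefl _ hk
        · rw [Pi.single_eq_same]
          exact one_ne_zero
      · push_neg at hc
        have hxj : x j' ≠ 0 := by
          intro h0
          apply hxN
          intro k hk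
          rcases Nat.lt_or_eq_of_le hk with h1 | h1
          · exact hc k h1
          · have : k = j' := Fin.ext h1.symm
            rw [this]
            exact h0
        have hxj'' : x j'' = 0 := hc j'' (Nat.lt_succ_self j)
        obtain ⟨s₁, hs₁M, hs₁S, hs₁x, hs₁N⟩ := sl_move9 M hT (lowSub9 n F j) x
          (Pi.single j' 1 + Pi.single j'' 1)
          (sl_move_crit9 j x _ j'' j' (Nat.le_succ j) (le_refl _)
            (Or.inr ⟨hxj'', by
              rw [Pi.add_apply, hj'j'', zero_add, Pi.single_eq_same]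
              exact one_ne_zero, hxj⟩))
        obtain ⟨s₂, hs₂M, hs₂S, hs₂x, hs₂N⟩ := sl_move9 M hT (lowSub9 n F j)
          (Pi.single j' 1 + Pi.single j'' 1) (Pi.single j' 1)
          (sl_move_crit9 j _ _ j'' j' (Nat.le_succ j) (le_refl _)
            (Or.inl ⟨hj'j'', by
              rw [Pi.add_apply, hj'j'', zero_add, Pi.single_eq_same]
              exact one_ne_zero, by
              rw [Pi.single_eq_same]
              exact one_ne_zero⟩))
        refine ⟨s₂ * s₁, M.mul_mem hs₂M hs₁M, Subgroup.mul_mem _ hs₂S hs₁S, ?_, ?_⟩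
        · rw [gl_mul_vec9, hs₁x, hs₂x]
        · intro v hv
          rw [gl_mul_vec9, hs₁N v hv, hs₂N v hv]
    refine ⟨t₁ * t, M.mul_mem ht₁M htM, Subgroup.mul_mem _ ht₁S htS, ?_⟩
    intro i hi
    have e1 : t₁ * t * g = t₁ * h := by rw [hh, mul_assoc]
    rw [e1, gl_mul_vec9]
    by_cases hij : i.val < j
    · rw [hfix i hij]
      apply ht₁N
      intro k hk
      rw [Pi.single_apply, if_neg]
      intro e
      rw [e] at hk
      omega
    · have hij' : i = j' := Fin.ext (by
        show i.val = j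
        omega)
      rw [hij', ← hx, ht₁x]

/-- A subgroup containing all transvections contains the special linear group. -/
theorem sl_le_of_transv9 (M : Subgroup (GL (Fin n) F)) (hT : HasSLTransv9 M) :
    Cfsg.Geo.specialLinear (Fin n) F ≤ M := by
  intro g hg
  rcases Nat.eq_zero_or_pos n with hn | hn
  · subst hn
    have : g = 1 := Subsingleton.elim _ _
    rw [this]
    exact M.one_mem
  · obtain ⟨t, htM, htS, hfix⟩ := sl_gen_aux9 M hT (n - 1) (by omega) g
    obtain ⟨h, hh⟩ : ∃ h : GL (Fin n) F, h = t * g := ⟨_, rfl⟩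
    rw [← hh] at hfix
    have hhS : h ∈ Cfsg.Geo.specialLinear (Fin n) F := by
      rw [hh]
      exact Subgroup.mul_mem _ htS hg
    let l : Fin n := ⟨n - 1, by omega⟩
    have hcol : ∀ k : Fin n, k ≠ l → ∀ i, (h : Matrix (Fin n) (Fin n) F) i k =
        if i = k then 1 else 0 := by
      intro k hk i
      apply col_of_fix9 h k (hfix k ?_)
      have h1 : k.val ≠ n - 1 := fun e => hk (Fin.ext e)
      have h2 := k.2
      omega
    have hdet : (h : Matrix (Fin n) (Fin n) F).det = 1 := by
      have h1 : h ∈ (Matrix.GeneralLinearGroup.det : GL (Fin n) F →* Fˣ).ker := hhS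
      rw [MonoidHom.mem_ker] at h1
      have h2 := congrArg Units.val h1
      rw [Matrix.GeneralLinearGroup.val_det_apply] at h2
      exact h2
    have htri : (h : Matrix (Fin n) (Fin n) F).BlockTriangular id := by
      intro i k hki
      have hkl : k ≠ l := by
        intro e
        rw [e] at hki
        have h1 : i.val < n := i.2
        have h2 : (l : ℕ) < i.val := hki
        simp only [l] at h2
        omega
      rw [hcol k hkl i, if_neg]
      intro e
      rw [e] at hki
      exact lt_irrefl _ hki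
    have hll : (h : Matrix (Fin n) (Fin n) F) l l = 1 := by
      rw [Matrix.det_of_upperTriangular htri] at hdet
      rw [Fintype.prod_eq_single l] at hdet
      · exact hdet
      · intro i hi
        rw [hcol i hi i, if_pos rfl]
    obtain ⟨w, hw⟩ : ∃ w : Fin n → F,
        w = (h : Matrix (Fin n) (Fin n) F) *ᵥ Pi.single l 1 := ⟨_, rfl⟩
    have hwl : w l = 1 := by
      rw [hw, Matrix.mulVec_single_one]
      exact hll
    let φ : Module.Dual F (Fin n → F) := LinearMap.proj l
    have hφ : ∀ x : Fin n → F, φ x = x l := fun x => rfl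
    have hφv : φ (Pi.single l 1 - w) = 0 := by
      rw [hφ, Pi.sub_apply, Pi.single_eq_same, hwl, sub_self]
    obtain ⟨T, hTM, hTS, hTx⟩ := hT φ (Pi.single l 1 - w) hφv
    have h1 : T * h = 1 := by
      apply Units.ext
      ext r c
      have hc : ((T * h : GL (Fin n) F) : Matrix (Fin n) (Fin n) F) *ᵥ Pi.single c 1 =
          Pi.single c 1 := by
        rw [gl_mul_vec9]
        by_cases hcl : c = l
        · rw [hcl, ← hw, hTx, hφ, hwl, one_smul]
          abel
        · have hc' : (h : Matrix (Fin n) (Fin n) F) *ᵥ Pi.single c 1 = Pi.single c 1 := by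
            apply hfix
            have h1 : c.val ≠ n - 1 := fun e => hcl (Fin.ext e)
            have h2 := c.2
            omega
          rw [hc', hTx, hφ, Pi.single_apply, if_neg (Ne.symm hcl), zero_smul, add_zero]
      have h2 := congrFun hc r
      rw [Matrix.mulVec_single_one] at h2
      rw [Units.val_one, Matrix.one_apply]
      rw [Pi.single_apply] at h2
      exact h2
    have h2 : h = T⁻¹ := eq_inv_of_mul_eq_one_right h1
    have h3 : g = t⁻¹ * h := by rw [hh]; group
    rw [h3, h2]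
    exact M.mul_mem (M.inv_mem htM) (M.inv_mem hTM)

end Cfsg.Agent.Helper9
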