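import Mathlib
import Cfsg.Prelude.Def_GeometricClasses

set_option autoImplicit false

namespace Cfsg.Agent.Helper9

open Cfsg
open scoped MatrixGroups Matrix

section general

variable {ι : Type} [Fintype ι] [DecidableEq ι] {F : Type*} [Field F]

theorem gl_mul_vecI9 (g h : GL ι F) (x : ι → F) :
    ((g * h : GL ι F) : Matrix ι ι F) *ᵥ x =
      (g : Matrix ι ι F) *ᵥ ((h : Matrix ι ι F) *ᵥ x) := by
  rw [Units.val_mul, Matrix.mulVec_mulVec]

theorem gl_inv_mul_vecI9 (g : GL ι F) (x : ι → F) :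
    ((g⁻¹ : GL ι F) : Matrix ι ι F) *ᵥ ((g : Matrix ι ι F) *ᵥ x) = x := by
  rw [Matrix.mulVec_mulVec, ← Units.val_mul, inv_mul_cancel, Units.val_one, Matrix.one_mulVec]

theorem gl_mul_inv_vecI9 (g : GL ι F) (x : ι → F) :
    (g : Matrix ι ι F) *ᵥ (((g⁻¹ : GL ι F) : Matrix ι ι F) *ᵥ x) = x := by
  rw [Matrix.mulVec_mulVec, ← Units.val_mul, mul_inv_cancel, Units.val_one, Matrix.one_mulVec]

theorem gl_one_vecI9 (x : ι → F) : ((1 : GL ι F) : Matrix ι ι F) *ᵥ x = x := by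
  rw [Units.val_one, Matrix.one_mulVec]

theorem exists_transvI9 (φ : Module.Dual F (ι → F)) (v : ι → F) (h : φ v = 0) :
    ∃ g : GL ι F, ∀ x : ι → F, (g : Matrix ι ι F) *ᵥ x = x + φ x • v := by
  let e := LinearEquiv.transvection h
  have hAB : LinearMap.toMatrix' (e : (ι → F) →ₗ[F] (ι → F)) *
      LinearMap.toMatrix' (e.symm : (ι → F) →ₗ[F] (ι → F)) = 1 := by
    rw [← LinearMap.toMatrix'_comp]
    simp
  have hBA : LinearMap.toMatrix' (e.symm : (ι → F) →ₗ[F] (ι → F)) *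
      LinearMap.toMatrix' (e : (ι → F) →ₗ[F] (ι → F)) = 1 := by
    rw [← LinearMap.toMatrix'_comp]
    simp
  refine ⟨⟨LinearMap.toMatrix' (e : (ι → F) →ₗ[F] (ι → F)),
    LinearMap.toMatrix' (e.symm : (ι → F) →ₗ[F] (ι → F)), hAB, hBA⟩, ?_⟩
  intro x
  show LinearMap.toMatrix' (e : (ι → F) →ₗ[F] (ι → F)) *ᵥ x = _
  rw [← Matrix.toLin'_apply, Matrix.toLin'_toMatrix']
  exact LinearEquiv.transvection.apply h x

theorem mem_stabI9 {W : Submodule F (ι → F)} {g : GL ι F} :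
    g ∈ Cfsg.Geo.subspaceStabilizer W ↔
      ∀ x : ι → F, x ∈ W ↔ (g : Matrix ι ι F) *ᵥ x ∈ W := Iff.rfl

theorem gl_injI9 (g : GL ι F) : Function.Injective (Matrix.toLin' (g : Matrix ι ι F)) := by
  intro y z hyz
  rw [Matrix.toLin'_apply, Matrix.toLin'_apply] at hyz
  have h2 := congrArg (fun t => ((g⁻¹ : GL ι F) : Matrix ι ι F) *ᵥ t) hyz
  simp only [gl_inv_mul_vecI9] at h2
  exact h2

/-- If a `GL` element maps `W` into itself then it stabilises `W`. -/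
theorem stab_of_mapsI9 (W : Submodule F (ι → F)) (a : GL ι F)
    (h : ∀ x ∈ W, (a : Matrix ι ι F) *ᵥ x ∈ W) : a ∈ Cfsg.Geo.subspaceStabilizer W := by
  rw [mem_stabI9]
  intro x
  refine ⟨h x, fun hx => ?_⟩
  let f : W →ₗ[F] W := (Matrix.toLin' (a : Matrix ι ι F)).restrict
    (fun y hy => by rw [Matrix.toLin'_apply]; exact h y hy)
  have hinj : Function.Injective f := by
    intro y z hyz
    have h1 : (a : Matrix ι ι F) *ᵥ (y : ι → F) = (a : Matrix ι ι F) *ᵥ (z : ι → F) := by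
      have := congrArg Subtype.val hyz
      simpa [f, LinearMap.restrict_apply] using this
    have h2 := congrArg (fun t => ((a⁻¹ : GL ι F) : Matrix ι ι F) *ᵥ t) h1
    simp only [gl_inv_mul_vecI9] at h2
    exact Subtype.ext h2
  have hsurj : Function.Surjective f := LinearMap.surjective_of_injective hinj
  obtain ⟨w, hw⟩ := hsurj ⟨_, hx⟩
  have h1 : (a : Matrix ι ι F) *ᵥ (w : ι → F) = (a : Matrix ι ι F) *ᵥ x := by
    have := congrArg Subtype.val hw
    simpa [f, LinearMap.restrict_apply] using this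
  have h2 := congrArg (fun t => ((a⁻¹ : GL ι F) : Matrix ι ι F) *ᵥ t) h1
  simp only [gl_inv_mul_vecI9] at h2
  rw [← h2]
  exact w.2

end general

section symp

variable {m : ℕ} {F : Type*} [Field F]

theorem sf_add_left9 (u u' v : Fin m ⊕ Fin m → F) :
    Cfsg.sympForm m F (u + u') v = Cfsg.sympForm m F u v + Cfsg.sympForm m F u' v := by
  unfold Cfsg.sympForm
  rw [add_dotProduct]

theorem sf_add_right9 (u v v' : Fin m ⊕ Fin m → F) :
    Cfsg.sympForm m F u (v + v') = Cfsg.sympForm m F u v + Cfsg.sympForm m F u v' := by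
  unfold Cfsg.sympForm
  rw [Matrix.mulVec_add, dotProduct_add]

theorem sf_smul_left9 (c : F) (u v : Fin m ⊕ Fin m → F) :
    Cfsg.sympForm m F (c • u) v = c * Cfsg.sympForm m F u v := by
  unfold Cfsg.sympForm
  rw [smul_dotProduct, smul_eq_mul]

theorem sf_smul_right9 (c : F) (u v : Fin m ⊕ Fin m → F) :
    Cfsg.sympForm m F u (c • v) = c * Cfsg.sympForm m F u v := by
  unfold Cfsg.sympForm
  rw [Matrix.mulVec_smul, dotProduct_smul, smul_eq_mul]

theorem sf_self9 (v : Fin m ⊕ Fin m → F) : Cfsg.sympForm m F v v = 0 := by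
  unfold Cfsg.sympForm
  rw [Matrix.J, Matrix.fromBlocks_mulVec]
  simp only [dotProduct, Fintype.sum_sum_type, Sum.elim_inl, Sum.elim_inr, Matrix.zero_mulVec,
    Matrix.neg_mulVec, Matrix.one_mulVec, zero_add, add_zero, Pi.neg_apply, Function.comp_apply]
  rw [← Finset.sum_add_distrib]
  apply Finset.sum_eq_zero
  intro i _
  ring

theorem sf_swap9 (u v : Fin m ⊕ Fin m → F) :
    Cfsg.sympForm m F u v = - Cfsg.sympForm m F v u := by
  have h := sf_self9 (u + v)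
  rw [sf_add_left9, sf_add_right9, sf_add_right9, sf_self9, sf_self9, zero_add, add_zero] at h
  exact eq_neg_of_add_eq_zero_left h

theorem sf_zero_left9 (v : Fin m ⊕ Fin m → F) : Cfsg.sympForm m F 0 v = 0 := by
  have := sf_smul_left9 (0 : F) (0 : Fin m ⊕ Fin m → F) v
  rwa [zero_smul, zero_mul] at this

theorem sf_zero_right9 (v : Fin m ⊕ Fin m → F) : Cfsg.sympForm m F v 0 = 0 := by
  rw [sf_swap9, sf_zero_left9, neg_zero]

theorem sf_neg_left9 (u v : Fin m ⊕ Fin m → F) :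
    Cfsg.sympForm m F (-u) v = - Cfsg.sympForm m F u v := by
  have := sf_smul_left9 (-1 : F) u v
  rwa [neg_one_smul, neg_one_mul] at this

theorem sf_neg_right9 (u v : Fin m ⊕ Fin m → F) :
    Cfsg.sympForm m F u (-v) = - Cfsg.sympForm m F u v := by
  have := sf_smul_right9 (-1 : F) u v
  rwa [neg_one_smul, neg_one_mul] at this

theorem sf_sub_left9 (u u' v : Fin m ⊕ Fin m → F) :
    Cfsg.sympForm m F (u - u') v = Cfsg.sympForm m F u v - Cfsg.sympForm m F u' v := by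
  rw [sub_eq_add_neg, sf_add_left9, sf_neg_left9, ← sub_eq_add_neg]

theorem sf_sub_right9 (u v v' : Fin m ⊕ Fin m → F) :
    Cfsg.sympForm m F u (v - v') = Cfsg.sympForm m F u v - Cfsg.sympForm m F u v' := by
  rw [sub_eq_add_neg, sf_add_right9, sf_neg_right9, ← sub_eq_add_neg]

theorem mem_spGL9 {g : GL (Fin m ⊕ Fin m) F} : g ∈ Cfsg.spGL m F ↔
    ∀ u v, Cfsg.sympForm m F ((g : Matrix (Fin m ⊕ Fin m) (Fin m ⊕ Fin m) F) *ᵥ u)
      ((g : Matrix (Fin m ⊕ Fin m) (Fin m ⊕ Fin m) F) *ᵥ v) = Cfsg.sympForm m F u v := Iff.rfl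

theorem sf_fix9 {h : GL (Fin m ⊕ Fin m) F} (hS : h ∈ Cfsg.spGL m F) {v : Fin m ⊕ Fin m → F}
    (hv : (h : Matrix (Fin m ⊕ Fin m) (Fin m ⊕ Fin m) F) *ᵥ v = v) (e : Fin m ⊕ Fin m → F) :
    Cfsg.sympForm m F v ((h : Matrix (Fin m ⊕ Fin m) (Fin m ⊕ Fin m) F) *ᵥ e) =
      Cfsg.sympForm m F v e := by
  have := mem_spGL9.mp hS v e
  rw [hv] at this
  exact this

/-- Symplectic transvections. -/
theorem sp_transv9 (a : F) (z : Fin m ⊕ Fin m → F) :
    ∃ g : GL (Fin m ⊕ Fin m) F, g ∈ Cfsg.spGL m F ∧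
      ∀ x, (g : Matrix (Fin m ⊕ Fin m) (Fin m ⊕ Fin m) F) *ᵥ x =
        x + (a * Cfsg.sympForm m F x z) • z := by
  let φ : Module.Dual F (Fin m ⊕ Fin m → F) :=
    { toFun := fun x => a * Cfsg.sympForm m F x z
      map_add' := fun x y => by rw [sf_add_left9, mul_add]
      map_smul' := fun c x => by
        rw [sf_smul_left9, RingHom.id_apply, smul_eq_mul]
        ring }
  have hφ : φ z = 0 := by
    show a * Cfsg.sympForm m F z z = 0
    rw [sf_self9, mul_zero]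
  obtain ⟨g, hg⟩ := exists_transvI9 φ z hφ
  have hg' : ∀ x, (g : Matrix (Fin m ⊕ Fin m) (Fin m ⊕ Fin m) F) *ᵥ x =
      x + (a * Cfsg.sympForm m F x z) • z := fun x => hg x
  refine ⟨g, ?_, hg'⟩
  rw [mem_spGL9]
  intro u v
  rw [hg', hg']
  simp only [sf_add_left9, sf_add_right9, sf_smul_left9, sf_smul_right9, sf_self9]
  rw [sf_swap9 z v]
  ring

/-- Every linear functional is `x ↦ f(x, z)` for some `z`. -/
theorem sf_repr9 (ψ : Module.Dual F (Fin m ⊕ Fin m → F)) :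
    ∃ z : Fin m ⊕ Fin m → F, ∀ x, ψ x = Cfsg.sympForm m F x z := by
  let Φ : (Fin m ⊕ Fin m → F) →ₗ[F] Module.Dual F (Fin m ⊕ Fin m → F) :=
    { toFun := fun z =>
        { toFun := fun x => Cfsg.sympForm m F x z
          map_add' := fun x y => sf_add_left9 x y z
          map_smul' := fun c x => by rw [sf_smul_left9, RingHom.id_apply, smul_eq_mul] }
      map_add' := fun z z' => by
        ext x
        exact sf_add_right9 _ z z'
      map_smul' := fun c z => by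
        ext x
        show Cfsg.sympForm m F _ (c • z) = c • Cfsg.sympForm m F _ z
        rw [sf_smul_right9, smul_eq_mul] }
  have hinj : Function.Injective Φ := by
    rw [← LinearMap.ker_eq_bot, LinearMap.ker_eq_bot']
    intro z hz
    have h : ∀ x, Cfsg.sympForm m F x z = 0 := fun x => by
      have := congrArg (fun f : Module.Dual F (Fin m ⊕ Fin m → F) => f x) hz
      exact this
    have hJz : Matrix.J (Fin m) F *ᵥ z = 0 := by
      funext r
      have := h (Pi.single r 1)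
      unfold Cfsg.sympForm at this
      rw [single_one_dotProduct] at this
      exact this
    have h2 : (Matrix.J (Fin m) F * Matrix.J (Fin m) F) *ᵥ z = 0 := by
      rw [← Matrix.mulVec_mulVec, hJz, Matrix.mulVec_zero]
    rw [Matrix.J_squared, Matrix.neg_mulVec, Matrix.one_mulVec] at h2
    exact neg_eq_zero.mp h2
  have hsurj : Function.Surjective Φ :=
    (LinearMap.injective_iff_surjective_of_finrank_eq_finrank
      (Subspace.dual_finrank_eq).symm).mp hinj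
  obtain ⟨z, hz⟩ := hsurj ψ
  refine ⟨z, fun x => ?_⟩
  rw [← hz]
  rfl

theorem sf_single9 (r c : Fin m ⊕ Fin m) :
    Cfsg.sympForm m F (Pi.single r 1) (Pi.single c 1) = Matrix.J (Fin m) F r c := by
  unfold Cfsg.sympForm
  rw [single_one_dotProduct, Matrix.mulVec_single_one]
  rfl

theorem sfLL9 (i k : Fin m) : Cfsg.sympForm m F (Pi.single (Sum.inl i) 1)
    (Pi.single (Sum.inl k) 1) = 0 := by
  rw [sf_single9]
  simp [Matrix.J]

theorem sfRR9 (i k : Fin m) : Cfsg.sympForm m F (Pi.single (Sum.inr i) 1)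
    (Pi.single (Sum.inr k) 1) = 0 := by
  rw [sf_single9]
  simp [Matrix.J]

theorem sfLR9 (i k : Fin m) : Cfsg.sympForm m F (Pi.single (Sum.inl i) 1)
    (Pi.single (Sum.inr k) 1) = if i = k then -1 else 0 := by
  rw [sf_single9]
  by_cases hik : i = k <;> simp [Matrix.J, Matrix.one_apply, hik]

theorem sfRL9 (i k : Fin m) : Cfsg.sympForm m F (Pi.single (Sum.inr i) 1)
    (Pi.single (Sum.inl k) 1) = if i = k then 1 else 0 := by
  rw [sf_single9]
  simp [Matrix.J, Matrix.one_apply]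

/-- The hypothesis that a subgroup contains all symplectic transvections. -/
def HasTransv9 (m : ℕ) (F : Type*) [Field F] (M : Subgroup (GL (Fin m ⊕ Fin m) F)) : Prop :=
  ∀ (a : F) (z : Fin m ⊕ Fin m → F), ∃ g ∈ M, g ∈ Cfsg.spGL m F ∧
    ∀ x, (g : Matrix (Fin m ⊕ Fin m) (Fin m ⊕ Fin m) F) *ᵥ x =
      x + (a * Cfsg.sympForm m F x z) • z

theorem sp_move9 (M : Subgroup (GL (Fin m ⊕ Fin m) F)) (hT : HasTransv9 m F M)
    (x y : Fin m ⊕ Fin m → F) (hxy : Cfsg.sympForm m F x y ≠ 0) :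
    ∃ t ∈ M, t ∈ Cfsg.spGL m F ∧
      (t : Matrix (Fin m ⊕ Fin m) (Fin m ⊕ Fin m) F) *ᵥ x = y ∧
      ∀ v, Cfsg.sympForm m F v x = Cfsg.sympForm m F v y →
        (t : Matrix (Fin m ⊕ Fin m) (Fin m ⊕ Fin m) F) *ᵥ v = v := by
  obtain ⟨t, htM, htS, ht⟩ := hT (Cfsg.sympForm m F x y)⁻¹ (x - y)
  refine ⟨t, htM, htS, ?_, ?_⟩
  · rw [ht, sf_sub_right9, sf_self9, zero_sub, mul_neg, inv_mul_cancel₀ hxy, neg_smul, one_smul]
    abel
  · intro v hv
    rw [ht, sf_sub_right9, hv, sub_self, mul_zero, zero_smul, add_zero]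

theorem sp_moveA9 (M : Subgroup (GL (Fin m ⊕ Fin m) F)) (hT : HasTransv9 m F M)
    (x e z₁ z₂ : Fin m ⊕ Fin m → F) (h1 : Cfsg.sympForm m F x z₁ ≠ 0)
    (h2 : Cfsg.sympForm m F z₂ e ≠ 0) :
    ∃ t ∈ M, t ∈ Cfsg.spGL m F ∧
      (t : Matrix (Fin m ⊕ Fin m) (Fin m ⊕ Fin m) F) *ᵥ x = e ∧
      ∀ v, Cfsg.sympForm m F v x = 0 → Cfsg.sympForm m F v e = 0 →
        Cfsg.sympForm m F v z₁ = 0 → Cfsg.sympForm m F v z₂ = 0 →
        (t : Matrix (Fin m ⊕ Fin m) (Fin m ⊕ Fin m) F) *ᵥ v = v := by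
  by_cases hxe : Cfsg.sympForm m F x e ≠ 0
  · obtain ⟨t, htM, htS, htx, htv⟩ := sp_move9 M hT x e hxe
    exact ⟨t, htM, htS, htx, fun v hvx hve _ _ => htv v (by rw [hvx, hve])⟩
  · obtain ⟨z, hxz, hze, hz⟩ : ∃ z, Cfsg.sympForm m F x z ≠ 0 ∧ Cfsg.sympForm m F z e ≠ 0 ∧
        ∀ v, Cfsg.sympForm m F v z₁ = 0 → Cfsg.sympForm m F v z₂ = 0 →
          Cfsg.sympForm m F v z = 0 := by
      by_cases c1 : Cfsg.sympForm m F z₁ e ≠ 0
      · exact ⟨z₁, h1, c1, fun v a _ => a⟩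
      · by_cases c2 : Cfsg.sympForm m F x z₂ ≠ 0
        · exact ⟨z₂, c2, h2, fun v _ b => b⟩
        · push_neg at c1 c2
          refine ⟨z₁ + z₂, ?_, ?_, ?_⟩
          · rw [sf_add_right9, c2, add_zero]
            exact h1
          · rw [sf_add_left9, c1, zero_add]
            exact h2
          · intro v a b
            rw [sf_add_right9, a, b, add_zero]
    obtain ⟨t₁, ht₁M, ht₁S, ht₁x, ht₁v⟩ := sp_move9 M hT x z hxz
    obtain ⟨t₂, ht₂M, ht₂S, ht₂x, ht₂v⟩ := sp_move9 M hT z e hze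
    refine ⟨t₂ * t₁, M.mul_mem ht₂M ht₁M, Subgroup.mul_mem _ ht₂S ht₁S, ?_, ?_⟩
    · rw [gl_mul_vecI9, ht₁x, ht₂x]
    · intro v hvx hve hv1 hv2
      have hvz := hz v hv1 hv2
      rw [gl_mul_vecI9, ht₁v v (by rw [hvx, hvz]), ht₂v v (by rw [hvz, hve])]

theorem sp_moveB9 (M : Subgroup (GL (Fin m ⊕ Fin m) F)) (hT : HasTransv9 m F M)
    (y e a : Fin m ⊕ Fin m → F) (hay : Cfsg.sympForm m F a y = Cfsg.sympForm m F a e)
    (hae : Cfsg.sympForm m F a e ≠ 0) :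
    ∃ t ∈ M, t ∈ Cfsg.spGL m F ∧
      (t : Matrix (Fin m ⊕ Fin m) (Fin m ⊕ Fin m) F) *ᵥ y = e ∧
      (t : Matrix (Fin m ⊕ Fin m) (Fin m ⊕ Fin m) F) *ᵥ a = a ∧
      ∀ v, Cfsg.sympForm m F v y = 0 → Cfsg.sympForm m F v e = 0 →
        Cfsg.sympForm m F v a = 0 →
        (t : Matrix (Fin m ⊕ Fin m) (Fin m ⊕ Fin m) F) *ᵥ v = v := by
  by_cases hye : Cfsg.sympForm m F y e ≠ 0
  · obtain ⟨t, htM, htS, htx, htv⟩ := sp_move9 M hT y e hye
    exact ⟨t, htM, htS, htx, htv a hay, fun v hvy hve _ => htv v (by rw [hvy, hve])⟩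
  · push_neg at hye
    have hyz : Cfsg.sympForm m F y (y + a) ≠ 0 := by
      rw [sf_add_right9, sf_self9, zero_add, sf_swap9, hay]
      exact neg_ne_zero.mpr hae
    have hze : Cfsg.sympForm m F (y + a) e ≠ 0 := by
      rw [sf_add_left9, hye, zero_add]
      exact hae
    obtain ⟨t₁, ht₁M, ht₁S, ht₁x, ht₁v⟩ := sp_move9 M hT y (y + a) hyz
    obtain ⟨t₂, ht₂M, ht₂S, ht₂x, ht₂v⟩ := sp_move9 M hT (y + a) e hze
    refine ⟨t₂ * t₁, M.mul_mem ht₂M ht₁M, Subgroup.mul_mem _ ht₂S ht₁S, ?_, ?_, ?_⟩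
    · rw [gl_mul_vecI9, ht₁x, ht₂x]
    · rw [gl_mul_vecI9, ht₁v a (by rw [sf_add_right9, sf_self9, add_zero]),
        ht₂v a (by rw [sf_add_right9, sf_self9, add_zero, hay])]
    · intro v hvy hve hva
      rw [gl_mul_vecI9, ht₁v v (by rw [sf_add_right9, hva, add_zero]),
        ht₂v v (by rw [sf_add_right9, hvy, hva, add_zero, hve])]

theorem sp_gen_aux9 (M : Subgroup (GL (Fin m ⊕ Fin m) F)) (hT : HasTransv9 m F M) :
    ∀ j : ℕ, j ≤ m → ∀ g ∈ Cfsg.spGL m F, ∃ t ∈ M, t ∈ Cfsg.spGL m F ∧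
      ∀ i : Fin m, (i : ℕ) < j →
        ((t * g : GL (Fin m ⊕ Fin m) F) : Matrix (Fin m ⊕ Fin m) (Fin m ⊕ Fin m) F) *ᵥ
            Pi.single (Sum.inl i) 1 = Pi.single (Sum.inl i) 1 ∧
        ((t * g : GL (Fin m ⊕ Fin m) F) : Matrix (Fin m ⊕ Fin m) (Fin m ⊕ Fin m) F) *ᵥ
            Pi.single (Sum.inr i) 1 = Pi.single (Sum.inr i) 1 := by
  intro j
  induction j with
  | zero =>
    intro _ g _
    exact ⟨1, M.one_mem, Subgroup.one_mem _, fun i hi => absurd hi (Nat.not_lt_zero _)⟩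
  | succ j ih =>
    intro hj g hg
    obtain ⟨t, htM, htS, hfix⟩ := ih (by omega) g hg
    set h : GL (Fin m ⊕ Fin m) F := t * g with hh
    have hhS : h ∈ Cfsg.spGL m F := Subgroup.mul_mem _ htS hg
    let j' : Fin m := ⟨j, by omega⟩
    have hBLR : Cfsg.sympForm m F (Pi.single (Sum.inl j') 1) (Pi.single (Sum.inr j') 1) ≠ 0 := by
      rw [sfLR9, if_pos rfl]
      exact neg_ne_zero.mpr one_ne_zero
    have hBRL : Cfsg.sympForm m F (Pi.single (Sum.inr j') 1) (Pi.single (Sum.inl j') 1) ≠ 0 := by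
      rw [sfRL9, if_pos rfl]
      exact one_ne_zero
    obtain ⟨t₁, ht₁M, ht₁S, ht₁x, ht₁v⟩ := sp_moveA9 M hT
      ((h : Matrix (Fin m ⊕ Fin m) (Fin m ⊕ Fin m) F) *ᵥ Pi.single (Sum.inl j') 1)
      (Pi.single (Sum.inl j') 1)
      ((h : Matrix (Fin m ⊕ Fin m) (Fin m ⊕ Fin m) F) *ᵥ Pi.single (Sum.inr j') 1)
      (Pi.single (Sum.inr j') 1)
      (by rw [mem_spGL9.mp hhS]; exact hBLR) hBRL
    have h1S : t₁ * h ∈ Cfsg.spGL m F := Subgroup.mul_mem _ ht₁S hhS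
    have hfixL : ((t₁ * h : GL (Fin m ⊕ Fin m) F) : Matrix (Fin m ⊕ Fin m) (Fin m ⊕ Fin m) F) *ᵥ
        Pi.single (Sum.inl j') 1 = Pi.single (Sum.inl j') 1 := by
      rw [gl_mul_vecI9, ht₁x]
    obtain ⟨t₂, ht₂M, ht₂S, ht₂y, ht₂a, ht₂v⟩ := sp_moveB9 M hT
      (((t₁ * h : GL (Fin m ⊕ Fin m) F) : Matrix (Fin m ⊕ Fin m) (Fin m ⊕ Fin m) F) *ᵥ
        Pi.single (Sum.inr j') 1)
      (Pi.single (Sum.inr j') 1) (Pi.single (Sum.inl j') 1)
      (sf_fix9 h1S hfixL _) hBLR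
    refine ⟨t₂ * t₁ * t, M.mul_mem (M.mul_mem ht₂M ht₁M) htM,
      Subgroup.mul_mem _ (Subgroup.mul_mem _ ht₂S ht₁S) htS, ?_⟩
    intro i hi
    have e1 : t₂ * t₁ * t * g = t₂ * (t₁ * h) := by
      rw [hh]
      group
    rw [e1]
    by_cases hij : (i : ℕ) < j
    · obtain ⟨hL, hR⟩ := hfix i hij
      have hne : i ≠ j' := fun e => by
        rw [e] at hij
        exact lt_irrefl _ hij
      have key : ∀ v : Fin m ⊕ Fin m → F,
          (h : Matrix (Fin m ⊕ Fin m) (Fin m ⊕ Fin m) F) *ᵥ v = v →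
          Cfsg.sympForm m F v (Pi.single (Sum.inl j') 1) = 0 →
          Cfsg.sympForm m F v (Pi.single (Sum.inr j') 1) = 0 →
          ((t₂ * (t₁ * h) : GL (Fin m ⊕ Fin m) F) :
            Matrix (Fin m ⊕ Fin m) (Fin m ⊕ Fin m) F) *ᵥ v = v := by
        intro v hv hvL hvR
        have hv1 : ((t₁ * h : GL (Fin m ⊕ Fin m) F) :
            Matrix (Fin m ⊕ Fin m) (Fin m ⊕ Fin m) F) *ᵥ v = v := by
          rw [gl_mul_vecI9, hv]
          exact ht₁v v (by rw [sf_fix9 hhS hv, hvL]) hvL (by rw [sf_fix9 hhS hv, hvR]) hvR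
        rw [gl_mul_vecI9, hv1]
        exact ht₂v v (by rw [sf_fix9 h1S hv1, hvR]) hvR hvL
      refine ⟨key _ hL ?_ ?_, key _ hR ?_ ?_⟩
      · rw [sfLL9]
      · rw [sfLR9, if_neg hne]
      · rw [sfRL9, if_neg hne]
      · rw [sfRR9]
    · have hij' : i = j' := Fin.ext (by
        show (i : ℕ) = j
        omega)
      rw [hij']
      exact ⟨by rw [gl_mul_vecI9, hfixL, ht₂a], by rw [gl_mul_vecI9, ht₂y]⟩

/-- A subgroup containing all symplectic transvections contains the symplectic group. -/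
theorem sp_le_of_transv9 (M : Subgroup (GL (Fin m ⊕ Fin m) F)) (hT : HasTransv9 m F M) :
    Cfsg.spGL m F ≤ M := by
  intro g hg
  obtain ⟨t, htM, htS, hfix⟩ := sp_gen_aux9 M hT m le_rfl g hg
  have h1 : t * g = 1 := by
    apply Units.ext
    ext r c
    have hc : ((t * g : GL (Fin m ⊕ Fin m) F) : Matrix (Fin m ⊕ Fin m) (Fin m ⊕ Fin m) F) *ᵥ
        Pi.single c 1 = Pi.single c 1 := by
      rcases c with i | i
      · exact (hfix i i.2).1
      · exact (hfix i i.2).2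
    have h2 := congrFun hc r
    rw [Matrix.mulVec_single_one] at h2
    rw [Units.val_one, Matrix.one_apply]
    rw [Pi.single_apply] at h2
    exact h2
  have h2 : g = t⁻¹ := eq_inv_of_mul_eq_one_right h1
  rw [h2]
  exact M.inv_mem htM

end symp

end Cfsg.Agent.Helper9
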