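import Mathlib
import Cfsg.Agent.Helper9.SpGen
import Cfsg.Agent.Helper9.SLMax

set_option autoImplicit false

namespace Cfsg.Agent.Helper9

open Cfsg
open scoped MatrixGroups Matrix

variable {m : ℕ} {F : Type*} [Field F]

/-- A Siegel-type element: `x ↦ x + f(x,a) b + f(x,b) a` for orthogonal `a`, `b`. -/
theorem siegel9 (a b : Fin m ⊕ Fin m → F) (hab : Cfsg.sympForm m F a b = 0) :
    ∃ s : GL (Fin m ⊕ Fin m) F, s ∈ Cfsg.spGL m F ∧
      ∀ x, (s : Matrix (Fin m ⊕ Fin m) (Fin m ⊕ Fin m) F) *ᵥ x =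
        x + Cfsg.sympForm m F x a • b + Cfsg.sympForm m F x b • a := by
  obtain ⟨t₁, h₁S, h₁⟩ := sp_transv9 (-1 : F) b
  obtain ⟨t₂, h₂S, h₂⟩ := sp_transv9 (-1 : F) a
  obtain ⟨t₃, h₃S, h₃⟩ := sp_transv9 (1 : F) (a + b)
  have hba : Cfsg.sympForm m F b a = 0 := by rw [sf_swap9, hab, neg_zero]
  refine ⟨t₃ * t₂ * t₁, Subgroup.mul_mem _ (Subgroup.mul_mem _ h₃S h₂S) h₁S, fun x => ?_⟩
  rw [gl_mul_vecI9, gl_mul_vecI9, h₁, h₂, h₃]
  simp only [sf_add_left9, sf_add_right9, sf_smul_left9, sf_smul_right9, sf_self9, hab, hba]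
  module

/-- An element of a subgroup not stabilising `W` yields one moving a vector of `W` outside. -/
theorem exists_move_out9 {ι : Type} [Fintype ι] [DecidableEq ι] (W : Submodule F (ι → F))
    (M : Subgroup (GL ι F)) (k : GL ι F) (hk : k ∈ M)
    (hkW : k ∉ Cfsg.Geo.subspaceStabilizer W) :
    ∃ k' ∈ M, ∃ w₀ ∈ W, (k' : Matrix ι ι F) *ᵥ w₀ ∉ W := by
  rw [mem_stabI9] at hkW
  push_neg at hkW
  obtain ⟨x, hx⟩ := hkW
  rcases hx with ⟨h1, h2⟩ | ⟨h1, h2⟩
  · exact ⟨k, hk, x, h1, h2⟩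
  · refine ⟨k⁻¹, M.inv_mem hk, _, h2, ?_⟩
    rw [gl_inv_mul_vecI9]
    exact h1

/-- The stabiliser of a non-zero totally isotropic subspace is maximal in the symplectic group. -/
theorem sp_ti_maximal9 (W : Submodule F (Fin m ⊕ Fin m → F)) (hW0 : W ≠ ⊥)
    (hW : Cfsg.Geo.IsTotallySingularFor (Cfsg.sympForm m F) W) :
    Cfsg.Geo.IsMaximalIn (Cfsg.spGL m F) (Cfsg.Geo.subspaceStabilizer W ⊓ Cfsg.spGL m F) := by
  have hWti : ∀ u ∈ W, ∀ v ∈ W, Cfsg.sympForm m F u v = 0 := hW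
  obtain ⟨w₁, hw₁W, hw₁0⟩ := (Submodule.ne_bot_iff W).mp hW0
  refine ⟨lt_of_le_of_ne inf_le_right fun heq => ?_, fun M hPM hMS => ?_⟩
  · have hw : w₁ ∉ (⊥ : Submodule F (Fin m ⊕ Fin m → F)) := by simpa using hw₁0
    obtain ⟨ψ, hψ1, _⟩ := exists_dual_one9 _ _ hw
    obtain ⟨z, hz⟩ := sf_repr9 ψ
    obtain ⟨g, hgS, hg⟩ := sp_transv9 (1 : F) z
    rw [← heq] at hgS
    have h1 := (mem_stabI9.mp hgS.1 w₁).mp hw₁W
    rw [hg, ← hz, hψ1, one_mul, one_smul] at h1
    have hzW : z ∈ W := by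
      have := W.sub_mem h1 hw₁W
      simpa using this
    have := hWti w₁ hw₁W z hzW
    rw [← hz, hψ1] at this
    exact one_ne_zero this
  · by_cases hMP : M ≤ Cfsg.Geo.subspaceStabilizer W ⊓ Cfsg.spGL m F
    · exact Or.inl (le_antisymm hMP hPM)
    · right
      refine le_antisymm hMS (sp_le_of_transv9 M ?_)
      obtain ⟨k, hkM, hkP⟩ := Set.not_subset.mp hMP
      have hkW : k ∉ Cfsg.Geo.subspaceStabilizer W := fun h =>
        hkP (Subgroup.mem_inf.mpr ⟨h, hMS hkM⟩)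
      obtain ⟨k', hk', w₀, hw₀, hkw₀⟩ := exists_move_out9 W M k hkM hkW
      have hperp : ∀ (g : GL (Fin m ⊕ Fin m) F), g ∈ Cfsg.spGL m F →
          (∀ x ∈ W, (g : Matrix (Fin m ⊕ Fin m) (Fin m ⊕ Fin m) F) *ᵥ x ∈ W) → g ∈ M :=
        fun g hgS hg => hPM (Subgroup.mem_inf.mpr ⟨stab_of_mapsI9 W g hg, hgS⟩)
      have hgood : ∀ z : Fin m ⊕ Fin m → F, ∃ h ∈ M, ∀ w ∈ W,
          Cfsg.sympForm m F w ((h : Matrix (Fin m ⊕ Fin m) (Fin m ⊕ Fin m) F) *ᵥ z) = 0 := by
        obtain ⟨ψ, hψ1, hψ0⟩ := exists_dual_one9 W _ hkw₀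
        obtain ⟨y, hy⟩ := sf_repr9 ψ
        obtain ⟨u, hu⟩ : ∃ u : Fin m ⊕ Fin m → F,
            u = ((k'⁻¹ : GL (Fin m ⊕ Fin m) F) : Matrix (Fin m ⊕ Fin m) (Fin m ⊕ Fin m) F) *ᵥ y :=
          ⟨_, rfl⟩
        have hk'S := hMS hk'
        have hku : (k' : Matrix (Fin m ⊕ Fin m) (Fin m ⊕ Fin m) F) *ᵥ u = y := by
          rw [hu, gl_mul_inv_vecI9]
        have hw₀u : Cfsg.sympForm m F w₀ u ≠ 0 := by
          have := mem_spGL9.mp hk'S w₀ u
          rw [hku, ← hy, hψ1] at this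
          rw [← this]
          exact one_ne_zero
        have hyW : ∀ w ∈ W, Cfsg.sympForm m F w y = 0 := fun w hw => by
          rw [← hy]
          exact hψ0 w hw
        intro z
        by_cases hz : ∀ w ∈ W, Cfsg.sympForm m F w z = 0
        · exact ⟨1, M.one_mem, fun w hw => by rw [gl_one_vecI9]; exact hz w hw⟩
        · push_neg at hz
          obtain ⟨w₂, hw₂, hw₂z⟩ := hz
          obtain ⟨a, haW, hau, haz⟩ : ∃ a ∈ W, Cfsg.sympForm m F a u ≠ 0 ∧
              Cfsg.sympForm m F a z ≠ 0 := by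
            by_cases c1 : Cfsg.sympForm m F w₀ z ≠ 0
            · exact ⟨w₀, hw₀, hw₀u, c1⟩
            · by_cases c2 : Cfsg.sympForm m F w₂ u ≠ 0
              · exact ⟨w₂, hw₂, c2, hw₂z⟩
              · push_neg at c1 c2
                refine ⟨w₀ + w₂, W.add_mem hw₀ hw₂, ?_, ?_⟩
                · rw [sf_add_left9, c2, add_zero]
                  exact hw₀u
                · rw [sf_add_left9, c1, zero_add]
                  exact hw₂z
          have hua : Cfsg.sympForm m F u a ≠ 0 := by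
            rw [sf_swap9]
            exact neg_ne_zero.mpr hau
          have hza : Cfsg.sympForm m F z a ≠ 0 := by
            rw [sf_swap9]
            exact neg_ne_zero.mpr haz
          obtain ⟨β, hβ⟩ : ∃ β : F, β = Cfsg.sympForm m F z a := ⟨_, rfl⟩
          have hβ0 : β ≠ 0 := by rw [hβ]; exact hza
          obtain ⟨c, hc⟩ : ∃ c : F, c = β / Cfsg.sympForm m F u a := ⟨_, rfl⟩
          obtain ⟨u', hu'⟩ : ∃ u' : Fin m ⊕ Fin m → F, u' = c • u := ⟨_, rfl⟩
          have hu'a : Cfsg.sympForm m F u' a = β := by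
            rw [hu', sf_smul_left9, hc, div_mul_cancel₀ _ hua]
          obtain ⟨b, hb⟩ : ∃ b : Fin m ⊕ Fin m → F, b = β⁻¹ • (z - u') := ⟨_, rfl⟩
          have hba : Cfsg.sympForm m F b a = 0 := by
            rw [hb, sf_smul_left9, sf_sub_left9, hu'a, ← hβ, sub_self, mul_zero]
          have hab : Cfsg.sympForm m F a b = 0 := by rw [sf_swap9, hba, neg_zero]
          obtain ⟨s, hsS, hs⟩ := siegel9 a b hab
          have hsM : s ∈ M := by
            apply hperp s hsS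
            intro x hx
            rw [hs, hWti x hx a haW, zero_smul, add_zero]
            exact W.add_mem hx (W.smul_mem _ haW)
          obtain ⟨γ, hγ⟩ : ∃ γ : F, γ = Cfsg.sympForm m F u' b := ⟨_, rfl⟩
          have hsu : (s : Matrix (Fin m ⊕ Fin m) (Fin m ⊕ Fin m) F) *ᵥ u' = z + γ • a := by
            rw [hs, hu'a, ← hγ, hb, smul_smul, mul_inv_cancel₀ hβ0, one_smul]
            abel
          obtain ⟨t₄, ht₄S, ht₄⟩ := sp_transv9 (-γ / β) a
          have ht₄M : t₄ ∈ M := by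
            apply hperp t₄ ht₄S
            intro x hx
            rw [ht₄, hWti x hx a haW, mul_zero, zero_smul, add_zero]
            exact hx
          have hpz : ((t₄ * s : GL (Fin m ⊕ Fin m) F) :
              Matrix (Fin m ⊕ Fin m) (Fin m ⊕ Fin m) F) *ᵥ u' = z := by
            rw [gl_mul_vecI9, hsu, ht₄, sf_add_left9, sf_smul_left9, sf_self9, mul_zero, add_zero,
              ← hβ, div_mul_cancel₀ _ hβ0, neg_smul]
            abel
          refine ⟨k' * (t₄ * s)⁻¹, M.mul_mem hk' (M.inv_mem (M.mul_mem ht₄M hsM)),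
            fun w hw => ?_⟩
          have e : (((t₄ * s)⁻¹ : GL (Fin m ⊕ Fin m) F) :
              Matrix (Fin m ⊕ Fin m) (Fin m ⊕ Fin m) F) *ᵥ z = u' := by
            rw [← hpz, gl_inv_mul_vecI9]
          rw [gl_mul_vecI9, e, hu', Matrix.mulVec_smul, hku, sf_smul_right9, hyW w hw, mul_zero]
      intro a z
      obtain ⟨g, hgS, hg⟩ := sp_transv9 a z
      refine ⟨g, ?_, hgS, hg⟩
      obtain ⟨h, hhM, hh⟩ := hgood z
      have hhS := hMS hhM
      have hg' : h * g * h⁻¹ ∈ M := by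
        apply hperp
        · exact Subgroup.mul_mem _ (Subgroup.mul_mem _ hhS hgS) (Subgroup.inv_mem _ hhS)
        · intro x hx
          rw [gl_mul_vecI9, gl_mul_vecI9, hg]
          have e : Cfsg.sympForm m F
              (((h⁻¹ : GL (Fin m ⊕ Fin m) F) : Matrix (Fin m ⊕ Fin m) (Fin m ⊕ Fin m) F) *ᵥ x) z =
              Cfsg.sympForm m F x ((h : Matrix (Fin m ⊕ Fin m) (Fin m ⊕ Fin m) F) *ᵥ z) := by
            have := mem_spGL9.mp hhS
              (((h⁻¹ : GL (Fin m ⊕ Fin m) F) : Matrix (Fin m ⊕ Fin m) (Fin m ⊕ Fin m) F) *ᵥ x) z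
            rw [gl_mul_inv_vecI9] at this
            exact this.symm
          rw [e, hh x hx, mul_zero, zero_smul, add_zero, gl_mul_inv_vecI9]
          exact hx
      have : g = h⁻¹ * (h * g * h⁻¹) * h := by group
      rw [this]
      exact M.mul_mem (M.mul_mem (M.inv_mem hhM) hg') hhM

end Cfsg.Agent.Helper9
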