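import Mathlib
import Cfsg.Agent.Helper9.SpMaxTI

set_option autoImplicit false

namespace Cfsg.Agent.Helper9

open Cfsg
open scoped MatrixGroups Matrix

variable {m : ℕ} {F : Type*} [Field F]

/-- The linear map `z ↦ f(·, z)`. -/
noncomputable def sfFlip9 (m : ℕ) (F : Type*) [Field F] :
    (Fin m ⊕ Fin m → F) →ₗ[F] Module.Dual F (Fin m ⊕ Fin m → F) :=
  { toFun := fun z =>
      { toFun := fun x => Cfsg.sympForm m F x z
        map_add' := fun x y => sf_add_left9 x y z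
        map_smul' := fun c x => by rw [sf_smul_left9, RingHom.id_apply, smul_eq_mul] }
    map_add' := fun z z' => by
      ext x
      exact sf_add_right9 _ z z'
    map_smul' := fun c z => by
      ext x
      show Cfsg.sympForm m F _ (c • z) = c • Cfsg.sympForm m F _ z
      rw [sf_smul_right9, smul_eq_mul] }

theorem sfFlip9_apply (z x : Fin m ⊕ Fin m → F) :
    sfFlip9 m F z x = Cfsg.sympForm m F x z := rfl

/-- The orthogonal complement for the symplectic form. -/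
def sfPerp9 (W : Submodule F (Fin m ⊕ Fin m → F)) : Submodule F (Fin m ⊕ Fin m → F) where
  carrier := {y | ∀ x ∈ W, Cfsg.sympForm m F x y = 0}
  add_mem' := fun {a b} ha hb x hx => by rw [sf_add_right9, ha x hx, hb x hx, add_zero]
  zero_mem' := fun x _ => sf_zero_right9 x
  smul_mem' := fun c a ha x hx => by rw [sf_smul_right9, ha x hx, mul_zero]

theorem mem_sfPerp9 {W : Submodule F (Fin m ⊕ Fin m → F)} {y : Fin m ⊕ Fin m → F} :
    y ∈ sfPerp9 W ↔ ∀ x ∈ W, Cfsg.sympForm m F x y = 0 := Iff.rfl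

theorem nd_decomp9 (W : Submodule F (Fin m ⊕ Fin m → F))
    (hW : Cfsg.Geo.IsNondegenerateOn (Cfsg.sympForm m F) W) (v : Fin m ⊕ Fin m → F) :
    ∃ w ∈ W, v - w ∈ sfPerp9 W := by
  let Φ : W →ₗ[F] Module.Dual F W := (W.dualRestrict ∘ₗ sfFlip9 m F) ∘ₗ W.subtype
  have hinj : Function.Injective Φ := by
    rw [← LinearMap.ker_eq_bot, LinearMap.ker_eq_bot']
    intro w hw
    by_contra hne
    have hne' : (w : Fin m ⊕ Fin m → F) ≠ 0 := fun h => hne (Subtype.ext h)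
    obtain ⟨⟨x, hx, hxw⟩, _⟩ := hW w w.2 hne'
    apply hxw
    have := congrArg (fun f : Module.Dual F W => f ⟨x, hx⟩) hw
    exact this
  have hsurj : Function.Surjective Φ :=
    (LinearMap.injective_iff_surjective_of_finrank_eq_finrank
      (Subspace.dual_finrank_eq).symm).mp hinj
  obtain ⟨w, hw⟩ := hsurj (W.dualRestrict (sfFlip9 m F v))
  refine ⟨w, w.2, fun x hx => ?_⟩
  have := congrArg (fun f : Module.Dual F W => f ⟨x, hx⟩) hw
  have h2 : Cfsg.sympForm m F x w = Cfsg.sympForm m F x v := this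
  rw [sf_sub_right9, h2, sub_self]

theorem sp_move_in9 (S : Submodule F (Fin m ⊕ Fin m → F)) (M : Subgroup (GL (Fin m ⊕ Fin m) F))
    (hS : ∀ (a : F), ∀ z ∈ S, ∃ g ∈ M, ∀ x,
      (g : Matrix (Fin m ⊕ Fin m) (Fin m ⊕ Fin m) F) *ᵥ x =
        x + (a * Cfsg.sympForm m F x z) • z)
    (hnd : ∀ s ∈ S, s ≠ 0 → ∃ x ∈ S, Cfsg.sympForm m F s x ≠ 0)
    (s s' : Fin m ⊕ Fin m → F) (hs : s ∈ S) (hs' : s' ∈ S) (hs0 : s ≠ 0) (hs'0 : s' ≠ 0) :
    ∃ t ∈ M, (t : Matrix (Fin m ⊕ Fin m) (Fin m ⊕ Fin m) F) *ᵥ s = s' ∧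
      ∀ v, (∀ x ∈ S, Cfsg.sympForm m F v x = 0) →
        (t : Matrix (Fin m ⊕ Fin m) (Fin m ⊕ Fin m) F) *ᵥ v = v := by
  have move : ∀ x y : Fin m ⊕ Fin m → F, x ∈ S → y ∈ S → Cfsg.sympForm m F x y ≠ 0 →
      ∃ t ∈ M, (t : Matrix (Fin m ⊕ Fin m) (Fin m ⊕ Fin m) F) *ᵥ x = y ∧
        ∀ v, (∀ x ∈ S, Cfsg.sympForm m F v x = 0) →
          (t : Matrix (Fin m ⊕ Fin m) (Fin m ⊕ Fin m) F) *ᵥ v = v := by
    intro x y hx hy hxy
    obtain ⟨t, htM, ht⟩ := hS (Cfsg.sympForm m F x y)⁻¹ (x - y) (S.sub_mem hx hy)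
    refine ⟨t, htM, ?_, ?_⟩
    · rw [ht, sf_sub_right9, sf_self9, zero_sub, mul_neg, inv_mul_cancel₀ hxy, neg_smul, one_smul]
      abel
    · intro v hv
      rw [ht, hv _ (S.sub_mem hx hy), mul_zero, zero_smul, add_zero]
  by_cases hss : Cfsg.sympForm m F s s' ≠ 0
  · exact move s s' hs hs' hss
  · obtain ⟨x₁, hx₁, h1⟩ := hnd s hs hs0
    obtain ⟨x₂, hx₂, h2'⟩ := hnd s' hs' hs'0
    have h2 : Cfsg.sympForm m F x₂ s' ≠ 0 := by
      rw [sf_swap9]
      exact neg_ne_zero.mpr h2'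
    obtain ⟨z, hzS, hsz, hzs'⟩ : ∃ z ∈ S, Cfsg.sympForm m F s z ≠ 0 ∧
        Cfsg.sympForm m F z s' ≠ 0 := by
      by_cases c1 : Cfsg.sympForm m F x₁ s' ≠ 0
      · exact ⟨x₁, hx₁, h1, c1⟩
      · by_cases c2 : Cfsg.sympForm m F s x₂ ≠ 0
        · exact ⟨x₂, hx₂, c2, h2⟩
        · push_neg at c1 c2
          refine ⟨x₁ + x₂, S.add_mem hx₁ hx₂, ?_, ?_⟩
          · rw [sf_add_right9, c2, add_zero]
            exact h1
          · rw [sf_add_left9, c1, zero_add]
            exact h2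
    obtain ⟨t₁, ht₁M, ht₁x, ht₁v⟩ := move s z hs hzS hsz
    obtain ⟨t₂, ht₂M, ht₂x, ht₂v⟩ := move z s' hzS hs' hzs'
    refine ⟨t₂ * t₁, M.mul_mem ht₂M ht₁M, ?_, ?_⟩
    · rw [gl_mul_vecI9, ht₁x, ht₂x]
    · intro v hv
      rw [gl_mul_vecI9, ht₁v v hv, ht₂v v hv]

/-- The stabiliser of a non-degenerate subspace of dimension less than `m` is maximal in the
symplectic group. -/
theorem sp_nd_maximal9 (W : Submodule F (Fin m ⊕ Fin m → F)) (hW0 : W ≠ ⊥)
    (hW : Cfsg.Geo.IsNondegenerateOn (Cfsg.sympForm m F) W) (hdim : Module.finrank F W < m) :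
    Cfsg.Geo.IsMaximalIn (Cfsg.spGL m F) (Cfsg.Geo.subspaceStabilizer W ⊓ Cfsg.spGL m F) := by
  obtain ⟨w₁, hw₁W, hw₁0⟩ := (Submodule.ne_bot_iff W).mp hW0
  have hVdim : Module.finrank F (Fin m ⊕ Fin m → F) = 2 * m := by
    rw [Module.finrank_fintype_fun_eq_card, Fintype.card_sum, Fintype.card_fin]
    ring
  have hW1 : W ≠ ⊤ := by
    intro h
    rw [h, finrank_top, hVdim] at hdim
    omega
  have hndW : ∀ s ∈ W, s ≠ 0 → ∃ x ∈ W, Cfsg.sympForm m F s x ≠ 0 :=
    fun s hs hs0 => (hW s hs hs0).2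
  have hndP : ∀ s ∈ sfPerp9 W, s ≠ 0 → ∃ x ∈ sfPerp9 W, Cfsg.sympForm m F s x ≠ 0 := by
    intro s hs hs0
    have hsb : s ∉ (⊥ : Submodule F (Fin m ⊕ Fin m → F)) := by simpa using hs0
    obtain ⟨ψ, hψ1, _⟩ := exists_dual_one9 _ _ hsb
    obtain ⟨v, hv⟩ := sf_repr9 ψ
    obtain ⟨w, hwW, hvw⟩ := nd_decomp9 W hW v
    refine ⟨v - w, hvw, ?_⟩
    rw [sf_sub_right9, ← hv, hψ1]
    have : Cfsg.sympForm m F s w = 0 := by rw [sf_swap9, hs w hwW, neg_zero]
    rw [this, sub_zero]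
    exact one_ne_zero
  refine ⟨lt_of_le_of_ne inf_le_right fun heq => ?_, fun M hPM hMS => ?_⟩
  · obtain ⟨z₁, hz₁⟩ : ∃ v : Fin m ⊕ Fin m → F, v ∉ W := by
      by_contra hcon
      push_neg at hcon
      exact hW1 (eq_top_iff.mpr fun x _ => hcon x)
    obtain ⟨x, hxW, hx⟩ := hndW w₁ hw₁W hw₁0
    obtain ⟨z, hzW, hz⟩ : ∃ z, z ∉ W ∧ Cfsg.sympForm m F w₁ z ≠ 0 := by
      by_cases c : Cfsg.sympForm m F w₁ z₁ ≠ 0
      · exact ⟨z₁, hz₁, c⟩
      · push_neg at c
        refine ⟨z₁ + x, fun h => hz₁ ?_, ?_⟩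
        · have := W.sub_mem h hxW
          simpa using this
        · rw [sf_add_right9, c, zero_add]
          exact hx
    obtain ⟨g, hgS, hg⟩ := sp_transv9 (1 : F) z
    rw [← heq] at hgS
    have h1 := (mem_stabI9.mp hgS.1 w₁).mp hw₁W
    rw [hg, one_mul] at h1
    have h2 : Cfsg.sympForm m F w₁ z • z ∈ W := by
      have := W.sub_mem h1 hw₁W
      simpa using this
    apply hzW
    have : z = (Cfsg.sympForm m F w₁ z)⁻¹ • (Cfsg.sympForm m F w₁ z • z) := by
      rw [smul_smul, inv_mul_cancel₀ hz, one_smul]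
    rw [this]
    exact W.smul_mem _ h2
  · by_cases hMP : M ≤ Cfsg.Geo.subspaceStabilizer W ⊓ Cfsg.spGL m F
    · exact Or.inl (le_antisymm hMP hPM)
    · right
      refine le_antisymm hMS (sp_le_of_transv9 M ?_)
      obtain ⟨k, hkM, hkP⟩ := Set.not_subset.mp hMP
      have hkW : k ∉ Cfsg.Geo.subspaceStabilizer W := fun h =>
        hkP (Subgroup.mem_inf.mpr ⟨h, hMS hkM⟩)
      obtain ⟨k', hk', w₀, hw₀, hkw₀⟩ := exists_move_out9 W M k hkM hkW
      have hk'S := hMS hk'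
      have hperp : ∀ (g : GL (Fin m ⊕ Fin m) F), g ∈ Cfsg.spGL m F →
          (∀ x ∈ W, (g : Matrix (Fin m ⊕ Fin m) (Fin m ⊕ Fin m) F) *ᵥ x ∈ W) → g ∈ M :=
        fun g hgS hg => hPM (Subgroup.mem_inf.mpr ⟨stab_of_mapsI9 W g hg, hgS⟩)
      have hTW : ∀ (a : F), ∀ z ∈ W, ∃ g ∈ M, ∀ x,
          (g : Matrix (Fin m ⊕ Fin m) (Fin m ⊕ Fin m) F) *ᵥ x =
            x + (a * Cfsg.sympForm m F x z) • z := by
        intro a z hz
        obtain ⟨g, hgS, hg⟩ := sp_transv9 a z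
        refine ⟨g, hperp g hgS fun x hx => ?_, hg⟩
        rw [hg]
        exact W.add_mem hx (W.smul_mem _ hz)
      have hTP : ∀ (a : F), ∀ z ∈ sfPerp9 W, ∃ g ∈ M, ∀ x,
          (g : Matrix (Fin m ⊕ Fin m) (Fin m ⊕ Fin m) F) *ᵥ x =
            x + (a * Cfsg.sympForm m F x z) • z := by
        intro a z hz
        obtain ⟨g, hgS, hg⟩ := sp_transv9 a z
        refine ⟨g, hperp g hgS fun x hx => ?_, hg⟩
        rw [hg, hz x hx, mul_zero, zero_smul, add_zero]
        exact hx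
      have hu : ∃ (w y : Fin m ⊕ Fin m → F), w ∈ W ∧ w ≠ 0 ∧ y ∈ sfPerp9 W ∧ y ≠ 0 ∧
          ∃ h ∈ M, ((h : Matrix (Fin m ⊕ Fin m) (Fin m ⊕ Fin m) F) *ᵥ (w + y) ∈ W ∨
            (h : Matrix (Fin m ⊕ Fin m) (Fin m ⊕ Fin m) F) *ᵥ (w + y) ∈ sfPerp9 W) := by
        by_cases hc : ∃ w ∈ W, (k' : Matrix (Fin m ⊕ Fin m) (Fin m ⊕ Fin m) F) *ᵥ w ∉ W ∧
            (k' : Matrix (Fin m ⊕ Fin m) (Fin m ⊕ Fin m) F) *ᵥ w ∉ sfPerp9 W
        · obtain ⟨w, hwW, h1, h2⟩ := hc
          obtain ⟨w', hw'W, hy'⟩ := nd_decomp9 W hW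
            ((k' : Matrix (Fin m ⊕ Fin m) (Fin m ⊕ Fin m) F) *ᵥ w)
          refine ⟨w', (k' : Matrix (Fin m ⊕ Fin m) (Fin m ⊕ Fin m) F) *ᵥ w - w', hw'W, ?_, hy', ?_,
            k'⁻¹, M.inv_mem hk', Or.inl ?_⟩
          · intro h0
            rw [h0, sub_zero] at hy'
            exact h2 hy'
          · intro h0
            apply h1
            rw [sub_eq_zero.mp h0]
            exact hw'W
          · have e : w' + ((k' : Matrix (Fin m ⊕ Fin m) (Fin m ⊕ Fin m) F) *ᵥ w - w') =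
                (k' : Matrix (Fin m ⊕ Fin m) (Fin m ⊕ Fin m) F) *ᵥ w := by abel
            rw [e, gl_inv_mul_vecI9]
            exact hwW
        · push_neg at hc
          have hall : ∀ w ∈ W,
              (k' : Matrix (Fin m ⊕ Fin m) (Fin m ⊕ Fin m) F) *ᵥ w ∈ sfPerp9 W := by
            have h0 : (k' : Matrix (Fin m ⊕ Fin m) (Fin m ⊕ Fin m) F) *ᵥ w₀ ∈ sfPerp9 W :=
              hc w₀ hw₀ hkw₀
            intro w hw
            by_contra hn
            have hwW : (k' : Matrix (Fin m ⊕ Fin m) (Fin m ⊕ Fin m) F) *ᵥ w ∈ W := by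
              by_contra h'
              exact hn (hc w hw h')
            have hsum := hc (w₀ + w) (W.add_mem hw₀ hw)
            rw [Matrix.mulVec_add] at hsum
            by_cases h3 : (k' : Matrix (Fin m ⊕ Fin m) (Fin m ⊕ Fin m) F) *ᵥ w₀ +
                (k' : Matrix (Fin m ⊕ Fin m) (Fin m ⊕ Fin m) F) *ᵥ w ∈ W
            · apply hkw₀
              have := W.sub_mem h3 hwW
              simpa using this
            · apply hn
              have := (sfPerp9 W).sub_mem (hsum h3) h0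
              simpa using this
          obtain ⟨y, hy0, hyP, hyk⟩ : ∃ y : Fin m ⊕ Fin m → F, y ≠ 0 ∧ y ∈ sfPerp9 W ∧
              ((k'⁻¹ : GL (Fin m ⊕ Fin m) F) : Matrix (Fin m ⊕ Fin m) (Fin m ⊕ Fin m) F) *ᵥ y ∈
                sfPerp9 W := by
            let Ψ : (Fin m ⊕ Fin m → F) →ₗ[F] Module.Dual F W × Module.Dual F W :=
              LinearMap.prod (W.dualRestrict ∘ₗ sfFlip9 m F)
                (W.dualRestrict ∘ₗ sfFlip9 m F ∘ₗ Matrix.toLin'
                  ((k'⁻¹ : GL (Fin m ⊕ Fin m) F) : Matrix (Fin m ⊕ Fin m) (Fin m ⊕ Fin m) F))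
            by_contra hcon
            push_neg at hcon
            have hinj : Function.Injective Ψ := by
              rw [← LinearMap.ker_eq_bot, LinearMap.ker_eq_bot']
              intro y hy
              by_contra hy0
              have h1 : (W.dualRestrict ∘ₗ sfFlip9 m F) y = 0 := congrArg Prod.fst hy
              have h2 : (W.dualRestrict ∘ₗ sfFlip9 m F ∘ₗ Matrix.toLin'
                  ((k'⁻¹ : GL (Fin m ⊕ Fin m) F) : Matrix (Fin m ⊕ Fin m) (Fin m ⊕ Fin m) F)) y = 0 :=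
                congrArg Prod.snd hy
              apply hcon y hy0
              · intro x hx
                have := congrArg (fun f : Module.Dual F W => f ⟨x, hx⟩) h1
                exact this
              · intro x hx
                have := congrArg (fun f : Module.Dual F W => f ⟨x, hx⟩) h2
                exact this
            have hle := LinearMap.finrank_le_finrank_of_injective hinj
            rw [hVdim, Module.finrank_prod, Subspace.dual_finrank_eq] at hle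
            omega
          have hw₀0 : w₀ ≠ 0 := by
            intro h0
            apply hkw₀
            rw [h0, Matrix.mulVec_zero]
            exact W.zero_mem
          refine ⟨w₀, y, hw₀, hw₀0, hyP, hy0, k'⁻¹, M.inv_mem hk', Or.inr ?_⟩
          intro x hx
          rw [Matrix.mulVec_add, sf_add_right9, hyk x hx, add_zero]
          have e := mem_spGL9.mp hk'S x
            (((k'⁻¹ : GL (Fin m ⊕ Fin m) F) : Matrix (Fin m ⊕ Fin m) (Fin m ⊕ Fin m) F) *ᵥ w₀)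
          rw [gl_mul_inv_vecI9] at e
          rw [← e, sf_swap9, hall x hx w₀ hw₀, neg_zero]
      obtain ⟨w, y, hwW, hw0, hyP, hy0, hu_, hhuM, hhu⟩ := hu
      have hgood : ∀ z : Fin m ⊕ Fin m → F, ∃ h ∈ M,
          ((h : Matrix (Fin m ⊕ Fin m) (Fin m ⊕ Fin m) F) *ᵥ z ∈ W ∨
            (h : Matrix (Fin m ⊕ Fin m) (Fin m ⊕ Fin m) F) *ᵥ z ∈ sfPerp9 W) := by
        intro z
        obtain ⟨w', hw'W, hy'⟩ := nd_decomp9 W hW z
        by_cases hw'0 : w' = 0
        · refine ⟨1, M.one_mem, Or.inr ?_⟩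
          rw [gl_one_vecI9]
          rw [hw'0, sub_zero] at hy'
          exact hy'
        · by_cases hy'0 : z - w' = 0
          · refine ⟨1, M.one_mem, Or.inl ?_⟩
            rw [gl_one_vecI9, sub_eq_zero.mp hy'0]
            exact hw'W
          · obtain ⟨t₁, ht₁M, ht₁w, ht₁v⟩ := sp_move_in9 W M hTW hndW w w' hwW hw'W hw0 hw'0
            obtain ⟨t₂, ht₂M, ht₂y, ht₂v⟩ :=
              sp_move_in9 (sfPerp9 W) M hTP hndP y (z - w') hyP hy' hy0 hy'0
            have hp : ((t₂ * t₁ : GL (Fin m ⊕ Fin m) F) :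
                Matrix (Fin m ⊕ Fin m) (Fin m ⊕ Fin m) F) *ᵥ (w + y) = z := by
              rw [gl_mul_vecI9, Matrix.mulVec_add, ht₁w,
                ht₁v y (fun x hx => by rw [sf_swap9, hyP x hx, neg_zero]), Matrix.mulVec_add, ht₂y,
                ht₂v w' (fun x hx => hx w' hw'W)]
              abel
            refine ⟨hu_ * (t₂ * t₁)⁻¹, M.mul_mem hhuM (M.inv_mem (M.mul_mem ht₂M ht₁M)), ?_⟩
            have e : (((t₂ * t₁)⁻¹ : GL (Fin m ⊕ Fin m) F) :
                Matrix (Fin m ⊕ Fin m) (Fin m ⊕ Fin m) F) *ᵥ z = w + y := by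
              rw [← hp, gl_inv_mul_vecI9]
            rw [gl_mul_vecI9, e]
            exact hhu
      intro a z
      obtain ⟨g, hgS, hg⟩ := sp_transv9 a z
      refine ⟨g, ?_, hgS, hg⟩
      obtain ⟨h, hhM, hh⟩ := hgood z
      have hhS := hMS hhM
      have hg' : h * g * h⁻¹ ∈ M := by
        apply hperp
        · exact Subgroup.mul_mem _ (Subgroup.mul_mem _ hhS hgS) (Subgroup.inv_mem _ hhS)
        · intro x hx
          rw [gl_mul_vecI9, gl_mul_vecI9, hg]
          have e : Cfsg.sympForm m F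
              (((h⁻¹ : GL (Fin m ⊕ Fin m) F) : Matrix (Fin m ⊕ Fin m) (Fin m ⊕ Fin m) F) *ᵥ x) z =
              Cfsg.sympForm m F x ((h : Matrix (Fin m ⊕ Fin m) (Fin m ⊕ Fin m) F) *ᵥ z) := by
            have := mem_spGL9.mp hhS
              (((h⁻¹ : GL (Fin m ⊕ Fin m) F) : Matrix (Fin m ⊕ Fin m) (Fin m ⊕ Fin m) F) *ᵥ x) z
            rw [gl_mul_inv_vecI9] at this
            exact this.symm
          rw [e, Matrix.mulVec_add, Matrix.mulVec_smul, gl_mul_inv_vecI9]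
          rcases hh with hh | hh
          · exact W.add_mem hx (W.smul_mem _ hh)
          · rw [hh x hx, mul_zero, zero_smul, add_zero]
            exact hx
      have : g = h⁻¹ * (h * g * h⁻¹) * h := by group
      rw [this]
      exact M.mul_mem (M.mul_mem (M.inv_mem hhM) hg') hhM

end Cfsg.Agent.Helper9
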