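import Mathlib
import Cfsg.Agent.Helper9.SpMaxND

set_option autoImplicit false

namespace Cfsg.Agent.Helper9

open Cfsg
open scoped MatrixGroups Matrix

variable {m : ℕ} {F : Type*} [Field F]

/-- The linear map `y ↦ f(e, y)`. -/
noncomputable def sfR9 (m : ℕ) (F : Type*) [Field F] (e : Fin m ⊕ Fin m → F) :
    (Fin m ⊕ Fin m → F) →ₗ[F] F :=
  { toFun := fun y => Cfsg.sympForm m F e y
    map_add' := fun x y => sf_add_right9 e x y
    map_smul' := fun c x => by rw [sf_smul_right9, RingHom.id_apply, smul_eq_mul] }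

theorem sfR9_apply (e y : Fin m ⊕ Fin m → F) : sfR9 m F e y = Cfsg.sympForm m F e y := rfl

/-- The involution `x ↦ x - f(x,q) p + f(x,p) q` for `f(p,q) = 2`. -/
theorem hyp_refl9 (p q : Fin m ⊕ Fin m → F) (hpq : Cfsg.sympForm m F p q = 2) :
    ∃ s : GL (Fin m ⊕ Fin m) F, s ∈ Cfsg.spGL m F ∧
      ∀ x, (s : Matrix (Fin m ⊕ Fin m) (Fin m ⊕ Fin m) F) *ᵥ x =
        x - Cfsg.sympForm m F x q • p + Cfsg.sympForm m F x p • q := by
  have hqp : Cfsg.sympForm m F q p = -2 := by rw [sf_swap9, hpq]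
  let L : (Fin m ⊕ Fin m → F) →ₗ[F] (Fin m ⊕ Fin m → F) :=
    LinearMap.id - (sfFlip9 m F q).smulRight p + (sfFlip9 m F p).smulRight q
  have hL : ∀ x, L x = x - Cfsg.sympForm m F x q • p + Cfsg.sympForm m F x p • q :=
    fun x => rfl
  have hLL : L ∘ₗ L = LinearMap.id := by
    apply LinearMap.ext
    intro x
    rw [LinearMap.comp_apply, hL, hL, LinearMap.id_apply]
    simp only [sf_add_left9, sf_sub_left9, sf_smul_left9, sf_self9, hpq, hqp]
    module
  have hM : LinearMap.toMatrix' L * LinearMap.toMatrix' L = 1 := by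
    rw [← LinearMap.toMatrix'_comp, hLL, LinearMap.toMatrix'_id]
  have hact : ∀ x, ((⟨LinearMap.toMatrix' L, LinearMap.toMatrix' L, hM, hM⟩ :
      GL (Fin m ⊕ Fin m) F) : Matrix (Fin m ⊕ Fin m) (Fin m ⊕ Fin m) F) *ᵥ x =
      x - Cfsg.sympForm m F x q • p + Cfsg.sympForm m F x p • q := by
    intro x
    show LinearMap.toMatrix' L *ᵥ x = _
    rw [← Matrix.toLin'_apply, Matrix.toLin'_toMatrix', hL]
  refine ⟨⟨LinearMap.toMatrix' L, LinearMap.toMatrix' L, hM, hM⟩, ?_, hact⟩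
  rw [mem_spGL9]
  intro u v
  rw [hact, hact]
  simp only [sf_add_left9, sf_add_right9, sf_sub_left9, sf_sub_right9, sf_smul_left9,
    sf_smul_right9, sf_self9, hpq, hqp]
  rw [sf_swap9 p v, sf_swap9 q v]
  ring

/-- Splitting a hyperbolic pair off a non-degenerate subspace. -/
theorem hyp_split9 (W : Submodule F (Fin m ⊕ Fin m → F)) (d : ℕ) (hd : d ≠ 0)
    (hW : Module.finrank F W = d)
    (nd : ∀ u ∈ W, u ≠ 0 → ∃ x ∈ W, Cfsg.sympForm m F u x ≠ 0) :
    ∃ e ∈ W, ∃ f ∈ W, Cfsg.sympForm m F e f = 1 ∧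
      ∃ W₁ : Submodule F (Fin m ⊕ Fin m → F), W₁ ≤ W ∧ Module.finrank F W₁ + 2 = d ∧
        (∀ u ∈ W₁, u ≠ 0 → ∃ x ∈ W₁, Cfsg.sympForm m F u x ≠ 0) ∧
        (∀ x ∈ W₁, Cfsg.sympForm m F e x = 0 ∧ Cfsg.sympForm m F f x = 0) ∧
        ∀ u ∈ W, u - Cfsg.sympForm m F u f • e + Cfsg.sympForm m F u e • f ∈ W₁ := by
  have hWb : W ≠ ⊥ := by
    intro h
    rw [h, finrank_bot] at hW
    exact hd hW.symm
  obtain ⟨e, heW, he0⟩ := (Submodule.ne_bot_iff W).mp hWb
  obtain ⟨f₀, hf₀W, hf₀⟩ := nd e heW he0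
  obtain ⟨f, hf⟩ : ∃ f : Fin m ⊕ Fin m → F, f = (Cfsg.sympForm m F e f₀)⁻¹ • f₀ := ⟨_, rfl⟩
  have hfW : f ∈ W := by
    rw [hf]
    exact W.smul_mem _ hf₀W
  have hef : Cfsg.sympForm m F e f = 1 := by
    rw [hf, sf_smul_right9, inv_mul_cancel₀ hf₀]
  have hfe : Cfsg.sympForm m F f e = -1 := by rw [sf_swap9, hef]
  let Ψ : W →ₗ[F] F × F := (LinearMap.prod (sfR9 m F e) (sfR9 m F f)).comp W.subtype
  have hΨ : ∀ y : W, Ψ y = (Cfsg.sympForm m F e y, Cfsg.sympForm m F f y) := fun y => rfl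
  obtain ⟨W₁, hW₁⟩ : ∃ W₁ : Submodule F (Fin m ⊕ Fin m → F),
      W₁ = (LinearMap.ker Ψ).map W.subtype := ⟨_, rfl⟩
  have hmem : ∀ x, x ∈ W₁ ↔ x ∈ W ∧ Cfsg.sympForm m F e x = 0 ∧ Cfsg.sympForm m F f x = 0 := by
    intro x
    rw [hW₁, Submodule.mem_map]
    constructor
    · rintro ⟨y, hy, rfl⟩
      have hy' : Ψ y = 0 := hy
      rw [hΨ] at hy'
      exact ⟨y.2, congrArg Prod.fst hy', congrArg Prod.snd hy'⟩
    · rintro ⟨hx, h1, h2⟩
      refine ⟨⟨x, hx⟩, ?_, rfl⟩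
      show Ψ ⟨x, hx⟩ = 0
      rw [hΨ]
      exact Prod.ext h1 h2
  have hproj : ∀ u ∈ W, u - Cfsg.sympForm m F u f • e + Cfsg.sympForm m F u e • f ∈ W₁ := by
    intro u hu
    rw [hmem]
    refine ⟨W.add_mem (W.sub_mem hu (W.smul_mem _ heW)) (W.smul_mem _ hfW), ?_, ?_⟩
    · rw [sf_add_right9, sf_sub_right9, sf_smul_right9, sf_smul_right9, sf_self9, hef,
        sf_swap9 e u]
      ring
    · rw [sf_add_right9, sf_sub_right9, sf_smul_right9, sf_smul_right9, sf_self9, hfe,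
        sf_swap9 f u]
      ring
  refine ⟨e, heW, f, hfW, hef, W₁, ?_, ?_, ?_, ?_, hproj⟩
  · intro x hx
    exact ((hmem x).mp hx).1
  · have hsurj : Function.Surjective Ψ := by
      rintro ⟨a, b⟩
      refine ⟨a • ⟨f, hfW⟩ - b • ⟨e, heW⟩, ?_⟩
      rw [map_sub, map_smul, map_smul, hΨ, hΨ]
      show a • (Cfsg.sympForm m F e f, Cfsg.sympForm m F f f) -
        b • (Cfsg.sympForm m F e e, Cfsg.sympForm m F f e) = (a, b)
      rw [hef, hfe, sf_self9, sf_self9]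
      ext <;> simp
    have h1 := LinearMap.finrank_range_add_finrank_ker Ψ
    rw [LinearMap.range_eq_top.mpr hsurj, finrank_top, Module.finrank_prod,
      Module.finrank_self, hW] at h1
    have h2 : Module.finrank F W₁ = Module.finrank F (LinearMap.ker Ψ) := by
      rw [hW₁]
      exact Submodule.finrank_map_subtype_eq W (LinearMap.ker Ψ)
    omega
  · intro u hu hu0
    obtain ⟨huW, hue, huf⟩ := (hmem u).mp hu
    obtain ⟨x, hxW, hx⟩ := nd u huW hu0
    refine ⟨_, hproj x hxW, ?_⟩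
    rw [sf_add_right9, sf_sub_right9, sf_smul_right9, sf_smul_right9, sf_swap9 u e, hue,
      sf_swap9 u f, huf]
    simpa using hx
  · intro x hx
    exact ((hmem x).mp hx).2

/-- Two orthogonal non-degenerate subspaces of the same dimension are interchanged by a
symplectic transformation fixing every vector orthogonal to both. -/
theorem sp_swap9 : ∀ (d : ℕ) (U U' : Submodule F (Fin m ⊕ Fin m → F)),
    Module.finrank F U = d → Module.finrank F U' = d →
    (∀ u ∈ U, u ≠ 0 → ∃ x ∈ U, Cfsg.sympForm m F u x ≠ 0) →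
    (∀ u ∈ U', u ≠ 0 → ∃ x ∈ U', Cfsg.sympForm m F u x ≠ 0) →
    (∀ u ∈ U, ∀ u' ∈ U', Cfsg.sympForm m F u u' = 0) →
    ∃ s : GL (Fin m ⊕ Fin m) F, s ∈ Cfsg.spGL m F ∧
      (∀ u ∈ U, (s : Matrix (Fin m ⊕ Fin m) (Fin m ⊕ Fin m) F) *ᵥ u ∈ U') ∧
      (∀ u' ∈ U', (s : Matrix (Fin m ⊕ Fin m) (Fin m ⊕ Fin m) F) *ᵥ u' ∈ U) ∧
      ∀ v, (∀ u ∈ U, Cfsg.sympForm m F u v = 0) → (∀ u' ∈ U', Cfsg.sympForm m F u' v = 0) →
        (s : Matrix (Fin m ⊕ Fin m) (Fin m ⊕ Fin m) F) *ᵥ v = v := by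
  intro d
  induction d using Nat.strong_induction_on with
  | _ d ih =>
    intro U U' hU hU' ndU ndU' horth
    by_cases hd : d = 0
    · have hUb : U = ⊥ := Submodule.finrank_eq_zero.mp (hU.trans hd)
      have hU'b : U' = ⊥ := Submodule.finrank_eq_zero.mp (hU'.trans hd)
      refine ⟨1, Subgroup.one_mem _, ?_, ?_, fun v _ _ => gl_one_vecI9 v⟩
      · intro u hu
        rw [hUb, Submodule.mem_bot] at hu
        rw [hu, Matrix.mulVec_zero]
        exact U'.zero_mem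
      · intro u hu
        rw [hU'b, Submodule.mem_bot] at hu
        rw [hu, Matrix.mulVec_zero]
        exact U.zero_mem
    · obtain ⟨e, heU, f, hfU, hef, U₁, hU₁U, hU₁d, ndU₁, hU₁perp, hU₁proj⟩ :=
        hyp_split9 U d hd hU ndU
      obtain ⟨e', he'U, f', hf'U, he'f', U₁', hU₁'U, hU₁'d, ndU₁', hU₁'perp, hU₁'proj⟩ :=
        hyp_split9 U' d hd hU' ndU'
      obtain ⟨s₁, hs₁S, hs₁U, hs₁U', hs₁fix⟩ := ih (d - 2) (by omega) U₁ U₁' (by omega)
        (by omega) ndU₁ ndU₁' (fun u hu u' hu' => horth u (hU₁U hu) u' (hU₁'U hu'))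
      have hee' : Cfsg.sympForm m F e e' = 0 := horth e heU e' he'U
      have hef' : Cfsg.sympForm m F e f' = 0 := horth e heU f' hf'U
      have hfe' : Cfsg.sympForm m F f e' = 0 := horth f hfU e' he'U
      have hff' : Cfsg.sympForm m F f f' = 0 := horth f hfU f' hf'U
      have hfe : Cfsg.sympForm m F f e = -1 := by rw [sf_swap9, hef]
      have hf'e' : Cfsg.sympForm m F f' e' = -1 := by rw [sf_swap9, he'f']
      have he'e : Cfsg.sympForm m F e' e = 0 := by rw [sf_swap9, hee', neg_zero]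
      have hf'e : Cfsg.sympForm m F f' e = 0 := by rw [sf_swap9, hef', neg_zero]
      have he'f : Cfsg.sympForm m F e' f = 0 := by rw [sf_swap9, hfe', neg_zero]
      have hf'f : Cfsg.sympForm m F f' f = 0 := by rw [sf_swap9, hff', neg_zero]
      obtain ⟨s₀, hs₀S, hs₀⟩ := hyp_refl9 (e - e') (f - f') (by
        rw [sf_sub_left9, sf_sub_right9, sf_sub_right9, hef, he'f', hef', he'f]
        ring)
      -- the images of the hyperbolic pairs
      have hs₀e : (s₀ : Matrix (Fin m ⊕ Fin m) (Fin m ⊕ Fin m) F) *ᵥ e = e' := by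
        rw [hs₀, sf_sub_right9, sf_sub_right9, hef, hef', sf_self9, hee']
        simp
      have hs₀f : (s₀ : Matrix (Fin m ⊕ Fin m) (Fin m ⊕ Fin m) F) *ᵥ f = f' := by
        rw [hs₀, sf_sub_right9, sf_sub_right9, sf_self9, hff', hfe, hfe']
        simp
      have hs₀e' : (s₀ : Matrix (Fin m ⊕ Fin m) (Fin m ⊕ Fin m) F) *ᵥ e' = e := by
        rw [hs₀, sf_sub_right9, sf_sub_right9, he'f, he'f', sf_self9, he'e]
        simp
      have hs₀f' : (s₀ : Matrix (Fin m ⊕ Fin m) (Fin m ⊕ Fin m) F) *ᵥ f' = f := by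
        rw [hs₀, sf_sub_right9, sf_sub_right9, sf_self9, hf'f, hf'e, hf'e']
        simp
      have hs₀fix : ∀ v, Cfsg.sympForm m F v e = 0 → Cfsg.sympForm m F v f = 0 →
          Cfsg.sympForm m F v e' = 0 → Cfsg.sympForm m F v f' = 0 →
          (s₀ : Matrix (Fin m ⊕ Fin m) (Fin m ⊕ Fin m) F) *ᵥ v = v := by
        intro v h1 h2 h3 h4
        rw [hs₀, sf_sub_right9, sf_sub_right9, h1, h2, h3, h4]
        simp
      have hs₁e : (s₁ : Matrix (Fin m ⊕ Fin m) (Fin m ⊕ Fin m) F) *ᵥ e = e :=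
        hs₁fix e (fun u hu => by rw [sf_swap9, (hU₁perp u hu).1, neg_zero])
          (fun u hu => by rw [sf_swap9, horth e heU u (hU₁'U hu), neg_zero])
      have hs₁f : (s₁ : Matrix (Fin m ⊕ Fin m) (Fin m ⊕ Fin m) F) *ᵥ f = f :=
        hs₁fix f (fun u hu => by rw [sf_swap9, (hU₁perp u hu).2, neg_zero])
          (fun u hu => by rw [sf_swap9, horth f hfU u (hU₁'U hu), neg_zero])
      have hs₁e' : (s₁ : Matrix (Fin m ⊕ Fin m) (Fin m ⊕ Fin m) F) *ᵥ e' = e' :=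
        hs₁fix e' (fun u hu => horth u (hU₁U hu) e' he'U)
          (fun u hu => by rw [sf_swap9, (hU₁'perp u hu).1, neg_zero])
      have hs₁f' : (s₁ : Matrix (Fin m ⊕ Fin m) (Fin m ⊕ Fin m) F) *ᵥ f' = f' :=
        hs₁fix f' (fun u hu => horth u (hU₁U hu) f' hf'U)
          (fun u hu => by rw [sf_swap9, (hU₁'perp u hu).2, neg_zero])
      refine ⟨s₀ * s₁, Subgroup.mul_mem _ hs₀S hs₁S, ?_, ?_, ?_⟩
      · intro u hu
        have hdec : u = (u - Cfsg.sympForm m F u f • e + Cfsg.sympForm m F u e • f) +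
            Cfsg.sympForm m F u f • e - Cfsg.sympForm m F u e • f := by abel
        have h1 := hs₁U _ (hU₁proj u hu)
        rw [hdec, gl_mul_vecI9, Matrix.mulVec_sub, Matrix.mulVec_add, Matrix.mulVec_smul,
          Matrix.mulVec_smul, hs₁e, hs₁f, Matrix.mulVec_sub, Matrix.mulVec_add,
          Matrix.mulVec_smul, Matrix.mulVec_smul, hs₀e, hs₀f]
        have h2 : (s₀ : Matrix (Fin m ⊕ Fin m) (Fin m ⊕ Fin m) F) *ᵥ
            ((s₁ : Matrix (Fin m ⊕ Fin m) (Fin m ⊕ Fin m) F) *ᵥ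
              (u - Cfsg.sympForm m F u f • e + Cfsg.sympForm m F u e • f)) =
            (s₁ : Matrix (Fin m ⊕ Fin m) (Fin m ⊕ Fin m) F) *ᵥ
              (u - Cfsg.sympForm m F u f • e + Cfsg.sympForm m F u e • f) := by
          apply hs₀fix
          · rw [sf_swap9]
            rw [horth e heU _ (hU₁'U h1), neg_zero]
          · rw [sf_swap9]
            rw [horth f hfU _ (hU₁'U h1), neg_zero]
          · rw [sf_swap9, (hU₁'perp _ h1).1, neg_zero]
          · rw [sf_swap9, (hU₁'perp _ h1).2, neg_zero]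
        rw [h2]
        exact U'.sub_mem (U'.add_mem (hU₁'U h1) (U'.smul_mem _ he'U)) (U'.smul_mem _ hf'U)
      · intro u hu
        have hdec : u = (u - Cfsg.sympForm m F u f' • e' + Cfsg.sympForm m F u e' • f') +
            Cfsg.sympForm m F u f' • e' - Cfsg.sympForm m F u e' • f' := by abel
        have h1 := hs₁U' _ (hU₁'proj u hu)
        rw [hdec, gl_mul_vecI9, Matrix.mulVec_sub, Matrix.mulVec_add, Matrix.mulVec_smul,
          Matrix.mulVec_smul, hs₁e', hs₁f', Matrix.mulVec_sub, Matrix.mulVec_add,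
          Matrix.mulVec_smul, Matrix.mulVec_smul, hs₀e', hs₀f']
        have h2 : (s₀ : Matrix (Fin m ⊕ Fin m) (Fin m ⊕ Fin m) F) *ᵥ
            ((s₁ : Matrix (Fin m ⊕ Fin m) (Fin m ⊕ Fin m) F) *ᵥ
              (u - Cfsg.sympForm m F u f' • e' + Cfsg.sympForm m F u e' • f')) =
            (s₁ : Matrix (Fin m ⊕ Fin m) (Fin m ⊕ Fin m) F) *ᵥ
              (u - Cfsg.sympForm m F u f' • e' + Cfsg.sympForm m F u e' • f') := by
          apply hs₀fix
          · rw [sf_swap9, (hU₁perp _ h1).1, neg_zero]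
          · rw [sf_swap9, (hU₁perp _ h1).2, neg_zero]
          · exact horth _ (hU₁U h1) e' he'U
          · exact horth _ (hU₁U h1) f' hf'U
        rw [h2]
        exact U.sub_mem (U.add_mem (hU₁U h1) (U.smul_mem _ heU)) (U.smul_mem _ hfU)
      · intro v hvU hvU'
        rw [gl_mul_vecI9, hs₁fix v (fun u hu => hvU u (hU₁U hu)) (fun u hu => hvU' u (hU₁'U hu))]
        apply hs₀fix
        · rw [sf_swap9, hvU e heU, neg_zero]
        · rw [sf_swap9, hvU f hfU, neg_zero]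
        · rw [sf_swap9, hvU' e' he'U, neg_zero]
        · rw [sf_swap9, hvU' f' hf'U, neg_zero]

end Cfsg.Agent.Helper9
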