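import Mathlib
import Cfsg.Agent.Helper9.SpSwap

set_option autoImplicit false

namespace Cfsg.Agent.Helper9

open Cfsg
open scoped MatrixGroups Matrix

variable {m : ℕ} {F : Type*} [Field F]

/-- If `g` maps `W` into `W'` of the same dimension then the image of `W` is `W'`. -/
theorem map_eq_of_maps9 {ι : Type} [Fintype ι] [DecidableEq ι] (W W' : Submodule F (ι → F))
    (g : GL ι F) (hdim : Module.finrank F W = Module.finrank F W')
    (h : ∀ x ∈ W, (g : Matrix ι ι F) *ᵥ x ∈ W') :
    W.map (Matrix.toLin' (g : Matrix ι ι F)) = W' := by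
  apply Submodule.eq_of_le_of_finrank_eq
  · rintro _ ⟨x, hx, rfl⟩
    rw [Matrix.toLin'_apply]
    exact h x hx
  · rw [← hdim]
    exact (Submodule.equivMapOfInjective _ (gl_injI9 g) W).finrank_eq.symm

/-- All symplectic transvections with centre `z` lie in `M`. -/
def InC9 (M : Subgroup (GL (Fin m ⊕ Fin m) F)) (z : Fin m ⊕ Fin m → F) : Prop :=
  ∀ a : F, ∃ g ∈ M, g ∈ Cfsg.spGL m F ∧
    ∀ x, (g : Matrix (Fin m ⊕ Fin m) (Fin m ⊕ Fin m) F) *ᵥ x =
      x + (a * Cfsg.sympForm m F x z) • z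

theorem inC_zero9 (M : Subgroup (GL (Fin m ⊕ Fin m) F)) : InC9 M 0 := fun a =>
  ⟨1, M.one_mem, Subgroup.one_mem _, fun x => by rw [gl_one_vecI9, smul_zero, add_zero]⟩

theorem inC_conj9 (M : Subgroup (GL (Fin m ⊕ Fin m) F)) (hMS : M ≤ Cfsg.spGL m F)
    (h : GL (Fin m ⊕ Fin m) F) (hh : h ∈ M) (z : Fin m ⊕ Fin m → F) (hz : InC9 M z) :
    InC9 M ((h : Matrix (Fin m ⊕ Fin m) (Fin m ⊕ Fin m) F) *ᵥ z) := by
  intro a
  obtain ⟨g, hgM, hgS, hg⟩ := hz a
  have hhS := hMS hh
  refine ⟨h * g * h⁻¹, M.mul_mem (M.mul_mem hh hgM) (M.inv_mem hh),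
    Subgroup.mul_mem _ (Subgroup.mul_mem _ hhS hgS) (Subgroup.inv_mem _ hhS), fun x => ?_⟩
  rw [gl_mul_vecI9, gl_mul_vecI9, hg, Matrix.mulVec_add, Matrix.mulVec_smul, gl_mul_inv_vecI9]
  have e := mem_spGL9.mp hhS
    (((h⁻¹ : GL (Fin m ⊕ Fin m) F) : Matrix (Fin m ⊕ Fin m) (Fin m ⊕ Fin m) F) *ᵥ x) z
  rw [gl_mul_inv_vecI9] at e
  rw [e]

theorem inC_line9 (M : Subgroup (GL (Fin m ⊕ Fin m) F)) (hMS : M ≤ Cfsg.spGL m F)
    (x y : Fin m ⊕ Fin m → F) (hx : InC9 M x) (hy : InC9 M y)
    (hxy : Cfsg.sympForm m F x y ≠ 0) (c : F) : InC9 M (x + c • y) := by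
  obtain ⟨g, hgM, _, hg⟩ := hy (c / Cfsg.sympForm m F x y)
  have := inC_conj9 M hMS g hgM x hx
  rw [hg, div_mul_cancel₀ _ hxy] at this
  exact this

/-- The stabiliser of an orthogonal decomposition into non-degenerate subspaces is maximal in
the symplectic group, except for hyperbolic planes over the field with two elements. -/
theorem sp_decomp_maximal9 [Fintype F] {t : ℕ} (k : ℕ)
    (D : Fin t → Submodule F (Fin m ⊕ Fin m → F))
    (hD : Cfsg.Geo.IsNondegenerateMDecomposition (Cfsg.sympForm m F) k D)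
    (hex : ¬ (k = 2 ∧ Fintype.card F = 2)) :
    Cfsg.Geo.IsMaximalIn (Cfsg.spGL m F)
      (Cfsg.Geo.decompositionStabilizer D ⊓ Cfsg.spGL m F) := by
  have ht := hD.decomp.two_le
  have hk := hD.decomp.pos
  have hfin := hD.decomp.finrank_eq
  have hnd : ∀ i, ∀ u ∈ D i, u ≠ 0 → ∃ x ∈ D i, Cfsg.sympForm m F u x ≠ 0 :=
    fun i u hu hu0 => (hD.nondegenerate i u hu hu0).2
  have horth : ∀ i j, i ≠ j → ∀ u ∈ D i, ∀ v ∈ D j, Cfsg.sympForm m F u v = 0 :=
    hD.orthogonal
  have htop := hD.decomp.iSup_eq_top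
  have hF1 : ∀ v : Fin m ⊕ Fin m → F,
      (∀ i, ∀ x ∈ D i, Cfsg.sympForm m F x v = 0) → v = 0 := by
    intro v hv
    by_contra hv0
    have hle : iSup D ≤ LinearMap.ker (sfFlip9 m F v) := iSup_le fun i x hx => by
      rw [LinearMap.mem_ker, sfFlip9_apply]
      exact hv i x hx
    rw [htop] at hle
    have hvb : v ∉ (⊥ : Submodule F (Fin m ⊕ Fin m → F)) := by simpa using hv0
    obtain ⟨ψ, hψ1, _⟩ := exists_dual_one9 _ _ hvb
    obtain ⟨y, hy⟩ := sf_repr9 ψ
    have h1 : Cfsg.sympForm m F y v = 0 := by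
      have := hle (Submodule.mem_top : y ∈ ⊤)
      rwa [LinearMap.mem_ker, sfFlip9_apply] at this
    have h2 : Cfsg.sympForm m F v y = 1 := by rw [← hy, hψ1]
    rw [sf_swap9, h1, neg_zero] at h2
    exact zero_ne_one h2
  have hex0 : ∀ i, ∃ d ∈ D i, d ≠ 0 := by
    intro i
    have : D i ≠ ⊥ := by
      intro h
      have := hfin i
      rw [h, finrank_bot] at this
      omega
    exact (Submodule.ne_bot_iff _).mp this
  have hF4 : ∀ i j, i ≠ j → ∀ a ∈ D i, ∀ b ∈ D j, a ≠ 0 → b ≠ 0 → ∀ l, a + b ∉ D l := by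
    intro i j hij a ha b hb ha0 hb0 l hl
    by_cases hli : l = i
    · obtain ⟨x, hx, hbx⟩ := hnd j b hb hb0
      have h1 : Cfsg.sympForm m F (a + b) x = 0 :=
        horth l j (by rw [hli]; exact hij) _ hl x hx
      rw [sf_add_left9, horth i j hij a ha x hx, zero_add] at h1
      exact hbx h1
    · obtain ⟨x, hx, hax⟩ := hnd i a ha ha0
      have h1 : Cfsg.sympForm m F (a + b) x = 0 := horth l i hli _ hl x hx
      rw [sf_add_left9, horth j i (Ne.symm hij) b hb x hx, add_zero] at h1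
      exact hax h1
  refine ⟨lt_of_le_of_ne inf_le_right fun heq => ?_, fun M hPM hMS => ?_⟩
  · -- the stabiliser is a proper subgroup
    let i0 : Fin t := ⟨0, by omega⟩
    let i1 : Fin t := ⟨1, by omega⟩
    have hi01 : i0 ≠ i1 := by
      intro e
      have := congrArg Fin.val e
      simp [i0, i1] at this
    obtain ⟨z₁, hz₁, hz₁0⟩ := hex0 i0
    obtain ⟨z₂, hz₂, hz₂0⟩ := hex0 i1
    obtain ⟨x, hx, hzx⟩ := hnd i0 z₁ hz₁ hz₁0
    have hxz : Cfsg.sympForm m F x z₁ ≠ 0 := by
      rw [sf_swap9]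
      exact neg_ne_zero.mpr hzx
    obtain ⟨g, hgS, hg⟩ := sp_transv9 (1 : F) (z₁ + z₂)
    rw [← heq] at hgS
    obtain ⟨σ, hσ⟩ := hgS.1
    have h1 : (g : Matrix (Fin m ⊕ Fin m) (Fin m ⊕ Fin m) F) *ᵥ x ∈ D (σ i0) := by
      rw [← hσ i0]
      refine Submodule.mem_map.mpr ⟨x, hx, ?_⟩
      rw [Matrix.toLin'_apply]
    have h2 : (g : Matrix (Fin m ⊕ Fin m) (Fin m ⊕ Fin m) F) *ᵥ x =
        (x + Cfsg.sympForm m F x z₁ • z₁) + Cfsg.sympForm m F x z₁ • z₂ := by
      rw [hg, one_mul, sf_add_right9, horth i0 i1 hi01 x hx z₂ hz₂, add_zero, smul_add]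
      abel
    rw [h2] at h1
    refine hF4 i0 i1 hi01 _ ((D i0).add_mem hx ((D i0).smul_mem _ hz₁)) _
      ((D i1).smul_mem _ hz₂) ?_ (smul_ne_zero hxz hz₂0) _ h1
    intro h0
    have h3 := congrArg (fun w => Cfsg.sympForm m F w z₁) h0
    simp only [sf_add_left9, sf_smul_left9, sf_self9, mul_zero, add_zero, sf_zero_left9] at h3
    exact hxz h3
  · by_cases hMP : M ≤ Cfsg.Geo.decompositionStabilizer D ⊓ Cfsg.spGL m F
    · exact Or.inl (le_antisymm hMP hPM)
    · right
      refine le_antisymm hMS (sp_le_of_transv9 M ?_)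
      obtain ⟨g, hgM, hgP⟩ := Set.not_subset.mp hMP
      have hgS := hMS hgM
      have hgD : g ∉ Cfsg.Geo.decompositionStabilizer D := fun h =>
        hgP (Subgroup.mem_inf.mpr ⟨h, hgS⟩)
      have hginj : ∀ v : Fin m ⊕ Fin m → F,
          (g : Matrix (Fin m ⊕ Fin m) (Fin m ⊕ Fin m) F) *ᵥ v = 0 → v = 0 := by
        intro v hv
        have := congrArg
          (fun w => ((g⁻¹ : GL (Fin m ⊕ Fin m) F) : Matrix (Fin m ⊕ Fin m) (Fin m ⊕ Fin m) F) *ᵥ w)
          hv
        simp only [gl_inv_mul_vecI9, Matrix.mulVec_zero] at this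
        exact this
      -- Claim 1: some block vector is moved outside all blocks
      obtain ⟨i₀, d, hd, hgd⟩ : ∃ i₀, ∃ d ∈ D i₀, ∀ l,
          (g : Matrix (Fin m ⊕ Fin m) (Fin m ⊕ Fin m) F) *ᵥ d ∉ D l := by
        by_contra hcon
        push_neg at hcon
        have hl : ∀ i, ∃ l, ∀ d ∈ D i,
            (g : Matrix (Fin m ⊕ Fin m) (Fin m ⊕ Fin m) F) *ᵥ d ∈ D l := by
          intro i
          obtain ⟨d₀, hd₀, hd₀0⟩ := hex0 i
          obtain ⟨l, hl⟩ := hcon i d₀ hd₀
          refine ⟨l, fun d hd => ?_⟩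
          obtain ⟨l', hl'⟩ := hcon i d hd
          by_cases hgd : (g : Matrix (Fin m ⊕ Fin m) (Fin m ⊕ Fin m) F) *ᵥ d = 0
          · rw [hgd]
            exact (D l).zero_mem
          by_cases hll : l' = l
          · rw [← hll]
            exact hl'
          · exfalso
            obtain ⟨l'', hl''⟩ := hcon i (d + d₀) ((D i).add_mem hd hd₀)
            rw [Matrix.mulVec_add] at hl''
            exact hF4 l' l hll _ hl' _ hl hgd (fun h => hd₀0 (hginj d₀ h)) l'' hl''
        choose l hl using hl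
        have hmap : ∀ i, (D i).map
            (Matrix.toLin' (g : Matrix (Fin m ⊕ Fin m) (Fin m ⊕ Fin m) F)) = D (l i) :=
          fun i => map_eq_of_maps9 (D i) (D (l i)) g (by rw [hfin, hfin]) (hl i)
        have hinj : Function.Injective l := by
          intro i i' hii
          by_contra hne
          have h1 : (D i).map (Matrix.toLin' (g : Matrix (Fin m ⊕ Fin m) (Fin m ⊕ Fin m) F)) =
              (D i').map (Matrix.toLin' (g : Matrix (Fin m ⊕ Fin m) (Fin m ⊕ Fin m) F)) := by
            rw [hmap, hmap, hii]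
          have h2 : D i = D i' := Submodule.map_injective_of_injective (gl_injI9 g) h1
          obtain ⟨d, hd, hd0⟩ := hex0 i
          obtain ⟨x, hx, hdx⟩ := hnd i d hd hd0
          have hd' : d ∈ D i' := by
            rw [← h2]
            exact hd
          exact hdx (horth i' i (Ne.symm hne) d hd' x hx)
        have hbij : Function.Bijective l := Finite.injective_iff_bijective.mp hinj
        apply hgD
        exact ⟨Equiv.ofBijective l hbij, fun i => by rw [hmap]; rfl⟩
      have hC1 : ∀ i, ∀ z ∈ D i, InC9 M z := by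
        intro i z hz a
        obtain ⟨g', hg'S, hg'⟩ := sp_transv9 a z
        refine ⟨g', hPM (Subgroup.mem_inf.mpr ⟨?_, hg'S⟩), hg'S, hg'⟩
        refine ⟨1, fun j => ?_⟩
        apply map_eq_of_maps9 _ _ _ rfl
        intro x hx
        rw [hg']
        by_cases hji : j = i
        · rw [hji] at hx ⊢
          exact (D i).add_mem hx ((D i).smul_mem _ hz)
        · rw [horth j i hji x hx z hz, mul_zero, zero_smul, add_zero]
          exact hx
      have hTD : ∀ i, ∀ (a : F), ∀ z ∈ D i, ∃ g' ∈ M, ∀ x,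
          (g' : Matrix (Fin m ⊕ Fin m) (Fin m ⊕ Fin m) F) *ᵥ x =
            x + (a * Cfsg.sympForm m F x z) • z := by
        intro i a z hz
        obtain ⟨g', hg'M, _, hg'⟩ := hC1 i z hz a
        exact ⟨g', hg'M, hg'⟩
      obtain ⟨zs, hzs⟩ : ∃ zs : Fin m ⊕ Fin m → F,
          zs = (g : Matrix (Fin m ⊕ Fin m) (Fin m ⊕ Fin m) F) *ᵥ d := ⟨_, rfl⟩
      rw [← hzs] at hgd
      have hzsC : InC9 M zs := by
        rw [hzs]
        exact inC_conj9 M hMS g hgM d (hC1 i₀ d hd)
      -- Step I: a vector of `C` with exactly two non-zero components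
      obtain ⟨i₁, i₂, hi₁₂, a₀, ha₀, ha₀0, b₀, hb₀, hb₀0, hab₀⟩ : ∃ i₁ i₂, i₂ ≠ i₁ ∧
          ∃ a₀ ∈ D i₁, a₀ ≠ 0 ∧ ∃ b₀ ∈ D i₂, b₀ ≠ 0 ∧ InC9 M (a₀ + b₀) := by
        obtain ⟨i₁, x₁, hx₁, hx₁z⟩ : ∃ i₁, ∃ x ∈ D i₁, Cfsg.sympForm m F x zs ≠ 0 := by
          by_contra hcon
          push_neg at hcon
          have h0 := hF1 zs hcon
          apply hgd i₀
          rw [h0]
          exact (D i₀).zero_mem
        obtain ⟨w₁, hw₁, hw₁p⟩ := nd_decomp9 (D i₁) (hD.nondegenerate i₁) zs
        have hw₁0 : w₁ ≠ 0 := by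
          intro h
          rw [h, sub_zero] at hw₁p
          exact hx₁z (hw₁p x₁ hx₁)
        have hr0 : zs - w₁ ≠ 0 := by
          intro h
          apply hgd i₁
          rw [sub_eq_zero.mp h]
          exact hw₁
        obtain ⟨i₂, x₂, hx₂, hx₂r⟩ : ∃ i₂, ∃ x ∈ D i₂,
            Cfsg.sympForm m F x (zs - w₁) ≠ 0 := by
          by_contra hcon
          push_neg at hcon
          exact hr0 (hF1 _ hcon)
        have hi₁₂ : i₂ ≠ i₁ := by
          intro h
          rw [h] at hx₂
          exact hx₂r (hw₁p x₂ hx₂)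
        obtain ⟨w₂, hw₂, hw₂p⟩ := nd_decomp9 (D i₂) (hD.nondegenerate i₂) zs
        have hw₂0 : w₂ ≠ 0 := by
          intro h
          rw [h, sub_zero] at hw₂p
          apply hx₂r
          rw [sf_sub_right9, hw₂p x₂ hx₂, horth i₂ i₁ hi₁₂ x₂ hx₂ w₁ hw₁, sub_zero]
        obtain ⟨ρ, hρ⟩ : ∃ ρ : Fin m ⊕ Fin m → F, ρ = zs - w₁ - w₂ := ⟨_, rfl⟩
        have hρ1 : ∀ x ∈ D i₁, Cfsg.sympForm m F x ρ = 0 := by
          intro x hx
          rw [hρ, sf_sub_right9, hw₁p x hx, horth i₁ i₂ (Ne.symm hi₁₂) x hx w₂ hw₂, sub_zero]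
        have hρ2 : ∀ x ∈ D i₂, Cfsg.sympForm m F x ρ = 0 := by
          intro x hx
          have e : ρ = zs - w₂ - w₁ := by rw [hρ]; abel
          rw [e, sf_sub_right9, hw₂p x hx, horth i₂ i₁ hi₁₂ x hx w₁ hw₁, sub_zero]
        have hzseq : zs = w₁ + w₂ + ρ := by rw [hρ]; abel
        obtain ⟨w₁', hw₁', hww₁⟩ := hnd i₁ w₁ hw₁ hw₁0
        have hw₁'0 : w₁' ≠ 0 := by
          intro h
          rw [h, sf_zero_right9] at hww₁
          exact hww₁ rfl
        obtain ⟨w₂', hw₂', hw₂'0, hww₂, hw₂ne⟩ : ∃ w₂' ∈ D i₂, w₂' ≠ 0 ∧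
            Cfsg.sympForm m F w₂ w₂' = 0 ∧ w₂ - w₂' ≠ 0 := by
          by_cases hk3 : 3 ≤ k
          · -- a vector of the block orthogonal to `w₂` outside its span
            by_contra hcon
            push_neg at hcon
            let Φ : D i₂ →ₗ[F] F := (sfR9 m F w₂).comp (D i₂).subtype
            have hker : LinearMap.ker Φ ≤ Submodule.span F {(⟨w₂, hw₂⟩ : D i₂)} := by
              intro y hy
              have hy' : Cfsg.sympForm m F w₂ (y : Fin m ⊕ Fin m → F) = 0 := hy
              by_cases hy0 : (y : Fin m ⊕ Fin m → F) = 0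
              · have : y = 0 := Subtype.ext hy0
                rw [this]
                exact Submodule.zero_mem _
              · have h1 := hcon (y : Fin m ⊕ Fin m → F) y.2 hy0 hy'
                have h2 : y = (⟨w₂, hw₂⟩ : D i₂) := by
                  apply Subtype.ext
                  exact (sub_eq_zero.mp h1).symm
                rw [h2]
                exact Submodule.mem_span_singleton_self _
            have h1 := LinearMap.finrank_range_add_finrank_ker Φ
            have h2 : Module.finrank F (LinearMap.range Φ) ≤ 1 := by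
              have := Submodule.finrank_le (LinearMap.range Φ)
              rwa [Module.finrank_self] at this
            have h3 : Module.finrank F (LinearMap.ker Φ) ≤ 1 := by
              have h4 := Submodule.finrank_mono hker
              have hne : (⟨w₂, hw₂⟩ : D i₂) ≠ 0 := fun h => hw₂0 (congrArg Subtype.val h)
              have h5 : Module.finrank F (Submodule.span F {(⟨w₂, hw₂⟩ : D i₂)}) = 1 :=
                finrank_span_singleton hne
              omega
            have h6 := hfin i₂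
            omega
          · have hk1 : k ≠ 1 := by
              intro hk1
              obtain ⟨x, hx, hwx⟩ := hnd i₂ w₂ hw₂ hw₂0
              have h1 : Module.finrank F (D i₂) = 1 := by rw [hfin, hk1]
              have hne : (⟨w₂, hw₂⟩ : D i₂) ≠ 0 := fun h => hw₂0 (congrArg Subtype.val h)
              obtain ⟨c, hc⟩ := (finrank_eq_one_iff_of_nonzero' (⟨w₂, hw₂⟩ : D i₂) hne).mp h1
                ⟨x, hx⟩
              have hc' : c • w₂ = x := congrArg Subtype.val hc
              apply hwx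
              rw [← hc', sf_smul_right9, sf_self9, mul_zero]
            have hk2 : k = 2 := by omega
            have hcard : Fintype.card F ≠ 2 := fun h => hex ⟨hk2, h⟩
            obtain ⟨c, hc0, hc1⟩ : ∃ c : F, c ≠ 0 ∧ c ≠ 1 := by
              classical
              by_contra hcon
              push_neg at hcon
              have hsub : (Finset.univ : Finset F) ⊆ {0, 1} := by
                intro c _
                by_cases hc : c = 0
                · rw [hc]
                  exact Finset.mem_insert_self _ _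
                · rw [hcon c hc]
                  exact Finset.mem_insert_of_mem (Finset.mem_singleton_self _)
              have h1 := Finset.card_le_card hsub
              have h2 : ({0, 1} : Finset F).card ≤ 2 := Finset.card_le_two
              have h3 : 1 < Fintype.card F := Fintype.one_lt_card
              rw [Finset.card_univ] at h1
              omega
            refine ⟨c • w₂, (D i₂).smul_mem _ hw₂, smul_ne_zero hc0 hw₂0, ?_, ?_⟩
            · rw [sf_smul_right9, sf_self9, mul_zero]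
            · intro h
              have h1 : (1 - c) • w₂ = 0 := by rw [sub_smul, one_smul]; exact h
              rcases smul_eq_zero.mp h1 with h' | h'
              · exact hc1 (sub_eq_zero.mp h').symm
              · exact hw₂0 h'
        obtain ⟨t₁, ht₁M, ht₁w, ht₁v⟩ :=
          sp_move_in9 (D i₁) M (hTD i₁) (hnd i₁) w₁ w₁' hw₁ hw₁' hw₁0 hw₁'0
        obtain ⟨t₂, ht₂M, ht₂w, ht₂v⟩ :=
          sp_move_in9 (D i₂) M (hTD i₂) (hnd i₂) w₂ w₂' hw₂ hw₂' hw₂0 hw₂'0
        have hy : InC9 M (w₁' + w₂' + ρ) := by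
          have h1 := inC_conj9 M hMS (t₂ * t₁) (M.mul_mem ht₂M ht₁M) zs hzsC
          have e : ((t₂ * t₁ : GL (Fin m ⊕ Fin m) F) :
              Matrix (Fin m ⊕ Fin m) (Fin m ⊕ Fin m) F) *ᵥ zs = w₁' + w₂' + ρ := by
            have e1 : (t₁ : Matrix (Fin m ⊕ Fin m) (Fin m ⊕ Fin m) F) *ᵥ (w₁ + w₂ + ρ) =
                w₁' + w₂ + ρ := by
              simp only [Matrix.mulVec_add]
              rw [ht₁w, ht₁v w₂ (fun x hx => horth i₂ i₁ hi₁₂ w₂ hw₂ x hx),
                ht₁v ρ (fun x hx => by rw [sf_swap9, hρ1 x hx, neg_zero])]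
            have e2 : (t₂ : Matrix (Fin m ⊕ Fin m) (Fin m ⊕ Fin m) F) *ᵥ (w₁' + w₂ + ρ) =
                w₁' + w₂' + ρ := by
              simp only [Matrix.mulVec_add]
              rw [ht₂w, ht₂v w₁' (fun x hx => horth i₁ i₂ (Ne.symm hi₁₂) w₁' hw₁' x hx),
                ht₂v ρ (fun x hx => by rw [sf_swap9, hρ2 x hx, neg_zero])]
            rw [hzseq, gl_mul_vecI9, e1, e2]
          rw [e] at h1
          exact h1
        have hx : InC9 M (w₁ + w₂ + ρ) := by
          rw [← hzseq]
          exact hzsC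
        have hB : Cfsg.sympForm m F (w₁ + w₂ + ρ) (w₁' + w₂' + ρ) ≠ 0 := by
          simp only [sf_add_left9, sf_add_right9]
          rw [horth i₁ i₂ (Ne.symm hi₁₂) w₁ hw₁ w₂' hw₂', hρ1 w₁ hw₁,
            horth i₂ i₁ hi₁₂ w₂ hw₂ w₁' hw₁', hww₂, hρ2 w₂ hw₂, sf_swap9 ρ w₁',
            hρ1 w₁' hw₁', sf_swap9 ρ w₂', hρ2 w₂' hw₂', sf_self9]
          simpa using hww₁
        have hab : InC9 M ((w₁ - w₁') + (w₂ - w₂')) := by
          have h := inC_line9 M hMS _ _ hx hy hB (-1)
          have e : w₁ + w₂ + ρ + (-1 : F) • (w₁' + w₂' + ρ) = (w₁ - w₁') + (w₂ - w₂') := by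
            rw [neg_one_smul]
            abel
          rw [e] at h
          exact h
        refine ⟨i₁, i₂, hi₁₂, w₁ - w₁', (D i₁).sub_mem hw₁ hw₁', ?_, w₂ - w₂',
          (D i₂).sub_mem hw₂ hw₂', hw₂ne, hab⟩
        intro h
        rw [sub_eq_zero.mp h, sf_self9] at hww₁
        exact hww₁ rfl
      -- Step II: all sums of two block vectors
      have hP12 : ∀ a ∈ D i₁, ∀ b ∈ D i₂, InC9 M (a + b) := by
        intro a ha b hb
        by_cases ha0 : a = 0
        · rw [ha0, zero_add]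
          exact hC1 i₂ b hb
        by_cases hb0 : b = 0
        · rw [hb0, add_zero]
          exact hC1 i₁ a ha
        obtain ⟨t₁, ht₁M, ht₁w, ht₁v⟩ :=
          sp_move_in9 (D i₁) M (hTD i₁) (hnd i₁) a₀ a ha₀ ha ha₀0 ha0
        obtain ⟨t₂, ht₂M, ht₂w, ht₂v⟩ :=
          sp_move_in9 (D i₂) M (hTD i₂) (hnd i₂) b₀ b hb₀ hb hb₀0 hb0
        have h1 := inC_conj9 M hMS (t₂ * t₁) (M.mul_mem ht₂M ht₁M) _ hab₀
        have e : ((t₂ * t₁ : GL (Fin m ⊕ Fin m) F) :
            Matrix (Fin m ⊕ Fin m) (Fin m ⊕ Fin m) F) *ᵥ (a₀ + b₀) = a + b := by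
          rw [gl_mul_vecI9, Matrix.mulVec_add, ht₁w,
            ht₁v b₀ (fun x hx => horth i₂ i₁ hi₁₂ b₀ hb₀ x hx), Matrix.mulVec_add, ht₂w,
            ht₂v a (fun x hx => horth i₁ i₂ (Ne.symm hi₁₂) a ha x hx)]
        rw [e] at h1
        exact h1
      have hswap : ∀ i j, i ≠ j → ∃ s ∈ M,
          (∀ u ∈ D i, (s : Matrix (Fin m ⊕ Fin m) (Fin m ⊕ Fin m) F) *ᵥ u ∈ D j) ∧
          (∀ u ∈ D j, (s : Matrix (Fin m ⊕ Fin m) (Fin m ⊕ Fin m) F) *ᵥ u ∈ D i) ∧
          ∀ l, l ≠ i → l ≠ j → ∀ u ∈ D l,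
            (s : Matrix (Fin m ⊕ Fin m) (Fin m ⊕ Fin m) F) *ᵥ u = u := by
        intro i j hij
        obtain ⟨s, hsS, hs1, hs2, hs3⟩ := sp_swap9 k (D i) (D j) (hfin i) (hfin j) (hnd i)
          (hnd j) (horth i j hij)
        have hs3' : ∀ l, l ≠ i → l ≠ j → ∀ u ∈ D l,
            (s : Matrix (Fin m ⊕ Fin m) (Fin m ⊕ Fin m) F) *ᵥ u = u := by
          intro l hli hlj u hu
          exact hs3 u (fun x hx => horth i l (Ne.symm hli) x hx u hu)
            (fun x hx => horth j l (Ne.symm hlj) x hx u hu)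
        refine ⟨s, hPM (Subgroup.mem_inf.mpr ⟨?_, hsS⟩), hs1, hs2, hs3'⟩
        refine ⟨Equiv.swap i j, fun l => ?_⟩
        by_cases hli : l = i
        · rw [hli, Equiv.swap_apply_left]
          exact map_eq_of_maps9 _ _ _ (by rw [hfin, hfin]) hs1
        · by_cases hlj : l = j
          · rw [hlj, Equiv.swap_apply_right]
            exact map_eq_of_maps9 _ _ _ (by rw [hfin, hfin]) hs2
          · rw [Equiv.swap_apply_of_ne_of_ne hli hlj]
            apply map_eq_of_maps9 _ _ _ rfl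
            intro u hu
            rw [hs3' l hli hlj u hu]
            exact hu
      have hPT : ∀ (i j i' j' : Fin t) (s : GL (Fin m ⊕ Fin m) F), s ∈ M →
          (∀ u ∈ D i, (s : Matrix (Fin m ⊕ Fin m) (Fin m ⊕ Fin m) F) *ᵥ u ∈ D i') →
          (∀ u ∈ D j, (s : Matrix (Fin m ⊕ Fin m) (Fin m ⊕ Fin m) F) *ᵥ u ∈ D j') →
          (∀ a ∈ D i, ∀ b ∈ D j, InC9 M (a + b)) →
          ∀ a ∈ D i', ∀ b ∈ D j', InC9 M (a + b) := by
        intro i j i' j' s hsM hs1 hs2 hP a ha b hb
        have hm1 := map_eq_of_maps9 (D i) (D i') s (by rw [hfin, hfin]) hs1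
        have hm2 := map_eq_of_maps9 (D j) (D j') s (by rw [hfin, hfin]) hs2
        rw [← hm1] at ha
        rw [← hm2] at hb
        obtain ⟨a', ha', rfl⟩ := Submodule.mem_map.mp ha
        obtain ⟨b', hb', rfl⟩ := Submodule.mem_map.mp hb
        rw [Matrix.toLin'_apply, Matrix.toLin'_apply, ← Matrix.mulVec_add]
        exact inC_conj9 M hMS s hsM _ (hP a' ha' b' hb')
      have hPall : ∀ i j, i ≠ j → ∀ a ∈ D i, ∀ b ∈ D j, InC9 M (a + b) := by
        intro i j hij
        have h1 : ∃ j', j' ≠ i ∧ ∀ a ∈ D i, ∀ b ∈ D j', InC9 M (a + b) := by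
          by_cases hi : i = i₁
          · exact ⟨i₂, by rw [hi]; exact hi₁₂, by rw [hi]; exact hP12⟩
          · obtain ⟨s, hsM, hs1, hs2, hs3⟩ := hswap i₁ i (Ne.symm hi)
            by_cases hi2 : i₂ = i
            · exact ⟨i₁, Ne.symm hi, hPT i₁ i₂ i i₁ s hsM hs1 (by rw [hi2]; exact hs2) hP12⟩
            · exact ⟨i₂, hi2, hPT i₁ i₂ i i₂ s hsM hs1
                (fun u hu => by rw [hs3 i₂ hi₁₂ hi2 u hu]; exact hu) hP12⟩
        obtain ⟨j', hj'i, hPij'⟩ := h1
        by_cases hjj : j' = j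
        · rw [← hjj]
          exact hPij'
        · obtain ⟨s, hsM, hs1, hs2, hs3⟩ := hswap j' j hjj
          exact hPT i j' i j s hsM
            (fun u hu => by rw [hs3 i (Ne.symm hj'i) hij u hu]; exact hu) hs1 hPij'
      -- Step III: all vectors
      have hS : ∀ S : Finset (Fin t), ∀ z ∈ ⨆ i ∈ S, D i, InC9 M z := by
        intro S
        induction S using Finset.induction_on with
        | empty =>
          intro z hz
          simp at hz
          rw [hz]
          exact inC_zero9 M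
        | insert i S hiS ih =>
          intro z hz
          rw [Finset.iSup_insert] at hz
          obtain ⟨zi, hzi, z', hz', rfl⟩ := Submodule.mem_sup.mp hz
          by_cases hz'0 : z' = 0
          · rw [hz'0, add_zero]
            exact hC1 i zi hzi
          · have hperp : ∀ l, l ∉ S → ∀ x ∈ D l, Cfsg.sympForm m F x z' = 0 := by
              intro l hl
              have hle : (⨆ j ∈ S, D j) ≤ sfPerp9 (D l) :=
                iSup₂_le fun j hj y hy x hx =>
                  horth l j (fun e => hl (by rw [e]; exact hj)) x hx y hy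
              exact fun x hx => hle hz' x hx
            obtain ⟨j, x, hx, hxz'⟩ : ∃ j, ∃ x ∈ D j, Cfsg.sympForm m F x z' ≠ 0 := by
              by_contra hc
              push_neg at hc
              exact hz'0 (hF1 z' hc)
            have hjS : j ∈ S := by
              by_contra h
              exact hxz' (hperp j h x hx)
            have hji : j ≠ i := fun e => hiS (by rw [← e]; exact hjS)
            have hxS : x ∈ ⨆ j ∈ S, D j :=
              Submodule.mem_iSup_of_mem j (Submodule.mem_iSup_of_mem hjS hx)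
            have hX : InC9 M (z' - x) := ih _ (Submodule.sub_mem _ hz' hxS)
            have hY : InC9 M (zi + x) := hPall i j (Ne.symm hji) zi hzi x hx
            have hXY : Cfsg.sympForm m F (z' - x) (zi + x) ≠ 0 := by
              rw [sf_sub_left9, sf_add_right9, sf_add_right9, sf_self9, add_zero,
                sf_swap9 z' zi, hperp i hiS zi hzi, horth j i hji x hx zi hzi, sf_swap9 z' x]
              simpa using hxz'
            have h := inC_line9 M hMS _ _ hX hY hXY 1
            have e : z' - x + (1 : F) • (zi + x) = zi + z' := by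
              rw [one_smul]
              abel
            rw [e] at h
            exact h
      intro a z
      have hz : z ∈ ⨆ i ∈ (Finset.univ : Finset (Fin t)), D i := by
        simp [htop]
      exact hS Finset.univ z hz a

end Cfsg.Agent.Helper9
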