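import Mathlib
import Cfsg.Agent.Helper9.SylowConj

set_option autoImplicit false

namespace Cfsg.Agent.Helper9

/-- The 5-cycle `(0 1 2 3 4)` of `S_6`. -/
def c6 : Equiv.Perm (Fin 6) where
  toFun := ![1, 2, 3, 4, 0, 5]
  invFun := ![4, 0, 1, 2, 3, 5]
  left_inv := by decide
  right_inv := by decide

/-- The involution `(0 5)(2 3)` of `S_6`. -/
def u6 : Equiv.Perm (Fin 6) where
  toFun := ![5, 1, 3, 2, 4, 0]
  invFun := ![5, 1, 3, 2, 4, 0]
  left_inv := by decide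
  right_inv := by decide

/-- The powers of `c6`. -/
def cp6 : Fin 5 → Equiv.Perm (Fin 6) :=
  ![1, c6, c6 * c6, c6 * c6 * c6, c6 * c6 * c6 * c6]

/-- The edge colouring of `K_6` given by a synthematic total. -/
def col6 : Fin 6 → Fin 6 → Fin 5 :=
  ![![0, 3, 1, 4, 2, 0], ![3, 0, 4, 2, 0, 1], ![1, 4, 0, 0, 3, 2], ![4, 2, 0, 0, 1, 3],
    ![2, 0, 3, 1, 0, 4], ![0, 1, 2, 3, 4, 0]]

/-- The candidate permutation of the five colours induced by `g`. -/
def pi6 (g : Equiv.Perm (Fin 6)) (i : Fin 5) : Fin 5 := col6 (g 5) (g i.castSucc)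

/-- `g` preserves the synthematic total. -/
def P6 (g : Equiv.Perm (Fin 6)) : Prop :=
  ∀ a b : Fin 6, a ≠ b → col6 (g a) (g b) = pi6 g (col6 a b)

instance : DecidablePred P6 := fun g => by unfold P6; infer_instance

/-- `x` fixes `5` and normalises `⟨c6⟩`. -/
def InF6 (x : Equiv.Perm (Fin 6)) : Prop :=
  x 5 = 5 ∧ ∃ k : Fin 5, x * c6 = cp6 k * x

instance : DecidablePred InF6 := fun g => by unfold InF6; infer_instance

/-- Coset representatives of the exotic `S_5`. -/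
def r6 : Fin 6 → Equiv.Perm (Fin 6) :=
  ![1, Equiv.swap 1 2, Equiv.swap 2 3, Equiv.swap 1 3, Equiv.swap 1 2 * Equiv.swap 2 3,
    Equiv.swap 2 3 * Equiv.swap 1 2]

theorem P6_one : P6 1 := by decide +kernel

theorem P6_c6 : P6 c6 := by decide +kernel

theorem P6_u6 : P6 u6 := by decide +kernel

theorem P6_inv : ∀ g : Equiv.Perm (Fin 6), P6 g → P6 g⁻¹ := by decide +kernel

theorem ker6 : ∀ g : Equiv.Perm (Fin 6), P6 g → (∀ i : Fin 5, pi6 g i = i) → g = 1 := by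
  decide +kernel

theorem InF6_P6 : ∀ g : Equiv.Perm (Fin 6), InF6 g → P6 g := by decide +kernel

theorem word6 : ∀ h : Equiv.Perm (Fin 6), h 5 ≠ 5 →
    (∀ a b : Fin 5, (h * cp6 a * h * cp6 b * h) 5 = 5 → InF6 (h * cp6 a * h * cp6 b * h)) →
    P6 h := by decide +kernel

theorem cover6 : ∀ g : Equiv.Perm (Fin 6), ∃ j : Fin 6, P6 ((r6 j)⁻¹ * g) := by decide +kernel

theorem dist6 : ∀ i j : Fin 6, P6 ((r6 j)⁻¹ * (r6 i * c6 * (r6 i)⁻¹) * r6 j) → i = j := by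
  decide +kernel

theorem nofix6 : ∀ b : Fin 6, ¬ (c6 b = b ∧ u6 b = b) := by decide +kernel

theorem card_exo6_aux : (Finset.univ.filter (fun g : Equiv.Perm (Fin 6) => P6 g)).card = 120 := by
  decide +kernel

theorem cp6_eq : ∀ k : Fin 5, cp6 k = c6 ^ (k : ℕ) := by decide +kernel

theorem pw6 : ∀ k : Fin 5, k ≠ 0 → ∃ m : Fin 5, (cp6 k) ^ (m : ℕ) = c6 := by decide +kernel

theorem orb6 : ∀ j y : Fin 6, j ≠ 5 → y ≠ 5 → ∃ k : Fin 5, cp6 k j = y := by decide +kernel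

theorem c6_pow_five : c6 ^ 5 = 1 := by decide +kernel

theorem c6_ne_one : c6 ≠ 1 := by decide +kernel

theorem other6 : ∀ a b : Fin 6, a ≠ b → ∃ d : Fin 6, d ≠ a ∧ d ≠ b := by decide

end Cfsg.Agent.Helper9
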