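import Mathlib
import Cfsg.Agent.Helper9.SylowConj
import Cfsg.Agent.Helper9.Sym6Data

set_option autoImplicit false

namespace Cfsg.Agent.Helper9

section generic

variable {G : Type*} [Group G]

theorem mem_cj9 {g x : G} {H : Subgroup G} :
    x ∈ Subgroup.map (MulAut.conj g).toMonoidHom H ↔ g⁻¹ * x * g ∈ H := by
  rw [Subgroup.mem_map_equiv, MulAut.conj_symm_apply]

theorem cj9_index (g : G) (H : Subgroup G) :
    (Subgroup.map (MulAut.conj g).toMonoidHom H).index = H.index :=
  Subgroup.index_map_equiv H (MulAut.conj g)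

theorem cj9_eq_iff {g : G} {H K : Subgroup G} :
    Subgroup.map (MulAut.conj g).toMonoidHom H = K ↔
      H = Subgroup.map (MulAut.conj g⁻¹).toMonoidHom K := by
  constructor
  · rintro rfl
    ext x
    rw [mem_cj9, mem_cj9]
    simp [mul_assoc]
  · rintro rfl
    ext x
    rw [mem_cj9, mem_cj9]
    simp [mul_assoc]

theorem cj9_one (H : Subgroup G) : Subgroup.map (MulAut.conj (1 : G)).toMonoidHom H = H := by
  ext x
  rw [mem_cj9]
  simp

/-- In a group of order 20, every element normalises a subgroup of order 5. -/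
theorem normal_five_of_card_twenty9 {K : Type*} [Group K] [Finite K] (hK : Nat.card K = 20)
    (c : K) (hc : orderOf c = 5) (x : K) : ∃ k : ℕ, k < 5 ∧ c ^ k = x * c * x⁻¹ := by
  classical
  haveI : Fact (Nat.Prime 5) := ⟨by norm_num⟩
  have hcard : Nat.card (Subgroup.zpowers c) = 5 := by rw [Nat.card_zpowers, hc]
  have hp : IsPGroup 5 (Subgroup.zpowers c) := IsPGroup.of_card (n := 1) (by rw [hcard]; rfl)
  obtain ⟨P, hP⟩ := hp.exists_le_sylow
  have hPcard : Nat.card (P : Subgroup K) = 5 := by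
    obtain ⟨n, hn⟩ := IsPGroup.iff_card.mp P.isPGroup'
    have hdvd : Nat.card (P : Subgroup K) ∣ 20 := by
      rw [← hK]
      exact Subgroup.card_subgroup_dvd_card _
    have hle : 5 ≤ Nat.card (P : Subgroup K) :=
      hcard.symm.le.trans (Subgroup.card_le_of_le hP)
    rw [hn] at hdvd hle ⊢
    rcases n with _ | _ | n
    · norm_num at hle
    · rfl
    · exfalso
      have h25 : 5 ^ 2 ∣ 20 := (pow_dvd_pow 5 (by omega)).trans hdvd
      norm_num at h25
  have hPeq : Subgroup.zpowers c = (P : Subgroup K) :=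
    Subgroup.eq_of_le_of_card_ge hP (by rw [hPcard, hcard])
  have hidx : (P : Subgroup K).index = 4 := by
    have := Subgroup.card_mul_index (P : Subgroup K)
    rw [hPcard, hK] at this
    omega
  have h1 : Nat.card (Sylow 5 K) ≡ 1 [MOD 5] := card_sylow_modEq_one 5 K
  have h2 : Nat.card (Sylow 5 K) ∣ 4 := hidx ▸ Sylow.card_dvd_index P
  have h3 : Nat.card (Sylow 5 K) = 1 := by
    have hle := Nat.le_of_dvd (by norm_num) h2
    unfold Nat.ModEq at h1
    omega
  haveI : Subsingleton (Sylow 5 K) := (Nat.card_eq_one_iff_unique.mp h3).1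
  haveI hn : (P : Subgroup K).Normal := Sylow.normal_of_subsingleton P
  have hmem : x * c * x⁻¹ ∈ Subgroup.zpowers c := by
    rw [hPeq]
    exact hn.conj_mem c (hPeq ▸ Subgroup.mem_zpowers c) x
  rw [mem_zpowers_iff_mem_range_orderOf, hc, Finset.mem_image] at hmem
  obtain ⟨k, hk, hk'⟩ := hmem
  exact ⟨k, Finset.mem_range.mp hk, hk'⟩

/-- The statement "two classes of index six subgroups" transfers along an isomorphism. -/
theorem two_classes_transfer9 {G' : Type*} [Group G'] (φ : G' ≃* G)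
    (h : ∃ H₁ H₂ : Subgroup G', H₁.index = 6 ∧ H₂.index = 6 ∧
      (¬ ∃ g : G', Subgroup.map (MulAut.conj g).toMonoidHom H₁ = H₂) ∧
      ∀ H : Subgroup G', H.index = 6 →
        ∃ g : G', Subgroup.map (MulAut.conj g).toMonoidHom H₁ = H ∨
          Subgroup.map (MulAut.conj g).toMonoidHom H₂ = H) :
    ∃ H₁ H₂ : Subgroup G, H₁.index = 6 ∧ H₂.index = 6 ∧
      (¬ ∃ g : G, Subgroup.map (MulAut.conj g).toMonoidHom H₁ = H₂) ∧
      ∀ H : Subgroup G, H.index = 6 →
        ∃ g : G, Subgroup.map (MulAut.conj g).toMonoidHom H₁ = H ∨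
          Subgroup.map (MulAut.conj g).toMonoidHom H₂ = H := by
  obtain ⟨H₁, H₂, h1, h2, h3, h4⟩ := h
  have key : ∀ (g : G') (H : Subgroup G'),
      Subgroup.map (MulAut.conj (φ g)).toMonoidHom (Subgroup.map φ.toMonoidHom H) =
        Subgroup.map φ.toMonoidHom (Subgroup.map (MulAut.conj g).toMonoidHom H) := by
    intro g H
    rw [Subgroup.map_map, Subgroup.map_map]
    congr 1
    ext x
    simp [MulAut.conj_apply]
  have hinj : Function.Injective (Subgroup.map φ.toMonoidHom) :=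
    Subgroup.map_injective φ.injective
  have hback : ∀ H : Subgroup G, Subgroup.map φ.toMonoidHom (Subgroup.map φ.symm.toMonoidHom H) = H := by
    intro H
    rw [Subgroup.map_map]
    have : φ.toMonoidHom.comp φ.symm.toMonoidHom = MonoidHom.id G := by
      ext x
      simp
    rw [this, Subgroup.map_id]
  refine ⟨Subgroup.map φ.toMonoidHom H₁, Subgroup.map φ.toMonoidHom H₂,
    (Subgroup.index_map_equiv H₁ φ).trans h1, (Subgroup.index_map_equiv H₂ φ).trans h2, ?_, ?_⟩
  · rintro ⟨g, hg⟩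
    have hg' : g = φ (φ.symm g) := (φ.apply_symm_apply g).symm
    rw [hg', key] at hg
    exact h3 ⟨φ.symm g, hinj hg⟩
  · intro H hH
    have hH' : (Subgroup.map φ.symm.toMonoidHom H).index = 6 :=
      (Subgroup.index_map_equiv H φ.symm).trans hH
    obtain ⟨g, hg⟩ := h4 _ hH'
    refine ⟨φ g, ?_⟩
    rcases hg with hg | hg
    · left
      rw [key, hg, hback]
    · right
      rw [key, hg, hback]

end generic

/-! ### The exotic `S_5` in `S_6` -/

theorem pi6_mul {g : Equiv.Perm (Fin 6)} (hg : P6 g) (h : Equiv.Perm (Fin 6)) (i : Fin 5) :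
    pi6 (g * h) i = pi6 g (pi6 h i) := by
  have h5 : (5 : Fin 6) ≠ i.castSucc := by
    revert i
    decide
  have hne : h 5 ≠ h i.castSucc := fun e => h5 (h.injective e)
  exact hg (h 5) (h i.castSucc) hne

theorem P6_mul {g h : Equiv.Perm (Fin 6)} (hg : P6 g) (hh : P6 h) : P6 (g * h) := by
  intro a b hab
  have h1 := hg (h a) (h b) (fun e => hab (h.injective e))
  have h2 := hh a b hab
  have h3 := pi6_mul hg h (col6 a b)
  rw [h3, ← h2]
  exact h1

/-- The exotic `S_5`: the stabiliser of a synthematic total. -/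
def exo6 : Subgroup (Equiv.Perm (Fin 6)) where
  carrier := {g | P6 g}
  mul_mem' := fun ha hb => P6_mul ha hb
  one_mem' := P6_one
  inv_mem' := fun ha => P6_inv _ ha

theorem mem_exo6 {g : Equiv.Perm (Fin 6)} : g ∈ exo6 ↔ P6 g := Iff.rfl

theorem card_exo6 : Nat.card exo6 = 120 := by
  have h1 : Nat.card exo6 = Nat.card {g : Equiv.Perm (Fin 6) // P6 g} := rfl
  rw [h1, Nat.card_eq_fintype_card, Fintype.card_subtype]
  exact card_exo6_aux

theorem card_perm6 : Nat.card (Equiv.Perm (Fin 6)) = 720 := by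
  rw [Nat.card_perm, Nat.card_fin]
  rfl

theorem card_perm5 : Nat.card (Equiv.Perm (Fin 5)) = 120 := by
  rw [Nat.card_perm, Nat.card_fin]
  rfl

theorem card_of_index6 {H : Subgroup (Equiv.Perm (Fin 6))} (hH : H.index = 6) :
    Nat.card H = 120 := by
  have := Subgroup.card_mul_index H
  rw [hH, card_perm6] at this
  omega

theorem exo6_index : exo6.index = 6 := by
  have := Subgroup.card_mul_index exo6
  rw [card_exo6, card_perm6] at this
  omega

/-- The action of the exotic `S_5` on the five colours. -/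
@[instance_reducible] def exoAct6 : MulAction exo6 (Fin 5) where
  smul g i := pi6 g.1 i
  one_smul i := by
    show pi6 1 i = i
    revert i
    decide
  mul_smul g h i := pi6_mul g.2 h.1 i

/-- The isomorphism of the exotic `S_5` with `S_5`, as a homomorphism. -/
def theta6 : exo6 →* Equiv.Perm (Fin 5) :=
  @MulAction.toPermHom exo6 (Fin 5) _ exoAct6

theorem theta6_apply (g : exo6) (i : Fin 5) : theta6 g i = pi6 g.1 i := rfl

theorem theta6_injective : Function.Injective theta6 := by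
  rw [injective_iff_map_eq_one]
  intro g hg
  apply Subtype.ext
  refine ker6 g.1 g.2 (fun i => ?_)
  rw [← theta6_apply, hg]
  rfl

theorem exo6_iso : Nonempty (exo6 ≃* Equiv.Perm (Fin 5)) := by
  have hbij : Function.Bijective theta6 :=
    (Nat.bijective_iff_injective_and_card theta6).mpr
      ⟨theta6_injective, by rw [card_exo6, card_perm5]⟩
  exact ⟨MulEquiv.ofBijective theta6 hbij⟩

/-! ### Point stabilisers -/

theorem stab6_index (a : Fin 6) : (MulAction.stabilizer (Equiv.Perm (Fin 6)) a).index = 6 := by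
  rw [MulAction.index_stabilizer_of_transitive, Nat.card_fin]

theorem stab6_card (a : Fin 6) : Nat.card (MulAction.stabilizer (Equiv.Perm (Fin 6)) a) = 120 :=
  card_of_index6 (stab6_index a)

theorem stab6_iso (a : Fin 6) :
    Nonempty (MulAction.stabilizer (Equiv.Perm (Fin 6)) a ≃* Equiv.Perm (Fin 5)) := by
  have hc : Fintype.card {x : Fin 6 // x ≠ a} = 5 := by
    revert a
    decide
  let f : Fin 5 ≃ {x : Fin 6 // x ≠ a} := (Fintype.equivFinOfCardEq hc).symm
  have hψ : ∀ e : Equiv.Perm (Fin 5),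
      Equiv.Perm.extendDomainHom f e ∈ MulAction.stabilizer (Equiv.Perm (Fin 6)) a := by
    intro e
    rw [MulAction.mem_stabilizer_iff]
    exact Equiv.Perm.extendDomain_apply_not_subtype e f (by simp)
  let ψ' : Equiv.Perm (Fin 5) →* MulAction.stabilizer (Equiv.Perm (Fin 6)) a :=
    (Equiv.Perm.extendDomainHom f).codRestrict _ hψ
  have hinj : Function.Injective ψ' := fun x y hxy =>
    Equiv.Perm.extendDomainHom_injective f (congrArg Subtype.val hxy)
  have hbij : Function.Bijective ψ' :=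
    (Nat.bijective_iff_injective_and_card ψ').mpr ⟨hinj, by rw [stab6_card, card_perm5]⟩
  exact ⟨(MulEquiv.ofBijective ψ' hbij).symm⟩

/-! ### The classification -/

theorem orderOf_c6 : orderOf c6 = 5 :=
  haveI : Fact (Nat.Prime 5) := ⟨by norm_num⟩
  orderOf_eq_prime c6_pow_five c6_ne_one

theorem cp6_mem {H : Subgroup (Equiv.Perm (Fin 6))} (hc : c6 ∈ H) (k : Fin 5) : cp6 k ∈ H := by
  rw [cp6_eq]
  exact H.pow_mem hc _

theorem idx6_classify_aux (H : Subgroup (Equiv.Perm (Fin 6))) (hH : H.index = 6)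
    (hc : c6 ∈ H) :
    H = MulAction.stabilizer (Equiv.Perm (Fin 6)) (5 : Fin 6) ∨ H = exo6 := by
  have hcard : Nat.card H = 120 := card_of_index6 hH
  by_cases hfix : ∀ h ∈ H, h 5 = 5
  · left
    exact Subgroup.eq_of_le_of_card_ge
      (fun h hh => MulAction.mem_stabilizer_iff.mpr (hfix h hh)) (by rw [stab6_card, hcard])
  · right
    push_neg at hfix
    obtain ⟨h₀, hh₀, hh₀5⟩ := hfix
    have horb : MulAction.orbit H (5 : Fin 6) = Set.univ := by
      ext y
      simp only [Set.mem_univ, iff_true]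
      rw [MulAction.mem_orbit_iff]
      by_cases hy : y = 5
      · exact ⟨1, by rw [hy, one_smul]⟩
      · obtain ⟨k, hk⟩ := orb6 (h₀ 5) y hh₀5 hy
        exact ⟨⟨cp6 k * h₀, H.mul_mem (cp6_mem hc k) hh₀⟩, hk⟩
    have hS : Nat.card (MulAction.stabilizer H (5 : Fin 6)) = 20 := by
      have h1 := MulAction.index_stabilizer H (5 : Fin 6)
      rw [horb, Set.ncard_univ, Nat.card_fin] at h1
      have h2 := Subgroup.card_mul_index (MulAction.stabilizer H (5 : Fin 6))
      rw [h1, hcard] at h2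
      omega
    have hF : ∀ x ∈ H, x 5 = 5 → InF6 x := by
      intro x hx hx5
      let c' : MulAction.stabilizer H (5 : Fin 6) :=
        ⟨⟨c6, hc⟩, by rw [MulAction.mem_stabilizer_iff]; rfl⟩
      let x' : MulAction.stabilizer H (5 : Fin 6) :=
        ⟨⟨x, hx⟩, by rw [MulAction.mem_stabilizer_iff]; exact hx5⟩
      have hord : orderOf c' = 5 := by
        rw [← Subgroup.orderOf_coe, ← Subgroup.orderOf_coe]
        exact orderOf_c6
      obtain ⟨k, hk, hk'⟩ := normal_five_of_card_twenty9 hS c' hord x'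
      have hk2 : c6 ^ k = x * c6 * x⁻¹ := by
        have := congrArg (fun z : MulAction.stabilizer H (5 : Fin 6) =>
          ((z : H) : Equiv.Perm (Fin 6))) hk'
        simpa using this
      refine ⟨hx5, ⟨k, hk⟩, ?_⟩
      rw [cp6_eq]
      show x * c6 = c6 ^ k * x
      rw [hk2]
      group
    have hle : H ≤ exo6 := by
      intro h hh
      by_cases h5 : h 5 = 5
      · exact InF6_P6 h (hF h hh h5)
      · refine word6 h h5 (fun a b hw => hF _ ?_ hw)
        exact H.mul_mem (H.mul_mem (H.mul_mem (H.mul_mem hh (cp6_mem hc a)) hh)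
          (cp6_mem hc b)) hh
    exact Subgroup.eq_of_le_of_card_ge hle (by rw [card_exo6, hcard])

theorem exists_conj_c6 (H : Subgroup (Equiv.Perm (Fin 6))) (hH : H.index = 6) :
    ∃ g : Equiv.Perm (Fin 6), c6 ∈ Subgroup.map (MulAut.conj g).toMonoidHom H := by
  classical
  haveI : Fact (Nat.Prime 5) := ⟨by norm_num⟩
  have hcard : Nat.card H = 120 := card_of_index6 hH
  obtain ⟨x, hx⟩ := exists_prime_orderOf_dvd_card' (G := H) 5 (by rw [hcard]; norm_num)
  have hcz : Nat.card (Subgroup.zpowers c6) = 5 := by rw [Nat.card_zpowers, orderOf_c6]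
  have hp : IsPGroup 5 (Subgroup.zpowers c6) := IsPGroup.of_card (n := 1) (by rw [hcz]; rfl)
  obtain ⟨P, hP⟩ := hp.exists_le_sylow
  have hPcard : Nat.card (P : Subgroup (Equiv.Perm (Fin 6))) = 5 := by
    obtain ⟨n, hn⟩ := IsPGroup.iff_card.mp P.isPGroup'
    have hdvd : Nat.card (P : Subgroup (Equiv.Perm (Fin 6))) ∣ 720 := by
      rw [← card_perm6]
      exact Subgroup.card_subgroup_dvd_card _
    have hle : 5 ≤ Nat.card (P : Subgroup (Equiv.Perm (Fin 6))) :=
      hcz.symm.le.trans (Subgroup.card_le_of_le hP)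
    rw [hn] at hdvd hle ⊢
    rcases n with _ | _ | n
    · norm_num at hle
    · rfl
    · exfalso
      have h25 : 5 ^ 2 ∣ 720 := (pow_dvd_pow 5 (by omega)).trans hdvd
      norm_num at h25
  have hPeq : Subgroup.zpowers c6 = (P : Subgroup (Equiv.Perm (Fin 6))) :=
    Subgroup.eq_of_le_of_card_ge hP (by rw [hPcard, hcz])
  have hq : IsPGroup 5 (Subgroup.zpowers (x : Equiv.Perm (Fin 6))) :=
    IsPGroup.of_card (n := 1) (by rw [Nat.card_zpowers, Subgroup.orderOf_coe, hx]; rfl)
  obtain ⟨g, hg⟩ := exists_conj_mem_sylow9 P hq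
  have hy : g * x * g⁻¹ ∈ Subgroup.zpowers c6 := hPeq ▸ hg x (Subgroup.mem_zpowers _)
  rw [mem_zpowers_iff_mem_range_orderOf, orderOf_c6, Finset.mem_image] at hy
  obtain ⟨k, hk, hk'⟩ := hy
  rw [Finset.mem_range] at hk
  have hymem : g * x * g⁻¹ ∈ Subgroup.map (MulAut.conj g).toMonoidHom H := by
    rw [mem_cj9]
    have : g⁻¹ * (g * (x : Equiv.Perm (Fin 6)) * g⁻¹) * g = x := by group
    rw [this]
    exact x.2
  have hk0 : (⟨k, hk⟩ : Fin 5) ≠ 0 := by
    intro h0
    have hk00 : k = 0 := by simpa using congrArg Fin.val h0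
    rw [hk00, pow_zero] at hk'
    have hx1 : (x : Equiv.Perm (Fin 6)) = 1 := by
      have : g⁻¹ * (g * (x : Equiv.Perm (Fin 6)) * g⁻¹) * g = x := by group
      rw [← this, ← hk']
      group
    have hx1' : x = 1 := Subtype.ext hx1
    rw [hx1', orderOf_one] at hx
    norm_num at hx
  obtain ⟨m, hm⟩ := pw6 ⟨k, hk⟩ hk0
  refine ⟨g, ?_⟩
  rw [cp6_eq] at hm
  rw [← hm]
  show (c6 ^ k) ^ (m : ℕ) ∈ _
  rw [hk']
  exact Subgroup.pow_mem _ hymem _

theorem idx6_classify (H : Subgroup (Equiv.Perm (Fin 6))) (hH : H.index = 6) :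
    (∃ a : Fin 6, H = MulAction.stabilizer (Equiv.Perm (Fin 6)) a) ∨
      ∃ g : Equiv.Perm (Fin 6), H = Subgroup.map (MulAut.conj g).toMonoidHom exo6 := by
  obtain ⟨g, hg⟩ := exists_conj_c6 H hH
  have hidx : (Subgroup.map (MulAut.conj g).toMonoidHom H).index = 6 :=
    (cj9_index g H).trans hH
  rcases idx6_classify_aux _ hidx hg with h | h
  · left
    refine ⟨g⁻¹ • (5 : Fin 6), ?_⟩
    rw [MulAction.stabilizer_smul_eq_stabilizer_map_conj]
    exact cj9_eq_iff.mp h
  · right
    exact ⟨g⁻¹, cj9_eq_iff.mp h⟩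

theorem cj_exo6_eq_rep (g : Equiv.Perm (Fin 6)) :
    ∃ j : Fin 6, Subgroup.map (MulAut.conj g).toMonoidHom exo6 =
      Subgroup.map (MulAut.conj (r6 j)).toMonoidHom exo6 := by
  obtain ⟨j, hj⟩ := cover6 g
  refine ⟨j, ?_⟩
  have hk : (r6 j)⁻¹ * g ∈ exo6 := hj
  ext x
  rw [mem_cj9, mem_cj9]
  constructor
  · intro h
    have := exo6.mul_mem (exo6.mul_mem hk h) (exo6.inv_mem hk)
    convert this using 1
    group
  · intro h
    have := exo6.mul_mem (exo6.mul_mem (exo6.inv_mem hk) h) hk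
    convert this using 1
    group

theorem cj_exo6_ne_stab (g : Equiv.Perm (Fin 6)) (a : Fin 6) :
    Subgroup.map (MulAut.conj g).toMonoidHom exo6 ≠
      MulAction.stabilizer (Equiv.Perm (Fin 6)) a := by
  intro h
  have h1 : g * c6 * g⁻¹ ∈ Subgroup.map (MulAut.conj g).toMonoidHom exo6 := by
    rw [mem_cj9]
    have : g⁻¹ * (g * c6 * g⁻¹) * g = c6 := by group
    rw [this]
    exact P6_c6
  have h2 : g * u6 * g⁻¹ ∈ Subgroup.map (MulAut.conj g).toMonoidHom exo6 := by
    rw [mem_cj9]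
    have : g⁻¹ * (g * u6 * g⁻¹) * g = u6 := by group
    rw [this]
    exact P6_u6
  rw [h, MulAction.mem_stabilizer_iff] at h1 h2
  refine nofix6 (g⁻¹ a) ⟨?_, ?_⟩
  · have := congrArg (fun z => g⁻¹ z) h1
    simpa [Equiv.Perm.smul_def, Equiv.Perm.mul_apply] using this
  · have := congrArg (fun z => g⁻¹ z) h2
    simpa [Equiv.Perm.smul_def, Equiv.Perm.mul_apply] using this

theorem stab6_injective {a b : Fin 6}
    (h : MulAction.stabilizer (Equiv.Perm (Fin 6)) a = MulAction.stabilizer (Equiv.Perm (Fin 6)) b) :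
    a = b := by
  by_contra hab
  obtain ⟨d, hda, hdb⟩ := other6 a b hab
  have h1 : Equiv.swap b d ∈ MulAction.stabilizer (Equiv.Perm (Fin 6)) a := by
    rw [MulAction.mem_stabilizer_iff]
    exact Equiv.swap_apply_of_ne_of_ne hab (Ne.symm hda)
  rw [h, MulAction.mem_stabilizer_iff] at h1
  have h2 : Equiv.swap b d b = d := Equiv.swap_apply_left b d
  exact hdb (h2.symm.trans h1)

/-- The twelve subgroups of index six. -/
def fam6 : Fin 6 ⊕ Fin 6 → {H : Subgroup (Equiv.Perm (Fin 6)) // H.index = 6}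
  | Sum.inl a => ⟨MulAction.stabilizer (Equiv.Perm (Fin 6)) a, stab6_index a⟩
  | Sum.inr j => ⟨Subgroup.map (MulAut.conj (r6 j)).toMonoidHom exo6,
      (cj9_index (r6 j) exo6).trans exo6_index⟩

theorem fam6_injective : Function.Injective fam6 := by
  rintro (a | i) (b | j) h
  · have h' := congrArg Subtype.val h
    exact congrArg Sum.inl (stab6_injective h')
  · have h' := congrArg Subtype.val h
    exact absurd h'.symm (cj_exo6_ne_stab _ _)
  · have h' := congrArg Subtype.val h
    exact absurd h' (cj_exo6_ne_stab _ _)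
  · have h' : Subgroup.map (MulAut.conj (r6 i)).toMonoidHom exo6 =
        Subgroup.map (MulAut.conj (r6 j)).toMonoidHom exo6 := congrArg Subtype.val h
    have h1 : r6 i * c6 * (r6 i)⁻¹ ∈ Subgroup.map (MulAut.conj (r6 i)).toMonoidHom exo6 := by
      rw [mem_cj9]
      have : (r6 i)⁻¹ * (r6 i * c6 * (r6 i)⁻¹) * r6 i = c6 := by group
      rw [this]
      exact P6_c6
    rw [h', mem_cj9] at h1
    exact congrArg Sum.inr (dist6 i j h1)

theorem fam6_surjective : Function.Surjective fam6 := by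
  rintro ⟨H, hH⟩
  rcases idx6_classify H hH with ⟨a, rfl⟩ | ⟨g, rfl⟩
  · exact ⟨Sum.inl a, rfl⟩
  · obtain ⟨j, hj⟩ := cj_exo6_eq_rep g
    exact ⟨Sum.inr j, Subtype.ext hj.symm⟩

theorem s6_index_six_card :
    Nat.card {H : Subgroup (Equiv.Perm (Fin 6)) // H.index = 6} = 12 := by
  rw [← Nat.card_congr (Equiv.ofBijective fam6 ⟨fam6_injective, fam6_surjective⟩)]
  simp

theorem s6_index_six_iso (H : Subgroup (Equiv.Perm (Fin 6))) (hH : H.index = 6) :
    Nonempty (H ≃* Equiv.Perm (Fin 5)) := by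
  rcases idx6_classify H hH with ⟨a, rfl⟩ | ⟨g, rfl⟩
  · exact stab6_iso a
  · obtain ⟨e⟩ := exo6_iso
    exact ⟨(Subgroup.equivMapOfInjective exo6 (MulAut.conj g).toMonoidHom
      (MulAut.conj g).injective).symm.trans e⟩

theorem s6_exotic : ∃ H : Subgroup (Equiv.Perm (Fin 6)), H.index = 6 ∧
    ∀ a : Fin 6, H ≠ MulAction.stabilizer (Equiv.Perm (Fin 6)) a := by
  refine ⟨exo6, exo6_index, fun a => ?_⟩
  have := cj_exo6_ne_stab 1 a
  rwa [cj9_one] at this

theorem s6_two_classes :
    ∃ H₁ H₂ : Subgroup (Equiv.Perm (Fin 6)), H₁.index = 6 ∧ H₂.index = 6 ∧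
      (¬ ∃ g : Equiv.Perm (Fin 6), Subgroup.map (MulAut.conj g).toMonoidHom H₁ = H₂) ∧
      ∀ H : Subgroup (Equiv.Perm (Fin 6)), H.index = 6 →
        ∃ g : Equiv.Perm (Fin 6), Subgroup.map (MulAut.conj g).toMonoidHom H₁ = H ∨
          Subgroup.map (MulAut.conj g).toMonoidHom H₂ = H := by
  refine ⟨MulAction.stabilizer (Equiv.Perm (Fin 6)) (5 : Fin 6), exo6, stab6_index 5, exo6_index,
    ?_, ?_⟩
  · rintro ⟨g, hg⟩
    rw [← MulAction.stabilizer_smul_eq_stabilizer_map_conj] at hg
    have := cj_exo6_ne_stab 1 (g • (5 : Fin 6))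
    rw [cj9_one] at this
    exact this hg.symm
  · intro H hH
    rcases idx6_classify H hH with ⟨a, rfl⟩ | ⟨g, rfl⟩
    · refine ⟨Equiv.swap a 5, Or.inl ?_⟩
      rw [← MulAction.stabilizer_smul_eq_stabilizer_map_conj]
      congr 1
      exact Equiv.swap_apply_right a 5
    · exact ⟨g, Or.inr rfl⟩

end Cfsg.Agent.Helper9
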