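import Mathlib
import Cfsg.Agent.Helper9.Sym8Sylow
import Cfsg.Agent.Helper9.SecondMax

/-!
# Even permutations of 8 points preserving a partition into 4 pairs are affine

Helper for S5910: `(S₂ ≀ S₄) ∩ A₈` lies in a copy of `AGL₃(2)`.
-/

namespace Cfsg.Agent.Helper9

/-- Bitwise xor on `Fin 8`, i.e. addition in `𝔽₂³`. -/
def x8 (a b : Fin 8) : Fin 8 := ⟨a.val ^^^ b.val, Nat.xor_lt_two_pow (n := 3) a.isLt b.isLt⟩

/-- A self-map of `𝔽₂³` is affine. -/
def affine8 (g : Fin 8 → Fin 8) : Prop :=
  ∀ a b c : Fin 8, g (x8 (x8 a b) c) = x8 (x8 (g a) (g b)) (g c)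

/-- Boolean test implying affineness (additivity after translating by `g 0`). -/
def affineB8 (g : Fin 8 → Fin 8) : Bool :=
  (List.finRange 8).all fun a => (List.finRange 8).all fun b =>
    g (x8 a b) == x8 (x8 (g a) (g b)) (g 0)

theorem x8_assoc (a b c : Fin 8) : x8 (x8 a b) c = x8 a (x8 b c) := by
  revert a b c; decide

theorem x8_comm (a b : Fin 8) : x8 a b = x8 b a := by
  revert a b; decide

theorem x8_self (a : Fin 8) : x8 a a = 0 := by
  revert a; decide

theorem x8_zero (a : Fin 8) : x8 a 0 = a := by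
  revert a; decide

theorem affineB8_imp (g : Fin 8 → Fin 8) (h : affineB8 g = true) : affine8 g := by
  have h' : ∀ a b : Fin 8, g (x8 a b) = x8 (x8 (g a) (g b)) (g 0) := by
    simpa [affineB8, List.all_eq_true] using h
  intro a b c
  rw [h' (x8 a b) c, h' a b]
  -- ((ga + gb) + g0) + gc + g0 = ga + gb + gc
  have key : ∀ u v w z : Fin 8, x8 (x8 (x8 (x8 u v) z) w) z = x8 (x8 u v) w := by
    intro u v w z
    rw [x8_assoc (x8 u v) z w, x8_comm z w, ← x8_assoc (x8 u v) w z, x8_assoc (x8 (x8 u v) w) z z,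
      x8_self, x8_zero]
  exact key _ _ _ _

/-- A self-map preserves the partition into the pairs `{2k, 2k+1}`. -/
def pp8 (g : Fin 8 → Fin 8) : Prop :=
  ∀ a b : Fin 8, a.val / 2 = b.val / 2 ↔ (g a).val / 2 = (g b).val / 2

/-- Boolean version of `pp8`. -/
def ppB8 (g : Fin 8 → Fin 8) : Bool :=
  (List.finRange 8).all fun a => (List.finRange 8).all fun b =>
    decide (a.val / 2 = b.val / 2) == decide ((g a).val / 2 = (g b).val / 2)

theorem ppB8_iff (g : Fin 8 → Fin 8) : ppB8 g = true ↔ pp8 g := by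
  simp [ppB8, pp8, List.all_eq_true]

/-- Parity contribution of the `i`-th transposition factor of a code. -/
def parD8 (n i : ℕ) : ℕ := if (n / 8 ^ i) % 8 = i then 0 else 1

/-- Number of nontrivial transposition factors of a code. -/
def par8 (n : ℕ) : ℕ :=
  parD8 n 0 + (parD8 n 1 + (parD8 n 2 + (parD8 n 3 + (parD8 n 4 + (parD8 n 5 + parD8 n 6)))))

theorem sign_sw8 (n i : ℕ) (hi : i < 8) : Equiv.Perm.sign (sw8 n i hi) = (-1) ^ parD8 n i := by
  unfold sw8 parD8
  rw [Equiv.Perm.sign_swap']
  by_cases h : (n / 8 ^ i) % 8 = i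
  · rw [if_pos h, if_pos (Fin.ext h.symm), pow_zero]
  · rw [if_neg h, if_neg (fun h' => h (Fin.ext_iff.mp h').symm), pow_one]

theorem sign_codePerm8 (n : ℕ) : Equiv.Perm.sign (codePerm8 n) = (-1) ^ par8 n := by
  unfold codePerm8 par8
  simp only [map_mul, sign_sw8, pow_add]

theorem par8_even_of_sign {n : ℕ} (h : Equiv.Perm.sign (codePerm8 n) = 1) : par8 n % 2 = 0 := by
  rw [sign_codePerm8] at h
  by_contra hodd
  have hodd' : Odd (par8 n) := Nat.odd_iff.mpr (by omega)
  rw [hodd'.neg_one_pow] at h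
  exact absurd h (by decide)

theorem sign_of_par8 {n : ℕ} (h : par8 n % 2 = 0) : Equiv.Perm.sign (codePerm8 n) = 1 := by
  rw [sign_codePerm8]
  exact (Nat.even_iff.mpr h).neg_one_pow

theorem pp8_mul {x y : Equiv.Perm (Fin 8)} (hx : pp8 x) (hy : pp8 y) : pp8 ⇑(x * y) := by
  intro a b
  rw [hy a b, hx (y a) (y b)]
  rfl

theorem pp8_inv {x : Equiv.Perm (Fin 8)} (hx : pp8 x) : pp8 ⇑(x⁻¹) := by
  intro a b
  have h := hx (x⁻¹ a) (x⁻¹ b)
  rw [Equiv.Perm.inv_def, Equiv.apply_symm_apply, Equiv.apply_symm_apply] at h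
  rw [Equiv.Perm.inv_def]
  exact h.symm

theorem affine8_mul {x y : Equiv.Perm (Fin 8)} (hx : affine8 x) (hy : affine8 y) :
    affine8 ⇑(x * y) := by
  intro a b c
  show x (y (x8 (x8 a b) c)) = x8 (x8 (x (y a)) (x (y b))) (x (y c))
  rw [hy, hx]

theorem affine8_inv {x : Equiv.Perm (Fin 8)} (hx : affine8 x) : affine8 ⇑(x⁻¹) := by
  intro a b c
  apply x.injective
  rw [hx, Equiv.Perm.inv_def, Equiv.apply_symm_apply, Equiv.apply_symm_apply,
    Equiv.apply_symm_apply, Equiv.apply_symm_apply]

/-- The affine permutations of `𝔽₂³`. -/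
def aff8 : Subgroup (Equiv.Perm (Fin 8)) where
  carrier := {h | affine8 h}
  one_mem' := fun a b c => rfl
  mul_mem' := fun hx hy => affine8_mul hx hy
  inv_mem' := fun hx => affine8_inv hx

/-- The even affine permutations preserving the pairs. -/
def affB8 : Subgroup (Equiv.Perm (Fin 8)) where
  carrier := {h | pp8 h ∧ affine8 h ∧ Equiv.Perm.sign h = 1}
  one_mem' := ⟨fun a b => Iff.rfl, fun a b c => rfl, map_one _⟩
  mul_mem' := by
    rintro x y ⟨h1, h2, h3⟩ ⟨k1, k2, k3⟩
    exact ⟨pp8_mul h1 k1, affine8_mul h2 k2, by rw [map_mul, h3, k3, one_mul]⟩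
  inv_mem' := by
    rintro x ⟨h1, h2, h3⟩
    exact ⟨pp8_inv h1, affine8_inv h2, by rw [map_inv, h3, inv_one]⟩

theorem mem_affB8 (h : Equiv.Perm (Fin 8)) :
    h ∈ affB8 ↔ pp8 h ∧ affine8 h ∧ Equiv.Perm.sign h = 1 := Iff.rfl

/-- The self-map of `Fin 8` with image code `m`. -/
def dig8 (m : ℕ) (a : Fin 8) : Fin 8 := ⟨(m / 8 ^ a.val) % 8, Nat.mod_lt _ (by norm_num)⟩

def repsA8 : List ℕ := [1754760, 1754761, 2054353, 2054346, 2054352, 2054354, 2091801, 1754767, 2091787, 1754809, 2091800, 2030946, 1754815, 1797558, 2091803, 2096468, 1754808, 1797552, 2096481, 2054359, 2096482, 1769387, 2097150, 1797518, 2088829, 2096460, 1792250, 2030932, 1826717, 1797559, 1797553, 2030575, 2096480, 2027434, 1802155, 2026265, 1829364, 1797566, 1793397, 2030573, 2096484, 2056085, 2056093, 2026251, 1822182, 2097143, 1764270, 2030568, 2091807, 1828851, 2056107, 2058740, 2026264, 1822196, 1755135, 2030541, 2062780, 2026299, 1830366, 1802141, 2051558, 2026267, 1829350, 1755128, 2030569, 2052007, 2026271, 1824982, 1830387,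 2022754, 2051572, 2023293, 2030945, 1824983, 2030461, 1767339, 1755087, 2052028, 2091835, 2087154, 1828830, 2018644, 2058726, 2096111, 2030924, 1759482, 2088943, 1768349, 1755129, 2062759, 2030944, 2054358, 2095420, 1768874, 2095997, 1800107, 2092970, 1759447, 2082446, 2088957, 1796022, 1768363, 2054288, 2088941, 1800051, 2030948, 2021618, 2084839, 1801109, 2023407, 1801117, 1826709, 1825018, 2082481, 2030447, 1796016, 1767325, 2054290, 2088936, 1801566, 1826729, 2021590, 1820301, 2084860, 1759085, 1801130, 1797985, 2023421, 1763254, 1801131, 1797986, 1826730, 2058227, 1787534, 1792877, 1834292, 2054289, 2088909, 1801587, 1826701, 2054386, 1820329, 2095399, 1759080, 1768853, 1797964, 2095983, 1763248, 1800093, 1765204, 2092949, 2059742, 1787569, 1792872, 2062758, 2054282, 2088937, 1800030, 2060274, 2059039, 1754765, 1758893, 2063603, 2063668, 1763214, 2059106, 2059763, 2019132, 2087789, 1792845, 1795990, 1822140, 1834454, 1796923, 1754793, 1758888, 2062238, 1833382, 1763249, 2025812, 2058206, 2030055,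 2087784, 1792873, 1795762, 1834407, 1834482, 1788055, 2025826, 1826585, 1801642, 2087757, 1795734, 2060246, 1788410, 2059092, 1826571, 1768341, 2087785, 1796018, 1788375, 1826584, 1768362, 1788090, 1826587, 1801621, 2025825, 2025804, 2025824, 2025828]
def nxtSA8 : List ℕ := [1, 0, 4, 5, 2, 3, 10, 12, 14, 16, 6, 20, 7, 23, 8, 27, 9, 30, 32, 26, 11, 28, 37, 13, 31, 40, 19, 15, 21, 45, 17, 24, 18, 41, 50, 52, 53, 22, 46, 55, 25, 33, 59, 61, 62, 29, 38, 64, 66, 68, 34, 70, 35, 36, 76, 39, 77, 78, 80, 42, 82, 43, 44, 88, 47, 89, 48, 79, 49, 81, 51, 83, 90, 97, 99, 101, 54, 56, 57, 67, 58, 69, 60, 71, 105, 112, 114, 116, 63, 65, 72, 121, 123, 125, 127, 129, 131, 73, 122, 74, 130, 75, 136, 137, 138, 84, 140, 142, 144, 146, 148, 150, 85, 141, 86, 149, 87, 155, 156, 157, 143, 91, 98, 92, 139, 93, 152, 94, 164, 95, 100, 96, 166, 145, 169, 154, 102, 103, 104, 124, 106, 113, 107, 120, 108, 133, 109, 178, 110, 115, 111, 180, 126, 183, 135, 117, 118, 119, 186, 173, 175, 174, 176, 177, 128, 188, 132, 181, 191, 134,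 192, 185, 193, 159, 161, 160, 162, 163, 147, 195, 151, 167, 198, 153, 199, 171, 158, 200, 165, 201, 202, 168, 170, 172, 203, 179, 204, 205, 182, 184, 187, 189, 190, 194, 196, 197, 208, 209, 206, 207]
def nxtCA8 : List ℕ := [2, 3, 0, 1, 6, 8, 11, 4, 15, 5, 18, 21, 19, 7, 25, 28, 26, 9, 33, 10, 34, 36, 12, 35, 13, 41, 14, 42, 44, 16, 43, 17, 45, 49, 51, 20, 24, 54, 22, 23, 37, 58, 60, 27, 31, 63, 29, 30, 32, 38, 64, 71, 72, 74, 69, 67, 39, 40, 46, 55, 83, 84, 86, 81, 79, 47, 90, 48, 92, 50, 94, 56, 96, 52, 100, 53, 102, 103, 105, 57, 107, 59, 109, 65, 111, 61, 115, 62, 117, 118, 120, 66, 124, 68, 128, 70, 132, 76, 73, 126, 75, 135, 131, 130, 77, 139, 78, 143, 80, 147, 82, 151, 88, 85, 145, 87, 154, 150, 149, 89, 158, 159, 91, 161, 101, 162, 93, 141, 104, 156, 95, 157, 167, 97, 98, 99, 160, 170, 171, 172, 173, 106, 175, 116, 176, 108, 122, 119, 137, 110, 138, 181, 112, 113, 114, 174, 184, 185, 177, 136, 121, 125, 123, 127, 187, 129, 183, 134, 133, 189, 190, 182, 163, 155, 140, 144, 142, 146, 194, 148,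 169, 153, 152, 196, 197, 168, 198, 164, 193, 165, 166, 199, 195, 191, 178, 186, 179, 180, 192, 188, 204, 206, 203, 201, 207, 200, 202, 205, 209, 208]
def nxtCiA8 : List ℕ := [2, 3, 0, 1, 7, 9, 4, 13, 5, 17, 19, 6, 22, 24, 26, 8, 29, 31, 10, 12, 35, 11, 38, 39, 36, 14, 16, 43, 15, 46, 47, 44, 48, 18, 20, 23, 21, 40, 49, 56, 57, 25, 27, 30, 28, 32, 58, 65, 67, 33, 69, 34, 73, 75, 37, 59, 71, 79, 41, 81, 42, 85, 87, 45, 50, 83, 91, 55, 93, 54, 95, 51, 52, 98, 53, 100, 97, 104, 106, 64, 108, 63, 110, 60, 61, 113, 62, 115, 112, 119, 66, 122, 68, 126, 70, 130, 72, 133, 134, 135, 74, 124, 76, 77, 128, 78, 141, 80, 145, 82, 149, 84, 152, 153, 154, 86, 143, 88, 89, 147, 90, 160, 146, 162, 92, 161, 99, 163, 94, 165, 103, 102, 96, 168, 167, 101, 159, 148, 150, 105, 174, 127, 176, 107, 175, 114, 177, 109, 179, 118, 117, 111, 182, 181, 116, 173, 129, 131, 120, 121, 136, 123, 125, 172, 187, 189, 190, 132, 185, 180, 137, 138, 139, 140, 155, 142, 144, 158, 194, 196, 197, 151, 171, 166, 156, 157, 195, 164, 199, 169,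 170, 193, 198, 188, 178, 192, 183, 184, 186, 191, 205, 203, 206, 202, 200, 207, 201, 204, 209, 208]
def hSA8 : List ℕ := [16434824, 16434824, 16434824, 16434824, 16434824, 16434824, 16434824, 16434824, 16434824, 16434824, 16434824, 16434824, 16434824, 16434824, 16434824, 16434824, 16434824, 16434824, 16434824, 14599809, 16434824, 16406145, 16434824, 16434824, 16434369, 16434824, 14599809, 16434824, 16406145, 16434824, 16434824, 16434369, 16434824, 16406145, 16434824, 16434824, 16434824, 16434824, 16434369, 16434824, 16434824, 16406145, 16434824, 16434824, 16434824, 16434824, 16434369, 16434824, 16434824, 16434824, 16434824, 16434824, 16434824, 16434824, 16434824, 16434824, 16434824, 16434824, 16434824, 16434824, 16434824, 16434824, 16434824, 16434824, 16434824, 16434824, 16434824, 14599809, 16434824, 16406145, 16434824, 16434369, 16434824, 16434824, 16434824, 16434824, 16434824, 16434824, 16434824, 14599809, 16434824, 16406145, 16434824, 16434369, 16434824, 16434824, 16434824, 16434824, 16434824, 16434824,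 16434824, 16434824, 16434824, 16434824, 16434824, 16434824, 16434824, 16434824, 2279102, 16434824, 6852524, 16434824, 16434824, 16434824, 16434824, 16434824, 16434824, 16434824, 16434824, 16434824, 16434824, 16434824, 16434824, 444087, 16434824, 6823845, 16434824, 16434824, 16434824, 16434824, 11644808, 16434824, 2279102, 16434824, 7072520, 16434824, 6823845, 16434824, 16434824, 16434824, 6852524, 16434824, 16434824, 6852524, 16434824, 16434369, 16434824, 16434824, 16434824, 11644808, 16434824, 444087, 16434824, 7072520, 16434824, 6852524, 16434824, 16434824, 16434824, 6823845, 16434824, 16434824, 6823845, 16434824, 16434369, 16434824, 16434824, 16434824, 16434824, 14599809, 16406145, 16406145, 16434369, 16434369, 16434824, 16434824, 16434824, 16434369, 16434824, 16434824, 16434824, 16406145, 16434824, 14599809, 16406145, 16406145, 16434369, 16434369, 16434824, 16434824, 16434824, 16434369, 16434824, 16434824, 16434824, 16406145, 16434824, 16434824, 16434824, 16434824, 16434824, 16434824, 16434824,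 16434824, 16434824, 16434824, 16434824, 16434824, 16434824, 16434824, 16434824, 16434824, 16434824, 16434824, 16434824, 16434824, 16434824, 16434824, 16434824, 16434824]
def hCA8 : List ℕ := [16434824, 16434824, 2353946, 518931, 16434824, 16434824, 16434824, 16434824, 16434824, 16434824, 16434824, 16434824, 2279102, 16434824, 16434824, 16434824, 444087, 16434824, 16434824, 16434824, 16434824, 16434824, 16434824, 11641406, 16434824, 16434824, 16434824, 16434824, 16434824, 16434824, 11640951, 16434824, 11640951, 16434824, 16434824, 16434824, 16434824, 16434824, 16434824, 16434824, 11641406, 16434824, 16434824, 16434824, 16434824, 16434824, 16434824, 16434824, 16434824, 2279102, 2279102, 16434824, 16434824, 16434824, 16359980, 11644808, 16434824, 16434824, 444087, 444087, 16434824, 16434824, 16434824, 16359525, 11644808, 16434824, 16434824, 16434824, 16434824, 16434824, 16434824, 2353946, 16434824, 16434824, 16434824, 16434824, 16434824, 16434824, 16434824, 16434824, 16434824, 16434824, 16434824, 518931,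 16434824, 16434824, 16434824, 16434824, 16434824, 16434824, 16434824, 16434824, 16434824, 16434824, 16434824, 16434824, 16434824, 2353946, 16434824, 6852524, 6852524, 16362248, 16359980, 6852524, 16434824, 16434824, 16434824, 16434824, 16434824, 16434824, 16434824, 16434824, 518931, 16434824, 6823845, 6823845, 16362248, 16359525, 6823845, 16434824, 16434824, 16434824, 16434824, 16434824, 11571098, 16362248, 16434824, 11568830, 6852524, 2279102, 16434824, 5237505, 16434824, 16434824, 16434824, 16434824, 9953370, 16434824, 16434824, 16434824, 16434824, 16434824, 16434824, 11542419, 16362248, 16434824, 11540151, 6823845, 444087, 16434824, 5237505, 16434824, 16434824, 16434824, 16434824, 9953811, 16434824, 16434824, 517797, 2353946, 16434824, 11571098, 16434824, 16434824, 16434824, 16434824, 11568830, 16434824, 16434824, 11641406, 6852524, 16361793, 2352812, 518931, 16434824, 11542419, 16434824, 16434824, 16434824, 16434824, 11540151, 16434824, 16434824, 11640951, 6823845, 16361793, 16287404, 2353946, 11641406,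 16434824, 16434824, 16406145, 11612286, 16258725, 518931, 11640951, 16434824, 16434824, 16406145, 11612727, 16361793, 16434824, 14524524, 16361793, 16434824, 14524965, 16434824, 16434824, 518931, 2353946]
def hCiA8 : List ℕ := [11641406, 11640951, 16434824, 16434824, 16434824, 16434824, 16434824, 16434824, 16434824, 16434824, 16434824, 16434824, 16434824, 16434824, 16434824, 16434824, 16434824, 16434824, 16434824, 2279102, 16434824, 16434824, 16434824, 16434824, 16434824, 16434824, 444087, 16434824, 16434824, 16434824, 16434824, 16434824, 16434824, 16434824, 16434824, 2353946, 16434824, 2353946, 2279102, 16434824, 16434824, 16434824, 16434824, 518931, 16434824, 518931, 444087, 16434824, 16434824, 16434824, 16434824, 16434824, 16434824, 16434824, 16434824, 444087, 11641406, 16434824, 16434824, 16434824, 16434824, 16434824, 16434824, 16434824, 2279102, 11640951, 16434824, 7072520, 16434824, 16288538, 16434824, 16434824, 16434824, 16434824, 16434824, 6852524, 11641406, 16434824, 16434824, 7072520, 16434824,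 16259859, 16434824, 16434824, 16434824, 16434824, 16434824, 6823845, 11640951, 16434824, 16434824, 16434824, 16434824, 16434824, 16434824, 16434824, 16434824, 16434824, 16434824, 16434824, 16434824, 7070252, 16434824, 16434824, 6852524, 16434824, 16434824, 16434824, 16434824, 16434824, 16434824, 16434824, 16434824, 16434824, 16434824, 16434824, 7069797, 16434824, 16434824, 6823845, 16434824, 16434824, 517797, 16434824, 16434824, 7070252, 6852524, 16434824, 16434824, 16434824, 6852524, 16288538, 16434824, 16434824, 16434824, 16362248, 11641406, 444087, 11644353, 16434824, 16434824, 2352812, 16434824, 16434824, 7069797, 6823845, 16434824, 16434824, 16434824, 6823845, 16259859, 16434824, 16434824, 16434824, 16362248, 11640951, 2279102, 11644353, 16434824, 16434824, 11760147, 16434824, 16362248, 11568830, 11641406, 16434824, 16434824, 16434824, 16333569, 517797, 16434824, 16434824, 16434824, 16434824, 11759706, 16434824, 16362248, 11540151, 11640951, 16434824, 16434824, 16434824, 16333569, 2352812, 16434824,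 16434824, 518931, 16434824, 518490, 2353946, 6852524, 16258725, 16406145, 2353946, 16434824, 2353491, 518931, 6823845, 16287404, 16406145, 14424858, 16333569, 16434824, 14453523, 16333569, 16434824, 16434824, 16434824, 11641406, 11640951]

/-- Coset representatives of `affB8`. -/
def repA8 (j : ℕ) : Equiv.Perm (Fin 8) := codePerm8 (repsA8.getD j 0)

/-- The table statement for one generator (given by its code `c`). -/
def StepA8 (c : ℕ) (nxt hs : List ℕ) : Prop :=
  ∀ j < 210, nxt.getD j 0 < 210 ∧
    ((List.finRange 8).all fun a =>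
      repA8 (nxt.getD j 0) (dig8 (hs.getD j 0) a) == codePerm8 c (repA8 j a)) = true ∧
    ppB8 (dig8 (hs.getD j 0)) = true ∧ affineB8 (dig8 (hs.getD j 0)) = true ∧
    (par8 (repsA8.getD (nxt.getD j 0) 0) + par8 c + par8 (repsA8.getD j 0)) % 2 = 0

instance (c : ℕ) (nxt hs : List ℕ) : Decidable (StepA8 c nxt hs) := by
  unfold StepA8; infer_instance

set_option maxHeartbeats 4000000 in
theorem a8_stepS : StepA8 1754761 nxtSA8 hSA8 := by
  decide +kernel

set_option maxHeartbeats 4000000 in
theorem a8_stepC : StepA8 2054353 nxtCA8 hCA8 := by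
  decide +kernel

set_option maxHeartbeats 4000000 in
theorem a8_stepCi : StepA8 2097151 nxtCiA8 hCiA8 := by
  decide +kernel

set_option maxHeartbeats 4000000 in
theorem a8_reps : ∀ j < 210, ppB8 ⇑(repA8 j) = true → par8 (repsA8.getD j 0) % 2 = 0 →
    affineB8 ⇑(repA8 j) = true := by
  decide +kernel

theorem a8_rep0 : ((List.finRange 8).all fun a => repA8 0 a == a) = true := by decide +kernel

/-- `w` lies in one of the 210 listed cosets of `affB8`. -/
def CovA8 (w : Equiv.Perm (Fin 8)) : Prop := ∃ j < 210, (repA8 j)⁻¹ * w ∈ affB8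

theorem covA8_step {c : ℕ} {nxt hs : List ℕ} (h : StepA8 c nxt hs)
    (w : Equiv.Perm (Fin 8)) (hw : CovA8 w) : CovA8 (codePerm8 c * w) := by
  obtain ⟨j, hj, hjw⟩ := hw
  obtain ⟨h1, h2, h3, h4, h5⟩ := h j hj
  refine ⟨nxt.getD j 0, h1, ?_⟩
  have hfun : ⇑((repA8 (nxt.getD j 0))⁻¹ * codePerm8 c * repA8 j) = dig8 (hs.getD j 0) := by
    funext a
    have h6 := beq_iff_eq.mp (List.all_eq_true.mp h2 a (List.mem_finRange a))
    rw [Equiv.Perm.coe_mul, Equiv.Perm.coe_mul, Function.comp_apply, Function.comp_apply, ← h6,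
      Equiv.Perm.inv_def, Equiv.symm_apply_apply]
  have hmem : (repA8 (nxt.getD j 0))⁻¹ * codePerm8 c * repA8 j ∈ affB8 := by
    rw [mem_affB8, hfun]
    refine ⟨(ppB8_iff _).mp h3, affineB8_imp _ h4, ?_⟩
    unfold repA8
    rw [map_mul, map_mul, map_inv, sign_codePerm8, sign_codePerm8, sign_codePerm8, ← inv_pow,
      inv_neg_one, ← pow_add, ← pow_add]
    exact (Nat.even_iff.mpr h5).neg_one_pow
  have h7 : (repA8 (nxt.getD j 0))⁻¹ * (codePerm8 c * w)
      = ((repA8 (nxt.getD j 0))⁻¹ * codePerm8 c * repA8 j) * ((repA8 j)⁻¹ * w) := by group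
  rw [h7]
  exact affB8.mul_mem hmem hjw

theorem covA8_all (w : Equiv.Perm (Fin 8)) : CovA8 w := by
  have hgen : Subgroup.closure ({finRotate 8, Equiv.swap (0 : Fin 8) (finRotate 8 0)} :
      Set (Equiv.Perm (Fin 8))) = ⊤ :=
    Equiv.Perm.closure_cycle_adjacent_swap (isCycle_finRotate_of_le (by norm_num))
      (support_finRotate_of_le (by norm_num)) 0
  have hw : w ∈ Subgroup.closure ({finRotate 8, Equiv.swap (0 : Fin 8) (finRotate 8 0)} :
      Set (Equiv.Perm (Fin 8))) := by
    rw [hgen]; trivial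
  have key : ∀ v : Equiv.Perm (Fin 8), CovA8 v → CovA8 (w * v) := by
    refine Subgroup.closure_induction'' (p := fun g _ => ∀ v : Equiv.Perm (Fin 8),
      CovA8 v → CovA8 (g * v)) ?_ ?_ ?_ ?_ hw
    · intro x hx v hv
      rcases hx with rfl | hx
      · rw [← cyc8_eq]
        exact covA8_step a8_stepC v hv
      · rw [Set.mem_singleton_iff] at hx
        rw [hx, ← swp8_eq]
        exact covA8_step a8_stepS v hv
    · intro x hx v hv
      rcases hx with rfl | hx
      · rw [← cycInv8_eq]
        exact covA8_step a8_stepCi v hv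
      · rw [Set.mem_singleton_iff] at hx
        rw [hx, Equiv.swap_inv, ← swp8_eq]
        exact covA8_step a8_stepS v hv
    · intro v hv
      rw [one_mul]; exact hv
    · intro x y _ _ hx hy v hv
      rw [mul_assoc]
      exact hx _ (hy v hv)
  have h0 : repA8 0 = 1 := by
    ext a
    have := beq_iff_eq.mp (List.all_eq_true.mp a8_rep0 a (List.mem_finRange a))
    rw [this]; rfl
  have h1 : CovA8 1 := ⟨0, by norm_num, by
    rw [mul_one, h0, inv_one]
    exact affB8.one_mem⟩
  have := key 1 h1
  rwa [mul_one] at this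

/-- Every even permutation of 8 points preserving the pairs `{2k, 2k+1}` is affine. -/
theorem pp_even_affine8 (w : Equiv.Perm (Fin 8)) (hpp : pp8 w) (hsign : Equiv.Perm.sign w = 1) :
    affine8 w := by
  obtain ⟨j, hj, hjw⟩ := covA8_all w
  obtain ⟨h1, h2, h3⟩ := (mem_affB8 _).mp hjw
  have hw : w = repA8 j * ((repA8 j)⁻¹ * w) := by group
  have hrep : repA8 j = w * ((repA8 j)⁻¹ * w)⁻¹ := by group
  have hpr : pp8 ⇑(repA8 j) := by
    rw [hrep]
    exact pp8_mul hpp (pp8_inv h1)
  have hsr : Equiv.Perm.sign (repA8 j) = 1 := by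
    rw [hrep, map_mul, map_inv, h3, hsign, inv_one, one_mul]
  have haff : affine8 ⇑(repA8 j) :=
    affineB8_imp _ (a8_reps j hj ((ppB8_iff _).mpr hpr) (par8_even_of_sign hsr))
  rw [hw]
  exact affine8_mul haff h2

theorem a8_k0 : affineB8 ⇑(codePerm8 1787536) = true ∧ ppB8 ⇑(codePerm8 1787536) = false ∧
    par8 1787536 % 2 = 0 := by decide +kernel

theorem a8_t0 : ¬ affine8 ⇑(codePerm8 1754769) ∧ par8 1754769 % 2 = 0 := by
  refine ⟨?_, by decide +kernel⟩
  intro h
  have h1 := h 0 1 4
  revert h1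
  decide +kernel

/-- S5910: the even permutations preserving a partition of 8 points into 4 pairs do not form a
maximal subgroup of the alternating group. -/
theorem a8_pairs_not_max {Ω : Type*} [Fintype Ω] [DecidableEq Ω]
    (f : Ω → Fin 4) (hf : ∀ i : Fin 4, Nat.card {x : Ω // f x = i} = 2) :
    ¬ IsCoatom ((Subgroup.closure {g : Equiv.Perm Ω | ∀ x y : Ω, f x = f y ↔ f (g x) = f (g y)} ⊓
      alternatingGroup Ω).subgroupOf (alternatingGroup Ω)) := by
  classical
  -- an identification of `Ω` with `Fin 8` turning `f` into `i ↦ i / 2`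
  let eqv : ∀ i : Fin 4, {x : Ω // f x = i} ≃ Fin 2 := fun i => Finite.equivFinOfCardEq (hf i)
  let e : Ω ≃ Fin 8 :=
    (Equiv.sigmaFiberEquiv f).symm.trans ((Equiv.sigmaCongrRight eqv).trans
      ((Equiv.sigmaEquivProd (Fin 4) (Fin 2)).trans finProdFinEquiv))
  have he : ∀ x : Ω, (e x).val / 2 = (f x).val := by
    intro x
    have h1 : (e x).val = (eqv (f x) ⟨x, rfl⟩).val + 2 * (f x).val := rfl
    rw [h1]
    have h2 := (eqv (f x) ⟨x, rfl⟩).isLt
    omega
  set ψ : Equiv.Perm Ω ≃* Equiv.Perm (Fin 8) := e.permCongrHom with hψ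
  have hψapp : ∀ (g : Equiv.Perm Ω) (a : Fin 8), ψ g a = e (g (e.symm a)) := fun g a => rfl
  have hψsign : ∀ g : Equiv.Perm Ω, Equiv.Perm.sign (ψ g) = Equiv.Perm.sign g :=
    fun g => Equiv.Perm.sign_permCongr e g
  have hpp : ∀ g : Equiv.Perm Ω, (∀ x y : Ω, f x = f y ↔ f (g x) = f (g y)) ↔ pp8 ⇑(ψ g) := by
    intro g
    constructor
    · intro hg a b
      rw [hψapp, hψapp, he, he]
      have ha : a.val / 2 = (f (e.symm a)).val := by rw [← he, Equiv.apply_symm_apply]
      have hb : b.val / 2 = (f (e.symm b)).val := by rw [← he, Equiv.apply_symm_apply]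
      rw [ha, hb, Fin.val_inj, Fin.val_inj]
      exact hg _ _
    · intro hg x y
      have h := hg (e x) (e y)
      rw [hψapp, hψapp, Equiv.symm_apply_apply, Equiv.symm_apply_apply, he, he, he, he,
        Fin.val_inj, Fin.val_inj] at h
      exact h
  set X : Subgroup (Equiv.Perm Ω) :=
    Subgroup.closure {g : Equiv.Perm Ω | ∀ x y : Ω, f x = f y ↔ f (g x) = f (g y)} ⊓
      alternatingGroup Ω with hX
  have hclos : ∀ g ∈ Subgroup.closure
      {g : Equiv.Perm Ω | ∀ x y : Ω, f x = f y ↔ f (g x) = f (g y)},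
      ∀ x y : Ω, f x = f y ↔ f (g x) = f (g y) := by
    intro g hg
    induction hg using Subgroup.closure_induction with
    | mem g hg => exact hg
    | one => intro x y; rfl
    | mul g h _ _ hg hh =>
      intro x y
      rw [hh x y, hg (h x) (h y)]
      rfl
    | inv g _ hg =>
      intro x y
      have h := hg (g⁻¹ x) (g⁻¹ y)
      rw [Equiv.Perm.inv_def, Equiv.apply_symm_apply, Equiv.apply_symm_apply] at h
      rw [Equiv.Perm.inv_def]
      exact h.symm
  set K : Subgroup (Equiv.Perm Ω) := aff8.comap ψ.toMonoidHom ⊓ alternatingGroup Ω with hK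
  have hXK : X ≤ K := by
    intro g hg
    have h1 := hclos g hg.1
    have h2 : Equiv.Perm.sign g = 1 := Equiv.Perm.mem_alternatingGroup.mp hg.2
    refine ⟨?_, hg.2⟩
    show affine8 ⇑(ψ g)
    exact pp_even_affine8 _ ((hpp g).mp h1) (by rw [hψsign, h2])
  have hKA : K ≤ alternatingGroup Ω := inf_le_right
  have hnKX : ¬ K ≤ X := by
    intro hle
    obtain ⟨k1, k2, k3⟩ := a8_k0
    have hk : ψ.symm (codePerm8 1787536) ∈ K := by
      refine ⟨?_, ?_⟩
      · show affine8 ⇑(ψ (ψ.symm (codePerm8 1787536)))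
        rw [MulEquiv.apply_symm_apply]
        exact affineB8_imp _ k1
      · apply Equiv.Perm.mem_alternatingGroup.mpr
        rw [← hψsign, MulEquiv.apply_symm_apply]
        exact sign_of_par8 k3
    have h1 := hclos _ (hle hk).1
    rw [hpp, MulEquiv.apply_symm_apply, ← ppB8_iff, k2] at h1
    exact absurd h1 (by decide)
  intro hco
  have hKeq := coatom_subgroupOf_elim9 hco hXK hKA hnKX
  obtain ⟨t1, t2⟩ := a8_t0
  have ht : ψ.symm (codePerm8 1754769) ∈ alternatingGroup Ω := by
    rw [Equiv.Perm.mem_alternatingGroup, ← hψsign, MulEquiv.apply_symm_apply]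
    exact sign_of_par8 t2
  rw [← hKeq] at ht
  have h2 : affine8 ⇑(ψ (ψ.symm (codePerm8 1754769))) := ht.1
  rw [MulEquiv.apply_symm_apply] at h2
  exact t1 h2

end Cfsg.Agent.Helper9
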