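import Mathlib

set_option autoImplicit false

namespace Cfsg.Agent.Helper9

open Equiv Equiv.Perm

theorem fact_step9 (j : ℕ) (ih : 2 ^ (j + 3) * (j + 4).factorial < (2 * j + 6).factorial) :
    2 ^ (j + 4) * (j + 5).factorial < (2 * j + 8).factorial := by
  have e1 : (2 * j + 8).factorial = (2 * j + 8) * (2 * j + 7).factorial :=
    Nat.factorial_succ (2 * j + 7)
  have e2 : (2 * j + 7).factorial = (2 * j + 7) * (2 * j + 6).factorial :=
    Nat.factorial_succ (2 * j + 6)
  have e3 : (j + 5).factorial = (j + 5) * (j + 4).factorial := Nat.factorial_succ (j + 4)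
  rw [e1, e2, e3]
  have h3 : 2 * (j + 5) ≤ (2 * j + 8) * (2 * j + 7) := by nlinarith
  calc 2 ^ (j + 4) * ((j + 5) * (j + 4).factorial)
      = 2 * (j + 5) * (2 ^ (j + 3) * (j + 4).factorial) := by ring
    _ < 2 * (j + 5) * (2 * j + 6).factorial := (Nat.mul_lt_mul_left (by positivity)).mpr ih
    _ ≤ (2 * j + 8) * (2 * j + 7) * (2 * j + 6).factorial := Nat.mul_le_mul_right _ h3
    _ = (2 * j + 8) * ((2 * j + 7) * (2 * j + 6).factorial) := by ring

theorem fact_ineq9 : ∀ j : ℕ, 2 ^ (j + 3) * (j + 4).factorial < (2 * j + 6).factorial := by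
  intro j
  induction j with
  | zero => decide
  | succ j ih => exact fact_step9 j ih

theorem central_arith9 (n k : ℕ) (hn6 : n ≠ 6) (hk : 1 ≤ k) (hkn : 2 * k ≤ n)
    (h : (n - 2 * k).factorial * 2 ^ k * k.factorial = (n - 2).factorial * 2) : k = 1 := by
  by_contra hk1
  obtain ⟨m, rfl⟩ : ∃ m, n = m + 2 * k := ⟨n - 2 * k, by omega⟩
  have hm : m + 2 * k - 2 * k = m := by omega
  rw [hm] at h
  have hpos := Nat.factorial_pos m
  rcases (by omega : k = 2 ∨ k = 3 ∨ 4 ≤ k) with rfl | rfl | hk4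
  · have e : (m + 2 * 2 - 2).factorial = (m + 2) * ((m + 1) * m.factorial) := by
      have e0 : m + 2 * 2 - 2 = m + 2 := by omega
      rw [e0]
      exact (Nat.factorial_succ (m + 1)).trans (by rw [Nat.factorial_succ m])
    rw [e] at h
    have h' : m.factorial * ((m + 2) * (m + 1)) = m.factorial * 4 := by
      norm_num [Nat.factorial] at h
      linarith
    have h4 : (m + 2) * (m + 1) = 4 := Nat.eq_of_mul_eq_mul_left hpos h'
    rcases m with _ | m
    · simp at h4
    · nlinarith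
  · have e : (m + 2 * 3 - 2).factorial =
        (m + 4) * ((m + 3) * ((m + 2) * ((m + 1) * m.factorial))) := by
      have e0 : m + 2 * 3 - 2 = m + 4 := by omega
      rw [e0]
      rw [Nat.factorial_succ (m + 3), Nat.factorial_succ (m + 2), Nat.factorial_succ (m + 1),
        Nat.factorial_succ m]
    rw [e] at h
    have h' : m.factorial * ((m + 4) * (m + 3) * (m + 2) * (m + 1)) = m.factorial * 24 := by
      norm_num [Nat.factorial] at h
      linarith
    have h4 : (m + 4) * (m + 3) * (m + 2) * (m + 1) = 24 := Nat.eq_of_mul_eq_mul_left hpos h'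
    rcases m with _ | m
    · exact hn6 rfl
    · have h5 : 5 * 4 * 3 * 2 ≤ (m + 1 + 4) * (m + 1 + 3) * (m + 1 + 2) * (m + 1 + 1) := by
        apply Nat.mul_le_mul (Nat.mul_le_mul (Nat.mul_le_mul _ _) _) _ <;> omega
      omega
  · obtain ⟨j, rfl⟩ : ∃ j, k = j + 4 := ⟨k - 4, by omega⟩
    have e : m + 2 * (j + 4) - 2 = m + (2 * j + 6) := by omega
    rw [e] at h
    have h1 := Nat.le_of_dvd (Nat.factorial_pos _)
      (Nat.factorial_mul_factorial_dvd_factorial_add m (2 * j + 6))
    have h2 := fact_ineq9 j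
    have h3 : m.factorial * 2 ^ (j + 4) * (j + 4).factorial <
        (m + (2 * j + 6)).factorial * 2 := by
      calc m.factorial * 2 ^ (j + 4) * (j + 4).factorial
          = 2 * m.factorial * (2 ^ (j + 3) * (j + 4).factorial) := by ring
        _ < 2 * m.factorial * (2 * j + 6).factorial :=
          (Nat.mul_lt_mul_left (by positivity)).mpr h2
        _ = (m.factorial * (2 * j + 6).factorial) * 2 := by ring
        _ ≤ (m + (2 * j + 6)).factorial * 2 := Nat.mul_le_mul_right _ h1
    exact absurd h (ne_of_lt h3)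

/-- An isomorphism between symmetric groups of the same degree, not six, maps swaps to swaps. -/
theorem swap_of_iso9 {A B : Type*} [Fintype A] [DecidableEq A] [Fintype B] [DecidableEq B]
    (hAB : Fintype.card A = Fintype.card B) (h6 : Fintype.card A ≠ 6) (ψ : Perm A ≃* Perm B)
    (τ : Perm A) (hτ : τ.IsSwap) : (ψ τ).IsSwap := by
  have hord : orderOf (ψ τ) = 2 := by
    rw [MulEquiv.orderOf_eq]
    exact hτ.orderOf
  obtain ⟨k', hk'⟩ := cycleType_prime_order (σ := ψ τ) (by rw [hord]; exact Nat.prime_two)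
  rw [hord] at hk'
  have hc1 : Nat.card (Subgroup.centralizer {τ}) = (Fintype.card A - 2).factorial * 2 := by
    rw [nat_card_centralizer]
    have hct : τ.cycleType = {2} := by
      obtain ⟨x, y, hxy, rfl⟩ := hτ
      rw [(isCycle_swap hxy).cycleType, card_support_swap hxy]
    rw [hct]
    simp
  have hc2 : Nat.card (Subgroup.centralizer {ψ τ}) =
      (Fintype.card B - 2 * (k' + 1)).factorial * 2 ^ (k' + 1) * (k' + 1).factorial := by
    rw [nat_card_centralizer, hk', Multiset.sum_replicate, Multiset.prod_replicate,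
      Multiset.toFinset_replicate, if_neg (Nat.succ_ne_zero k'), Finset.prod_singleton,
      Multiset.count_replicate_self, smul_eq_mul, mul_comm (k' + 1) 2]
  have hceq : Nat.card (Subgroup.centralizer {τ}) = Nat.card (Subgroup.centralizer {ψ τ}) := by
    apply Nat.card_congr
    exact Equiv.subtypeEquiv ψ.toEquiv (fun c => by
      simp only [Subgroup.mem_centralizer_iff, Set.mem_singleton_iff, forall_eq]
      constructor
      · intro h
        show ψ τ * ψ c = ψ c * ψ τ
        rw [← map_mul, ← map_mul, h]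
      · intro h
        apply ψ.injective
        rw [map_mul, map_mul]
        exact h)
  have hle : 2 * (k' + 1) ≤ Fintype.card B := by
    have := sum_cycleType_le (ψ τ)
    rw [hk', Multiset.sum_replicate, smul_eq_mul] at this
    omega
  have hk1 : k' + 1 = 1 :=
    central_arith9 (Fintype.card B) (k' + 1) (hAB ▸ h6) (by omega) hle
      (by rw [← hc2, ← hceq, hc1, hAB])
  rw [← card_support_eq_two, ← sum_cycleType, hk', hk1]
  simp

/-- A family of at least four distinct pairwise intersecting two-element sets has a common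
point. -/
theorem star9 {Ω I : Type*} [DecidableEq Ω] (E : I → Finset Ω) (h2 : ∀ i, (E i).card = 2)
    (hinj : Function.Injective E) (hint : ∀ i j, (E i ∩ E j).Nonempty)
    (i₁ i₂ i₃ i₄ : I) (h12 : i₁ ≠ i₂) (h13 : i₁ ≠ i₃) (h14 : i₁ ≠ i₄) (h23 : i₂ ≠ i₃)
    (h24 : i₂ ≠ i₄) (h34 : i₃ ≠ i₄) : ∃ ω, ∀ i, ω ∈ E i := by
  obtain ⟨p, q, r, hpq, hpr, hqr, h1, h2'⟩ : ∃ p q r, p ≠ q ∧ p ≠ r ∧ q ≠ r ∧
      E i₁ = {p, q} ∧ E i₂ = {p, r} := by
    obtain ⟨a, b, hab, ha⟩ := Finset.card_eq_two.mp (h2 i₁)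
    obtain ⟨c, d, hcd, hc⟩ := Finset.card_eq_two.mp (h2 i₂)
    have hne : E i₁ ≠ E i₂ := fun e => h12 (hinj e)
    obtain ⟨z, hz⟩ := hint i₁ i₂
    rw [Finset.mem_inter, ha, hc] at hz
    simp only [Finset.mem_insert, Finset.mem_singleton] at hz
    rcases hz with ⟨hza | hzb, hzc | hzd⟩
    · subst hza
      subst hzc
      refine ⟨z, b, d, hab, hcd, ?_, ha, hc⟩
      intro hbd
      subst hbd
      exact hne (ha.trans hc.symm)
    · subst hza
      subst hzd
      have hc' : E i₂ = {z, c} := by rw [hc, Finset.pair_comm]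
      refine ⟨z, b, c, hab, hcd.symm, ?_, ha, hc'⟩
      intro hbc
      subst hbc
      exact hne (ha.trans hc'.symm)
    · subst hzb
      subst hzc
      have ha' : E i₁ = {z, a} := by rw [ha, Finset.pair_comm]
      refine ⟨z, a, d, hab.symm, hcd, ?_, ha', hc⟩
      intro had
      subst had
      exact hne (ha'.trans hc.symm)
    · subst hzb
      subst hzd
      have ha' : E i₁ = {z, a} := by rw [ha, Finset.pair_comm]
      have hc' : E i₂ = {z, c} := by rw [hc, Finset.pair_comm]
      refine ⟨z, a, c, hab.symm, hcd.symm, ?_, ha', hc'⟩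
      intro hac
      subst hac
      exact hne (ha'.trans hc'.symm)
  have pair_eq : ∀ (j : I) (u v : Ω), u ≠ v → u ∈ E j → v ∈ E j → E j = {u, v} := by
    intro j u v huv hu hv
    symm
    apply Finset.eq_of_subset_of_card_le
    · intro x hx
      simp only [Finset.mem_insert, Finset.mem_singleton] at hx
      rcases hx with rfl | rfl
      · exact hu
      · exact hv
    · rw [h2 j, Finset.card_pair huv]
  have key : ∀ j, p ∉ E j → E j = {q, r} := by
    intro j hj
    have hq : q ∈ E j := by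
      obtain ⟨z, hz⟩ := hint i₁ j
      rw [Finset.mem_inter, h1] at hz
      simp only [Finset.mem_insert, Finset.mem_singleton] at hz
      rcases hz.1 with hzp | hzq
      · rw [hzp] at hz
        exact absurd hz.2 hj
      · rw [hzq] at hz
        exact hz.2
    have hr : r ∈ E j := by
      obtain ⟨z, hz⟩ := hint i₂ j
      rw [Finset.mem_inter, h2'] at hz
      simp only [Finset.mem_insert, Finset.mem_singleton] at hz
      rcases hz.1 with hzp | hzr
      · rw [hzp] at hz
        exact absurd hz.2 hj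
      · rw [hzr] at hz
        exact hz.2
    exact pair_eq j q r hqr hq hr
  refine ⟨p, fun i => ?_⟩
  by_contra hp
  have hi : E i = {q, r} := key i hp
  obtain ⟨j, hj1, hj2, hji⟩ : ∃ j, j ≠ i₁ ∧ j ≠ i₂ ∧ j ≠ i := by
    by_cases h : i₃ = i
    · exact ⟨i₄, h14.symm, h24.symm, fun e => h34 (h.trans e.symm)⟩
    · exact ⟨i₃, h13.symm, h23.symm, h⟩
  have hpj : p ∈ E j := by
    by_contra hpj
    exact hji (hinj ((key j hpj).trans hi.symm))
  obtain ⟨z, hz⟩ := hint j i
  rw [Finset.mem_inter, hi] at hz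
  simp only [Finset.mem_insert, Finset.mem_singleton] at hz
  rcases hz.2 with hzq | hzr
  · rw [hzq] at hz
    exact hj1 (hinj ((pair_eq j p q hpq hpj hz.1).trans h1.symm))
  · rw [hzr] at hz
    exact hj2 (hinj ((pair_eq j p r hpr hpj hz.1).trans h2'.symm))

theorem swap_eq_of_support_eq9 {Ω : Type*} [Fintype Ω] [DecidableEq Ω] {f g : Perm Ω}
    (hf : f.IsSwap) (hg : g.IsSwap) (h : f.support = g.support) : f = g := by
  obtain ⟨a, b, hab, rfl⟩ := hf
  obtain ⟨c, d, hcd, rfl⟩ := hg
  rw [support_swap hab, support_swap hcd] at h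
  have ha : a ∈ ({c, d} : Finset Ω) := by
    rw [← h]
    exact Finset.mem_insert_self a {b}
  have hb : b ∈ ({c, d} : Finset Ω) := by
    rw [← h]
    exact Finset.mem_insert_of_mem (Finset.mem_singleton_self b)
  simp only [Finset.mem_insert, Finset.mem_singleton] at ha hb
  rcases ha with hac | had <;> rcases hb with hbc | hbd
  · exact absurd (hac.trans hbc.symm) hab
  · rw [hac, hbd]
  · rw [had, hbc, swap_comm]
  · exact absurd (had.trans hbd.symm) hab

/-- A subgroup of index `n` fixing a point is the stabiliser of that point. -/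
theorem eq_stab_of_fix9 {Ω : Type*} [Fintype Ω] [DecidableEq Ω] (H : Subgroup (Perm Ω))
    (hH : H.index = Fintype.card Ω) (x : Ω) (hx : ∀ h ∈ H, h x = x) :
    H = MulAction.stabilizer (Perm Ω) x := by
  have hle : H ≤ MulAction.stabilizer (Perm Ω) x :=
    fun h hh => MulAction.mem_stabilizer_iff.mpr (hx h hh)
  have hidx : (MulAction.stabilizer (Perm Ω) x).index = Fintype.card Ω := by
    rw [MulAction.index_stabilizer_of_transitive, Nat.card_eq_fintype_card]
  have h1 := Subgroup.card_mul_index H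
  have h2 := Subgroup.card_mul_index (MulAction.stabilizer (Perm Ω) x)
  rw [hH] at h1
  rw [hidx] at h2
  have hn : 0 < Fintype.card Ω := Fintype.card_pos_iff.mpr ⟨x⟩
  exact Subgroup.eq_of_le_of_card_ge hle
    (le_of_eq (Nat.eq_of_mul_eq_mul_right hn (h2.trans h1.symm)))

theorem card_ge_of_nodup9 {G : Type*} [Group G] (H : Subgroup G) [Finite H] (l : List G)
    (hl : l.Nodup) (hmem : ∀ g ∈ l, g ∈ H) : l.length ≤ Nat.card H := by
  have hinj : Function.Injective (fun i : Fin l.length => (⟨l.get i, hmem _ (List.get_mem l i)⟩ : H)) := by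
    intro i j hij
    exact hl.injective_get (congrArg Subtype.val hij)
  have := Nat.card_le_card_of_injective _ hinj
  rwa [Nat.card_fin] at this

theorem fix3_aux9 : ∀ t : Perm (Fin 3), t * t = 1 → ∃ x, t x = x := by decide

theorem fix4_aux9 : ∀ c : Perm (Fin 4), c * c * c = 1 → c ≠ 1 →
    ∃ x, ∀ h : Perm (Fin 4), h x ≠ x → [1, c, c * c, h, c * h, c * c * h, h * c].Nodup := by
  decide +kernel

theorem fix3_9 (H : Subgroup (Perm (Fin 3))) (hH : Nat.card H = 2) : ∃ x, ∀ h ∈ H, h x = x := by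
  obtain ⟨t, htH, ht1⟩ : ∃ t ∈ H, t ≠ 1 := by
    by_contra hcon
    push_neg at hcon
    have : H = ⊥ := (Subgroup.eq_bot_iff_forall H).mpr hcon
    rw [this, Subgroup.card_bot] at hH
    omega
  have ht2 : t * t = 1 := by
    have h1 : (⟨t, htH⟩ : H) ^ Nat.card H = 1 := pow_card_eq_one'
    rw [hH] at h1
    have h2 := congrArg Subtype.val h1
    simpa [pow_two] using h2
  obtain ⟨x, hx⟩ := fix3_aux9 t ht2
  refine ⟨x, fun h hh => ?_⟩
  by_cases h1 : h = 1
  · rw [h1]
    rfl
  by_cases h2 : h = t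
  · rw [h2]
    exact hx
  exfalso
  have hnd : [1, t, h].Nodup := by
    simp only [List.nodup_cons, List.mem_cons, List.not_mem_nil, or_false, not_or, not_false_eq_true,
      List.nodup_nil, and_true]
    exact ⟨⟨fun e => ht1 e.symm, fun e => h1 e.symm⟩, fun e => h2 e.symm⟩
  have := card_ge_of_nodup9 H [1, t, h] hnd (by
    intro g hg
    simp only [List.mem_cons, List.not_mem_nil, or_false] at hg
    rcases hg with rfl | rfl | rfl
    · exact H.one_mem
    · exact htH
    · exact hh)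
  rw [hH] at this
  simp at this

theorem fix4_9 (H : Subgroup (Perm (Fin 4))) (hH : Nat.card H = 6) : ∃ x, ∀ h ∈ H, h x = x := by
  haveI : Fact (Nat.Prime 3) := ⟨by norm_num⟩
  obtain ⟨c, hc⟩ := exists_prime_orderOf_dvd_card' (G := H) 3 (by rw [hH]; norm_num)
  have hc3 : (c : Perm (Fin 4)) * c * c = 1 := by
    have h1 : c ^ 3 = 1 := by
      rw [← hc]
      exact pow_orderOf_eq_one c
    have h2 := congrArg Subtype.val h1
    simpa [pow_succ] using h2
  have hc1 : (c : Perm (Fin 4)) ≠ 1 := by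
    intro e
    have : c = 1 := Subtype.ext e
    rw [this, orderOf_one] at hc
    omega
  obtain ⟨x, hx⟩ := fix4_aux9 c hc3 hc1
  refine ⟨x, fun h hh => ?_⟩
  by_contra hne
  have hnd := hx h hne
  have := card_ge_of_nodup9 H _ hnd (by
    intro g hg
    simp only [List.mem_cons, List.not_mem_nil, or_false] at hg
    rcases hg with rfl | rfl | rfl | rfl | rfl | rfl | rfl
    · exact H.one_mem
    · exact c.2
    · exact H.mul_mem c.2 c.2
    · exact hh
    · exact H.mul_mem c.2 hh
    · exact H.mul_mem (H.mul_mem c.2 c.2) hh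
    · exact H.mul_mem hh c.2)
  rw [hH] at this
  simp at this

theorem small9 {Ω : Type*} [Fintype Ω] [DecidableEq Ω] (h4 : Fintype.card Ω ≤ 4)
    (H : Subgroup (Perm Ω)) (hH : H.index = Fintype.card Ω) : ∃ x, ∀ h ∈ H, h x = x := by
  have hcard : Nat.card H * Fintype.card Ω = (Fintype.card Ω).factorial := by
    have := Subgroup.card_mul_index H
    rw [hH, Nat.card_perm] at this
    rw [show Nat.card Ω = Fintype.card Ω from Nat.card_eq_fintype_card] at this
    exact this
  have key : ∀ (n : ℕ) (e : Ω ≃ Fin n), (∀ H' : Subgroup (Perm (Fin n)),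
      Nat.card H' = Nat.card H → ∃ x', ∀ h ∈ H', h x' = x') → ∃ x, ∀ h ∈ H, h x = x := by
    intro n e hP
    obtain ⟨x', hx'⟩ := hP (H.map (e.permCongrHom).toMonoidHom)
      (Subgroup.card_map_of_injective e.permCongrHom.injective)
    refine ⟨e.symm x', fun h hh => ?_⟩
    have h1 := hx' _ (Subgroup.mem_map_of_mem _ hh)
    have h2 : e (h (e.symm x')) = x' := h1
    have h3 := congrArg e.symm h2
    rwa [e.symm_apply_apply] at h3
  obtain ⟨n, hn⟩ : ∃ n, Fintype.card Ω = n := ⟨_, rfl⟩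
  have e : Ω ≃ Fin n := Fintype.equivFinOfCardEq hn
  rw [hn] at hcard h4
  interval_cases n
  · simp at hcard
  · exact key 1 e (fun H' _ => ⟨0, fun h _ => Subsingleton.elim _ _⟩)
  · have hc : Nat.card H = 1 := by
      have h2f : (2:ℕ).factorial = 2 := by decide
      rw [h2f] at hcard
      omega
    refine key 2 e (fun H' hH' => ⟨0, fun h hh => ?_⟩)
    rw [hc] at hH'
    have hb := Subgroup.eq_bot_of_card_eq H' hH'
    rw [hb, Subgroup.mem_bot] at hh
    rw [hh]
    rfl
  · have hc : Nat.card H = 2 := by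
      have h3f : (3:ℕ).factorial = 6 := by decide
      rw [h3f] at hcard
      omega
    exact key 3 e (fun H' hH' => fix3_9 H' (hH'.trans hc))
  · have hc : Nat.card H = 6 := by
      have h4f : (4:ℕ).factorial = 24 := by decide
      rw [h4f] at hcard
      omega
    exact key 4 e (fun H' hH' => fix4_9 H' (hH'.trans hc))

theorem big9 {Ω : Type*} [Fintype Ω] [DecidableEq Ω] (h5 : 5 ≤ Fintype.card Ω)
    (h6 : Fintype.card Ω ≠ 6) (H : Subgroup (Perm Ω)) (hH : H.index = Fintype.card Ω) :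
    ∃ x, ∀ h ∈ H, h x = x := by
  classical
  haveI : Fintype (Perm Ω ⧸ H) := Fintype.ofFinite _
  have hX : Fintype.card (Perm Ω ⧸ H) = Fintype.card Ω := by
    rw [← Nat.card_eq_fintype_card, ← hH]
    rfl
  haveI : Nontrivial Ω := Fintype.one_lt_card_iff_nontrivial.mp (by omega)
  have hρinj : Function.Injective (MulAction.toPermHom (Perm Ω) (Perm Ω ⧸ H)) := by
    rw [← MonoidHom.ker_eq_bot_iff, ← Subgroup.normalCore_eq_ker]
    by_contra hne
    haveI : Nontrivial H.normalCore := (Subgroup.nontrivial_iff_ne_bot _).mpr hne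
    have h1 : alternatingGroup Ω ≤ H.normalCore :=
      alternatingGroup_le_of_normal (by rw [Nat.card_eq_fintype_card]; exact h5) inferInstance
    have h2 : alternatingGroup Ω ≤ H := h1.trans (Subgroup.normalCore_le H)
    have h3 : H.index ∣ (alternatingGroup Ω).index := Subgroup.index_dvd_of_le h2
    rw [alternatingGroup.index_eq_two, hH] at h3
    have := Nat.le_of_dvd (by norm_num) h3
    omega
  have hρbij : Function.Bijective (MulAction.toPermHom (Perm Ω) (Perm Ω ⧸ H)) := by
    rw [Nat.bijective_iff_injective_and_card]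
    refine ⟨hρinj, ?_⟩
    rw [Nat.card_perm, Nat.card_perm, Nat.card_eq_fintype_card, Nat.card_eq_fintype_card, hX]
  let ψ : Perm Ω ≃* Perm (Perm Ω ⧸ H) := MulEquiv.ofBijective _ hρbij
  let x₀ : Perm Ω ⧸ H := QuotientGroup.mk 1
  have hstab : ∀ g : Perm Ω, ψ g x₀ = x₀ ↔ g ∈ H := by
    intro g
    show (g • (QuotientGroup.mk 1 : Perm Ω ⧸ H)) = QuotientGroup.mk 1 ↔ _
    rw [MulAction.Quotient.smul_mk, QuotientGroup.eq]
    simp
  have hsw : ∀ τ : Perm Ω, τ.IsSwap → (ψ τ).IsSwap :=
    fun τ hτ => swap_of_iso9 hX.symm h6 ψ τ hτ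
  have hsw' : ∀ σ : Perm (Perm Ω ⧸ H), σ.IsSwap → (ψ.symm σ).IsSwap :=
    fun σ hσ => swap_of_iso9 hX (by rw [hX]; exact h6) ψ.symm σ hσ
  have ht_swap : ∀ y : {y : Perm Ω ⧸ H // y ≠ x₀}, (ψ.symm (swap x₀ y.1)).IsSwap :=
    fun y => hsw' _ ⟨x₀, y.1, y.2.symm, rfl⟩
  have ht_card : ∀ y : {y : Perm Ω ⧸ H // y ≠ x₀}, (ψ.symm (swap x₀ y.1)).support.card = 2 :=
    fun y => card_support_eq_two.mpr (ht_swap y)
  have ht_inj : Function.Injective
      (fun y : {y : Perm Ω ⧸ H // y ≠ x₀} => (ψ.symm (swap x₀ y.1)).support) := by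
    intro y y' hyy'
    have h1 : ψ.symm (swap x₀ y.1) = ψ.symm (swap x₀ y'.1) :=
      swap_eq_of_support_eq9 (ht_swap y) (ht_swap y') hyy'
    have h2 := ψ.symm.injective h1
    have h3 := congrArg (fun σ : Perm (Perm Ω ⧸ H) => σ x₀) h2
    simp only [swap_apply_left] at h3
    exact Subtype.ext h3
  have ht_int : ∀ y y' : {y : Perm Ω ⧸ H // y ≠ x₀},
      ((ψ.symm (swap x₀ y.1)).support ∩ (ψ.symm (swap x₀ y'.1)).support).Nonempty := by
    intro y y'
    by_cases hyy' : y = y'
    · subst hyy'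
      rw [Finset.inter_self, ← Finset.card_pos, ht_card y]
      norm_num
    · by_contra hemp
      rw [Finset.not_nonempty_iff_eq_empty] at hemp
      have hdis : Perm.Disjoint (ψ.symm (swap x₀ y.1)) (ψ.symm (swap x₀ y'.1)) := by
        rw [disjoint_iff_disjoint_support, Finset.disjoint_iff_inter_eq_empty]
        exact hemp
      have hcomm : ψ.symm (swap x₀ y.1) * ψ.symm (swap x₀ y'.1) =
          ψ.symm (swap x₀ y'.1) * ψ.symm (swap x₀ y.1) := hdis.commute
      have h2 : swap x₀ y.1 * swap x₀ y'.1 = swap x₀ y'.1 * swap x₀ y.1 := by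
        apply ψ.symm.injective
        rw [map_mul, map_mul]
        exact hcomm
      have h3 := congrArg (fun σ : Perm (Perm Ω ⧸ H) => σ y'.1) h2
      simp only [Perm.mul_apply, swap_apply_right] at h3
      have hne1 : y'.1 ≠ y.1 := fun e => hyy' (Subtype.ext e.symm)
      rw [swap_apply_of_ne_of_ne y'.2 hne1, swap_apply_right, swap_apply_left] at h3
      exact y.2 h3
  have hI : 4 ≤ Fintype.card {y : Perm Ω ⧸ H // y ≠ x₀} := by
    rw [Fintype.card_subtype_compl, Fintype.card_subtype_eq, hX]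
    omega
  obtain ⟨emb⟩ := Function.Embedding.nonempty_of_card_le
    (α := Fin 4) (β := {y : Perm Ω ⧸ H // y ≠ x₀}) (by simpa using hI)
  have hemb : ∀ a b : Fin 4, a ≠ b → emb a ≠ emb b := fun a b hab e => hab (emb.injective e)
  obtain ⟨ω₀, hω₀⟩ := star9 _ ht_card ht_inj ht_int (emb 0) (emb 1) (emb 2) (emb 3)
    (hemb _ _ (by decide)) (hemb _ _ (by decide)) (hemb _ _ (by decide)) (hemb _ _ (by decide))
    (hemb _ _ (by decide)) (hemb _ _ (by decide))
  refine ⟨ω₀, ?_⟩
  intro h hh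
  by_contra hne
  have hA : ∀ y : {y : Perm Ω ⧸ H // y ≠ x₀}, ψ.symm (swap x₀ y.1) ∉ H := by
    intro y hmem
    have h1 := (hstab _).mpr hmem
    rw [ψ.apply_symm_apply, swap_apply_left] at h1
    exact y.2 h1
  have hB : ∀ c d : Ω, c ≠ d → c ≠ ω₀ → d ≠ ω₀ → swap c d ∈ H := by
    intro c d hcd hc hd
    obtain ⟨u, v, huv, he⟩ := hsw (swap c d) ⟨c, d, hcd, rfl⟩
    rw [← hstab, he]
    by_contra hmove
    have hcases : u = x₀ ∨ v = x₀ := by
      by_contra hcon
      push_neg at hcon
      exact hmove (swap_apply_of_ne_of_ne hcon.1.symm hcon.2.symm)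
    have hex : ∃ y : {y : Perm Ω ⧸ H // y ≠ x₀}, swap c d = ψ.symm (swap x₀ y.1) := by
      rcases hcases with hu | hv
      · refine ⟨⟨v, fun e => huv (hu.trans e.symm)⟩, ?_⟩
        show swap c d = ψ.symm (swap x₀ v)
        rw [← hu, ← he, ψ.symm_apply_apply]
      · refine ⟨⟨u, fun e => huv (e.trans hv.symm)⟩, ?_⟩
        show swap c d = ψ.symm (swap x₀ u)
        rw [← hv, swap_comm v u, ← he, ψ.symm_apply_apply]
    obtain ⟨y, hy⟩ := hex
    have hmem := hω₀ y
    rw [← hy, support_swap hcd] at hmem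
    simp only [Finset.mem_insert, Finset.mem_singleton] at hmem
    rcases hmem with h1 | h1
    · exact hc h1.symm
    · exact hd h1.symm
  have hty : ∀ y : {y : Perm Ω ⧸ H // y ≠ x₀}, ∃ b, b ≠ ω₀ ∧ ψ.symm (swap x₀ y.1) = swap ω₀ b := by
    intro y
    obtain ⟨a, b, hab, he⟩ := ht_swap y
    have hmem := hω₀ y
    rw [he, support_swap hab] at hmem
    simp only [Finset.mem_insert, Finset.mem_singleton] at hmem
    rcases hmem with h1 | h1
    · exact ⟨b, fun e => hab (h1.symm.trans e.symm), by rw [he, h1]⟩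
    · exact ⟨a, fun e => hab (e.trans h1), by rw [he, h1, swap_comm]⟩
  obtain ⟨b₁, hb₁, e₁⟩ := hty (emb 0)
  obtain ⟨b₂, hb₂, e₂⟩ := hty (emb 1)
  have hb12 : b₁ ≠ b₂ := by
    intro e
    apply hemb 0 1 (by decide)
    apply ht_inj
    show (ψ.symm (swap x₀ (emb 0).1)).support = (ψ.symm (swap x₀ (emb 1).1)).support
    rw [e₁, e₂, e]
  obtain ⟨y, b, hb, e, hhb⟩ : ∃ (y : {y : Perm Ω ⧸ H // y ≠ x₀}) (b : Ω),
      b ≠ ω₀ ∧ ψ.symm (swap x₀ y.1) = swap ω₀ b ∧ h b ≠ ω₀ := by
    by_cases h1 : h b₁ = ω₀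
    · exact ⟨emb 1, b₂, hb₂, e₂, fun h2 => hb12 (h.injective (h1.trans h2.symm))⟩
    · exact ⟨emb 0, b₁, hb₁, e₁, h1⟩
  have h1 : swap (h ω₀) (h b) ∈ H :=
    hB _ _ (fun e' => hb (h.injective e').symm) hne hhb
  rw [swap_apply_apply] at h1
  have h2 : swap ω₀ b ∈ H := by
    have := H.mul_mem (H.mul_mem (H.inv_mem hh) h1) hh
    simpa [mul_assoc] using this
  apply hA y
  rw [e]
  exact h2

/-- Subgroups of index `n` in the symmetric group of degree `n ≠ 6` are point stabilisers. -/
theorem index_eq_card_stab9 {Ω : Type*} [Fintype Ω] [DecidableEq Ω] (h6 : Fintype.card Ω ≠ 6)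
    (H : Subgroup (Perm Ω)) (hH : H.index = Fintype.card Ω) :
    ∃ x : Ω, H = MulAction.stabilizer (Perm Ω) x := by
  by_cases h4 : Fintype.card Ω ≤ 4
  · obtain ⟨x, hx⟩ := small9 h4 H hH
    exact ⟨x, eq_stab_of_fix9 H hH x hx⟩
  · obtain ⟨x, hx⟩ := big9 (by omega) h6 H hH
    exact ⟨x, eq_stab_of_fix9 H hH x hx⟩

end Cfsg.Agent.Helper9
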