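import Mathlib
import Cfsg.Agent.Helper9.SLGen

set_option autoImplicit false

namespace Cfsg.Agent.Helper9

open Cfsg
open scoped MatrixGroups Matrix

variable {n : ℕ} {F : Type*} [Field F] {σ : F ≃+* F} {f : (Fin n → F) → (Fin n → F) → F}

theorem uf_add_right9 (hf : Cfsg.Geo.IsUnitaryForm σ f) (v x y : Fin n → F) :
    f v (x + y) = f v x + f v y := by
  rw [hf.herm v (x + y), hf.add_left, map_add, ← hf.herm, ← hf.herm]

theorem uf_smul_right9 (hf : Cfsg.Geo.IsUnitaryForm σ f) (c : F) (v x : Fin n → F) :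
    f v (c • x) = σ c * f v x := by
  rw [hf.herm v (c • x), hf.smul_left, map_mul, ← hf.herm]

theorem uf_zero_left9 (hf : Cfsg.Geo.IsUnitaryForm σ f) (v : Fin n → F) : f 0 v = 0 := by
  have := hf.smul_left (0 : F) 0 v
  rwa [zero_smul, zero_mul] at this

theorem uf_zero_right9 (hf : Cfsg.Geo.IsUnitaryForm σ f) (v : Fin n → F) : f v 0 = 0 := by
  rw [hf.herm, uf_zero_left9 hf, map_zero]

theorem uf_neg_left9 (hf : Cfsg.Geo.IsUnitaryForm σ f) (x v : Fin n → F) :
    f (-x) v = - f x v := by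
  have := hf.smul_left (-1 : F) x v
  rwa [neg_one_smul, neg_one_mul] at this

theorem uf_neg_right9 (hf : Cfsg.Geo.IsUnitaryForm σ f) (v x : Fin n → F) :
    f v (-x) = - f v x := by
  rw [hf.herm, uf_neg_left9 hf, map_neg, ← hf.herm]

theorem uf_sub_left9 (hf : Cfsg.Geo.IsUnitaryForm σ f) (x y v : Fin n → F) :
    f (x - y) v = f x v - f y v := by
  rw [sub_eq_add_neg, hf.add_left, uf_neg_left9 hf, ← sub_eq_add_neg]

theorem uf_sub_right9 (hf : Cfsg.Geo.IsUnitaryForm σ f) (v x y : Fin n → F) :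
    f v (x - y) = f v x - f v y := by
  rw [sub_eq_add_neg, uf_add_right9 hf, uf_neg_right9 hf, ← sub_eq_add_neg]

theorem uf_self9 (hf : Cfsg.Geo.IsUnitaryForm σ f) (v : Fin n → F) : σ (f v v) = f v v :=
  (hf.herm v v).symm

theorem uf_swap_zero9 (hf : Cfsg.Geo.IsUnitaryForm σ f) {u v : Fin n → F} (h : f u v = 0) :
    f v u = 0 := by
  rw [hf.herm, h, map_zero]

theorem uf_exists_moved9 (hf : Cfsg.Geo.IsUnitaryForm σ f) : ∃ a : F, σ a ≠ a := by
  by_contra hcon
  push_neg at hcon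
  exact hf.ne_refl (RingEquiv.ext hcon)

theorem uf_skew9 (hf : Cfsg.Geo.IsUnitaryForm σ f) : ∃ μ : F, μ ≠ 0 ∧ σ μ = -μ := by
  obtain ⟨a, ha⟩ := uf_exists_moved9 hf
  refine ⟨a - σ a, fun h => ha (sub_eq_zero.mp h).symm, ?_⟩
  rw [map_sub, hf.involutive, neg_sub]

theorem uf_theta9 (hf : Cfsg.Geo.IsUnitaryForm σ f) : ∃ θ : F, θ + σ θ ≠ 0 := by
  by_cases h2 : (2 : F) = 0
  · obtain ⟨a, ha⟩ := uf_exists_moved9 hf
    refine ⟨a, fun h => ha ?_⟩
    have h1 : σ a = -a := eq_neg_of_add_eq_zero_right h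
    have h3 : a + a = 0 := by rw [← two_mul, h2, zero_mul]
    rw [h1]
    exact neg_eq_of_add_eq_zero_left h3
  · refine ⟨1, ?_⟩
    rw [map_one]
    intro h
    apply h2
    rw [← one_add_one_eq_two]
    exact h

theorem uf_trace9 (hf : Cfsg.Geo.IsUnitaryForm σ f) (r : F) (hr : σ r = r) :
    ∃ l : F, l + σ l = r := by
  obtain ⟨θ, hθ⟩ := uf_theta9 hf
  refine ⟨r * θ / (θ + σ θ), ?_⟩
  rw [map_div₀, map_mul, map_add, hf.involutive, hr, add_comm (σ θ) θ, ← add_div, ← mul_add,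
    mul_div_assoc, div_self hθ, mul_one]

theorem uf_norm9 [Finite F] (hf : Cfsg.Geo.IsUnitaryForm σ f) (r : F) (hr : σ r = r) :
    ∃ l : F, l * σ l = r := by
  by_cases hr0 : r = 0
  · exact ⟨0, by rw [hr0, zero_mul]⟩
  let S : Fˣ →* Fˣ := Units.map (σ : F →* F)
  have hS : ∀ l : Fˣ, ((S l : Fˣ) : F) = σ (l : F) := fun l => rfl
  have hSS : ∀ l : Fˣ, S (S l) = l := fun l => Units.ext (by rw [hS, hS, hf.involutive])
  let N : Fˣ →* Fˣ := MonoidHom.id Fˣ * S
  let P : Fˣ →* Fˣ := MonoidHom.id Fˣ / S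
  have hN : ∀ l : Fˣ, N l = l * S l := fun l => rfl
  have hP : ∀ l : Fˣ, P l = l / S l := fun l => rfl
  have h1 : N.range ≤ P.ker := by
    rintro _ ⟨l, rfl⟩
    rw [MonoidHom.mem_ker, hP, hN, map_mul, hSS, mul_comm (S l) l, div_self']
  have h2 : P.range = N.ker := by
    apply le_antisymm
    · rintro _ ⟨l, rfl⟩
      rw [MonoidHom.mem_ker, hN, hP, map_div, hSS, div_mul_div_comm, mul_comm l (S l), div_self']
    · intro lam hlam
      rw [MonoidHom.mem_ker, hN] at hlam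
      have hlam' : (lam : F) * σ (lam : F) = 1 := by
        have := congrArg (fun u : Fˣ => (u : F)) hlam
        simpa [hS] using this
      obtain ⟨β₀, hβ0, hβ⟩ : ∃ β₀ : F, β₀ ≠ 0 ∧ β₀ = (lam : F) * σ β₀ := by
        by_cases hl : (lam : F) = -1
        · obtain ⟨a, ha⟩ := uf_exists_moved9 hf
          refine ⟨a - σ a, fun h => ha (sub_eq_zero.mp h).symm, ?_⟩
          rw [hl, map_sub, hf.involutive]
          ring
        · refine ⟨1 + lam, fun h => hl (eq_neg_of_add_eq_zero_right h), ?_⟩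
          rw [map_add, map_one, mul_add, hlam', mul_one, add_comm]
      have hσβ : σ β₀ ≠ 0 := by
        intro h
        apply hβ0
        rw [hβ, h, mul_zero]
      refine ⟨Units.mk0 β₀ hβ0, Units.ext ?_⟩
      rw [hP, Units.val_div_eq_div_val, hS, Units.val_mk0, div_eq_iff hσβ]
      exact hβ
  have c1 := Subgroup.card_mul_index N.ker
  have c2 := Subgroup.card_mul_index P.ker
  rw [Subgroup.index_ker] at c1 c2
  have h3 : Nat.card N.range = Nat.card P.ker := by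
    have hpos : 0 < Nat.card N.ker := Nat.card_pos
    have : Nat.card N.ker * Nat.card N.range = Nat.card N.ker * Nat.card P.ker := by
      rw [c1, ← c2, h2, mul_comm]
    exact Nat.eq_of_mul_eq_mul_left hpos this
  have h4 : N.range = P.ker := Subgroup.eq_of_le_of_card_ge h1 (le_of_eq h3.symm)
  have hmem : Units.mk0 r hr0 ∈ P.ker := by
    rw [MonoidHom.mem_ker, hP]
    apply Units.ext
    rw [Units.val_div_eq_div_val, hS, Units.val_mk0, hr, div_self hr0, Units.val_one]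
  rw [← h4] at hmem
  obtain ⟨l, hl⟩ := hmem
  refine ⟨(l : F), ?_⟩
  have := congrArg (fun u : Fˣ => (u : F)) hl
  simpa [hN, hS] using this

theorem uf_repr9 [Finite F] (hf : Cfsg.Geo.IsUnitaryForm σ f)
    (ψ : Module.Dual F (Fin n → F)) : ∃ u : Fin n → F, ∀ x, ψ x = f x u := by
  let Φ : (Fin n → F) → Module.Dual F (Fin n → F) := fun u =>
    { toFun := fun x => f x u
      map_add' := fun x y => hf.add_left x y u
      map_smul' := fun c x => by rw [hf.smul_left, RingHom.id_apply, smul_eq_mul] }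
  have hΦ : ∀ u x, Φ u x = f x u := fun u x => rfl
  let e : (Fin n → F) ≃ₗ[F] Module.Dual F (Fin n → F) := (Pi.basisFun F (Fin n)).toDualEquiv
  have hinj : Function.Injective (fun u => e.symm (Φ u)) := by
    intro u u' h
    have h' : Φ u = Φ u' := e.symm.injective h
    by_contra hne
    obtain ⟨⟨x, hx⟩, _⟩ := hf.nondegenerate (u - u') (sub_ne_zero.mpr hne)
    apply hx
    rw [uf_sub_right9 hf, ← hΦ, ← hΦ u', h', sub_self]
  have hsurj := Finite.surjective_of_injective hinj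
  obtain ⟨u, hu⟩ := hsurj (e.symm ψ)
  refine ⟨u, fun x => ?_⟩
  have : Φ u = ψ := e.symm.injective hu
  rw [← this]
  exact hΦ u x

/-- The transvection `x ↦ x + f(x,u) v` for `f(v,u) = 0`. -/
theorem uf_transv9 (hf : Cfsg.Geo.IsUnitaryForm σ f) (u v : Fin n → F) (huv : f v u = 0) :
    ∃ g : GL (Fin n) F, g ∈ Cfsg.Geo.specialLinear (Fin n) F ∧
      ∀ x, (g : Matrix (Fin n) (Fin n) F) *ᵥ x = x + f x u • v := by
  let φ : Module.Dual F (Fin n → F) :=
    { toFun := fun x => f x u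
      map_add' := fun x y => hf.add_left x y u
      map_smul' := fun c x => by rw [hf.smul_left, RingHom.id_apply, smul_eq_mul] }
  obtain ⟨g, hgS, hg⟩ := exists_transv9 φ v huv
  exact ⟨g, hgS, fun x => hg x⟩

/-- Unitary transvections are isometries of determinant one. -/
theorem uf_utransv9 (hf : Cfsg.Geo.IsUnitaryForm σ f) (b : F) (hb : σ b = -b) (z : Fin n → F)
    (hz : f z z = 0) :
    ∃ g : GL (Fin n) F,
      g ∈ Cfsg.Geo.similarityGroup f ⊓ Cfsg.Geo.specialLinear (Fin n) F ∧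
      ∀ x, (g : Matrix (Fin n) (Fin n) F) *ᵥ x = x + f x (b • z) • z := by
  obtain ⟨g, hgS, hg⟩ := uf_transv9 hf (b • z) z (by rw [uf_smul_right9 hf, hz, mul_zero])
  refine ⟨g, ⟨⟨1, fun u v => ?_⟩, hgS⟩, hg⟩
  rw [hg, hg, Units.val_one, one_mul]
  simp only [hf.add_left, uf_add_right9 hf, hf.smul_left, uf_smul_right9 hf, hz, hb, map_mul,
    map_neg, mul_zero, add_zero]
  rw [← hf.herm z v]
  ring

/-- The functional `x ↦ f(x, p)`. -/
def ufFun9 (hf : Cfsg.Geo.IsUnitaryForm σ f) (p : Fin n → F) : (Fin n → F) →ₗ[F] F :=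
  { toFun := fun x => f x p
    map_add' := fun x y => hf.add_left x y p
    map_smul' := fun c x => by rw [hf.smul_left, RingHom.id_apply, smul_eq_mul] }

theorem uf_perp4_9 (hf : Cfsg.Geo.IsUnitaryForm σ f) (p₁ p₂ p₃ p₄ : Fin n → F)
    (X : Submodule F (Fin n → F)) (hX : Module.finrank F X + 4 < n) :
    ∃ y, f y p₁ = 0 ∧ f y p₂ = 0 ∧ f y p₃ = 0 ∧ f y p₄ = 0 ∧ y ∉ X := by
  let Ψ : (Fin n → F) →ₗ[F] F × F × F × F :=
    LinearMap.prod (ufFun9 hf p₁) (LinearMap.prod (ufFun9 hf p₂)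
      (LinearMap.prod (ufFun9 hf p₃) (ufFun9 hf p₄)))
  have hrk := LinearMap.finrank_range_add_finrank_ker Ψ
  have hV : Module.finrank F (Fin n → F) = n := by
    rw [Module.finrank_fintype_fun_eq_card, Fintype.card_fin]
  have hr : Module.finrank F (LinearMap.range Ψ) ≤ 4 := by
    have := Submodule.finrank_le (LinearMap.range Ψ)
    simpa [Module.finrank_prod, Module.finrank_self] using this
  by_contra hcon
  push_neg at hcon
  have hle : LinearMap.ker Ψ ≤ X := by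
    intro y hy
    have hy' : Ψ y = 0 := hy
    have h1 : f y p₁ = 0 := congrArg Prod.fst hy'
    have h2 : f y p₂ = 0 := congrArg (fun t : F × F × F × F => t.2.1) hy'
    have h3 : f y p₃ = 0 := congrArg (fun t : F × F × F × F => t.2.2.1) hy'
    have h4 : f y p₄ = 0 := congrArg (fun t : F × F × F × F => t.2.2.2) hy'
    exact hcon y h1 h2 h3 h4
  have := Submodule.finrank_mono hle
  omega

/-- A hyperbolic pair orthogonal to three given vectors. -/
theorem uf_hyp3_9 [Finite F] (hf : Cfsg.Geo.IsUnitaryForm σ f) (hn : 8 ≤ n)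
    (p₁ p₂ p₃ : Fin n → F) :
    ∃ a b, f a a = 0 ∧ f b b = 0 ∧ f a b = 1 ∧ f a p₁ = 0 ∧ f a p₂ = 0 ∧ f a p₃ = 0 ∧
      f b p₁ = 0 ∧ f b p₂ = 0 ∧ f b p₃ = 0 := by
  classical
  obtain ⟨X, hX⟩ : ∃ X : Submodule F (Fin n → F),
      X = Submodule.span F ((({p₁, p₂, p₃} : Finset (Fin n → F))) : Set (Fin n → F)) := ⟨_, rfl⟩
  have hXdim : Module.finrank F X ≤ 3 := by
    rw [hX]
    exact (finrank_span_finset_le_card (R := F) ({p₁, p₂, p₃} : Finset (Fin n → F))).trans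
      Finset.card_le_three
  have hp₁X : p₁ ∈ X := by
    rw [hX]
    exact Submodule.subset_span (by simp)
  have hp₂X : p₂ ∈ X := by
    rw [hX]
    exact Submodule.subset_span (by simp)
  have hp₃X : p₃ ∈ X := by
    rw [hX]
    exact Submodule.subset_span (by simp)
  have key : ∃ a b₀, f a a = 0 ∧ f a p₁ = 0 ∧ f a p₂ = 0 ∧ f a p₃ = 0 ∧ f b₀ p₁ = 0 ∧
      f b₀ p₂ = 0 ∧ f b₀ p₃ = 0 ∧ f a b₀ ≠ 0 := by
    have dual : ∀ a, a ∉ X → ∃ b₀, f b₀ p₁ = 0 ∧ f b₀ p₂ = 0 ∧ f b₀ p₃ = 0 ∧ f a b₀ ≠ 0 := by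
      intro a ha
      obtain ⟨φ, hφ1, hφ0⟩ := exists_dual_one9 X a ha
      obtain ⟨u, hu⟩ := uf_repr9 hf φ
      refine ⟨u, ?_, ?_, ?_, ?_⟩
      · apply uf_swap_zero9 hf
        rw [← hu]
        exact hφ0 _ hp₁X
      · apply uf_swap_zero9 hf
        rw [← hu]
        exact hφ0 _ hp₂X
      · apply uf_swap_zero9 hf
        rw [← hu]
        exact hφ0 _ hp₃X
      · rw [← hu, hφ1]
        exact one_ne_zero
    obtain ⟨y₁, h11, h12, h13, _, hy₁X⟩ := uf_perp4_9 hf p₁ p₂ p₃ 0 X (by omega)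
    by_cases hy₁ : f y₁ y₁ = 0
    · obtain ⟨b₀, hb1, hb2, hb3, hb4⟩ := dual y₁ hy₁X
      exact ⟨y₁, b₀, hy₁, h11, h12, h13, hb1, hb2, hb3, hb4⟩
    · obtain ⟨y₂, h21, h22, h23, h24, hy₂X⟩ := uf_perp4_9 hf p₁ p₂ p₃ y₁ X (by omega)
      by_cases hy₂ : f y₂ y₂ = 0
      · obtain ⟨b₀, hb1, hb2, hb3, hb4⟩ := dual y₂ hy₂X
        exact ⟨y₂, b₀, hy₂, h21, h22, h23, hb1, hb2, hb3, hb4⟩
      · obtain ⟨l, hl⟩ := uf_norm9 hf (-(f y₂ y₂) / f y₁ y₁) (by
          rw [map_div₀, map_neg, uf_self9 hf, uf_self9 hf])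
        have h12' : f y₁ y₂ = 0 := uf_swap_zero9 hf h24
        have hl0 : l ≠ 0 := by
          intro h
          rw [h, zero_mul] at hl
          have := hl.symm
          rw [div_eq_zero_iff] at this
          rcases this with h' | h'
          · exact hy₂ (neg_eq_zero.mp h')
          · exact hy₁ h'
        refine ⟨y₂ + l • y₁, y₁, ?_, ?_, ?_, ?_, h11, h12, h13, ?_⟩
        · simp only [hf.add_left, uf_add_right9 hf, hf.smul_left, uf_smul_right9 hf, h24, h12',
            mul_zero, add_zero, zero_add]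
          have : l * σ l * f y₁ y₁ = - f y₂ y₂ := by
            rw [hl]
            field_simp
          linear_combination this
        · rw [hf.add_left, hf.smul_left, h21, h11, mul_zero, add_zero]
        · rw [hf.add_left, hf.smul_left, h22, h12, mul_zero, add_zero]
        · rw [hf.add_left, hf.smul_left, h23, h13, mul_zero, add_zero]
        · rw [hf.add_left, hf.smul_left, h24, zero_add]
          exact mul_ne_zero hl0 hy₁
  obtain ⟨a, b₀, haa, ha1, ha2, ha3, hb1, hb2, hb3, hab⟩ := key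
  obtain ⟨c, hc⟩ : ∃ c : F, c = f a b₀ := ⟨_, rfl⟩
  have hc0 : c ≠ 0 := by rw [hc]; exact hab
  obtain ⟨b₁, hb₁⟩ : ∃ b₁ : Fin n → F, b₁ = (σ c⁻¹) • b₀ := ⟨_, rfl⟩
  have hab₁ : f a b₁ = 1 := by
    rw [hb₁, uf_smul_right9 hf, hf.involutive, ← hc, inv_mul_cancel₀ hc0]
  have hb₁a : f b₁ a = 1 := by rw [hf.herm, hab₁, map_one]
  obtain ⟨l, hl⟩ := uf_trace9 hf (-(f b₁ b₁)) (by rw [map_neg, uf_self9 hf])
  refine ⟨a, b₁ + l • a, haa, ?_, ?_, ha1, ha2, ha3, ?_, ?_, ?_⟩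
  · simp only [hf.add_left, uf_add_right9 hf, hf.smul_left, uf_smul_right9 hf, haa, hb₁a, hab₁,
      mul_zero, add_zero, mul_one]
    linear_combination hl
  · rw [uf_add_right9 hf, uf_smul_right9 hf, haa, mul_zero, add_zero, hab₁]
  · rw [hf.add_left, hf.smul_left, ha1, mul_zero, add_zero, hb₁, hf.smul_left, hb1, mul_zero]
  · rw [hf.add_left, hf.smul_left, ha2, mul_zero, add_zero, hb₁, hf.smul_left, hb2, mul_zero]
  · rw [hf.add_left, hf.smul_left, ha3, mul_zero, add_zero, hb₁, hf.smul_left, hb3, mul_zero]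

/-- Correcting a vector to an isotropic one inside a hyperbolic plane. -/
theorem uf_correct9 (hf : Cfsg.Geo.IsUnitaryForm σ f) (a b z₀ : Fin n → F) (haa : f a a = 0)
    (hbb : f b b = 0) (hab : f a b = 1) :
    ∃ l r : F, (l ≠ 0 ∨ r ≠ 0) ∧ f (z₀ + (l • a + r • b)) (z₀ + (l • a + r • b)) = 0 := by
  have hba : f b a = 1 := by rw [hf.herm, hab, map_one]
  obtain ⟨μ, hμ0, hμ⟩ := uf_skew9 hf
  by_cases h : f z₀ a = 0
  · obtain ⟨l, hl⟩ := uf_trace9 hf (-(f z₀ z₀ + f z₀ b + f b z₀)) (by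
      rw [map_neg, map_add, map_add, uf_self9 hf, ← hf.herm b z₀, ← hf.herm z₀ b]
      ring)
    refine ⟨l, 1, Or.inr one_ne_zero, ?_⟩
    have haz : f a z₀ = 0 := uf_swap_zero9 hf h
    simp only [hf.add_left, uf_add_right9 hf, hf.smul_left, uf_smul_right9 hf, haa, hbb, hab,
      hba, h, haz, map_one, mul_zero, add_zero, mul_one, one_mul, zero_add]
    linear_combination hl
  · obtain ⟨t₀, ht₀⟩ := uf_trace9 hf (-(f z₀ z₀)) (by rw [map_neg, uf_self9 hf])
    obtain ⟨t, ht, ht0⟩ : ∃ t : F, t + σ t = -(f z₀ z₀) ∧ t ≠ 0 := by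
      by_cases h0 : t₀ = 0
      · refine ⟨μ, ?_, hμ0⟩
        rw [hμ, add_neg_cancel]
        rw [h0, map_zero, add_zero] at ht₀
        exact ht₀
      · exact ⟨t₀, ht₀, h0⟩
    refine ⟨σ (t / f z₀ a), 0, Or.inl ?_, ?_⟩
    · intro h0
      have := congrArg σ h0
      rw [hf.involutive, map_zero] at this
      exact (div_ne_zero ht0 h) this
    · have haz : f a z₀ = σ (f z₀ a) := hf.herm a z₀
      simp only [hf.add_left, uf_add_right9 hf, hf.smul_left, uf_smul_right9 hf, haa,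
        hf.involutive, zero_smul, add_zero, mul_zero, zero_mul]
      rw [haz, ← map_mul, div_mul_cancel₀ _ h]
      linear_combination ht

end Cfsg.Agent.Helper9
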