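import Mathlib
import Cfsg.Agent.Helper9.UForm9
import Cfsg.Agent.Helper9.SpDecomp

set_option autoImplicit false

namespace Cfsg.Agent.Helper9

open Cfsg
open scoped MatrixGroups Matrix

variable {n : ℕ} {F : Type*} [Field F] {σ : F ≃+* F} {f : (Fin n → F) → (Fin n → F) → F}

/-- The isometries of determinant one. -/
def uG9 (f : (Fin n → F) → (Fin n → F) → F) : Subgroup (GL (Fin n) F) :=
  Cfsg.preserving (Units.coeHom (Matrix (Fin n) (Fin n) F)) f ⊓ Cfsg.Geo.specialLinear (Fin n) F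

theorem mem_uG9 {g : GL (Fin n) F} : g ∈ uG9 f ↔
    (∀ u v, f ((g : Matrix (Fin n) (Fin n) F) *ᵥ u) ((g : Matrix (Fin n) (Fin n) F) *ᵥ v) = f u v) ∧ g ∈ Cfsg.Geo.specialLinear (Fin n) F := Iff.rfl

theorem uG_iso9 {g : GL (Fin n) F} (hg : g ∈ uG9 f) (u v : Fin n → F) : f ((g : Matrix (Fin n) (Fin n) F) *ᵥ u) ((g : Matrix (Fin n) (Fin n) F) *ᵥ v) = f u v :=
  (mem_uG9.mp hg).1 u v

theorem uG_inv9 {g : GL (Fin n) F} (hg : g ∈ uG9 f) (u v : Fin n → F) : f (((g⁻¹ : GL (Fin n) F) : Matrix (Fin n) (Fin n) F) *ᵥ u) v = f u ((g : Matrix (Fin n) (Fin n) F) *ᵥ v) := by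
  have := uG_iso9 hg (((g⁻¹ : GL (Fin n) F) : Matrix (Fin n) (Fin n) F) *ᵥ u) v
  rw [gl_mul_inv_vec9] at this
  exact this.symm

/-- Unitary transvections. -/
theorem uf_tv9 (hf : Cfsg.Geo.IsUnitaryForm σ f) (γ : F) (hγ : σ γ = -γ) (z : Fin n → F) (hz : f z z = 0) :
    ∃ t ∈ uG9 f, ∀ v, (t : Matrix (Fin n) (Fin n) F) *ᵥ v = v + (γ * f v z) • z := by
  obtain ⟨g, hgS, hg⟩ := uf_transv9 hf (σ γ • z) z (by rw [uf_smul_right9 hf, hz, mul_zero])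
  have hg' : ∀ v, (g : Matrix (Fin n) (Fin n) F) *ᵥ v = v + (γ * f v z) • z := fun v => by
    rw [hg, uf_smul_right9 hf, hf.involutive]
  refine ⟨g, mem_uG9.mpr ⟨fun u v => ?_, hgS⟩, hg'⟩
  rw [hg', hg']
  simp only [hf.add_left, uf_add_right9 hf, hf.smul_left, uf_smul_right9 hf, hz, hγ, map_mul,
    map_neg, mul_zero, add_zero]
  rw [← hf.herm z v]
  ring

/-- Unitary Siegel elements. -/
theorem uf_siegel9 (hf : Cfsg.Geo.IsUnitaryForm σ f) (x y : Fin n → F) (hxx : f x x = 0) (hyy : f y y = 0) (hxy : f x y = 0) :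
    ∃ s ∈ uG9 f, ∀ v, (s : Matrix (Fin n) (Fin n) F) *ᵥ v = v + f v y • x - f v x • y := by
  have hyx : f y x = 0 := uf_swap_zero9 hf hxy
  obtain ⟨t₁, ht₁S, ht₁⟩ := uf_transv9 hf y x hxy
  obtain ⟨t₂, ht₂S, ht₂⟩ := uf_transv9 hf (-x) y (by rw [uf_neg_right9 hf, hyx, neg_zero])
  have hs : ∀ v, ((t₁ * t₂ : GL (Fin n) F) : Matrix (Fin n) (Fin n) F) *ᵥ v = v + f v y • x - f v x • y := by
    intro v
    rw [gl_mul_vec9, ht₂, ht₁, hf.add_left, hf.smul_left, hyy, mul_zero, add_zero,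
      uf_neg_right9 hf]
    module
  refine ⟨t₁ * t₂, mem_uG9.mpr ⟨fun u v => ?_, Subgroup.mul_mem _ ht₁S ht₂S⟩, hs⟩
  rw [hs, hs]
  simp only [hf.add_left, uf_add_right9 hf, uf_sub_left9 hf, uf_sub_right9 hf, hf.smul_left,
    uf_smul_right9 hf, hxx, hyy, hxy, hyx, mul_zero, add_zero, sub_zero]
  rw [← hf.herm y v, ← hf.herm x v]
  ring

theorem usk_inv9 (hf : Cfsg.Geo.IsUnitaryForm σ f) {s : GL (Fin n) F} {x y : Fin n → F} {κ : F} (hxx : f x x = 0) (hyy : f y y = 0)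
    (hxy : f x y = 0)
    (hs : ∀ v, (s : Matrix (Fin n) (Fin n) F) *ᵥ v = v + f v y • x - f v x • y + (κ * f v x) • x) :
    ∀ v, ((s⁻¹ : GL (Fin n) F) : Matrix (Fin n) (Fin n) F) *ᵥ v = v - f v y • x + f v x • y - (κ * f v x) • x := by
  intro v
  have hyx : f y x = 0 := uf_swap_zero9 hf hxy
  have e : (s : Matrix (Fin n) (Fin n) F) *ᵥ (v - f v y • x + f v x • y - (κ * f v x) • x) = v := by
    rw [hs]
    simp only [hf.add_left, uf_sub_left9 hf, hf.smul_left, hxx, hyy, hxy, hyx, mul_zero, sub_zero,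
      add_zero]
    module
  conv_lhs => rw [← e]
  rw [gl_inv_mul_vec9]

theorem usieg_inv9 (hf : Cfsg.Geo.IsUnitaryForm σ f) {s : GL (Fin n) F} {x y : Fin n → F} (hxx : f x x = 0) (hyy : f y y = 0)
    (hxy : f x y = 0) (hs : ∀ v, (s : Matrix (Fin n) (Fin n) F) *ᵥ v = v + f v y • x - f v x • y) :
    ∀ v, ((s⁻¹ : GL (Fin n) F) : Matrix (Fin n) (Fin n) F) *ᵥ v = v - f v y • x + f v x • y := by
  intro v
  have := usk_inv9 hf (κ := 0) hxx hyy hxy (fun v => by rw [hs, zero_mul, zero_smul, add_zero]) v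
  rw [this, zero_mul, zero_smul, sub_zero]

theorem usieg_comm9 (hf : Cfsg.Geo.IsUnitaryForm σ f) {M : Subgroup (GL (Fin n) F)} {s s' : GL (Fin n) F} (hsM : s ∈ M) (hs'M : s' ∈ M)
    {x y x' y' : Fin n → F} (hxx : f x x = 0) (hyy : f y y = 0) (hx'x' : f x' x' = 0)
    (hy'y' : f y' y' = 0) (hxy : f x y = 0) (hx'y' : f x' y' = 0)
    (h1 : f x' x = 0) (h2 : f x' y = 0) (h3 : f y' x = 0)
    (hs : ∀ v, (s : Matrix (Fin n) (Fin n) F) *ᵥ v = v + f v y • x - f v x • y)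
    (hs' : ∀ v, (s' : Matrix (Fin n) (Fin n) F) *ᵥ v = v + f v y' • x' - f v x' • y') :
    ∃ e ∈ M, ∀ v, (e : Matrix (Fin n) (Fin n) F) *ᵥ v = v + (-f y' y * f v x') • x + (f y y' * f v x) • x' := by
  have hyx : f y x = 0 := uf_swap_zero9 hf hxy
  have hy'x' : f y' x' = 0 := uf_swap_zero9 hf hx'y'
  have h1' : f x x' = 0 := uf_swap_zero9 hf h1
  have h2' : f y x' = 0 := uf_swap_zero9 hf h2
  have h3' : f x y' = 0 := uf_swap_zero9 hf h3
  refine ⟨s * s' * s⁻¹ * s'⁻¹,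
    M.mul_mem (M.mul_mem (M.mul_mem hsM hs'M) (M.inv_mem hsM)) (M.inv_mem hs'M), fun v => ?_⟩
  rw [gl_mul_vec9, gl_mul_vec9, gl_mul_vec9, usieg_inv9 hf hx'x' hy'y' hx'y' hs',
    usieg_inv9 hf hxx hyy hxy hs, hs', hs]
  simp only [hf.add_left, uf_sub_left9 hf, hf.smul_left, hxx, hyy, hx'x', hy'y', hxy, hyx, hx'y',
    hy'x', h1, h1', h2, h2', h3, h3', mul_zero, sub_zero, add_zero, zero_mul, zero_sub, zero_add,
    mul_neg, neg_zero]
  module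

theorem usk_comm9 (hf : Cfsg.Geo.IsUnitaryForm σ f) {M : Subgroup (GL (Fin n) F)} {e s : GL (Fin n) F} (heM : e ∈ M) (hsM : s ∈ M)
    {x y w : Fin n → F} {κ : F} (hxx : f x x = 0) (hyy : f y y = 0) (hww : f w w = 0)
    (hxy : f x y = 0) (hxw : f x w = 0)
    (he : ∀ v, (e : Matrix (Fin n) (Fin n) F) *ᵥ v = v + f v y • x - f v x • y + (κ * f v x) • x)
    (hs : ∀ v, (s : Matrix (Fin n) (Fin n) F) *ᵥ v = v + f v w • x - f v x • w) :
    ∃ t ∈ M, ∀ v, (t : Matrix (Fin n) (Fin n) F) *ᵥ v = v + ((f y w - f w y) * f v x) • x := by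
  have hyx : f y x = 0 := uf_swap_zero9 hf hxy
  have hwx : f w x = 0 := uf_swap_zero9 hf hxw
  refine ⟨e * s * e⁻¹ * s⁻¹,
    M.mul_mem (M.mul_mem (M.mul_mem heM hsM) (M.inv_mem heM)) (M.inv_mem hsM), fun v => ?_⟩
  rw [gl_mul_vec9, gl_mul_vec9, gl_mul_vec9, usieg_inv9 hf hxx hww hxw hs,
    usk_inv9 hf hxx hyy hxy he, hs, he]
  simp only [hf.add_left, uf_sub_left9 hf, hf.smul_left, hxx, hyy, hww, hxy, hyx, hxw, hwx,
    mul_zero, sub_zero, add_zero, zero_mul, zero_sub, zero_add, mul_neg, neg_zero]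
  module

/-- A pair of complementary totally singular subspaces. -/
structure UPair9 (f : (Fin n → F) → (Fin n → F) → F) (k : ℕ) (U W : Submodule F (Fin n → F)) : Prop where
  tiU : ∀ u ∈ U, ∀ v ∈ U, f u v = 0
  tiW : ∀ u ∈ W, ∀ v ∈ W, f u v = 0
  dec : ∀ v : Fin n → F, ∃ u ∈ U, ∃ w ∈ W, v = u + w
  dimU : Module.finrank F U = k
  dimW : Module.finrank F W = k

theorem UPair9.symm {k : ℕ} {U W : Submodule F (Fin n → F)} (h : UPair9 f k U W) : UPair9 f k W U :=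
  ⟨h.tiW, h.tiU, fun v => by
    obtain ⟨u, hu, w, hw, e⟩ := h.dec v
    exact ⟨w, hw, u, hu, by rw [e, add_comm]⟩, h.dimW, h.dimU⟩

theorem UPair9.dual [Finite F] (hf : Cfsg.Geo.IsUnitaryForm σ f) {k : ℕ} {U W : Submodule F (Fin n → F)} (h : UPair9 f k U W) (N : Submodule F (Fin n → F)) (x : Fin n → F)
    (hxU : x ∈ U) (hx : x ∉ N) :
    ∃ w ∈ W, f x w = 1 ∧ ∀ y ∈ N, y ∈ U → f y w = 0 := by
  obtain ⟨φ, hφ1, hφ0⟩ := exists_dual_one9 N x hx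
  obtain ⟨z, hz⟩ := uf_repr9 hf φ
  obtain ⟨zu, hzu, zw, hzw, e⟩ := h.dec z
  have key : ∀ y ∈ U, f y zw = φ y := by
    intro y hy
    rw [hz y, e, uf_add_right9 hf, h.tiU y hy zu hzu, zero_add]
  exact ⟨zw, hzw, by rw [key x hxU, hφ1], fun y hyN hyU => by rw [key y hyU]; exact hφ0 y hyN⟩

theorem uf_in_inf9 (hf : Cfsg.Geo.IsUnitaryForm σ f) (U X : Submodule F (Fin n → F)) (z₁ z₂ : Fin n → F)
    (h : Module.finrank F X + 2 < Module.finrank F U) :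
    ∃ x ∈ U, f x z₁ = 0 ∧ f x z₂ = 0 ∧ x ∉ X := by
  let Ψ : (Fin n → F) →ₗ[F] F × F := LinearMap.prod (ufFun9 hf z₁) (ufFun9 hf z₂)
  have hrk := LinearMap.finrank_range_add_finrank_ker Ψ
  have hV : Module.finrank F (Fin n → F) = n := by
    rw [Module.finrank_fintype_fun_eq_card, Fintype.card_fin]
  have hr : Module.finrank F (LinearMap.range Ψ) ≤ 2 := by
    have := Submodule.finrank_le (LinearMap.range Ψ)
    simpa [Module.finrank_prod, Module.finrank_self] using this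
  have hsum := Submodule.finrank_sup_add_finrank_inf_eq U (LinearMap.ker Ψ)
  have hle : Module.finrank F (U ⊔ LinearMap.ker Ψ : Submodule F (Fin n → F)) ≤ n :=
    le_trans (Submodule.finrank_le _) (le_of_eq hV)
  by_contra hcon
  push_neg at hcon
  have hsub : U ⊓ LinearMap.ker Ψ ≤ X := by
    rintro y ⟨hyU, hyK⟩
    have hy' : Ψ y = 0 := hyK
    have h1 : f y z₁ = 0 := congrArg Prod.fst hy'
    have h2 : f y z₂ = 0 := congrArg Prod.snd hy'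
    exact hcon y hyU h1 h2
  have := Submodule.finrank_mono hsub
  omega

/-- Complementary, dually paired totally singular subspaces are interchanged by an isometry
of determinant one. -/
theorem uf_tiswap9 (hf : Cfsg.Geo.IsUnitaryForm σ f) : ∀ (d : ℕ) (U W : Submodule F (Fin n → F)),
    Module.finrank F U = d →
    (∀ u ∈ U, ∀ v ∈ U, f u v = 0) → (∀ u ∈ W, ∀ v ∈ W, f u v = 0) →
    (∀ u ∈ U, u ≠ 0 → ∃ w ∈ W, f u w ≠ 0) →
    (∀ w ∈ W, w ≠ 0 → ∃ u ∈ U, f u w ≠ 0) →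
    ∃ s ∈ uG9 f, (∀ u ∈ U, (s : Matrix (Fin n) (Fin n) F) *ᵥ u ∈ W) ∧ (∀ w ∈ W, (s : Matrix (Fin n) (Fin n) F) *ᵥ w ∈ U) ∧
      ∀ v, (∀ u ∈ U, f u v = 0) → (∀ w ∈ W, f w v = 0) → (s : Matrix (Fin n) (Fin n) F) *ᵥ v = v := by
  intro d
  induction d using Nat.strong_induction_on with
  | _ d ih =>
    intro U W hU tiU tiW pU pW
    by_cases hUb : U = ⊥
    · have hWb : W = ⊥ := by
        rw [Submodule.eq_bot_iff]
        intro w hw
        by_contra hw0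
        obtain ⟨u, hu, huw⟩ := pW w hw hw0
        rw [hUb, Submodule.mem_bot] at hu
        rw [hu, uf_zero_left9 hf] at huw
        exact huw rfl
      refine ⟨1, Subgroup.one_mem _, ?_, ?_, fun v _ _ => gl_one_vec9 v⟩
      · intro u hu
        rw [hUb, Submodule.mem_bot] at hu
        rw [hu, Matrix.mulVec_zero]
        exact W.zero_mem
      · intro w hw
        rw [hWb, Submodule.mem_bot] at hw
        rw [hw, Matrix.mulVec_zero]
        exact U.zero_mem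
    · obtain ⟨u₁, hu₁U, hu₁0⟩ := (Submodule.ne_bot_iff U).mp hUb
      obtain ⟨w₀, hw₀W, hu₁w₀⟩ := pU u₁ hu₁U hu₁0
      obtain ⟨w₁, hw₁⟩ : ∃ w₁ : Fin n → F, w₁ = (σ (f u₁ w₀)⁻¹) • w₀ := ⟨_, rfl⟩
      have hw₁W : w₁ ∈ W := by
        rw [hw₁]
        exact W.smul_mem _ hw₀W
      have huw : f u₁ w₁ = 1 := by
        rw [hw₁, uf_smul_right9 hf, hf.involutive, inv_mul_cancel₀ hu₁w₀]
      have hwu : f w₁ u₁ = 1 := by rw [hf.herm, huw, map_one]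
      have huu : f u₁ u₁ = 0 := tiU u₁ hu₁U u₁ hu₁U
      have hww : f w₁ w₁ = 0 := tiW w₁ hw₁W w₁ hw₁W
      obtain ⟨U₁, hU₁def⟩ : ∃ U₁ : Submodule F (Fin n → F), U₁ = U ⊓ LinearMap.ker (ufFun9 hf w₁) := ⟨_, rfl⟩
      obtain ⟨W₁, hW₁def⟩ : ∃ W₁ : Submodule F (Fin n → F), W₁ = W ⊓ LinearMap.ker (ufFun9 hf u₁) := ⟨_, rfl⟩
      have hU₁ : ∀ x, x ∈ U₁ ↔ x ∈ U ∧ f x w₁ = 0 := by
        intro x
        rw [hU₁def, Submodule.mem_inf, LinearMap.mem_ker]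
        rfl
      have hW₁ : ∀ x, x ∈ W₁ ↔ x ∈ W ∧ f x u₁ = 0 := by
        intro x
        rw [hW₁def, Submodule.mem_inf, LinearMap.mem_ker]
        rfl
      have hlt : Module.finrank F U₁ < d := by
        rw [← hU]
        apply Submodule.finrank_lt_finrank_of_lt
        refine lt_of_le_of_ne (fun x hx => ((hU₁ x).mp hx).1) (fun h => ?_)
        have h1 : u₁ ∈ U₁ := by
          rw [h]
          exact hu₁U
        have h2 := ((hU₁ u₁).mp h1).2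
        rw [huw] at h2
        exact one_ne_zero h2
      obtain ⟨s₁, hs₁S, hs₁U, hs₁W, hs₁fix⟩ := ih _ hlt U₁ W₁ rfl
        (fun u hu v hv => tiU u ((hU₁ u).mp hu).1 v ((hU₁ v).mp hv).1)
        (fun u hu v hv => tiW u ((hW₁ u).mp hu).1 v ((hW₁ v).mp hv).1)
        (by
          intro u hu hu0
          obtain ⟨huU, huw₁⟩ := (hU₁ u).mp hu
          obtain ⟨w, hwW, huw'⟩ := pU u huU hu0
          refine ⟨w - f w u₁ • w₁,
            (hW₁ _).mpr ⟨W.sub_mem hwW (W.smul_mem _ hw₁W), ?_⟩, ?_⟩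
          · rw [uf_sub_left9 hf, hf.smul_left, hwu, mul_one, sub_self]
          · rw [uf_sub_right9 hf, uf_smul_right9 hf, huw₁, mul_zero, sub_zero]
            exact huw')
        (by
          intro w hw hw0
          obtain ⟨hwW, hwu₁⟩ := (hW₁ w).mp hw
          obtain ⟨u, huU, huw'⟩ := pW w hwW hw0
          refine ⟨u - f u w₁ • u₁,
            (hU₁ _).mpr ⟨U.sub_mem huU (U.smul_mem _ hu₁U), ?_⟩, ?_⟩
          · rw [uf_sub_left9 hf, hf.smul_left, huw, mul_one, sub_self]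
          · rw [uf_sub_left9 hf, hf.smul_left, uf_swap_zero9 hf hwu₁, mul_zero, sub_zero]
            exact huw')
      obtain ⟨μ, hμ0, hμ⟩ := uf_skew9 hf
      have hμinv : σ μ⁻¹ = -μ⁻¹ := by rw [map_inv₀, hμ, inv_neg]
      obtain ⟨t₁, ht₁S, ht₁⟩ := uf_tv9 hf μ hμ u₁ huu
      obtain ⟨t₂, ht₂S, ht₂⟩ := uf_tv9 hf (-μ⁻¹) (by rw [map_neg, hμinv]) w₁ hww
      have hn : ∀ x, ((t₁ * t₂ * t₁ : GL (Fin n) F) : Matrix (Fin n) (Fin n) F) *ᵥ x =
          x + (μ * f x u₁ - f x w₁) • u₁ - (f x u₁ + μ⁻¹ * f x w₁) • w₁ := by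
        intro x
        rw [gl_mul_vec9, gl_mul_vec9, ht₁, ht₂, ht₁]
        simp only [hf.add_left, hf.smul_left, huu, hww, huw, hwu, mul_zero, add_zero, mul_one]
        have hμμ : μ * μ⁻¹ = 1 := mul_inv_cancel₀ hμ0
        have hμμ' : μ⁻¹ * μ = 1 := inv_mul_cancel₀ hμ0
        obtain ⟨ν, hν⟩ : ∃ ν : F, ν = μ⁻¹ := ⟨_, rfl⟩
        rw [← hν] at hμμ hμμ' ⊢
        obtain ⟨A, hA⟩ : ∃ A : F, A = f x u₁ := ⟨_, rfl⟩
        obtain ⟨B, hB⟩ : ∃ B : F, B = f x w₁ := ⟨_, rfl⟩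
        rw [← hA, ← hB]
        have e1 : μ * (A + -ν * (B + μ * A)) = - B := by
          linear_combination (-B - μ * A) * hμμ
        have e3 : -ν * (B + μ * A) = -(A + ν * B) := by
          linear_combination (-A) * hμμ'
        rw [e1, e3]
        module
      have hs₁u₁ : (s₁ : Matrix (Fin n) (Fin n) F) *ᵥ u₁ = u₁ :=
        hs₁fix u₁ (fun u hu => tiU u ((hU₁ u).mp hu).1 u₁ hu₁U)
          (fun w hw => ((hW₁ w).mp hw).2)
      have hs₁w₁ : (s₁ : Matrix (Fin n) (Fin n) F) *ᵥ w₁ = w₁ :=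
        hs₁fix w₁ (fun u hu => ((hU₁ u).mp hu).2)
          (fun w hw => tiW w ((hW₁ w).mp hw).1 w₁ hw₁W)
      refine ⟨t₁ * t₂ * t₁ * s₁, Subgroup.mul_mem _ (Subgroup.mul_mem _
        (Subgroup.mul_mem _ ht₁S ht₂S) ht₁S) hs₁S, ?_, ?_, ?_⟩
      · intro u hu
        have hu' : u - f u w₁ • u₁ ∈ U₁ := by
          refine (hU₁ _).mpr ⟨U.sub_mem hu (U.smul_mem _ hu₁U), ?_⟩
          rw [uf_sub_left9 hf, hf.smul_left, huw, mul_one, sub_self]
        have h1 := hs₁U _ hu'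
        obtain ⟨h1W, h1u⟩ := (hW₁ _).mp h1
        have h1w : f ((s₁ : Matrix (Fin n) (Fin n) F) *ᵥ (u - f u w₁ • u₁)) w₁ = 0 := tiW _ h1W w₁ hw₁W
        have hdec : u = (u - f u w₁ • u₁) + f u w₁ • u₁ := by abel
        rw [hdec, gl_mul_vec9 (t₁ * t₂ * t₁) s₁, Matrix.mulVec_add, Matrix.mulVec_smul, hs₁u₁,
          Matrix.mulVec_add, Matrix.mulVec_smul, hn, hn u₁, h1u, h1w, huu, huw]
        have e : (s₁ : Matrix (Fin n) (Fin n) F) *ᵥ (u - f u w₁ • u₁) + (μ * 0 - 0) • u₁ - (0 + μ⁻¹ * 0) • w₁ +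
            f u w₁ • (u₁ + (μ * 0 - 1) • u₁ - (0 + μ⁻¹ * 1) • w₁) =
            (s₁ : Matrix (Fin n) (Fin n) F) *ᵥ (u - f u w₁ • u₁) + (-(f u w₁ * μ⁻¹)) • w₁ := by
          module
        rw [e]
        exact W.add_mem h1W (W.smul_mem _ hw₁W)
      · intro w hw
        have hw' : w - f w u₁ • w₁ ∈ W₁ := by
          refine (hW₁ _).mpr ⟨W.sub_mem hw (W.smul_mem _ hw₁W), ?_⟩
          rw [uf_sub_left9 hf, hf.smul_left, hwu, mul_one, sub_self]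
        have h1 := hs₁W _ hw'
        obtain ⟨h1U, h1w⟩ := (hU₁ _).mp h1
        have h1u : f ((s₁ : Matrix (Fin n) (Fin n) F) *ᵥ (w - f w u₁ • w₁)) u₁ = 0 := tiU _ h1U u₁ hu₁U
        have hdec : w = (w - f w u₁ • w₁) + f w u₁ • w₁ := by abel
        rw [hdec, gl_mul_vec9 (t₁ * t₂ * t₁) s₁, Matrix.mulVec_add, Matrix.mulVec_smul, hs₁w₁,
          Matrix.mulVec_add, Matrix.mulVec_smul, hn, hn w₁, h1u, h1w, hww, hwu]
        have e : (s₁ : Matrix (Fin n) (Fin n) F) *ᵥ (w - f w u₁ • w₁) + (μ * 0 - 0) • u₁ - (0 + μ⁻¹ * 0) • w₁ +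
            f w u₁ • (w₁ + (μ * 1 - 0) • u₁ - (1 + μ⁻¹ * 0) • w₁) =
            (s₁ : Matrix (Fin n) (Fin n) F) *ᵥ (w - f w u₁ • w₁) + (f w u₁ * μ) • u₁ := by
          module
        rw [e]
        exact U.add_mem h1U (U.smul_mem _ hu₁U)
      · intro v hvU hvW
        have h1 : (s₁ : Matrix (Fin n) (Fin n) F) *ᵥ v = v :=
          hs₁fix v (fun u hu => hvU u ((hU₁ u).mp hu).1) (fun w hw => hvW w ((hW₁ w).mp hw).1)
        have h2 : f v u₁ = 0 := uf_swap_zero9 hf (hvU u₁ hu₁U)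
        have h3 : f v w₁ = 0 := uf_swap_zero9 hf (hvW w₁ hw₁W)
        rw [gl_mul_vec9 (t₁ * t₂ * t₁) s₁, h1, hn, h2, h3]
        simp

end Cfsg.Agent.Helper9
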