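import Mathlib
import Cfsg.Agent.Helper9.UPair1

set_option autoImplicit false

namespace Cfsg.Agent.Helper9

open Cfsg
open scoped MatrixGroups Matrix

variable {n : ℕ} {F : Type*} [Field F] {σ : F ≃+* F} {f : (Fin n → F) → (Fin n → F) → F}

/-- All unitary transvections with centre `z` lie in `M`. -/
def InCU9 (σ : F ≃+* F) (f : (Fin n → F) → (Fin n → F) → F) (M : Subgroup (GL (Fin n) F)) (z : Fin n → F) : Prop :=
  ∀ γ : F, σ γ = -γ → ∃ t ∈ M, ∀ v, (t : Matrix (Fin n) (Fin n) F) *ᵥ v = v + (γ * f v z) • z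

theorem inCU_conj9 (hf : Cfsg.Geo.IsUnitaryForm σ f) (M : Subgroup (GL (Fin n) F)) (hMS : M ≤ uG9 f) (h : GL (Fin n) F) (hh : h ∈ M) (z : Fin n → F)
    (hz : InCU9 σ f M z) : InCU9 σ f M ((h : Matrix (Fin n) (Fin n) F) *ᵥ z) := by
  intro γ hγ
  obtain ⟨t, htM, ht⟩ := hz γ hγ
  refine ⟨h * t * h⁻¹, M.mul_mem (M.mul_mem hh htM) (M.inv_mem hh), fun v => ?_⟩
  rw [gl_mul_vec9, gl_mul_vec9, ht, Matrix.mulVec_add, Matrix.mulVec_smul, gl_mul_inv_vec9,
    uG_inv9 (hMS hh)]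

theorem inCU_line9 (hf : Cfsg.Geo.IsUnitaryForm σ f) (M : Subgroup (GL (Fin n) F)) (hMS : M ≤ uG9 f) (x y : Fin n → F)
    (hx : InCU9 σ f M x) (hy : InCU9 σ f M y) (hxx : f x x = 0) (hyy : f y y = 0)
    (hxy : f x y ≠ 0) (c : F) (hz : f (x + c • y) (x + c • y) = 0) :
    InCU9 σ f M (x + c • y) := by
  have hyx : f y x = σ (f x y) := hf.herm y x
  have hsk : σ c * f x y + c * σ (f x y) = 0 := by
    simp only [hf.add_left, uf_add_right9 hf, hf.smul_left, uf_smul_right9 hf, hxx, hyy, hyx,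
      mul_zero, add_zero, zero_add] at hz
    exact hz
  have hσ0 : σ (f x y) ≠ 0 := fun h => hxy ((map_eq_zero σ).mp h)
  have hγ : σ (c / f x y) = -(c / f x y) := by
    rw [map_div₀]
    field_simp
    linear_combination hsk
  obtain ⟨t, htM, ht⟩ := hy (c / f x y) hγ
  have := inCU_conj9 hf M hMS t htM x hx
  rw [ht, div_mul_cancel₀ c hxy] at this
  exact this

theorem uf_config9 [Finite F] (hf : Cfsg.Geo.IsUnitaryForm σ f) {k : ℕ} {U W : Submodule F (Fin n → F)} (hP : UPair9 f k U W) (hk : 5 ≤ k)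
    (M : Subgroup (GL (Fin n) F))
    (hH : ∀ s ∈ uG9 f, (∀ x ∈ U, (s : Matrix (Fin n) (Fin n) F) *ᵥ x ∈ U) → (∀ x ∈ W, (s : Matrix (Fin n) (Fin n) F) *ᵥ x ∈ W) → s ∈ M)
    (p r pU pW rU rW : Fin n → F) (hpU : pU ∈ U) (hpW : pW ∈ W) (hp : p = pU + pW)
    (hrU : rU ∈ U) (hrW : rW ∈ W) (hr : r = rU + rW)
    (hpp : f p p = 0) (hrr : f r r = 0) (hpr : f p r = 0)
    (hs : ∃ s ∈ M, ∀ v, (s : Matrix (Fin n) (Fin n) F) *ᵥ v = v + f v r • p - f v p • r)
    (hrU0 : rU ≠ 0) (hind : pU ∉ Submodule.span F {rU}) :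
    ∃ x ∈ U, x ≠ 0 ∧ ∃ γ : F, γ ≠ 0 ∧ σ γ = -γ ∧
      ∃ t ∈ M, ∀ v, (t : Matrix (Fin n) (Fin n) F) *ᵥ v = v + (γ * f v x) • x := by
  classical
  obtain ⟨s, hsM, hs⟩ := hs
  have hpU0 : pU ≠ 0 := fun h => hind (by rw [h]; exact Submodule.zero_mem _)
  obtain ⟨x, hxU, hxpW, hxrW, hxX⟩ := uf_in_inf9 hf U
    (Submodule.span F ((({pU, rU} : Finset (Fin n → F))) : Set (Fin n → F))) pW rW (by
      have h1 : Module.finrank F (Submodule.span F ((({pU, rU} : Finset (Fin n → F))) : Set (Fin n → F))) ≤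
          2 := (finrank_span_finset_le_card (R := F) ({pU, rU} : Finset (Fin n → F))).trans
            Finset.card_le_two
      rw [hP.dimU]
      omega)
  have hxX' : x ∉ Submodule.span F ({pU, rU} : Set (Fin n → F)) := by
    intro h
    apply hxX
    rw [Finset.coe_pair]
    exact h
  have hx0 : x ≠ 0 := fun h => hxX' (by rw [h]; exact Submodule.zero_mem _)
  have hrU' : rU ∉ Submodule.span F ({x, pU} : Set (Fin n → F)) := by
    intro h
    obtain ⟨c, d, hcd⟩ := Submodule.mem_span_pair.mp h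
    by_cases hc : c = 0
    · rw [hc, zero_smul, zero_add] at hcd
      have hd : d ≠ 0 := by
        intro hd
        rw [hd, zero_smul] at hcd
        exact hrU0 hcd.symm
      apply hind
      have : pU = d⁻¹ • rU := by rw [← hcd, smul_smul, inv_mul_cancel₀ hd, one_smul]
      rw [this]
      exact Submodule.smul_mem _ _ (Submodule.mem_span_singleton_self rU)
    · apply hxX'
      have : x = c⁻¹ • rU - (c⁻¹ * d) • pU := by
        rw [← hcd, smul_add, smul_smul, smul_smul, inv_mul_cancel₀ hc, one_smul]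
        abel
      rw [this]
      exact Submodule.sub_mem _ (Submodule.smul_mem _ _ (Submodule.subset_span (by simp)))
        (Submodule.smul_mem _ _ (Submodule.subset_span (by simp)))
  have hpU' : pU ∉ Submodule.span F {x} := by
    intro h
    obtain ⟨c, hc⟩ := Submodule.mem_span_singleton.mp h
    have hc0 : c ≠ 0 := by
      intro h0
      rw [h0, zero_smul] at hc
      exact hpU0 hc.symm
    apply hxX'
    have : x = c⁻¹ • pU := by rw [← hc, smul_smul, inv_mul_cancel₀ hc0, one_smul]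
    rw [this]
    exact Submodule.smul_mem _ _ (Submodule.subset_span (by simp))
  obtain ⟨y, hyW, hrUy, hy0⟩ := hP.dual hf (Submodule.span F ({x, pU} : Set (Fin n → F))) rU hrU hrU'
  have hxy : f x y = 0 := hy0 x (Submodule.subset_span (by simp)) hxU
  have hpUy : f pU y = 0 := hy0 pU (Submodule.subset_span (by simp)) hpU
  obtain ⟨w₀, hw₀W, hpUw₀, hw₀0⟩ := hP.dual hf (Submodule.span F {x}) pU hpU hpU'
  have hxw₀ : f x w₀ = 0 := hw₀0 x (Submodule.mem_span_singleton_self x) hxU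
  have hHsieg : ∀ a ∈ U, ∀ b ∈ W, f a b = 0 →
      ∃ s ∈ M, ∀ v, (s : Matrix (Fin n) (Fin n) F) *ᵥ v = v + f v b • a - f v a • b := by
    intro a ha b hb hab
    obtain ⟨s, hsS, hs⟩ := uf_siegel9 hf a b (hP.tiU a ha a ha) (hP.tiW b hb b hb) hab
    refine ⟨s, hH s hsS ?_ ?_, hs⟩
    · intro v hv
      rw [hs, hP.tiU v hv a ha, zero_smul, sub_zero]
      exact U.add_mem hv (U.smul_mem _ ha)
    · intro v hv
      rw [hs, hP.tiW v hv b hb, zero_smul, add_zero]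
      exact W.sub_mem hv (W.smul_mem _ hb)
  obtain ⟨s₁, hs₁M, hs₁⟩ := hHsieg x hxU y hyW hxy
  have hxx : f x x = 0 := hP.tiU x hxU x hxU
  have hyy : f y y = 0 := hP.tiW y hyW y hyW
  have hpx : f p x = 0 := by
    rw [hp, hf.add_left, hP.tiU pU hpU x hxU, zero_add]
    exact uf_swap_zero9 hf hxpW
  have hpy : f p y = 0 := by
    rw [hp, hf.add_left, hpUy, hP.tiW pW hpW y hyW, add_zero]
  have hrx : f r x = 0 := by
    rw [hr, hf.add_left, hP.tiU rU hrU x hxU, zero_add]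
    exact uf_swap_zero9 hf hxrW
  have hry : f r y = 1 := by
    rw [hr, hf.add_left, hrUy, hP.tiW rW hrW y hyW, add_zero]
  have hyr : f y r = 1 := by rw [hf.herm, hry, map_one]
  obtain ⟨e₁, he₁M, he₁⟩ := usieg_comm9 hf hs₁M hsM hxx hyy hpp hrr hxy hpr hpx hpy hrx hs₁ hs
  rw [hry, hyr] at he₁
  obtain ⟨s₂, hs₂M, hs₂⟩ := hHsieg x hxU pW hpW hxpW
  have hxpU : f x pU = 0 := hP.tiU x hxU pU hpU
  have hpUx : f pU x = 0 := hP.tiU pU hpU x hxU
  have hpWx : f pW x = 0 := uf_swap_zero9 hf hxpW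
  have hpWpW : f pW pW = 0 := hP.tiW pW hpW pW hpW
  have he : ∀ v, ((e₁ * s₂ : GL (Fin n) F) : Matrix (Fin n) (Fin n) F) *ᵥ v =
      v + f v (-pU) • x - f v x • (-pU) + (f pW pU * f v x) • x := by
    intro v
    rw [gl_mul_vec9, hs₂, he₁, hp]
    simp only [hf.add_left, uf_sub_left9 hf, hf.smul_left, uf_add_right9 hf, uf_neg_right9 hf,
      hxx, hxpU, hxpW, hpWx, hpWpW, mul_zero, add_zero, zero_add, sub_zero]
    module
  obtain ⟨θ, hθ⟩ := uf_exists_moved9 hf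
  obtain ⟨w, hw⟩ : ∃ w : Fin n → F, w = σ θ • w₀ := ⟨_, rfl⟩
  have hwW : w ∈ W := by
    rw [hw]
    exact W.smul_mem _ hw₀W
  have hxw : f x w = 0 := by rw [hw, uf_smul_right9 hf, hxw₀, mul_zero]
  obtain ⟨s₃, hs₃M, hs₃⟩ := hHsieg x hxU w hwW hxw
  have hxnp : f x (-pU) = 0 := by rw [uf_neg_right9 hf, hxpU, neg_zero]
  have hnpnp : f (-pU) (-pU) = 0 := by
    rw [uf_neg_right9 hf, uf_neg_left9 hf, hP.tiU pU hpU pU hpU, neg_zero, neg_zero]
  obtain ⟨t, htM, ht⟩ := usk_comm9 hf (M.mul_mem he₁M hs₂M) hs₃M hxx hnpnp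
    (hP.tiW w hwW w hwW) hxnp hxw he hs₃
  have hpUw : f pU w = θ := by rw [hw, uf_smul_right9 hf, hf.involutive, hpUw₀, mul_one]
  have hwpU : f w pU = σ θ := by rw [hf.herm, hpUw]
  refine ⟨x, hxU, hx0, f (-pU) w - f w (-pU), ?_, ?_, t, htM, ht⟩
  · rw [uf_neg_left9 hf, uf_neg_right9 hf, hpUw, hwpU]
    intro h
    apply hθ
    linear_combination h
  · rw [uf_neg_left9 hf, uf_neg_right9 hf, hpUw, hwpU, map_sub, map_neg, map_neg, hf.involutive]
    ring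

theorem uf_spread9 [Finite F] (hf : Cfsg.Geo.IsUnitaryForm σ f) {k : ℕ} {U W : Submodule F (Fin n → F)} (hP : UPair9 f k U W) (hk : 2 ≤ k)
    (M : Subgroup (GL (Fin n) F)) (hMS : M ≤ uG9 f)
    (hH : ∀ s ∈ uG9 f, (∀ x ∈ U, (s : Matrix (Fin n) (Fin n) F) *ᵥ x ∈ U) → (∀ x ∈ W, (s : Matrix (Fin n) (Fin n) F) *ᵥ x ∈ W) → s ∈ M)
    (x₀ : Fin n → F) (hx₀U : x₀ ∈ U) (hx₀ : x₀ ≠ 0) (γ₀ : F) (hγ₀ : γ₀ ≠ 0) (hγ₀s : σ γ₀ = -γ₀)
    (ht₀ : ∃ t ∈ M, ∀ v, (t : Matrix (Fin n) (Fin n) F) *ᵥ v = v + (γ₀ * f v x₀) • x₀) :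
    ∀ u ∈ U, InCU9 σ f M u := by
  obtain ⟨t₀, ht₀M, ht₀⟩ := ht₀
  have hmove1 : ∀ x u : Fin n → F, x ∈ U → u ∈ U → x ∉ Submodule.span F {u} →
      u ∉ Submodule.span F {x} → ∃ h ∈ M, (h : Matrix (Fin n) (Fin n) F) *ᵥ x = u := by
    intro x u hxU huU hxu hux
    obtain ⟨w₁, hw₁W, hxw₁, hw₁0⟩ := hP.dual hf (Submodule.span F {u}) x hxU hxu
    obtain ⟨w₂, hw₂W, huw₂, hw₂0⟩ := hP.dual hf (Submodule.span F {x}) u huU hux
    have huw₁ : f u w₁ = 0 := hw₁0 u (Submodule.mem_span_singleton_self u) huU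
    have hxw₂ : f x w₂ = 0 := hw₂0 x (Submodule.mem_span_singleton_self x) hxU
    have hab : f (u - x) (w₁ + w₂) = 0 := by
      simp only [uf_sub_left9 hf, uf_add_right9 hf, huw₁, huw₂, hxw₁, hxw₂]
      ring
    obtain ⟨s, hsS, hs⟩ := uf_siegel9 hf (u - x) (w₁ + w₂)
      (hP.tiU _ (U.sub_mem huU hxU) _ (U.sub_mem huU hxU))
      (hP.tiW _ (W.add_mem hw₁W hw₂W) _ (W.add_mem hw₁W hw₂W)) hab
    refine ⟨s, hH s hsS ?_ ?_, ?_⟩
    · intro v hv
      rw [hs, hP.tiU v hv (u - x) (U.sub_mem huU hxU), zero_smul, sub_zero]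
      exact U.add_mem hv (U.smul_mem _ (U.sub_mem huU hxU))
    · intro v hv
      rw [hs, hP.tiW v hv (w₁ + w₂) (W.add_mem hw₁W hw₂W), zero_smul, add_zero]
      exact W.sub_mem hv (W.smul_mem _ (W.add_mem hw₁W hw₂W))
    · rw [hs, hP.tiU x hxU (u - x) (U.sub_mem huU hxU), zero_smul, sub_zero, uf_add_right9 hf,
        hxw₁, hxw₂, add_zero, one_smul]
      abel
  have hmove : ∀ u ∈ U, u ≠ 0 → ∃ h ∈ M, (h : Matrix (Fin n) (Fin n) F) *ᵥ x₀ = u := by
    intro u huU hu0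
    by_cases hux : u ∈ Submodule.span F {x₀}
    · obtain ⟨l, hl⟩ := Submodule.mem_span_singleton.mp hux
      have hl0 : l ≠ 0 := by
        intro h
        rw [h, zero_smul] at hl
        exact hu0 hl.symm
      obtain ⟨u', hu'U, hu'⟩ : ∃ u' ∈ U, u' ∉ Submodule.span F {x₀} := by
        by_contra hcon
        push_neg at hcon
        have hle : U ≤ Submodule.span F {x₀} := hcon
        have := Submodule.finrank_mono hle
        rw [hP.dimU, finrank_span_singleton hx₀] at this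
        omega
      have h1 : x₀ ∉ Submodule.span F {u'} := by
        intro h
        obtain ⟨c, hc⟩ := Submodule.mem_span_singleton.mp h
        have hc0 : c ≠ 0 := by
          intro h0
          rw [h0, zero_smul] at hc
          exact hx₀ hc.symm
        apply hu'
        have : u' = c⁻¹ • x₀ := by rw [← hc, smul_smul, inv_mul_cancel₀ hc0, one_smul]
        rw [this]
        exact Submodule.smul_mem _ _ (Submodule.mem_span_singleton_self x₀)
      have h2' : u' ∉ Submodule.span F {u} := by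
        intro h
        obtain ⟨c, hc⟩ := Submodule.mem_span_singleton.mp h
        apply hu'
        rw [← hc, ← hl, smul_smul]
        exact Submodule.smul_mem _ _ (Submodule.mem_span_singleton_self x₀)
      have h3 : u ∉ Submodule.span F {u'} := by
        intro h
        obtain ⟨c, hc⟩ := Submodule.mem_span_singleton.mp h
        apply h1
        have : x₀ = (l⁻¹ * c) • u' := by
          rw [← smul_smul, hc, ← hl, smul_smul, inv_mul_cancel₀ hl0, one_smul]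
        rw [this]
        exact Submodule.smul_mem _ _ (Submodule.mem_span_singleton_self u')
      obtain ⟨k₁, hk₁M, hk₁⟩ := hmove1 x₀ u' hx₀U hu'U h1 hu'
      obtain ⟨k₂, hk₂M, hk₂⟩ := hmove1 u' u hu'U huU h2' h3
      exact ⟨k₂ * k₁, M.mul_mem hk₂M hk₁M, by rw [gl_mul_vec9, hk₁, hk₂]⟩
    · have h1 : x₀ ∉ Submodule.span F {u} := by
        intro h
        obtain ⟨c, hc⟩ := Submodule.mem_span_singleton.mp h
        have hc0 : c ≠ 0 := by
          intro h0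
          rw [h0, zero_smul] at hc
          exact hx₀ hc.symm
        apply hux
        have : u = c⁻¹ • x₀ := by rw [← hc, smul_smul, inv_mul_cancel₀ hc0, one_smul]
        rw [this]
        exact Submodule.smul_mem _ _ (Submodule.mem_span_singleton_self x₀)
      exact hmove1 x₀ u hx₀U huU h1 hux
  have hbase : ∀ u ∈ U, u ≠ 0 → ∃ t ∈ M, ∀ v, (t : Matrix (Fin n) (Fin n) F) *ᵥ v = v + (γ₀ * f v u) • u := by
    intro u huU hu0
    obtain ⟨h, hhM, hh⟩ := hmove u huU hu0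
    refine ⟨h * t₀ * h⁻¹, M.mul_mem (M.mul_mem hhM ht₀M) (M.inv_mem hhM), fun v => ?_⟩
    rw [gl_mul_vec9, gl_mul_vec9, ht₀, Matrix.mulVec_add, Matrix.mulVec_smul,
      gl_mul_inv_vec9, uG_inv9 (hMS hhM), hh]
  intro u huU γ hγ
  by_cases hγ0 : γ = 0
  · refine ⟨1, M.one_mem, fun v => ?_⟩
    rw [gl_one_vec9, hγ0, zero_mul, zero_smul, add_zero]
  by_cases hu0 : u = 0
  · refine ⟨1, M.one_mem, fun v => ?_⟩
    rw [gl_one_vec9, hu0, smul_zero, add_zero]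
  have hr : σ (γ / γ₀) = γ / γ₀ := by
    rw [map_div₀, hγ, hγ₀s, neg_div_neg_eq]
  obtain ⟨l, hl⟩ := uf_norm9 hf (γ / γ₀) hr
  have hl0 : l ≠ 0 := by
    intro h
    rw [h, zero_mul] at hl
    exact hγ0 ((div_eq_zero_iff.mp hl.symm).resolve_right hγ₀)
  obtain ⟨t, htM, ht⟩ := hbase (l • u) (U.smul_mem _ huU) (smul_ne_zero hl0 hu0)
  refine ⟨t, htM, fun v => ?_⟩
  rw [ht, uf_smul_right9 hf, smul_smul]
  have h1 : γ₀ * (l * σ l) = γ := by
    rw [hl]
    field_simp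
  have : γ₀ * (σ l * f v u) * l = γ * f v u := by
    rw [← h1]
    ring
  rw [this]

theorem uf_caseII9 [Finite F] (hf : Cfsg.Geo.IsUnitaryForm σ f) {k : ℕ} {U W : Submodule F (Fin n → F)} (hP : UPair9 f k U W) (hk : 5 ≤ k)
    (M : Subgroup (GL (Fin n) F))
    (hH : ∀ s ∈ uG9 f, (∀ x ∈ U, (s : Matrix (Fin n) (Fin n) F) *ᵥ x ∈ U) → (∀ x ∈ W, (s : Matrix (Fin n) (Fin n) F) *ᵥ x ∈ W) → s ∈ M)
    (g : GL (Fin n) F) (hgS : g ∈ uG9 f) (X Y : Submodule F (Fin n → F)) (hYdim : Module.finrank F Y = k)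
    (hXti : ∀ x ∈ X, f x x = 0) (hYti : ∀ y ∈ Y, f y y = 0)
    (hXY : ∀ x ∈ X, ∀ y ∈ Y, f x y = 0 →
      ∃ s ∈ M, ∀ v, (s : Matrix (Fin n) (Fin n) F) *ᵥ v = v + f v ((g : Matrix (Fin n) (Fin n) F) *ᵥ y) • ((g : Matrix (Fin n) (Fin n) F) *ᵥ x) - f v ((g : Matrix (Fin n) (Fin n) F) *ᵥ x) • ((g : Matrix (Fin n) (Fin n) F) *ᵥ y))
    (hY : ∀ y ∈ Y, (g : Matrix (Fin n) (Fin n) F) *ᵥ y ∈ U) (x₁ : Fin n → F) (hx₁ : x₁ ∈ X) (hx₁W : (g : Matrix (Fin n) (Fin n) F) *ᵥ x₁ ∉ W) :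
    ∃ x ∈ U, x ≠ 0 ∧ ∃ γ : F, γ ≠ 0 ∧ σ γ = -γ ∧
      ∃ t ∈ M, ∀ v, (t : Matrix (Fin n) (Fin n) F) *ᵥ v = v + (γ * f v x) • x := by
  obtain ⟨pU, hpU, pW, hpW, hp⟩ := hP.dec ((g : Matrix (Fin n) (Fin n) F) *ᵥ x₁)
  have hpU0 : pU ≠ 0 := by
    intro h
    apply hx₁W
    rw [hp, h, zero_add]
    exact hpW
  have hq0 : ((g⁻¹ : GL (Fin n) F) : Matrix (Fin n) (Fin n) F) *ᵥ pU ≠ 0 := by
    intro h
    apply hpU0
    have := congrArg (fun w => (g : Matrix (Fin n) (Fin n) F) *ᵥ w) h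
    simpa [gl_mul_inv_vec9] using this
  obtain ⟨a, haY, hax, _, haX⟩ := uf_in_inf9 hf Y (Submodule.span F {((g⁻¹ : GL (Fin n) F) : Matrix (Fin n) (Fin n) F) *ᵥ pU}) x₁ x₁ (by
    rw [hYdim, finrank_span_singleton hq0]
    omega)
  have ha0 : a ≠ 0 := fun h => haX (by rw [h]; exact Submodule.zero_mem _)
  have hr0 : (g : Matrix (Fin n) (Fin n) F) *ᵥ a ≠ 0 := by
    intro h
    apply ha0
    have := congrArg (fun w => ((g⁻¹ : GL (Fin n) F) : Matrix (Fin n) (Fin n) F) *ᵥ w) h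
    simpa [gl_inv_mul_vec9] using this
  have hind : pU ∉ Submodule.span F {(g : Matrix (Fin n) (Fin n) F) *ᵥ a} := by
    intro h
    obtain ⟨c, hc⟩ := Submodule.mem_span_singleton.mp h
    have hc0 : c ≠ 0 := by
      intro h0
      rw [h0, zero_smul] at hc
      exact hpU0 hc.symm
    apply haX
    have : a = c⁻¹ • (((g⁻¹ : GL (Fin n) F) : Matrix (Fin n) (Fin n) F) *ᵥ pU) := by
      rw [← hc, Matrix.mulVec_smul, gl_inv_mul_vec9, smul_smul, inv_mul_cancel₀ hc0, one_smul]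
    rw [this]
    exact Submodule.smul_mem _ _ (Submodule.mem_span_singleton_self _)
  have hxa : f x₁ a = 0 := uf_swap_zero9 hf hax
  exact uf_config9 hf hP hk M hH ((g : Matrix (Fin n) (Fin n) F) *ᵥ x₁) ((g : Matrix (Fin n) (Fin n) F) *ᵥ a) pU pW ((g : Matrix (Fin n) (Fin n) F) *ᵥ a) 0 hpU hpW hp (hY a haY)
    W.zero_mem (by rw [add_zero]) (by rw [uG_iso9 hgS]; exact hXti x₁ hx₁)
    (by rw [uG_iso9 hgS]; exact hYti a haY) (by rw [uG_iso9 hgS]; exact hxa)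
    (hXY x₁ hx₁ a haY hxa) hr0 hind

end Cfsg.Agent.Helper9
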