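import Mathlib
import Cfsg.Agent.Helper9.UPair2

set_option autoImplicit false

namespace Cfsg.Agent.Helper9

open Cfsg
open scoped MatrixGroups Matrix

variable {n : ℕ} {F : Type*} [Field F] {σ : F ≃+* F} {f : (Fin n → F) → (Fin n → F) → F}

theorem uf_pair_stepA9 [Finite F] (hf : Cfsg.Geo.IsUnitaryForm σ f) {k : ℕ} {U W : Submodule F (Fin n → F)} (hP : UPair9 f k U W)
    (M : Subgroup (GL (Fin n) F)) (hMS : M ≤ uG9 f) (hall : ∀ z : Fin n → F, f z z = 0 → InCU9 σ f M z) :
    ∀ (d : ℕ) (g : GL (Fin n) F), g ∈ uG9 f →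
      Module.finrank F (U ⊓ Submodule.comap
        (Matrix.toLin' (g : Matrix (Fin n) (Fin n) F)) U : Submodule F (Fin n → F)) + d = k →
      ∃ t ∈ M, ∀ u ∈ U, ((t * g : GL (Fin n) F) : Matrix (Fin n) (Fin n) F) *ᵥ u ∈ U := by
  intro d
  induction d using Nat.strong_induction_on with
  | _ d ih =>
    intro g hg hd
    obtain ⟨I, hI⟩ : ∃ I : Submodule F (Fin n → F), I = U ⊓ Submodule.comap
        (Matrix.toLin' (g : Matrix (Fin n) (Fin n) F)) U := ⟨_, rfl⟩
    have hImem : ∀ v, v ∈ I ↔ v ∈ U ∧ (g : Matrix (Fin n) (Fin n) F) *ᵥ v ∈ U := by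
      intro v
      rw [hI, Submodule.mem_inf, Submodule.mem_comap, Matrix.toLin'_apply]
    rw [← hI] at hd
    by_cases hall' : ∀ u ∈ U, (g : Matrix (Fin n) (Fin n) F) *ᵥ u ∈ U
    · exact ⟨1, M.one_mem, fun u hu => by rw [one_mul]; exact hall' u hu⟩
    · push_neg at hall'
      obtain ⟨a, haU, hga⟩ := hall'
      obtain ⟨x, hx⟩ : ∃ x : Fin n → F, x = (g : Matrix (Fin n) (Fin n) F) *ᵥ a := ⟨_, rfl⟩
      rw [← hx] at hga
      have hxx : f x x = 0 := by
        rw [hx, uG_iso9 hg]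
        exact hP.tiU a haU a haU
      obtain ⟨xU, hxU, xW, hxW, hxdec⟩ := hP.dec x
      have hxW0 : xW ≠ 0 := by
        intro h
        apply hga
        rw [hxdec, h, add_zero]
        exact hxU
      obtain ⟨y, hyU, hxWy, _⟩ := hP.symm.dual hf ⊥ xW hxW (by simpa using hxW0)
      have hxy : f x y = 1 := by
        rw [hxdec, hf.add_left, hP.tiU xU hxU y hyU, zero_add, hxWy]
      have hyx : f y x = 1 := by rw [hf.herm, hxy, map_one]
      have hyy : f y y = 0 := hP.tiU y hyU y hyU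
      obtain ⟨μ, hμ0, hμ⟩ := uf_skew9 hf
      obtain ⟨z, hz⟩ : ∃ z : Fin n → F, z = x - σ μ • y := ⟨_, rfl⟩
      have hxz : f x z = -μ := by
        rw [hz, uf_sub_right9 hf, uf_smul_right9 hf, hxx, hxy, hf.involutive]
        ring
      have hyz : f y z = 1 := by
        rw [hz, uf_sub_right9 hf, uf_smul_right9 hf, hyx, hyy]
        ring
      have hzz : f z z = 0 := by
        have e : f z z = f x z - σ μ * f y z := by
          conv_lhs => rw [hz]
          rw [uf_sub_left9 hf, hf.smul_left, ← hz]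
        rw [e, hxz, hyz, hμ]
        ring
      have hμinv : σ μ⁻¹ = -μ⁻¹ := by rw [map_inv₀, hμ, inv_neg]
      obtain ⟨t, htM, ht⟩ := hall z hzz μ⁻¹ hμinv
      have htx : (t : Matrix (Fin n) (Fin n) F) *ᵥ x = σ μ • y := by
        rw [ht, hxz, mul_neg, inv_mul_cancel₀ hμ0, hz]
        module
      have hfix : ∀ u, u ∈ I → (t : Matrix (Fin n) (Fin n) F) *ᵥ ((g : Matrix (Fin n) (Fin n) F) *ᵥ u) = (g : Matrix (Fin n) (Fin n) F) *ᵥ u := by
        intro u hu
        obtain ⟨huU, hguU⟩ := (hImem u).mp hu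
        have h0 : f ((g : Matrix (Fin n) (Fin n) F) *ᵥ u) z = 0 := by
          rw [hz, uf_sub_right9 hf, uf_smul_right9 hf, hx, uG_iso9 hg, hP.tiU u huU a haU,
            hP.tiU _ hguU y hyU]
          ring
        rw [ht, h0, mul_zero, zero_smul, add_zero]
      obtain ⟨I', hI'⟩ : ∃ I' : Submodule F (Fin n → F), I' = U ⊓ Submodule.comap
          (Matrix.toLin' ((t * g : GL (Fin n) F) : Matrix (Fin n) (Fin n) F)) U := ⟨_, rfl⟩
      have hI'mem : ∀ v, v ∈ I' ↔ v ∈ U ∧ ((t * g : GL (Fin n) F) : Matrix (Fin n) (Fin n) F) *ᵥ v ∈ U := by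
        intro v
        rw [hI', Submodule.mem_inf, Submodule.mem_comap, Matrix.toLin'_apply]
      have hlt : I < I' := by
        refine lt_of_le_of_ne (fun u hu => ?_) (fun h => ?_)
        · obtain ⟨huU, hguU⟩ := (hImem u).mp hu
          refine (hI'mem u).mpr ⟨huU, ?_⟩
          rw [gl_mul_vec9, hfix u hu]
          exact hguU
        · have ha' : a ∈ I' := by
            refine (hI'mem a).mpr ⟨haU, ?_⟩
            rw [gl_mul_vec9, ← hx, htx]
            exact U.smul_mem _ hyU
          rw [← h] at ha'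
          apply hga
          rw [hx]
          exact ((hImem a).mp ha').2
      have h1 := Submodule.finrank_lt_finrank_of_lt hlt
      have h2 : Module.finrank F I' ≤ k := by
        rw [← hP.dimU]
        exact Submodule.finrank_mono (fun u hu => ((hI'mem u).mp hu).1)
      obtain ⟨t', ht'M, ht'⟩ := ih (k - Module.finrank F I') (by omega) (t * g)
        (Subgroup.mul_mem _ (hMS htM) hg) (by rw [← hI']; omega)
      refine ⟨t' * t, M.mul_mem ht'M htM, fun u hu => ?_⟩
      rw [mul_assoc]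
      exact ht' u hu

theorem uf_pair_stepB9 [Finite F] (hf : Cfsg.Geo.IsUnitaryForm σ f) {k : ℕ} {U W : Submodule F (Fin n → F)} (hP : UPair9 f k U W)
    (M : Subgroup (GL (Fin n) F)) (hMS : M ≤ uG9 f) (hall : ∀ z : Fin n → F, f z z = 0 → InCU9 σ f M z) :
    ∀ (d : ℕ) (g : GL (Fin n) F), g ∈ uG9 f → (∀ u ∈ U, (g : Matrix (Fin n) (Fin n) F) *ᵥ u ∈ U) →
      Module.finrank F (W ⊓ Submodule.comap
        (Matrix.toLin' (g : Matrix (Fin n) (Fin n) F)) W : Submodule F (Fin n → F)) + d = k →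
      ∃ t ∈ M, (∀ u ∈ U, ((t * g : GL (Fin n) F) : Matrix (Fin n) (Fin n) F) *ᵥ u ∈ U) ∧ ∀ w ∈ W, ((t * g : GL (Fin n) F) : Matrix (Fin n) (Fin n) F) *ᵥ w ∈ W := by
  intro d
  induction d using Nat.strong_induction_on with
  | _ d ih =>
    intro g hg hgU hd
    obtain ⟨J, hJ⟩ : ∃ J : Submodule F (Fin n → F), J = W ⊓ Submodule.comap
        (Matrix.toLin' (g : Matrix (Fin n) (Fin n) F)) W := ⟨_, rfl⟩
    have hJmem : ∀ v, v ∈ J ↔ v ∈ W ∧ (g : Matrix (Fin n) (Fin n) F) *ᵥ v ∈ W := by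
      intro v
      rw [hJ, Submodule.mem_inf, Submodule.mem_comap, Matrix.toLin'_apply]
    rw [← hJ] at hd
    by_cases hall' : ∀ w ∈ W, (g : Matrix (Fin n) (Fin n) F) *ᵥ w ∈ W
    · exact ⟨1, M.one_mem, fun u hu => by rw [one_mul]; exact hgU u hu,
        fun w hw => by rw [one_mul]; exact hall' w hw⟩
    · have hex : ∃ b₀ ∈ W, ∃ u₀ ∈ U, ∃ w₀ ∈ W, (g : Matrix (Fin n) (Fin n) F) *ᵥ b₀ = u₀ + w₀ ∧ f w₀ u₀ ≠ 0 := by
        by_contra hcon
        push_neg at hcon
        apply hall'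
        intro b' hb'
        obtain ⟨u', hu', w', hw', hdec'⟩ := hP.dec ((g : Matrix (Fin n) (Fin n) F) *ᵥ b')
        have key : ∀ b ∈ W, ∀ u ∈ U, ∀ w ∈ W, (g : Matrix (Fin n) (Fin n) F) *ᵥ b = u + w → f w u' = 0 := by
          intro b hb u hu w hw hdec
          obtain ⟨c, hc⟩ := uf_exists_moved9 hf
          have hiso : f u' w + f w' u = 0 := by
            have := uG_iso9 hg b' b
            rw [hdec', hdec] at this
            simp only [hf.add_left, uf_add_right9 hf, hP.tiU u' hu' u hu, hP.tiW w' hw' w hw,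
              hP.tiW b' hb' b hb] at this
            linear_combination this
          have h1 := hcon (b + b') (W.add_mem hb hb') (u + u') (U.add_mem hu hu') (w + w')
            (W.add_mem hw hw') (by rw [Matrix.mulVec_add, hdec, hdec']; abel)
          have hc1 := hcon (b + c • b') (W.add_mem hb (W.smul_mem _ hb')) (u + c • u')
            (U.add_mem hu (U.smul_mem _ hu')) (w + c • w') (W.add_mem hw (W.smul_mem _ hw'))
            (by rw [Matrix.mulVec_add, Matrix.mulVec_smul, hdec, hdec']; module)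
          have h0 := hcon b hb u hu w hw hdec
          have h0' := hcon b' hb' u' hu' w' hw' hdec'
          simp only [hf.add_left, uf_add_right9 hf, hf.smul_left, uf_smul_right9 hf, h0,
            h0'] at h1 hc1
          have hwu : f w' u = - σ (f w u') := by
            have : f u' w = σ (f w u') := hf.herm u' w
            rw [this] at hiso
            linear_combination hiso
          have hη : σ (f w u') = f w u' := by linear_combination (-1 : F) * h1 + hwu
          have : (σ c - c) * f w u' = 0 := by linear_combination hc1 - c * hwu + c * hη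
          rcases mul_eq_zero.mp this with h | h
          · exact absurd (sub_eq_zero.mp h) hc
          · exact h
        have hu'0 : u' = 0 := by
          by_contra hne
          obtain ⟨⟨v, hv⟩, _⟩ := hf.nondegenerate u' hne
          apply hv
          obtain ⟨a, ha, b, hb, hab⟩ := hP.dec (((g⁻¹ : GL (Fin n) F) : Matrix (Fin n) (Fin n) F) *ᵥ v)
          have hv' : v = (g : Matrix (Fin n) (Fin n) F) *ᵥ a + (g : Matrix (Fin n) (Fin n) F) *ᵥ b := by
            rw [← Matrix.mulVec_add, ← hab, gl_mul_inv_vec9]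
          obtain ⟨ub, hub, wb, hwb, hdecb⟩ := hP.dec ((g : Matrix (Fin n) (Fin n) F) *ᵥ b)
          rw [hv', hf.add_left, hP.tiU _ (hgU a ha) u' hu', zero_add, hdecb, hf.add_left,
            hP.tiU ub hub u' hu', zero_add]
          exact key b hb ub hub wb hwb hdecb
        rw [hdec', hu'0, zero_add]
        exact hw'
      obtain ⟨b₀, hb₀W, u₀, hu₀U, w₀, hw₀W, hdec₀, hne⟩ := hex
      have hb₀iso : f w₀ u₀ + f u₀ w₀ = 0 := by
        have := uG_iso9 hg b₀ b₀
        rw [hdec₀] at this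
        simp only [hf.add_left, uf_add_right9 hf, hP.tiU u₀ hu₀U u₀ hu₀U,
          hP.tiW w₀ hw₀W w₀ hw₀W, hP.tiW b₀ hb₀W b₀ hb₀W] at this
        linear_combination this
      obtain ⟨η, hη⟩ : ∃ η : F, η = f w₀ u₀ := ⟨_, rfl⟩
      have hη0 : η ≠ 0 := by
        rw [hη]
        exact hne
      have hηs : σ η = -η := by
        rw [hη, ← hf.herm u₀ w₀]
        linear_combination hb₀iso
      have hγ : σ (-η⁻¹) = -(-η⁻¹) := by rw [map_neg, map_inv₀, hηs, inv_neg]
      obtain ⟨t, htM, ht⟩ := hall u₀ (hP.tiU u₀ hu₀U u₀ hu₀U) (-η⁻¹) hγ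
      have htU : ∀ u ∈ U, (t : Matrix (Fin n) (Fin n) F) *ᵥ u = u := by
        intro u hu
        rw [ht, hP.tiU u hu u₀ hu₀U, mul_zero, zero_smul, add_zero]
      have htb : (t : Matrix (Fin n) (Fin n) F) *ᵥ ((g : Matrix (Fin n) (Fin n) F) *ᵥ b₀) = w₀ := by
        rw [ht, hdec₀, hf.add_left, hP.tiU u₀ hu₀U u₀ hu₀U, zero_add, ← hη, neg_mul,
          inv_mul_cancel₀ hη0]
        module
      have hfix : ∀ b, b ∈ J → (t : Matrix (Fin n) (Fin n) F) *ᵥ ((g : Matrix (Fin n) (Fin n) F) *ᵥ b) = (g : Matrix (Fin n) (Fin n) F) *ᵥ b := by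
        intro b hb
        obtain ⟨hbW, hgbW⟩ := (hJmem b).mp hb
        have h1 : f ((g : Matrix (Fin n) (Fin n) F) *ᵥ b) ((g : Matrix (Fin n) (Fin n) F) *ᵥ b₀) = 0 := by
          rw [uG_iso9 hg]
          exact hP.tiW b hbW b₀ hb₀W
        rw [hdec₀, uf_add_right9 hf, hP.tiW _ hgbW w₀ hw₀W, add_zero] at h1
        rw [ht, h1, mul_zero, zero_smul, add_zero]
      obtain ⟨J', hJ'⟩ : ∃ J' : Submodule F (Fin n → F), J' = W ⊓ Submodule.comap
          (Matrix.toLin' ((t * g : GL (Fin n) F) : Matrix (Fin n) (Fin n) F)) W := ⟨_, rfl⟩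
      have hJ'mem : ∀ v, v ∈ J' ↔ v ∈ W ∧ ((t * g : GL (Fin n) F) : Matrix (Fin n) (Fin n) F) *ᵥ v ∈ W := by
        intro v
        rw [hJ', Submodule.mem_inf, Submodule.mem_comap, Matrix.toLin'_apply]
      have hlt : J < J' := by
        refine lt_of_le_of_ne (fun b hb => ?_) (fun h => ?_)
        · obtain ⟨hbW, hgbW⟩ := (hJmem b).mp hb
          refine (hJ'mem b).mpr ⟨hbW, ?_⟩
          rw [gl_mul_vec9, hfix b hb]
          exact hgbW
        · have hb' : b₀ ∈ J' := by
            refine (hJ'mem b₀).mpr ⟨hb₀W, ?_⟩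
            rw [gl_mul_vec9, htb]
            exact hw₀W
          rw [← h] at hb'
          have hgb := ((hJmem b₀).mp hb').2
          apply hne
          have hu₀ : u₀ = (g : Matrix (Fin n) (Fin n) F) *ᵥ b₀ - w₀ := by
            rw [hdec₀]
            abel
          rw [hu₀, uf_sub_right9 hf, hP.tiW w₀ hw₀W _ hgb, hP.tiW w₀ hw₀W w₀ hw₀W, sub_zero]
      have h1 := Submodule.finrank_lt_finrank_of_lt hlt
      have h2 : Module.finrank F J' ≤ k := by
        rw [← hP.dimW]
        exact Submodule.finrank_mono (fun u hu => ((hJ'mem u).mp hu).1)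
      obtain ⟨t', ht'M, ht'U, ht'W⟩ := ih (k - Module.finrank F J') (by omega) (t * g)
        (Subgroup.mul_mem _ (hMS htM) hg)
        (fun u hu => by rw [gl_mul_vec9, htU _ (hgU u hu)]; exact hgU u hu)
        (by rw [← hJ']; omega)
      refine ⟨t' * t, M.mul_mem ht'M htM, fun u hu => ?_, fun w hw => ?_⟩
      · rw [mul_assoc]
        exact ht'U u hu
      · rw [mul_assoc]
        exact ht'W w hw

theorem uf_pair_top9 [Finite F] (hf : Cfsg.Geo.IsUnitaryForm σ f) {k : ℕ} {U W : Submodule F (Fin n → F)} (hP : UPair9 f k U W)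
    (M : Subgroup (GL (Fin n) F)) (hMS : M ≤ uG9 f)
    (hH : ∀ s ∈ uG9 f, (∀ x ∈ U, (s : Matrix (Fin n) (Fin n) F) *ᵥ x ∈ U) → (∀ x ∈ W, (s : Matrix (Fin n) (Fin n) F) *ᵥ x ∈ W) → s ∈ M)
    (hall : ∀ z : Fin n → F, f z z = 0 → InCU9 σ f M z) : uG9 f ≤ M := by
  intro g hg
  have hI : Module.finrank F (U ⊓ Submodule.comap
      (Matrix.toLin' (g : Matrix (Fin n) (Fin n) F)) U : Submodule F (Fin n → F)) ≤ k := by
    rw [← hP.dimU]
    exact Submodule.finrank_mono inf_le_left
  obtain ⟨t₁, ht₁M, ht₁⟩ := uf_pair_stepA9 hf hP M hMS hall _ g hg (Nat.add_sub_cancel' hI)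
  have hg₁ : t₁ * g ∈ uG9 f := Subgroup.mul_mem _ (hMS ht₁M) hg
  have hJ : Module.finrank F (W ⊓ Submodule.comap
      (Matrix.toLin' ((t₁ * g : GL (Fin n) F) : Matrix (Fin n) (Fin n) F)) W : Submodule F (Fin n → F)) ≤ k := by
    rw [← hP.dimW]
    exact Submodule.finrank_mono inf_le_left
  obtain ⟨t₂, ht₂M, ht₂U, ht₂W⟩ := uf_pair_stepB9 hf hP M hMS hall _ (t₁ * g) hg₁ ht₁
    (Nat.add_sub_cancel' hJ)
  have h3 : t₂ * (t₁ * g) ∈ M := hH _ (Subgroup.mul_mem _ (hMS ht₂M) hg₁) ht₂U ht₂W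
  have e : g = t₁⁻¹ * (t₂⁻¹ * (t₂ * (t₁ * g))) := by group
  rw [e]
  exact M.mul_mem (M.inv_mem ht₁M) (M.mul_mem (M.inv_mem ht₂M) h3)

/-- The stabiliser of a pair of complementary totally singular subspaces is maximal in the
group of isometries of determinant one of a unitary form. -/
theorem uf_pair_maximal9 [Finite F] (hf : Cfsg.Geo.IsUnitaryForm σ f) {k : ℕ} (hk : 5 ≤ k)
    (D : Fin 2 → Submodule F (Fin n → F)) (hD : Cfsg.Geo.IsMDecomposition k D)
    (hts : ∀ i, Cfsg.Geo.IsTotallySingularFor f (D i)) :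
    Cfsg.Geo.IsMaximalIn (uG9 f) (Cfsg.Geo.decompositionStabilizer D ⊓ uG9 f) := by
  classical
  have hsup : D 0 ⊔ D 1 = ⊤ := by
    rw [eq_top_iff, ← hD.iSup_eq_top]
    refine iSup_le (fun i => ?_)
    fin_cases i
    · exact le_sup_left
    · exact le_sup_right
  have hdisj : Disjoint (D 0) (D 1) :=
    (hD.indep 0).mono_right (le_iSup₂_of_le 1 (by decide) le_rfl)
  have hP : UPair9 f k (D 0) (D 1) := ⟨hts 0, hts 1, fun v => by
    have : v ∈ D 0 ⊔ D 1 := by
      rw [hsup]
      exact Submodule.mem_top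
    obtain ⟨u, hu, w, hw, e⟩ := Submodule.mem_sup.mp this
    exact ⟨u, hu, w, hw, e.symm⟩, hD.finrank_eq 0, hD.finrank_eq 1⟩
  have hinter : ∀ v : Fin n → F, v ∈ D 0 → v ∈ D 1 → v = 0 := by
    intro v h0 h1
    have := hdisj.le_bot (Submodule.mem_inf.mpr ⟨h0, h1⟩)
    simpa using this
  have hHmem : ∀ s ∈ uG9 f, (∀ x ∈ D 0, (s : Matrix (Fin n) (Fin n) F) *ᵥ x ∈ D 0) → (∀ x ∈ D 1, (s : Matrix (Fin n) (Fin n) F) *ᵥ x ∈ D 1) →
      s ∈ Cfsg.Geo.decompositionStabilizer D ⊓ uG9 f := by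
    intro s hsS h0 h1
    refine ⟨⟨1, fun i => ?_⟩, hsS⟩
    fin_cases i
    · exact map_eq_of_maps9 (D 0) (D 0) s rfl h0
    · exact map_eq_of_maps9 (D 1) (D 1) s rfl h1
  have hHswap : ∀ s ∈ uG9 f, (∀ x ∈ D 0, (s : Matrix (Fin n) (Fin n) F) *ᵥ x ∈ D 1) → (∀ x ∈ D 1, (s : Matrix (Fin n) (Fin n) F) *ᵥ x ∈ D 0) →
      s ∈ Cfsg.Geo.decompositionStabilizer D ⊓ uG9 f := by
    intro s hsS h0 h1
    refine ⟨⟨Equiv.swap 0 1, fun i => ?_⟩, hsS⟩
    fin_cases i
    · show (D 0).map _ = D (Equiv.swap 0 1 0)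
      rw [Equiv.swap_apply_left]
      exact map_eq_of_maps9 (D 0) (D 1) s (by rw [hD.finrank_eq, hD.finrank_eq]) h0
    · show (D 1).map _ = D (Equiv.swap 0 1 1)
      rw [Equiv.swap_apply_right]
      exact map_eq_of_maps9 (D 1) (D 0) s (by rw [hD.finrank_eq, hD.finrank_eq]) h1
  have pU' : ∀ u ∈ D 0, u ≠ 0 → ∃ w ∈ D 1, f u w ≠ 0 := by
    intro u hu hu0
    obtain ⟨w, hw, h1, _⟩ := hP.dual hf ⊥ u hu (by simpa using hu0)
    exact ⟨w, hw, by rw [h1]; exact one_ne_zero⟩
  have pW' : ∀ w ∈ D 1, w ≠ 0 → ∃ u ∈ D 0, f u w ≠ 0 := by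
    intro w hw hw0
    obtain ⟨u, hu, h1, _⟩ := hP.symm.dual hf ⊥ w hw (by simpa using hw0)
    refine ⟨u, hu, fun h => ?_⟩
    rw [uf_swap_zero9 hf h] at h1
    exact zero_ne_one h1
  obtain ⟨μ, hμ0, hμ⟩ := uf_skew9 hf
  refine ⟨lt_of_le_of_ne inf_le_right fun heq => ?_, fun M hHM hMS => ?_⟩
  · obtain ⟨u, huU, hu0⟩ : ∃ u ∈ D 0, u ≠ 0 := by
      have hne : D 0 ≠ ⊥ := by
        intro h
        have := hD.finrank_eq 0
        rw [h, finrank_bot] at this
        omega
      exact (Submodule.ne_bot_iff _).mp hne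
    obtain ⟨w, hwW, huw⟩ := pU' u huU hu0
    obtain ⟨g, hgS, hg⟩ := uf_tv9 hf μ hμ u (hts 0 u huU u huU)
    rw [← heq] at hgS
    obtain ⟨τ, hτ⟩ := hgS.1
    have hw0 : w ≠ 0 := by
      intro h
      rw [h, uf_zero_right9 hf] at huw
      exact huw rfl
    have hmem : (g : Matrix (Fin n) (Fin n) F) *ᵥ w ∈ D (τ 1) := by
      have := Submodule.mem_map_of_mem
        (f := Matrix.toLin' (g : Matrix (Fin n) (Fin n) F)) hwW
      rw [Matrix.toLin'_apply, hτ 1] at this
      exact this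
    rw [hg] at hmem
    have hwu : μ * f w u ≠ 0 := by
      refine mul_ne_zero hμ0 (fun h => huw ?_)
      exact uf_swap_zero9 hf h
    obtain ⟨j, hj⟩ : ∃ j, j = τ 1 := ⟨_, rfl⟩
    rw [← hj] at hmem
    fin_cases j
    · have h1 : w ∈ D 0 := by
        have := (D 0).sub_mem hmem ((D 0).smul_mem (μ * f w u) huU)
        simpa using this
      exact hw0 (hinter w h1 hwW)
    · have h1 : (μ * f w u) • u ∈ D 1 := by
        have := (D 1).sub_mem hmem hwW
        simpa using this
      have h3 : u ∈ D 1 := by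
        have := (D 1).smul_mem (μ * f w u)⁻¹ h1
        rwa [smul_smul, inv_mul_cancel₀ hwu, one_smul] at this
      exact hu0 (hinter u huU h3)
  · by_cases hMH : M ≤ Cfsg.Geo.decompositionStabilizer D ⊓ uG9 f
    · exact Or.inl (le_antisymm hMH hHM)
    · right
      obtain ⟨g, hgM, hgH⟩ := Set.not_subset.mp hMH
      have hgS := hMS hgM
      have hHU : ∀ s ∈ uG9 f, (∀ x ∈ D 0, (s : Matrix (Fin n) (Fin n) F) *ᵥ x ∈ D 0) →
          (∀ x ∈ D 1, (s : Matrix (Fin n) (Fin n) F) *ᵥ x ∈ D 1) → s ∈ M := fun s hs h0 h1 => hHM (hHmem s hs h0 h1)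
      have hHW : ∀ s ∈ uG9 f, (∀ x ∈ D 1, (s : Matrix (Fin n) (Fin n) F) *ᵥ x ∈ D 1) →
          (∀ x ∈ D 0, (s : Matrix (Fin n) (Fin n) F) *ᵥ x ∈ D 0) → s ∈ M := fun s hs h1 h0 => hHU s hs h0 h1
      refine le_antisymm hMS (uf_pair_top9 hf hP M hMS hHU ?_)
      have hS : ∀ a ∈ D 0, ∀ b ∈ D 1, f a b = 0 → ∃ s ∈ M, ∀ v,
          (s : Matrix (Fin n) (Fin n) F) *ᵥ v = v + f v ((g : Matrix (Fin n) (Fin n) F) *ᵥ b) • ((g : Matrix (Fin n) (Fin n) F) *ᵥ a) - f v ((g : Matrix (Fin n) (Fin n) F) *ᵥ a) • ((g : Matrix (Fin n) (Fin n) F) *ᵥ b) := by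
        intro a ha b hb hab
        obtain ⟨s, hsS, hs⟩ := uf_siegel9 hf a b (hts 0 a ha a ha) (hts 1 b hb b hb) hab
        have hsM : s ∈ M := hHU s hsS
          (fun v hv => by
            rw [hs, hP.tiU v hv a ha, zero_smul, sub_zero]
            exact (D 0).add_mem hv ((D 0).smul_mem _ ha))
          (fun v hv => by
            rw [hs, hP.tiW v hv b hb, zero_smul, add_zero]
            exact (D 1).sub_mem hv ((D 1).smul_mem _ hb))
        refine ⟨g * s * g⁻¹, M.mul_mem (M.mul_mem hgM hsM) (M.inv_mem hgM), fun v => ?_⟩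
        rw [gl_mul_vec9, gl_mul_vec9, hs, Matrix.mulVec_sub, Matrix.mulVec_add,
          Matrix.mulVec_smul, Matrix.mulVec_smul, gl_mul_inv_vec9, uG_inv9 hgS, uG_inv9 hgS]
      have hS' : ∀ b ∈ D 1, ∀ a ∈ D 0, f b a = 0 → ∃ s ∈ M, ∀ v,
          (s : Matrix (Fin n) (Fin n) F) *ᵥ v = v + f v ((g : Matrix (Fin n) (Fin n) F) *ᵥ a) • ((g : Matrix (Fin n) (Fin n) F) *ᵥ b) - f v ((g : Matrix (Fin n) (Fin n) F) *ᵥ b) • ((g : Matrix (Fin n) (Fin n) F) *ᵥ a) := by
        intro b hb a ha hba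
        obtain ⟨s, hsS, hs⟩ := uf_siegel9 hf b a (hts 1 b hb b hb) (hts 0 a ha a ha) hba
        have hsM : s ∈ M := hHU s hsS
          (fun v hv => by
            rw [hs, hP.tiU v hv a ha, zero_smul, add_zero]
            exact (D 0).sub_mem hv ((D 0).smul_mem _ ha))
          (fun v hv => by
            rw [hs, hP.tiW v hv b hb, zero_smul, sub_zero]
            exact (D 1).add_mem hv ((D 1).smul_mem _ hb))
        refine ⟨g * s * g⁻¹, M.mul_mem (M.mul_mem hgM hsM) (M.inv_mem hgM), fun v => ?_⟩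
        rw [gl_mul_vec9, gl_mul_vec9, hs, Matrix.mulVec_sub, Matrix.mulVec_add,
          Matrix.mulVec_smul, Matrix.mulVec_smul, gl_mul_inv_vec9, uG_inv9 hgS, uG_inv9 hgS]
      have key : (∃ x ∈ D 0, x ≠ 0 ∧ ∃ γ : F, γ ≠ 0 ∧ σ γ = -γ ∧ ∃ t ∈ M, ∀ v,
            (t : Matrix (Fin n) (Fin n) F) *ᵥ v = v + (γ * f v x) • x) ∨
          (∃ x ∈ D 1, x ≠ 0 ∧ ∃ γ : F, γ ≠ 0 ∧ σ γ = -γ ∧ ∃ t ∈ M, ∀ v,
            (t : Matrix (Fin n) (Fin n) F) *ᵥ v = v + (γ * f v x) • x) := by
        by_cases c1 : ∀ u ∈ D 0, (g : Matrix (Fin n) (Fin n) F) *ᵥ u ∈ D 0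
        · obtain ⟨b, hb, hgb⟩ : ∃ b ∈ D 1, (g : Matrix (Fin n) (Fin n) F) *ᵥ b ∉ D 1 := by
            by_contra hcon
            push_neg at hcon
            exact hgH (hHmem g hgS c1 hcon)
          left
          exact uf_caseII9 hf hP hk M hHU g hgS (D 1) (D 0) (hD.finrank_eq 0)
            (fun x hx => hts 1 x hx x hx) (fun x hx => hts 0 x hx x hx) hS' c1 b hb hgb
        · by_cases c2 : ∀ u ∈ D 0, (g : Matrix (Fin n) (Fin n) F) *ᵥ u ∈ D 1
          · obtain ⟨b, hb, hgb⟩ : ∃ b ∈ D 1, (g : Matrix (Fin n) (Fin n) F) *ᵥ b ∉ D 0 := by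
              by_contra hcon
              push_neg at hcon
              exact hgH (hHswap g hgS c2 hcon)
            right
            exact uf_caseII9 hf hP.symm hk M hHW g hgS (D 1) (D 0) (hD.finrank_eq 0)
              (fun x hx => hts 1 x hx x hx) (fun x hx => hts 0 x hx x hx) hS' c2 b hb hgb
          · by_cases c3 : ∀ w ∈ D 1, (g : Matrix (Fin n) (Fin n) F) *ᵥ w ∈ D 1
            · obtain ⟨a, ha, hga⟩ : ∃ a ∈ D 0, (g : Matrix (Fin n) (Fin n) F) *ᵥ a ∉ D 0 := by
                push_neg at c1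
                exact c1
              right
              exact uf_caseII9 hf hP.symm hk M hHW g hgS (D 0) (D 1) (hD.finrank_eq 1)
                (fun x hx => hts 0 x hx x hx) (fun x hx => hts 1 x hx x hx) hS c3 a ha hga
            · by_cases c4 : ∀ w ∈ D 1, (g : Matrix (Fin n) (Fin n) F) *ᵥ w ∈ D 0
              · obtain ⟨a, ha, hga⟩ : ∃ a ∈ D 0, (g : Matrix (Fin n) (Fin n) F) *ᵥ a ∉ D 1 := by
                  push_neg at c2
                  exact c2
                left
                exact uf_caseII9 hf hP hk M hHU g hgS (D 0) (D 1) (hD.finrank_eq 1)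
                  (fun x hx => hts 0 x hx x hx) (fun x hx => hts 1 x hx x hx) hS c4 a ha hga
              · obtain ⟨b, hbW, hbU', hbW'⟩ : ∃ b ∈ D 1, (g : Matrix (Fin n) (Fin n) F) *ᵥ b ∉ D 0 ∧ (g : Matrix (Fin n) (Fin n) F) *ᵥ b ∉ D 1 := by
                  obtain ⟨b₁, hb₁, hb₁'⟩ : ∃ b₁ ∈ D 1, (g : Matrix (Fin n) (Fin n) F) *ᵥ b₁ ∉ D 0 := by
                    push_neg at c4
                    exact c4
                  obtain ⟨b₂, hb₂, hb₂'⟩ : ∃ b₂ ∈ D 1, (g : Matrix (Fin n) (Fin n) F) *ᵥ b₂ ∉ D 1 := by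
                    push_neg at c3
                    exact c3
                  by_cases e1 : (g : Matrix (Fin n) (Fin n) F) *ᵥ b₁ ∈ D 1
                  · by_cases e2 : (g : Matrix (Fin n) (Fin n) F) *ᵥ b₂ ∈ D 0
                    · refine ⟨b₁ + b₂, (D 1).add_mem hb₁ hb₂, ?_, ?_⟩
                      · rw [Matrix.mulVec_add]
                        intro h
                        apply hb₁'
                        have := (D 0).sub_mem h e2
                        simpa using this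
                      · rw [Matrix.mulVec_add]
                        intro h
                        apply hb₂'
                        have := (D 1).sub_mem h e1
                        simpa using this
                    · exact ⟨b₂, hb₂, e2, hb₂'⟩
                  · exact ⟨b₁, hb₁, hb₁', e1⟩
                obtain ⟨rU, hrU, rW, hrW, hr⟩ := hP.dec ((g : Matrix (Fin n) (Fin n) F) *ᵥ b)
                have hrU0 : rU ≠ 0 := by
                  intro h
                  apply hbW'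
                  rw [hr, h, zero_add]
                  exact hrW
                have hrW0 : rW ≠ 0 := by
                  intro h
                  apply hbU'
                  rw [hr, h, add_zero]
                  exact hrU
                obtain ⟨a, haU, hab, _, haX⟩ := uf_in_inf9 hf (D 0)
                  (Submodule.span F ((({((g⁻¹ : GL (Fin n) F) : Matrix (Fin n) (Fin n) F) *ᵥ rU, ((g⁻¹ : GL (Fin n) F) : Matrix (Fin n) (Fin n) F) *ᵥ rW} : Finset (Fin n → F))) : Set (Fin n → F))) b b (by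
                    have h1 : Module.finrank F (Submodule.span F
                        ((({((g⁻¹ : GL (Fin n) F) : Matrix (Fin n) (Fin n) F) *ᵥ rU, ((g⁻¹ : GL (Fin n) F) : Matrix (Fin n) (Fin n) F) *ᵥ rW} : Finset (Fin n → F))) : Set (Fin n → F))) ≤ 2 :=
                      (finrank_span_finset_le_card (R := F)
                        ({((g⁻¹ : GL (Fin n) F) : Matrix (Fin n) (Fin n) F) *ᵥ rU, ((g⁻¹ : GL (Fin n) F) : Matrix (Fin n) (Fin n) F) *ᵥ rW} : Finset (Fin n → F))).trans Finset.card_le_two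
                    rw [hD.finrank_eq]
                    omega)
                obtain ⟨pU, hpU, pW, hpW, hp⟩ := hP.dec ((g : Matrix (Fin n) (Fin n) F) *ᵥ a)
                have hpp : f ((g : Matrix (Fin n) (Fin n) F) *ᵥ a) ((g : Matrix (Fin n) (Fin n) F) *ᵥ a) = 0 := by
                  rw [uG_iso9 hgS]
                  exact hts 0 a haU a haU
                have hrr : f ((g : Matrix (Fin n) (Fin n) F) *ᵥ b) ((g : Matrix (Fin n) (Fin n) F) *ᵥ b) = 0 := by
                  rw [uG_iso9 hgS]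
                  exact hts 1 b hbW b hbW
                have hpr : f ((g : Matrix (Fin n) (Fin n) F) *ᵥ a) ((g : Matrix (Fin n) (Fin n) F) *ᵥ b) = 0 := by
                  rw [uG_iso9 hgS]
                  exact hab
                by_cases h1 : pU ∈ Submodule.span F {rU}
                · by_cases h2' : pW ∈ Submodule.span F {rW}
                  · exfalso
                    obtain ⟨c, hc⟩ := Submodule.mem_span_singleton.mp h1
                    obtain ⟨d, hd⟩ := Submodule.mem_span_singleton.mp h2'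
                    apply haX
                    have : a = c • (((g⁻¹ : GL (Fin n) F) : Matrix (Fin n) (Fin n) F) *ᵥ rU) + d • (((g⁻¹ : GL (Fin n) F) : Matrix (Fin n) (Fin n) F) *ᵥ rW) := by
                      rw [← Matrix.mulVec_smul, ← Matrix.mulVec_smul, ← Matrix.mulVec_add, hc,
                        hd, ← hp, gl_inv_mul_vec9]
                    rw [this, Finset.coe_pair]
                    exact Submodule.add_mem _
                      (Submodule.smul_mem _ _ (Submodule.subset_span (by simp)))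
                      (Submodule.smul_mem _ _ (Submodule.subset_span (by simp)))
                  · right
                    exact uf_config9 hf hP.symm hk M hHW ((g : Matrix (Fin n) (Fin n) F) *ᵥ a) ((g : Matrix (Fin n) (Fin n) F) *ᵥ b) pW pU rW rU
                      hpW hpU (by rw [hp, add_comm]) hrW hrU (by rw [hr, add_comm]) hpp hrr hpr
                      (hS a haU b hbW hab) hrW0 h2'
                · left
                  exact uf_config9 hf hP hk M hHU ((g : Matrix (Fin n) (Fin n) F) *ᵥ a) ((g : Matrix (Fin n) (Fin n) F) *ᵥ b) pU pW rU rW hpU hpW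
                    hp hrU hrW hr hpp hrr hpr (hS a haU b hbW hab) hrU0 h1
      obtain ⟨n₀, hn₀S, hn₀U, hn₀W, _⟩ := uf_tiswap9 hf k (D 0) (D 1) (hD.finrank_eq 0) hP.tiU
        hP.tiW pU' pW'
      have hn₀M : n₀ ∈ M := hHM (hHswap n₀ hn₀S hn₀U hn₀W)
      have hall : (∀ u ∈ D 0, InCU9 σ f M u) ∧ (∀ w ∈ D 1, InCU9 σ f M w) := by
        rcases key with ⟨x, hxU, hx0, γ, hγ0, hγ, ht⟩ | ⟨x, hxW, hx0, γ, hγ0, hγ, ht⟩
        · have h1 := uf_spread9 hf hP (by omega) M hMS hHU x hxU hx0 γ hγ0 hγ ht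
          refine ⟨h1, fun w hw => ?_⟩
          have := inCU_conj9 hf M hMS n₀⁻¹ (M.inv_mem hn₀M) _ (h1 _ (hn₀W w hw))
          rwa [gl_inv_mul_vec9] at this
        · have h1 := uf_spread9 hf hP.symm (by omega) M hMS hHW x hxW hx0 γ hγ0 hγ ht
          refine ⟨fun u hu => ?_, h1⟩
          have := inCU_conj9 hf M hMS n₀⁻¹ (M.inv_mem hn₀M) _ (h1 _ (hn₀U u hu))
          rwa [gl_inv_mul_vec9] at this
      intro z hzz
      obtain ⟨zu, hzu, zw, hzw, e⟩ := hP.dec z
      have hu := hall.1 zu hzu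
      have hw := hall.2 zw hzw
      have hzuzu : f zu zu = 0 := hts 0 zu hzu zu hzu
      have hzwzw : f zw zw = 0 := hts 1 zw hzw zw hzw
      by_cases h0 : f zu zw ≠ 0
      · have := inCU_line9 hf M hMS zu zw hu hw hzuzu hzwzw h0 1 (by
          rw [one_smul, ← e]
          exact hzz)
        rw [one_smul, ← e] at this
        exact this
      · push_neg at h0
        by_cases hzw0 : zw = 0
        · rw [e, hzw0, add_zero]
          exact hu
        · obtain ⟨u₁, hu₁, hu₁w⟩ := pW' zw hzw hzw0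
          obtain ⟨u', hu'def⟩ : ∃ u' : Fin n → F, u' = (μ / f u₁ zw) • u₁ := ⟨_, rfl⟩
          have hu' : u' ∈ D 0 := by
            rw [hu'def]
            exact (D 0).smul_mem _ hu₁
          have hu'w : f u' zw = μ := by
            rw [hu'def, hf.smul_left, div_mul_cancel₀ μ hu₁w]
          have hwu' : f zw u' = -μ := by rw [hf.herm, hu'w, hμ]
          have hz₁ : f (zu + u' + (1 : F) • zw) (zu + u' + (1 : F) • zw) = 0 := by
            simp only [hf.add_left, uf_add_right9 hf, hf.smul_left, uf_smul_right9 hf, map_one,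
              one_mul, hts 0 zu hzu zu hzu, hts 0 zu hzu u' hu', hts 0 u' hu' zu hzu,
              hts 0 u' hu' u' hu', hzwzw, h0, uf_swap_zero9 hf h0, hu'w, hwu']
            ring
          have h1 := inCU_line9 hf M hMS (zu + u') zw (hall.1 _ ((D 0).add_mem hzu hu')) hw
            (hts 0 _ ((D 0).add_mem hzu hu') _ ((D 0).add_mem hzu hu')) hzwzw
            (by rw [hf.add_left, h0, zero_add, hu'w]; exact hμ0) 1 hz₁
          have h3 : f (zu + u' + (1 : F) • zw) u' ≠ 0 := by
            rw [hf.add_left, hf.smul_left, hP.tiU _ ((D 0).add_mem hzu hu') u' hu', zero_add,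
              one_mul, hwu']
            exact neg_ne_zero.mpr hμ0
          have e2 : zu + u' + (1 : F) • zw + (-1 : F) • u' = z := by
            rw [e]
            module
          have := inCU_line9 hf M hMS _ u' h1 (hall.1 u' hu') hz₁ (hts 0 u' hu' u' hu') h3 (-1)
            (by rw [e2]; exact hzz)
          rw [e2] at this
          exact this

/-- The Frobenius automorphism of order two of a field with `q²` elements. -/
theorem exists_frob9 {K : Type*} [Field K] [Fintype K] {q : ℕ} (hK : Fintype.card K = q ^ 2) :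
    ∃ τ : K ≃+* K, (∀ x, τ x = x ^ q) ∧ (∀ x, τ (τ x) = x) ∧ τ ≠ RingEquiv.refl K := by
  classical
  obtain ⟨p, hp⟩ := CharP.exists K
  haveI := hp
  haveI : Fact p.Prime := ⟨CharP.char_is_prime K p⟩
  haveI : ExpChar K p := ExpChar.prime Fact.out
  obtain ⟨m, -, hm⟩ := FiniteField.card K p
  have hdvd : q ∣ p ^ (m : ℕ) := by
    rw [← hm, hK]
    exact Dvd.intro_left q (by ring)
  obtain ⟨j, -, hj⟩ := (Nat.dvd_prime_pow (Fact.out : p.Prime)).1 hdvd
  have hφ : ∀ x : K, iterateFrobenius K p j x = x ^ q := fun x => by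
    rw [iterateFrobenius_def, ← hj]
  have hbij : Function.Bijective (iterateFrobenius K p j) :=
    Finite.injective_iff_bijective.mp (iterateFrobenius K p j).injective
  obtain ⟨τ, hτ⟩ : ∃ τ : K ≃+* K, τ = RingEquiv.ofBijective (iterateFrobenius K p j) hbij :=
    ⟨_, rfl⟩
  have hτx : ∀ x, τ x = x ^ q := fun x => by
    rw [hτ, RingEquiv.ofBijective_apply, hφ]
  have hq2 : 2 ≤ q := by
    have h1 : 1 < Fintype.card K := Fintype.one_lt_card
    rw [hK] at h1
    by_contra hlt
    have : q = 0 ∨ q = 1 := by omega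
    rcases this with h | h <;> rw [h] at h1 <;> norm_num at h1
  refine ⟨τ, hτx, fun x => ?_, fun h => ?_⟩
  · rw [hτx, hτx, ← pow_mul, ← pow_two, ← hK, FiniteField.pow_card]
  · have hall : ∀ x : K, x ^ q = x := fun x => by
      rw [← hτx, h]
      rfl
    have hne0 : (Polynomial.X ^ q - Polynomial.X : Polynomial K) ≠ 0 :=
      FiniteField.X_pow_card_sub_X_ne_zero K (by omega)
    have hdeg : (Polynomial.X ^ q - Polynomial.X : Polynomial K).natDegree = q :=
      FiniteField.X_pow_card_sub_X_natDegree_eq K (by omega)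
    have hsub : (Finset.univ : Finset K) ⊆
        (Polynomial.X ^ q - Polynomial.X : Polynomial K).roots.toFinset := by
      intro x _
      rw [Multiset.mem_toFinset, Polynomial.mem_roots hne0]
      simp [hall x]
    have h1 := Finset.card_le_card hsub
    have h2 := Multiset.toFinset_card_le (Polynomial.X ^ q - Polynomial.X : Polynomial K).roots
    have h3 := Polynomial.card_roots' (Polynomial.X ^ q - Polynomial.X : Polynomial K)
    rw [Finset.card_univ, hK] at h1
    rw [hdeg] at h3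
    nlinarith

theorem herm_unitary9 {K : Type*} [Field K] [Fintype K] (n q : ℕ) (hK : Fintype.card K = q ^ 2) :
    ∃ τ : K ≃+* K, Cfsg.Geo.IsUnitaryForm τ (Cfsg.hermForm n K q) := by
  classical
  obtain ⟨τ, hτ, hinv, hne⟩ := exists_frob9 hK
  refine ⟨τ, hne, hinv, fun x y v => ?_, fun c x v => ?_, fun v w => ?_, fun v hv => ?_⟩
  · unfold Cfsg.hermForm
    rw [← Finset.sum_add_distrib]
    exact Finset.sum_congr rfl (fun i _ => by rw [Pi.add_apply, add_mul])
  · unfold Cfsg.hermForm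
    rw [Finset.mul_sum]
    exact Finset.sum_congr rfl (fun i _ => by rw [Pi.smul_apply, smul_eq_mul, mul_assoc])
  · unfold Cfsg.hermForm
    rw [map_sum]
    refine Finset.sum_congr rfl (fun i _ => ?_)
    rw [map_mul, map_pow, ← hτ (w i), ← hτ (τ (v i)), hinv, mul_comm]
  · obtain ⟨i, hi⟩ : ∃ i, v i ≠ 0 := by
      by_contra hcon
      push_neg at hcon
      exact hv (funext hcon)
    refine ⟨⟨Pi.single i 1, ?_⟩, ⟨Pi.single i 1, ?_⟩⟩
    · unfold Cfsg.hermForm
      rw [Finset.sum_eq_single i (fun j _ hj => by rw [Pi.single_eq_of_ne hj, zero_mul])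
        (fun h => absurd (Finset.mem_univ i) h), Pi.single_eq_same, one_mul]
      exact pow_ne_zero _ hi
    · unfold Cfsg.hermForm
      rw [Finset.sum_eq_single i (fun j _ hj => by
        rw [Pi.single_eq_of_ne hj, zero_pow (by
          have h1 : 1 < Fintype.card K := Fintype.one_lt_card
          rw [hK] at h1
          intro h0
          rw [h0] at h1
          norm_num at h1), mul_zero])
        (fun h => absurd (Finset.mem_univ i) h), Pi.single_eq_same, one_pow, mul_one]
      exact hi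

end Cfsg.Agent.Helper9
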